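import Cfsg.Agent.Lib.FusionTheory.Chain

/-!
# Transvection groups with a fixed axis on an abelian `p`-group

`V` abelian, `Z ≤ V` of index `p`, `X ≤ Aut V`, and `T ≤ X` a Sylow `p`-subgroup fixing `Z` pointwise.
If `O_p(X) = 1` and `T ≠ 1`, then `T` is cyclic of order `p` with image `⟨y⟩`, and every `X`-conjugate of `Z` other
than `Z` meets `Z` in a complement to `⟨y⟩`, which is the fixed point set of an element of `X` inverting `y`.
-/

set_option autoImplicit false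

namespace Cfsg.Agent.Lib.H29.AbIndexA

open Subgroup Cfsg.Agent.Lib.FusionTheory.Chain Cfsg.Agent.Lib.FusionTheory.CoprimeAut

variable {V : Type*} [CommGroup V] [Finite V] {p : ℕ} [hp : Fact p.Prime]

/-- The data. -/
structure Ctx (p : ℕ) (X T : Subgroup (MulAut V)) (Z : Subgroup V) : Prop where
  hV : IsPGroup p V
  hodd : p ≠ 2
  TX : T ≤ X
  syl : ∀ R : Subgroup (MulAut V), R ≤ X → IsPGroup p R → ∃ χ ∈ X, ∀ r ∈ R, χ * r * χ⁻¹ ∈ T
  index : Z.index = p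
  fixZ : ∀ t ∈ T, ∀ z ∈ Z, t z = z
  comm : ∀ t ∈ T, ∀ v, v⁻¹ * t v ∈ Z
  core : ∀ R : Subgroup (MulAut V), R ≤ X → (∀ x ∈ X, ∀ t ∈ R, x * t * x⁻¹ ∈ R) → IsPGroup p R → R = ⊥
  ne : ∃ t ∈ T, t ≠ 1

variable {X T : Subgroup (MulAut V)} {Z : Subgroup V}

/-- The conjugate of `Z` by `k`. -/
def Zk (Z : Subgroup V) (k : MulAut V) : Subgroup V := Z.comap (k⁻¹ : MulAut V).toMonoidHom

omit [Finite V] in
theorem mem_Zk {k : MulAut V} {v : V} : v ∈ Zk Z k ↔ k⁻¹ v ∈ Z := Iff.rfl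

omit [Finite V] in
theorem apply_mem_Zk {k : MulAut V} {z : V} (hz : z ∈ Z) : k z ∈ Zk Z k := by
  rw [mem_Zk]
  simpa using hz

section basics

omit [Finite V] in
include hp in
theorem exists_pow_of_index (hi : Z.index = p) {v : V} (hv : v ∉ Z) (w : V) : ∃ i : ℕ, (v ^ i)⁻¹ * w ∈ Z := by
  have hcard : Nat.card (V ⧸ Z) = p := hi
  have h1 : ((v : V) : V ⧸ Z) ≠ 1 := by
    intro h
    exact hv ((QuotientGroup.eq_one_iff v).1 h)
  have h2 := mem_zpowers_of_prime_card hcard (g' := ((w : V) : V ⧸ Z)) h1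
  haveI : Finite (V ⧸ Z) := Nat.finite_of_card_ne_zero (by rw [hcard]; exact hp.out.ne_zero)
  rw [← mem_powers_iff_mem_zpowers] at h2
  obtain ⟨i, hi⟩ := h2
  refine ⟨i, ?_⟩
  rw [← QuotientGroup.eq_one_iff, QuotientGroup.mk_mul, QuotientGroup.mk_inv, QuotientGroup.mk_pow]
  have hi' : ((v : V) : V ⧸ Z) ^ i = ((w : V) : V ⧸ Z) := hi
  show (((v : V) : V ⧸ Z) ^ i)⁻¹ * ((w : V) : V ⧸ Z) = 1
  rw [hi']
  group

omit [Finite V] in
include hp in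
theorem pow_mem_of_index (hi : Z.index = p) (v : V) : v ^ p ∈ Z := by
  have hcard : Nat.card (V ⧸ Z) = p := hi
  haveI : Finite (V ⧸ Z) := Nat.finite_of_card_ne_zero (by rw [hcard]; exact hp.out.ne_zero)
  rw [← QuotientGroup.eq_one_iff, QuotientGroup.mk_pow]
  have := pow_card_eq_one' (x := ((v : V) : V ⧸ Z))
  rwa [hcard] at this

/-- A chain with three steps. -/
def chain3 (B C : Subgroup V) : ℕ → Subgroup V
  | 0 => ⊤
  | 1 => B
  | 2 => C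
  | _ => ⊥

omit [Finite V] in
theorem chain3_anti {B C : Subgroup V} (h : C ≤ B) : Antitone (chain3 B C) := by
  apply antitone_nat_of_succ_le
  intro n
  match n with
  | 0 => exact le_top
  | 1 => exact h
  | 2 => exact bot_le
  | (n + 3) => exact bot_le

omit [Finite V] in
theorem mem_stab_chain3 {B C : Subgroup V} (h : C ≤ B) {τ : MulAut V}
    (h0 : ∀ v, v⁻¹ * τ v ∈ B) (h1 : ∀ v ∈ B, v⁻¹ * τ v ∈ C) (h2 : ∀ v ∈ C, τ v = v)
    (h0' : ∀ v, v⁻¹ * τ⁻¹ v ∈ B) (h1' : ∀ v ∈ B, v⁻¹ * τ⁻¹ v ∈ C) (h2' : ∀ v ∈ C, τ⁻¹ v = v) :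
    τ ∈ stabChain (chain3 B C) (chain3_anti h) := by
  intro j x hx
  match j with
  | 0 => exact ⟨h0 x, h0' x⟩
  | 1 => exact ⟨h1 x hx, h1' x hx⟩
  | 2 =>
    constructor
    · show x⁻¹ * τ x ∈ (⊥ : Subgroup V)
      rw [h2 x hx]
      simp
    · show x⁻¹ * τ⁻¹ x ∈ (⊥ : Subgroup V)
      rw [h2' x hx]
      simp
  | (n + 3) =>
    have hx' : x = 1 := by
      have : x ∈ (⊥ : Subgroup V) := hx
      simpa using this
    subst hx'
    constructor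
    · show (1 : V)⁻¹ * τ 1 ∈ (⊥ : Subgroup V)
      simp
    · show (1 : V)⁻¹ * τ⁻¹ 1 ∈ (⊥ : Subgroup V)
      simp

/-- Chain stabilizers are `p`-groups. -/
theorem isPGroup_stab {B C : Subgroup V} (hV : IsPGroup p V) (h : C ≤ B) :
    IsPGroup p (stabChain (chain3 B C) (chain3_anti h)) := by
  haveI : Finite (MulAut V) := Finite.of_injective (fun e : MulAut V => (e : V → V)) DFunLike.coe_injective
  apply isPGroup_of_coprime_trivial
  rintro ⟨τ, hτ⟩ hord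
  have hord' : (orderOf τ).Coprime p := by
    rwa [Subgroup.orderOf_mk] at hord
  have hfix := fixed_of_chain hV τ hord' (chain3 B C) 3 rfl (fun j x hx => mem_stabChain hτ j hx) 3 0 (by omega)
  apply Subtype.ext
  ext x
  exact hfix x (Subgroup.mem_top x)

end basics

namespace Ctx

variable (c : Ctx p X T Z)
include c

theorem fixed_mem {t : MulAut V} (ht : t ∈ T) (h1 : t ≠ 1) {v : V} (hv : t v = v) : v ∈ Z := by
  by_contra hvZ
  apply h1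
  ext w
  obtain ⟨i, hi⟩ := exists_pow_of_index c.index hvZ w
  have h2 := c.fixZ t ht _ hi
  rw [map_mul, map_inv, map_pow, hv] at h2
  exact mul_left_cancel h2

omit [Finite V] in
theorem image_pow {t : MulAut V} (ht : t ∈ T) {x₀ : V} (hx₀ : x₀ ∉ Z) (v : V) :
    ∃ i : ℕ, v⁻¹ * t v = (x₀⁻¹ * t x₀) ^ i := by
  obtain ⟨i, hi⟩ := exists_pow_of_index c.index hx₀ v
  refine ⟨i, ?_⟩
  have h2 := c.fixZ t ht _ hi
  rw [map_mul, map_inv, map_pow] at h2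
  have h3 : t v = t x₀ ^ i * ((x₀ ^ i)⁻¹ * v) := by
    rw [← h2]
    group
  rw [h3, mul_pow, inv_pow, mul_left_comm v⁻¹, mul_left_comm v⁻¹, inv_mul_cancel, mul_one, mul_comm]

omit [Finite V] in
theorem image_pow_p {t : MulAut V} (ht : t ∈ T) (x₀ : V) : (x₀⁻¹ * t x₀) ^ p = 1 := by
  have h1 := c.fixZ t ht _ (pow_mem_of_index c.index x₀)
  rw [map_pow] at h1
  rw [mul_pow, h1, inv_pow, inv_mul_cancel]

/-- Elements of `T` and the conjugate `k t k⁻¹` lying in a common `p`-subgroup of `X`: `k` preserves `Z`. -/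
theorem same_axis {R : Subgroup (MulAut V)} (hRX : R ≤ X) (hR : IsPGroup p R) {t t' k : MulAut V} (ht : t ∈ T)
    (ht1 : t ≠ 1) (ht' : t' ∈ T) (ht'1 : t' ≠ 1) (htR : t ∈ R) (hkR : k * t' * k⁻¹ ∈ R) {z : V} (hz : z ∈ Z) :
    k z ∈ Z := by
  classical
  obtain ⟨χ, hχ, hχR⟩ := c.syl R hRX hR
  have h1 : ∀ w ∈ Z, χ⁻¹ w ∈ Z := by
    intro w hw
    have h2 := c.fixZ _ (hχR t htR) w hw
    have h3 : t (χ⁻¹ w) = χ⁻¹ w := by
      have h4 : χ (t (χ⁻¹ w)) = w := h2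
      apply χ.injective
      rw [h4]
      simp
    exact c.fixed_mem ht ht1 h3
  -- `χ⁻¹` is a bijection of `Z`
  haveI : Finite Z := inferInstance
  let f : Z → Z := fun w => ⟨χ⁻¹ w, h1 w w.2⟩
  have hf : Function.Injective f := by
    intro a b hab
    have := congrArg Subtype.val hab
    exact Subtype.ext ((χ⁻¹).injective this)
  have hfs : Function.Surjective f := Finite.injective_iff_surjective.1 hf
  have h2 : ∀ w ∈ Z, k⁻¹ (χ⁻¹ w) ∈ Z := by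
    intro w hw
    have h2 := c.fixZ _ (hχR _ hkR) w hw
    have h3 : t' (k⁻¹ (χ⁻¹ w)) = k⁻¹ (χ⁻¹ w) := by
      have h4 : χ (k (t' (k⁻¹ (χ⁻¹ w)))) = w := h2
      apply (χ * k).injective
      show χ (k (t' (k⁻¹ (χ⁻¹ w)))) = χ (k (k⁻¹ (χ⁻¹ w)))
      rw [h4]
      simp
    exact c.fixed_mem ht' ht'1 h3
  have h3 : ∀ w ∈ Z, k⁻¹ w ∈ Z := by
    intro w hw
    obtain ⟨u, hu⟩ := hfs ⟨w, hw⟩
    have h4 := h2 u u.2
    have h5 : χ⁻¹ (u : V) = w := congrArg Subtype.val hu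
    rwa [h5] at h4
  let g : Z → Z := fun w => ⟨k⁻¹ w, h3 w w.2⟩
  have hg : Function.Injective g := by
    intro a b hab
    have := congrArg Subtype.val hab
    exact Subtype.ext ((k⁻¹).injective this)
  obtain ⟨u, hu⟩ := (Finite.injective_iff_surjective.1 hg) ⟨z, hz⟩
  have h5 : k⁻¹ (u : V) = z := congrArg Subtype.val hu
  rw [← h5]
  have : k (k⁻¹ (u : V)) = u := by simp
  rw [this]
  exact u.2

/-- `t⁻¹` for elements of `T`: the image is the inverse image. -/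
theorem exists_move : ∃ k ∈ X, ∃ z ∈ Z, k z ∉ Z := by
  haveI : Finite (MulAut V) := Finite.of_injective (fun e : MulAut V => (e : V → V)) DFunLike.coe_injective
  by_contra hcon
  push Not at hcon
  obtain ⟨t, ht, ht1⟩ := c.ne
  have hle : (⊥ : Subgroup V) ≤ Z := bot_le
  let R : Subgroup (MulAut V) := stabChain (chain3 Z ⊥) (chain3_anti hle) ⊓ X
  have hRp : IsPGroup p R := (isPGroup_stab c.hV hle).to_le inf_le_left
  have hinv : ∀ ρ ∈ X, ∀ j, ∀ x ∈ chain3 Z ⊥ j, ρ x ∈ chain3 Z ⊥ j := by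
    intro ρ hρ j x hx
    match j with
    | 0 => exact Subgroup.mem_top _
    | 1 => exact hcon ρ hρ x hx
    | 2 =>
      have hx' : x = 1 := by
        have : x ∈ (⊥ : Subgroup V) := hx
        simpa using this
      rw [hx', map_one]
      exact one_mem _
    | (n + 3) =>
      have hx' : x = 1 := by
        have : x ∈ (⊥ : Subgroup V) := hx
        simpa using this
      rw [hx', map_one]
      exact one_mem _
  have hR := c.core R inf_le_right (fun ρ hρ τ hτ => ⟨conj_mem_stabChain hτ.1 (hinv ρ hρ) (hinv ρ⁻¹ (X.inv_mem hρ)),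
    X.mul_mem (X.mul_mem hρ hτ.2) (X.inv_mem hρ)⟩) hRp
  have htR : t ∈ R := by
    refine ⟨?_, c.TX ht⟩
    have hti : t⁻¹ ∈ T := T.inv_mem ht
    refine mem_stab_chain3 hle (c.comm t ht) ?_ ?_ (c.comm _ hti) ?_ ?_
    · intro v hv
      rw [c.fixZ t ht v hv]
      simp
    · intro v hv
      have hv' : v = 1 := by simpa using hv
      rw [hv', map_one]
    · intro v hv
      rw [c.fixZ _ hti v hv]
      simp
    · intro v hv
      have hv' : v = 1 := by simpa using hv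
      rw [hv', map_one]
  rw [hR, Subgroup.mem_bot] at htR
  exact ht1 htR

omit [Finite V] in
theorem not_mem_Zk_iff {k : MulAut V} {z : V} (hk : k z ∉ Z) (hz : z ∈ Z) : k⁻¹ (k z) ∈ Z := by
  simpa using hz

/-- **Key claim.** The image of a nontrivial `t ∈ T` avoids the conjugates of `Z` different from `Z`. -/
theorem image_not_mem {k : MulAut V} (hk : k ∈ X) {z₀ : V} (hz₀ : z₀ ∈ Z) (hkz : k z₀ ∉ Z) {t : MulAut V} (ht : t ∈ T)
    (ht1 : t ≠ 1) {x₀ : V} (hx₀ : x₀ ∉ Z) : x₀⁻¹ * t x₀ ∉ Zk Z k := by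
  intro hy
  have hle : Z ⊓ Zk Z k ≤ Zk Z k := inf_le_right
  let R : Subgroup (MulAut V) := stabChain (chain3 (Zk Z k) (Z ⊓ Zk Z k)) (chain3_anti hle) ⊓ X
  have hRp : IsPGroup p R := (isPGroup_stab c.hV hle).to_le inf_le_left
  have hti : t⁻¹ ∈ T := T.inv_mem ht
  have himg : ∀ v, v⁻¹ * t v ∈ Zk Z k := by
    intro v
    obtain ⟨i, hi⟩ := c.image_pow ht hx₀ v
    rw [hi]
    exact pow_mem hy i
  have himg' : ∀ v, v⁻¹ * t⁻¹ v ∈ Zk Z k := by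
    intro v
    have h1 := himg (t⁻¹ v)
    have h2 : (t⁻¹ v)⁻¹ * t (t⁻¹ v) = (v⁻¹ * t⁻¹ v)⁻¹ := by
      have : t (t⁻¹ v) = v := by simp
      rw [this]
      simp [mul_comm]
    rw [h2] at h1
    simpa using inv_mem h1
  have htR : t ∈ R := by
    refine ⟨?_, c.TX ht⟩
    refine mem_stab_chain3 hle himg ?_ ?_ himg' ?_ ?_
    · intro v hv
      exact ⟨c.comm t ht v, himg v⟩
    · intro v hv
      exact c.fixZ t ht v hv.1
    · intro v hv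
      exact ⟨c.comm _ hti v, himg' v⟩
    · intro v hv
      exact c.fixZ _ hti v hv.1
  have hkt : k * t * k⁻¹ ∈ R := by
    refine ⟨?_, X.mul_mem (X.mul_mem hk (c.TX ht)) (X.inv_mem hk)⟩
    have hgen : ∀ τ ∈ T, (∀ v, v⁻¹ * (k * τ * k⁻¹) v ∈ Zk Z k) ∧ (∀ v ∈ Zk Z k, (k * τ * k⁻¹) v = v) := by
      intro τ hτ
      constructor
      · intro v
        rw [mem_Zk]
        have h1 := c.comm τ hτ (k⁻¹ v)
        have h2 : k⁻¹ (v⁻¹ * (k * τ * k⁻¹) v) = (k⁻¹ v)⁻¹ * τ (k⁻¹ v) := by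
          simp only [map_mul, map_inv, MulAut.mul_apply]
          simp
        rw [h2]
        exact h1
      · intro v hv
        have h1 : τ (k⁻¹ v) = k⁻¹ v := c.fixZ τ hτ _ hv
        show k (τ (k⁻¹ v)) = v
        rw [h1]
        simp
    have hinv' : (k * t * k⁻¹)⁻¹ = k * t⁻¹ * k⁻¹ := by group
    refine mem_stab_chain3 hle (hgen t ht).1 ?_ ?_ ?_ ?_ ?_
    · intro v hv
      rw [(hgen t ht).2 v hv]
      simp
    · intro v hv
      exact (hgen t ht).2 v hv.2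
    · rw [hinv']
      exact (hgen _ hti).1
    · intro v hv
      rw [hinv', (hgen _ hti).2 v hv]
      simp
    · intro v hv
      rw [hinv']
      exact (hgen _ hti).2 v hv.2
  exact hkz (c.same_axis inf_le_right hRp ht ht1 ht ht1 htR hkt hz₀)

omit [Finite V] in
theorem exists_pow_Zk (k : MulAut V) {v : V} (hv : v ∉ Zk Z k) (w : V) : ∃ i : ℕ, (v ^ i)⁻¹ * w ∈ Zk Z k := by
  obtain ⟨i, hi⟩ := exists_pow_of_index c.index (v := k⁻¹ v) hv (k⁻¹ w)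
  refine ⟨i, ?_⟩
  rw [mem_Zk]
  simpa [map_mul, map_inv, map_pow] using hi

/-- **The structure theorem.** -/
theorem exists_data : ∃ y : V, y ∈ Z ∧ y ≠ 1 ∧ y ^ p = 1 ∧ (∀ t ∈ T, ∀ v, v⁻¹ * t v ∈ zpowers y) ∧
    (∃ t ∈ T, ∃ v, v⁻¹ * t v = y) ∧
    ∀ k ∈ X, ∀ z₀ ∈ Z, k z₀ ∉ Z → y ∉ Zk Z k ∧ (∀ z ∈ Z, ∃ i : ℕ, (y ^ i)⁻¹ * z ∈ Zk Z k) ∧
      ∃ h ∈ X, h y = y⁻¹ ∧ ∀ d ∈ Z, d ∈ Zk Z k → h d = d := by
  classical
  have hpos : 1 < p := hp.out.one_lt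
  obtain ⟨t₀, ht₀, ht₀1⟩ := c.ne
  obtain ⟨x₀, hx₀⟩ : ∃ x₀, x₀ ∉ Z := by
    by_contra hcon
    push Not at hcon
    have htop : Z = ⊤ := (Subgroup.eq_top_iff' Z).2 hcon
    have h1 := c.index
    rw [htop, Subgroup.index_top] at h1
    omega
  set y : V := x₀⁻¹ * t₀ x₀ with hy
  have hyZ : y ∈ Z := c.comm t₀ ht₀ x₀
  have hy1 : y ≠ 1 := by
    intro h
    have h1 : t₀ x₀ = x₀ := (inv_mul_eq_one.1 h).symm
    exact hx₀ (c.fixed_mem ht₀ ht₀1 h1)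
  have hyp : y ^ p = 1 := c.image_pow_p ht₀ x₀
  have hoy : orderOf y = p := orderOf_eq_prime hyp hy1
  -- fixed points
  have hfixpow : ∀ (t : MulAut V), t ∈ T → ∀ (i : ℕ) (v : V), (t ^ i) v = v * (v⁻¹ * t v) ^ i := by
    intro t ht i v
    apply Cfsg.Agent.Lib.PGroups.Critical.pow_apply_of_fixed t (c.fixZ t ht _ (c.comm t ht v))
    rw [mul_inv_cancel_left]
  obtain ⟨k₀, hk₀, z₀, hz₀, hk₀z⟩ := c.exists_move
  have hyk₀ : y ∉ Zk Z k₀ := c.image_not_mem hk₀ hz₀ hk₀z ht₀ ht₀1 hx₀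
  -- `T` is generated by `t₀`
  have hgen : ∀ t ∈ T, ∃ i : ℕ, t = t₀ ^ i := by
    intro t ht
    obtain ⟨i, hi⟩ := c.exists_pow_Zk k₀ hyk₀ (x₀⁻¹ * t x₀)
    refine ⟨i, ?_⟩
    have hτ : (t₀ ^ i)⁻¹ * t ∈ T := T.mul_mem (T.inv_mem (T.pow_mem ht₀ i)) ht
    by_contra hne
    have hτ1 : (t₀ ^ i)⁻¹ * t ≠ 1 := by
      intro h
      exact hne (inv_mul_eq_one.1 h).symm
    apply c.image_not_mem hk₀ hz₀ hk₀z hτ hτ1 hx₀
    have h1 : ((t₀ ^ i)⁻¹ * t) x₀ = x₀ * ((y ^ i)⁻¹ * (x₀⁻¹ * t x₀)) := by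
      apply (t₀ ^ i).injective
      have h2 : (t₀ ^ i) (((t₀ ^ i)⁻¹ * t) x₀) = t x₀ := by
        show (t₀ ^ i) ((t₀ ^ i)⁻¹ (t x₀)) = t x₀
        simp
      rw [h2, map_mul, map_mul, hfixpow t₀ ht₀ i x₀]
      have h3 : (t₀ ^ i) (y ^ i)⁻¹ = (y ^ i)⁻¹ := by
        have := c.fixZ _ (T.pow_mem ht₀ i) _ (Z.inv_mem (Z.pow_mem hyZ i))
        exact this
      have h4 : (t₀ ^ i) (x₀⁻¹ * t x₀) = x₀⁻¹ * t x₀ := c.fixZ _ (T.pow_mem ht₀ i) _ (c.comm t ht x₀)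
      rw [h3, h4, ← hy, mul_assoc x₀, mul_inv_cancel_left, mul_inv_cancel_left]
    rw [h1, inv_mul_cancel_left]
    exact hi
  have himg : ∀ t ∈ T, ∀ v, v⁻¹ * t v ∈ zpowers y := by
    intro t ht v
    obtain ⟨i, rfl⟩ := hgen t ht
    rw [hfixpow t₀ ht₀ i v, inv_mul_cancel_left]
    obtain ⟨j, hj⟩ := c.image_pow ht₀ hx₀ v
    rw [hj]
    exact pow_mem (pow_mem (mem_zpowers y) j) i
  refine ⟨y, hyZ, hy1, hyp, himg, ⟨t₀, ht₀, x₀, rfl⟩, ?_⟩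
  intro k hk z₁ hz₁ hkz₁
  have hyk : y ∉ Zk Z k := c.image_not_mem hk hz₁ hkz₁ ht₀ ht₀1 hx₀
  refine ⟨hyk, fun z _ => c.exists_pow_Zk k hyk z, ?_⟩
  -- the element `k⁻¹` also moves `Z`
  obtain ⟨z₂, hz₂, hkz₂⟩ : ∃ z₂ ∈ Z, k⁻¹ z₂ ∉ Z := by
    by_contra hcon
    push Not at hcon
    apply hkz₁
    haveI : Finite Z := inferInstance
    let g : Z → Z := fun w => ⟨k⁻¹ w, hcon w w.2⟩
    have hg : Function.Injective g := by
      intro a b hab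
      have := congrArg Subtype.val hab
      exact Subtype.ext ((k⁻¹).injective this)
    obtain ⟨u, hu⟩ := (Finite.injective_iff_surjective.1 hg) ⟨z₁, hz₁⟩
    have h5 : k⁻¹ (u : V) = z₁ := congrArg Subtype.val hu
    rw [← h5]
    have : k (k⁻¹ (u : V)) = u := by simp
    rw [this]
    exact u.2
  have hy₁Z : k y ∉ Z := by
    have h1 : y ∉ Zk Z k⁻¹ := c.image_not_mem (X.inv_mem hk) hz₂ hkz₂ ht₀ ht₀1 hx₀
    rw [mem_Zk, inv_inv] at h1
    exact h1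
  set y₁ : V := k y with hy₁
  have hy₁k : y₁ ∈ Zk Z k := apply_mem_Zk hyZ
  -- an exponent helper
  have hexp : ∀ a : ℕ, y ^ a ≠ 1 → ∃ i : ℕ, y ^ (a * i) = y := by
    intro a ha
    have hcop : a.Coprime p := by
      rw [Nat.coprime_comm]
      apply (Nat.Prime.coprime_iff_not_dvd hp.out).2
      intro hd
      apply ha
      rw [← hoy] at hd
      exact orderOf_dvd_iff_pow_eq_one.1 hd
    obtain ⟨i, -, hi⟩ := Nat.exists_mul_mod_eq_one_of_coprime hcop hpos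
    refine ⟨i, ?_⟩
    rw [← pow_mod_orderOf, hoy, hi, pow_one]
  -- the elements
  obtain ⟨a, ha⟩ : ∃ a : ℕ, y ^ a = y₁⁻¹ * t₀ y₁ := by
    have h1 := himg t₀ ht₀ y₁
    rw [← mem_powers_iff_mem_zpowers] at h1
    exact h1
  have ha1 : y ^ a ≠ 1 := by
    rw [ha]
    intro h
    have h1 : t₀ y₁ = y₁ := (inv_mul_eq_one.1 h).symm
    exact hy₁Z (c.fixed_mem ht₀ ht₀1 h1)
  obtain ⟨i, hi⟩ := hexp a ha1
  let v := k⁻¹ y
  have hv : v ∉ Z := hyk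
  obtain ⟨b, hb⟩ : ∃ b : ℕ, y ^ b = v⁻¹ * t₀ v := by
    have h1 := himg t₀ ht₀ v
    rw [← mem_powers_iff_mem_zpowers] at h1
    exact h1
  have hb1 : y ^ b ≠ 1 := by
    rw [hb]
    intro h
    have h1 : t₀ v = v := (inv_mul_eq_one.1 h).symm
    exact hv (c.fixed_mem ht₀ ht₀1 h1)
  obtain ⟨j, hj⟩ := hexp b hb1
  have hu_mem : t₀ ^ i ∈ T := T.pow_mem ht₀ i
  let u : MulAut V := t₀ ^ i
  have huy₁ : u y₁ = y₁ * y := by
    show (t₀ ^ i) y₁ = y₁ * y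
    rw [hfixpow t₀ ht₀ i y₁, ← ha, ← pow_mul, hi]
  have huZ : ∀ z ∈ Z, u z = z := fun z hz => c.fixZ _ hu_mem z hz
  let t₁ : MulAut V := k * t₀ * k⁻¹
  have ht₁Zk : ∀ d ∈ Zk Z k, t₁ d = d := by
    intro d hd
    have h1 : t₀ (k⁻¹ d) = k⁻¹ d := c.fixZ t₀ ht₀ _ hd
    show k (t₀ (k⁻¹ d)) = d
    rw [h1]
    simp
  have ht₁y : t₁ y = y * y₁ ^ b := by
    show k (t₀ (k⁻¹ y)) = y * y₁ ^ b
    have h1 : t₀ v = v * y ^ b := by
      rw [hb, mul_inv_cancel_left]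
    have h2 : t₀ (k⁻¹ y) = k⁻¹ y * y ^ b := h1
    rw [h2, map_mul, map_pow]
    simp [hy₁]
  have ht₁pow : (t₁ ^ j) y = y * y₁ := by
    have hfix : t₁ (y₁ ^ b) = y₁ ^ b := ht₁Zk _ (pow_mem hy₁k b)
    have h1 := Cfsg.Agent.Lib.PGroups.Critical.pow_apply_of_fixed t₁ hfix ht₁y j
    rw [h1, ← pow_mul]
    congr 1
    -- `y₁ ^ (b * j) = y₁`
    have h2 : k (y ^ (b * j)) = k y := by rw [hj]
    rwa [map_pow] at h2
  let u₁ : MulAut V := (t₁ ^ j)⁻¹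
  have ht₁powZ : ∀ (n : ℕ), ∀ d ∈ Zk Z k, (t₁ ^ n) d = d := by
    intro n d hd
    induction n with
    | zero => simp
    | succ n ih =>
      rw [pow_succ, MulAut.mul_apply, ht₁Zk d hd, ih]
  have hu₁Zk : ∀ d ∈ Zk Z k, u₁ d = d := by
    intro d hd
    apply (t₁ ^ j).injective
    show (t₁ ^ j) ((t₁ ^ j)⁻¹ d) = (t₁ ^ j) d
    rw [ht₁powZ j d hd]
    simp
  have hu₁y : u₁ y = y * y₁⁻¹ := by
    apply (t₁ ^ j).injective
    have h1 : (t₁ ^ j) (u₁ y) = y := by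
      show (t₁ ^ j) ((t₁ ^ j)⁻¹ y) = y
      simp
    have h2 : (t₁ ^ j) (y * y₁⁻¹) = y := by
      rw [map_mul (t₁ ^ j) y y₁⁻¹, map_inv, ht₁powZ j y₁ hy₁k, ht₁pow]
      simp
    rw [h1, h2]
  have ht₁X : t₁ ∈ X := X.mul_mem (X.mul_mem hk (c.TX ht₀)) (X.inv_mem hk)
  have huX : u ∈ X := c.TX hu_mem
  have hu₁X : u₁ ∈ X := X.inv_mem (X.pow_mem ht₁X j)
  let w : MulAut V := u * u₁ * u
  have hwX : w ∈ X := X.mul_mem (X.mul_mem huX hu₁X) huX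
  have hwy : w y = y₁⁻¹ := by
    show u (u₁ (u y)) = y₁⁻¹
    rw [huZ y hyZ, hu₁y, map_mul, map_inv, huZ y hyZ, huy₁]
    simp
  have hwy₁ : w y₁ = y := by
    show u (u₁ (u y₁)) = y
    rw [huy₁, map_mul, hu₁Zk y₁ hy₁k, hu₁y, mul_comm y₁, mul_assoc, inv_mul_cancel, mul_one, huZ y hyZ]
  refine ⟨w * w, X.mul_mem hwX hwX, ?_, ?_⟩
  · show w (w y) = y⁻¹
    rw [hwy, map_inv, hwy₁]
  · intro d hdZ hdk
    have hwd : w d = d := by
      show u (u₁ (u d)) = d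
      rw [huZ d hdZ, hu₁Zk d hdk, huZ d hdZ]
    show w (w d) = d
    rw [hwd, hwd]

end Ctx

end Cfsg.Agent.Lib.H29.AbIndexA
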