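import Cfsg.Agent.Lib.FusionTheory.Normal
import Cfsg.Agent.Lib.Fusion.SmallEssential
import Cfsg.Agent.Lib.H29.AbIndexA

/-!
# A `p`-group with a unique abelian subgroup of index `p`: the group theory

`S` a nonabelian `p`-group, `A` abelian of index `p`. The set `Zs S A` of elements `b` of `A` central modulo `Z(S)`
and the subgroup `Yc S A` they generate by commutators with `S`.
-/

set_option autoImplicit false

namespace Cfsg.Agent.Lib.H29.AbIndexB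

open Subgroup
open Cfsg Cfsg.FusionSystem Cfsg.Agent.Lib.Fusion.Basic
open scoped commutatorElement

variable {Ω : Type*} [Group Ω] {S A : Subgroup Ω} {p : ℕ}

/-- The centre of `S`, as a subgroup of the ambient group. -/
abbrev Zc (S : Subgroup Ω) : Subgroup Ω := S ⊓ centralizer (S : Set Ω)

theorem mem_Zc {z : Ω} : z ∈ Zc S ↔ z ∈ S ∧ ∀ s ∈ S, s * z = z * s := by
  rw [mem_inf, mem_centralizer_iff]
  rfl

theorem Zc_conj {z s : Ω} (hz : z ∈ Zc S) (hs : s ∈ S) : s * z * s⁻¹ = z := by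
  rw [(mem_Zc.1 hz).2 s hs]
  group

/-- The situation. -/
structure Sit (p : ℕ) (S A : Subgroup Ω) : Prop where
  hS : IsPGroup p S
  AS : A ≤ S
  comm : ∀ a ∈ A, ∀ b ∈ A, a * b = b * a
  index : (A.subgroupOf S).index = p
  na : ∃ s ∈ S, ∃ t ∈ S, s * t ≠ t * s

variable [Finite S] [hp : Fact p.Prime]

theorem Sit.normal (h : Sit p S A) : (A.subgroupOf S).Normal := by
  apply Subgroup.normal_of_index_eq_minFac_card
  obtain ⟨n, hn⟩ := IsPGroup.iff_card.1 h.hS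
  rw [h.index, hn]
  have hn0 : n ≠ 0 := by
    rintro rfl
    obtain ⟨s, hs, t, ht, hst⟩ := h.na
    have hcard : Nat.card S = 1 := by simpa using hn
    have : Subsingleton S := (Nat.card_eq_one_iff_unique.1 hcard).1
    apply hst
    have h1 : (⟨s, hs⟩ : S) = ⟨t, ht⟩ := Subsingleton.elim _ _
    have h2 : s = t := congrArg Subtype.val h1
    rw [h2]
  rw [Nat.Prime.pow_minFac hp.out hn0]

theorem Sit.conj_mem (h : Sit p S A) {s a : Ω} (hs : s ∈ S) (ha : a ∈ A) : s * a * s⁻¹ ∈ A := by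
  have hn := h.normal
  have := hn.conj_mem ⟨a, h.AS ha⟩ ha ⟨s, hs⟩
  exact this

theorem Sit.card_quot (h : Sit p S A) : Nat.card (S ⧸ A.subgroupOf S) = p := h.index

/-- Commutators lie in `A`. -/
theorem Sit.comm_mem (h : Sit p S A) {s t : Ω} (hs : s ∈ S) (ht : t ∈ S) : s * t * s⁻¹ * t⁻¹ ∈ A := by
  haveI := h.normal
  haveI : IsCyclic (S ⧸ A.subgroupOf S) := isCyclic_of_prime_card h.card_quot
  let e := IsCyclic.commGroup (α := S ⧸ A.subgroupOf S)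
  have hc : ((⟨s, hs⟩ : S) : S ⧸ A.subgroupOf S) * ((⟨t, ht⟩ : S) : S ⧸ A.subgroupOf S)
      = ((⟨t, ht⟩ : S) : S ⧸ A.subgroupOf S) * ((⟨s, hs⟩ : S) : S ⧸ A.subgroupOf S) :=
    e.mul_comm _ _
  have h2 : (((⟨s, hs⟩ : S) * ⟨t, ht⟩ * (⟨s, hs⟩ : S)⁻¹ * (⟨t, ht⟩ : S)⁻¹ : S) : S ⧸ A.subgroupOf S) = 1 := by
    rw [QuotientGroup.mk_mul, QuotientGroup.mk_mul, QuotientGroup.mk_mul, QuotientGroup.mk_inv,
      QuotientGroup.mk_inv, hc]
    group
  exact (QuotientGroup.eq_one_iff (N := A.subgroupOf S) _).1 h2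

/-- Every element of `S` is `a * x ^ i`. -/
theorem Sit.exists_decomp (h : Sit p S A) {x s : Ω} (hx : x ∈ S) (hxA : x ∉ A) (hs : s ∈ S) :
    ∃ a ∈ A, ∃ i : ℕ, s = a * x ^ i := by
  haveI := h.normal
  haveI : Finite (S ⧸ A.subgroupOf S) := inferInstance
  have h1 : ((⟨x, hx⟩ : S) : S ⧸ A.subgroupOf S) ≠ 1 := by
    intro h0
    exact hxA ((QuotientGroup.eq_one_iff (N := A.subgroupOf S) _).1 h0)
  have h2 := mem_zpowers_of_prime_card h.card_quot (g' := ((⟨s, hs⟩ : S) : S ⧸ A.subgroupOf S)) h1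
  rw [← mem_powers_iff_mem_zpowers] at h2
  obtain ⟨i, hi⟩ := h2
  refine ⟨s * (x ^ i)⁻¹, ?_, i, by group⟩
  have h3 : (((⟨s, hs⟩ : S) * ((⟨x, hx⟩ : S) ^ i)⁻¹ : S) : S ⧸ A.subgroupOf S) = 1 := by
    rw [QuotientGroup.mk_mul, QuotientGroup.mk_inv, QuotientGroup.mk_pow]
    have hi' : ((⟨x, hx⟩ : S) : S ⧸ A.subgroupOf S) ^ i = ((⟨s, hs⟩ : S) : S ⧸ A.subgroupOf S) := hi
    rw [hi']
    group
  have h4 := (QuotientGroup.eq_one_iff (N := A.subgroupOf S) _).1 h3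
  exact h4

/-- An element of `A` commuting with an element outside `A` is central. -/
theorem Sit.mem_Zc_of_comm (h : Sit p S A) {a x : Ω} (ha : a ∈ A) (hx : x ∈ S) (hxA : x ∉ A)
    (hc : a * x = x * a) : a ∈ Zc S := by
  refine mem_Zc.2 ⟨h.AS ha, fun s hs => ?_⟩
  obtain ⟨c, hcA, i, rfl⟩ := h.exists_decomp hx hxA hs
  have h1 : Commute a (x ^ i) := (show Commute a x from hc).pow_right i
  calc c * x ^ i * a = c * (x ^ i * a) := by group
    _ = c * (a * x ^ i) := by rw [h1.eq]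
    _ = (c * a) * x ^ i := by group
    _ = (a * c) * x ^ i := by rw [h.comm c hcA a ha]
    _ = a * (c * x ^ i) := by group

/-- The centre lies in `A`. -/
theorem Sit.Zc_le (h : Sit p S A) : Zc S ≤ A := by
  intro z hz
  by_contra hzA
  obtain ⟨hzS, hzc⟩ := mem_Zc.1 hz
  obtain ⟨s, hs, t, ht, hst⟩ := h.na
  apply hst
  obtain ⟨a, ha, i, rfl⟩ := h.exists_decomp hzS hzA hs
  obtain ⟨b, hb, j, rfl⟩ := h.exists_decomp hzS hzA ht
  have hcz : ∀ k : ℕ, ∀ u ∈ S, u * z ^ k = z ^ k * u := fun k u hu =>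
    ((show Commute u z from hzc u hu).pow_right k).eq
  calc a * z ^ i * (b * z ^ j) = a * (z ^ i * b) * z ^ j := by group
    _ = a * (b * z ^ i) * z ^ j := by rw [hcz i b (h.AS hb)]
    _ = (a * b) * (z ^ i * z ^ j) := by group
    _ = (b * a) * (z ^ j * z ^ i) := by rw [h.comm a ha b hb, ← pow_add, ← pow_add, add_comm]
    _ = b * (a * z ^ j) * z ^ i := by group
    _ = b * (z ^ j * a) * z ^ i := by rw [hcz j a (h.AS ha)]
    _ = b * z ^ j * (a * z ^ i) := by group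

/-- The elements of `A` central modulo `Z(S)`. -/
def Zs (S A : Subgroup Ω) : Set Ω := {b | b ∈ A ∧ ∀ s ∈ S, b * s * b⁻¹ * s⁻¹ ∈ Zc S}

/-- The subgroup generated by the commutators of `Zs` with `S`. -/
def Yc (S A : Subgroup Ω) : Subgroup Ω := closure {c | ∃ b ∈ Zs S A, ∃ s ∈ S, c = b * s * b⁻¹ * s⁻¹}

omit [Finite S] hp in
theorem Yc_le_Zc : Yc S A ≤ Zc S := by
  rw [Yc, closure_le]
  rintro _ ⟨b, hb, s, hs, rfl⟩
  exact hb.2 s hs

omit [Finite S] hp in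
theorem mem_Yc {b s : Ω} (hb : b ∈ Zs S A) (hs : s ∈ S) : b * s * b⁻¹ * s⁻¹ ∈ Yc S A :=
  subset_closure ⟨b, hb, s, hs, rfl⟩

omit [Finite S] hp in
theorem Yc_le_comm (hAS : A ≤ S) : Yc S A ≤ (commutator ↥S).map S.subtype := by
  rw [Yc, closure_le]
  rintro _ ⟨b, hb, s, hs, rfl⟩
  refine ⟨⁅(⟨b, hAS hb.1⟩ : S), (⟨s, hs⟩ : S)⁆, ?_, ?_⟩
  · exact Subgroup.commutator_mem_commutator (mem_top _) (mem_top _)
  · rfl

/-- Commutators with `b ∈ A` only depend on the class modulo `A`. -/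
theorem Sit.comm_decomp (h : Sit p S A) {b c e : Ω} (hb : b ∈ A) (hc : c ∈ A)
    (hz : b * e * b⁻¹ * e⁻¹ ∈ Zc S) : b * (c * e) * b⁻¹ * (c * e)⁻¹ = b * e * b⁻¹ * e⁻¹ := by
  have h1 := Zc_conj hz (h.AS hc)
  rw [← h1]
  have h2 : b * c = c * b := h.comm b hb c hc
  calc b * (c * e) * b⁻¹ * (c * e)⁻¹ = (b * c) * e * b⁻¹ * e⁻¹ * c⁻¹ := by group
    _ = (c * b) * e * b⁻¹ * e⁻¹ * c⁻¹ := by rw [h2]
    _ = c * (b * e * b⁻¹ * e⁻¹) * c⁻¹ := by group

end Cfsg.Agent.Lib.H29.AbIndexB
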