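import Cfsg.Agent.Lib.H29.AbIndexB

/-!
# A `p`-group with a unique abelian subgroup of index `p`: essential subgroups
-/

set_option autoImplicit false

namespace Cfsg.Agent.Lib.H29.AbIndexC

open Subgroup
open Cfsg Cfsg.FusionSystem Cfsg.Agent.Lib.Fusion.Basic Cfsg.Agent.Lib.Fusion.Saturation
open Cfsg.Agent.Lib.Fusion.Saturation2
open Cfsg.Agent.Lib.FusionTheory.Chain Cfsg.Agent.Lib.FusionTheory.CoprimeAut
open Cfsg.Agent.Lib.Fusion.Alperin Cfsg.Agent.Lib.FusionTheory.Normal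
open Cfsg.Agent.Lib.FusionTheory.Essential
open Cfsg.Agent.Lib.Fusion.SmallEssential Cfsg.Agent.Lib.H29.AbIndexA Cfsg.Agent.Lib.H29.AbIndexB

universe u

variable {Ω : Type u} [Group Ω] {S A : Subgroup Ω} {p : ℕ} [Finite S] [hp : Fact p.Prime]
variable (F : FusionSystem S)

omit [Finite S] hp in
theorem Zc_le_ess {E : Subgroup Ω} (hE : F.IsEssential p E) : Zc S ≤ E := by
  have h1 := hE.1.2 E (isConj_refl F hE.1.1)
  intro z hz
  apply h1
  refine ⟨(mem_Zc.1 hz).1, mem_centralizer_iff.2 ?_⟩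
  intro e he
  exact (mem_Zc.1 hz).2 e (hE.1.1 he)

omit [Finite S] hp in
theorem not_le_A (h : Sit p S A) {E : Subgroup Ω} (hE : F.IsEssential p E) (hAe : ¬ F.IsEssential p A) :
    ¬ E ≤ A := by
  intro hEA
  apply hAe
  have h1 := hE.1.2 E (isConj_refl F hE.1.1)
  have h2 : A ≤ E := by
    intro a ha
    apply h1
    refine ⟨h.AS ha, mem_centralizer_iff.2 ?_⟩
    intro e he
    exact h.comm e (hEA he) a ha
  have h3 : E = A := le_antisymm hEA h2
  rwa [← h3]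

theorem S_le_norm (h : Sit p S A) : S ≤ normalizer (A : Set Ω) := by
  intro s hs
  rw [mem_normalizer_iff]
  intro a
  refine ⟨fun ha => h.conj_mem hs ha, fun ha => ?_⟩
  have := h.conj_mem (S.inv_mem hs) ha
  have h2 : s⁻¹ * (s * a * s⁻¹) * s⁻¹⁻¹ = a := by group
  rwa [h2] at this

/-- Every element of `S` is `c * e` with `c ∈ A`, `e ∈ E`. -/
theorem exists_mul (h : Sit p S A) {E : Subgroup Ω} (hES : E ≤ S) (hEA : ¬ E ≤ A) {s : Ω} (hs : s ∈ S) :
    ∃ c ∈ A, ∃ e ∈ E, s = c * e := by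
  obtain ⟨x, hxE, hxA⟩ := SetLike.not_le_iff_exists.1 hEA
  obtain ⟨a, ha, i, rfl⟩ := h.exists_decomp (hES hxE) hxA hs
  exact ⟨a, ha, x ^ i, E.pow_mem hxE i, rfl⟩

omit [Finite S] hp in
theorem bot_inv {E : Subgroup Ω} (X : Subgroup (MulAut E)) : ∀ ρ ∈ X, ∀ x ∈ (⊥ : Subgroup E), ρ x ∈ (⊥ : Subgroup E) := by
  intro ρ _ x hx
  rw [mem_bot] at hx ⊢
  rw [hx, map_one]

/-- An automorphism of an essential subgroup moves `E ∩ A`. -/
theorem exists_move (hF : F.IsSaturated p) (h : Sit p S A) {E : Subgroup Ω} (hE : F.IsEssential p E)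
    (hEA : ¬ E ≤ A) : ∃ α ∈ F.autGroup E, ∃ b : E, (b : Ω) ∈ A ∧ ((α b : E) : Ω) ∉ A := by
  by_contra hcon
  push Not at hcon
  have hES := hE.1.1
  have hfE : Finite E := finite_of_le hES
  have hEp : IsPGroup p E := h.hS.to_le hES
  have hinv0 : ∀ ρ ∈ F.autGroup E, ∀ x ∈ A.subgroupOf E, ρ x ∈ A.subgroupOf E :=
    fun ρ hρ x hx => hcon ρ hρ x hx
  have hAE : A ≤ E := by
    refine le_of_normalizer_le (p := p) h.hS h.AS (S_le_norm h) hES ?_
    intro a ha hn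
    have hc := normAct_mem_autGroup F hES (h.AS ha) hn
    have hT0 : IsTower p (F.autGroup E) (normAct E hn) ⊥ := isTower_bot hc
    have hT1 : IsTower p (F.autGroup E) (normAct E hn) (A.subgroupOf E) := by
      refine isTower_step hEp hT0 (bot_inv _) hinv0 (fun x hx => ?_)
      rw [mem_bot]
      apply Subtype.ext
      have h1 : ((normAct E hn x : E) : Ω) = a * x * a⁻¹ := normAct_apply E hn x
      have hx' : (x : Ω) ∈ A := hx
      have h2 : a * x * a⁻¹ = x := by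
        rw [h.comm a ha x hx']
        group
      show ((x⁻¹ * normAct E hn x : E) : Ω) = 1
      rw [Subgroup.coe_mul, h1, h2]
      simp
    have hT2 : IsTower p (F.autGroup E) (normAct E hn) ⊤ := by
      refine isTower_step hEp hT1 hinv0 (fun _ _ _ _ => mem_top _) (fun x _ => ?_)
      have h1 : ((normAct E hn x : E) : Ω) = a * x * a⁻¹ := normAct_apply E hn x
      show ((x⁻¹ * normAct E hn x : E) : Ω) ∈ A
      rw [Subgroup.coe_mul, h1, Subgroup.coe_inv]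
      have h2 := h.comm_mem (hES (E.inv_mem x.2)) (h.AS ha)
      have h3 : (x : Ω)⁻¹ * (a * x * a⁻¹) = (x : Ω)⁻¹ * a * (x : Ω)⁻¹⁻¹ * a⁻¹ := by group
      rw [h3]
      exact h2
    exact mem_of_isEssential_of_isTower F h.hS hE (h.AS ha) hn hT2
      (fun τ _ _ hh => by ext x; exact congrArg _ (hh x (mem_top x)))
  obtain ⟨x, hxE, hxA⟩ := SetLike.not_le_iff_exists.1 hEA
  have hSE : S ≤ E := by
    intro s hs
    obtain ⟨a, ha, i, rfl⟩ := h.exists_decomp (hES hxE) hxA hs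
    exact E.mul_mem (hAE ha) (E.pow_mem hxE i)
  exact (IsEssential.lt F h.hS hF hE).not_ge hSE

/-- The centre of a nonabelian essential subgroup not contained in `A` is `Z(S)`. -/
theorem mem_Zc_of_central (h : Sit p S A) {E : Subgroup Ω} (hES : E ≤ S) (hEA : ¬ E ≤ A)
    (hna : ∃ e ∈ E, ∃ e' ∈ E, e * e' ≠ e' * e) {u : Ω} (hu : u ∈ E) (hc : ∀ e ∈ E, e * u = u * e) :
    u ∈ Zc S := by
  obtain ⟨x, hxE, hxA⟩ := SetLike.not_le_iff_exists.1 hEA
  by_cases huA : u ∈ A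
  · exact h.mem_Zc_of_comm huA (hES hxE) hxA (hc x hxE).symm
  · exfalso
    obtain ⟨e, he, e', he', hne⟩ := hna
    apply hne
    obtain ⟨a, ha, i, rfl⟩ := h.exists_decomp (hES hu) huA (hES he)
    obtain ⟨b, hb, j, rfl⟩ := h.exists_decomp (hES hu) huA (hES he')
    have haE : a ∈ E := by
      have := E.mul_mem he (E.inv_mem (E.pow_mem hu i))
      simpa using this
    have hbE : b ∈ E := by
      have := E.mul_mem he' (E.inv_mem (E.pow_mem hu j))
      simpa using this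
    have hcz : ∀ k : ℕ, ∀ v ∈ E, v * u ^ k = u ^ k * v := fun k v hv =>
      ((show Commute v u from hc v hv).pow_right k).eq
    calc a * u ^ i * (b * u ^ j) = a * (u ^ i * b) * u ^ j := by group
      _ = a * (b * u ^ i) * u ^ j := by rw [hcz i b hbE]
      _ = (a * b) * (u ^ i * u ^ j) := by group
      _ = (b * a) * (u ^ j * u ^ i) := by rw [h.comm a ha b hb, ← pow_add, ← pow_add, add_comm]
      _ = b * (a * u ^ j) * u ^ i := by group
      _ = b * (u ^ j * a) * u ^ i := by rw [hcz j a haE]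
      _ = b * u ^ j * (a * u ^ i) := by group

/-- Automorphisms of a nonabelian essential subgroup preserve `Z(S)`. -/
theorem aut_mem_Zc (h : Sit p S A) {E : Subgroup Ω} (hE : F.IsEssential p E) (hEA : ¬ E ≤ A)
    (hna : ∃ e ∈ E, ∃ e' ∈ E, e * e' ≠ e' * e) (α : MulAut E) (x : E) (hx : (x : Ω) ∈ Zc S) :
    ((α x : E) : Ω) ∈ Zc S := by
  refine mem_Zc_of_central h hE.1.1 hEA hna (α x).2 (fun e he => ?_)
  have h1 : (⟨e, he⟩ : E) = α (α⁻¹ ⟨e, he⟩) := by simp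
  have h2 : (α⁻¹ ⟨e, he⟩ : E) * x = x * α⁻¹ ⟨e, he⟩ := by
    apply Subtype.ext
    exact (mem_Zc.1 hx).2 _ (hE.1.1 (α⁻¹ ⟨e, he⟩).2)
  have h3 : (⟨e, he⟩ : E) * α x = α x * ⟨e, he⟩ := by
    rw [h1, ← map_mul, ← map_mul, h2]
  exact congrArg Subtype.val h3

/-- In a nonabelian essential subgroup, `Zs ⊆ E`. -/
theorem Zs_subset (h : Sit p S A) {E : Subgroup Ω} (hE : F.IsEssential p E) (hEA : ¬ E ≤ A)
    (hna : ∃ e ∈ E, ∃ e' ∈ E, e * e' ≠ e' * e) {b : Ω} (hb : b ∈ Zs S A) : b ∈ E := by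
  have hES := hE.1.1
  have hfE : Finite E := finite_of_le hES
  have hEp : IsPGroup p E := h.hS.to_le hES
  have hZE := Zc_le_ess F hE
  have hbS := h.AS hb.1
  have hn : b ∈ normalizer (E : Set Ω) := by
    rw [mem_normalizer_iff]
    intro e
    have h1 := hb.2
    constructor
    · intro he
      have h2 := hZE (h1 e (hES he))
      have h3 := E.mul_mem h2 he
      have h4 : b * e * b⁻¹ * e⁻¹ * e = b * e * b⁻¹ := by group
      rwa [h4] at h3
    · intro he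
      have heS : e ∈ S := by
        have h5 := S.mul_mem (S.mul_mem (S.inv_mem hbS) (hES he)) hbS
        have h6 : b⁻¹ * (b * e * b⁻¹) * b = e := by group
        rwa [h6] at h5
      have h2 := hZE (h1 e heS)
      have h3 := E.mul_mem (E.inv_mem h2) he
      have h4 : (b * e * b⁻¹ * e⁻¹)⁻¹ * (b * e * b⁻¹) = e := by group
      rwa [h4] at h3
  have hc := normAct_mem_autGroup F hES hbS hn
  have hinv0 : ∀ ρ ∈ F.autGroup E, ∀ x ∈ (Zc S).subgroupOf E, ρ x ∈ (Zc S).subgroupOf E :=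
    fun ρ _ x hx => aut_mem_Zc F h hE hEA hna ρ x hx
  have hT0 : IsTower p (F.autGroup E) (normAct E hn) ⊥ := isTower_bot hc
  have hT1 : IsTower p (F.autGroup E) (normAct E hn) ((Zc S).subgroupOf E) := by
    refine isTower_step hEp hT0 (bot_inv _) hinv0 (fun x hx => ?_)
    rw [mem_bot]
    apply Subtype.ext
    have h1 : ((normAct E hn x : E) : Ω) = b * x * b⁻¹ := normAct_apply E hn x
    have h2 : b * x * b⁻¹ = x := Zc_conj hx hbS
    show ((x⁻¹ * normAct E hn x : E) : Ω) = 1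
    rw [Subgroup.coe_mul, h1, h2]
    simp
  have hT2 : IsTower p (F.autGroup E) (normAct E hn) ⊤ := by
    refine isTower_step hEp hT1 hinv0 (fun _ _ _ _ => mem_top _) (fun x _ => ?_)
    have h1 : ((normAct E hn x : E) : Ω) = b * x * b⁻¹ := normAct_apply E hn x
    show ((x⁻¹ * normAct E hn x : E) : Ω) ∈ Zc S
    rw [Subgroup.coe_mul, h1, Subgroup.coe_inv]
    have h2 := hb.2 _ (hES x.2)
    have h3 := Zc_conj h2 (S.inv_mem (hES x.2))
    have h4 : (x : Ω)⁻¹ * (b * x * b⁻¹) = (x : Ω)⁻¹ * (b * x * b⁻¹ * (x : Ω)⁻¹) * (x : Ω)⁻¹⁻¹ := by group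
    rw [h4, h3]
    exact h2
  exact mem_of_isEssential_of_isTower F h.hS hE hbS hn hT2
    (fun τ _ _ hh => by ext x; exact congrArg _ (hh x (mem_top x)))

/-- Commutators of an essential subgroup are central in `S`. -/
theorem comm_mem_Zc (hF : F.IsSaturated p) (h : Sit p S A) {E : Subgroup Ω} (hE : F.IsEssential p E)
    (hEA : ¬ E ≤ A) {e e' : Ω} (he : e ∈ E) (he' : e' ∈ E) : e * e' * e⁻¹ * e'⁻¹ ∈ Zc S := by
  have hES := hE.1.1
  obtain ⟨α, hα, b, hbA, hαb⟩ := exists_move F hF h hE hEA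
  let w : E := (α⁻¹ ⟨e, he⟩) * (α⁻¹ ⟨e', he'⟩) * (α⁻¹ ⟨e, he⟩)⁻¹ * (α⁻¹ ⟨e', he'⟩)⁻¹
  have hwA : (w : Ω) ∈ A := h.comm_mem (hES (α⁻¹ ⟨e, he⟩).2) (hES (α⁻¹ ⟨e', he'⟩).2)
  have hαw : α w = ⟨e * e' * e⁻¹ * e'⁻¹, by
      exact E.mul_mem (E.mul_mem (E.mul_mem he he') (E.inv_mem he)) (E.inv_mem he')⟩ := by
    apply Subtype.ext
    simp [w]
  have hc : w * b = b * w := Subtype.ext (h.comm _ hwA _ hbA)
  have hc2 : α w * α b = α b * α w := by rw [← map_mul, ← map_mul, hc]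
  rw [hαw] at hc2
  have hc3 : (e * e' * e⁻¹ * e'⁻¹) * (α b : Ω) = (α b : Ω) * (e * e' * e⁻¹ * e'⁻¹) := congrArg Subtype.val hc2
  exact h.mem_Zc_of_comm (h.comm_mem (hES he) (hES he')) (hES (α b).2) hαb hc3

/-- `E ∩ A ⊆ Zs`. -/
theorem inf_subset_Zs (hF : F.IsSaturated p) (h : Sit p S A) {E : Subgroup Ω} (hE : F.IsEssential p E)
    (hEA : ¬ E ≤ A) {b : Ω} (hbE : b ∈ E) (hbA : b ∈ A) : b ∈ Zs S A := by
  refine ⟨hbA, fun s hs => ?_⟩
  obtain ⟨c, hc, e, he, rfl⟩ := exists_mul h hE.1.1 hEA hs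
  have hz := comm_mem_Zc F hF h hE hEA hbE he
  rw [h.comm_decomp hbA hc hz]
  exact hz

/-- In the nonabelian case the commutators of `E` lie in `Yc`. -/
theorem comm_mem_Yc (hF : F.IsSaturated p) (h : Sit p S A) {E : Subgroup Ω} (hE : F.IsEssential p E)
    (hEA : ¬ E ≤ A) {e e' : Ω} (he : e ∈ E) (he' : e' ∈ E) : e * e' * e⁻¹ * e'⁻¹ ∈ Yc S A := by
  have hES := hE.1.1
  obtain ⟨x, hxE, hxA⟩ := SetLike.not_le_iff_exists.1 hEA
  obtain ⟨a, ha, i, rfl⟩ := h.exists_decomp (hES hxE) hxA (hES he)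
  obtain ⟨b, hb, j, rfl⟩ := h.exists_decomp (hES hxE) hxA (hES he')
  have haE : a ∈ E := by
    have := E.mul_mem he (E.inv_mem (E.pow_mem hxE i))
    simpa using this
  have hbE : b ∈ E := by
    have := E.mul_mem he' (E.inv_mem (E.pow_mem hxE j))
    simpa using this
  have hxi := E.pow_mem hxE i
  have hxj := E.pow_mem hxE j
  have h1 : a ∈ Zs S A := inf_subset_Zs F hF h hE hEA haE ha
  have h2 : b ∈ Zs S A := inf_subset_Zs F hF h hE hEA hbE hb
  set u := x ^ i with hu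
  set v := x ^ j with hv
  have huv : v * u⁻¹ * v⁻¹ = u⁻¹ := by
    have : v * u = u * v := by rw [hu, hv, ← pow_add, ← pow_add, add_comm]
    have h5 : Commute v u⁻¹ := (show Commute v u from this).inv_right
    rw [h5.eq]
    group
  have hc1 := comm_mem_Zc F hF h hE hEA hxi (E.mul_mem hbE hxj)
  have h3 := Zc_conj hc1 (hES haE)
  have key : a * u * (b * v) * (a * u)⁻¹ * (b * v)⁻¹
      = (b * u * b⁻¹ * u⁻¹)⁻¹ * (a * (b * v) * a⁻¹ * (b * v)⁻¹) := by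
    have h4 : u * (b * v) * u⁻¹ * (b * v)⁻¹ = (b * u * b⁻¹ * u⁻¹)⁻¹ := by
      calc u * (b * v) * u⁻¹ * (b * v)⁻¹ = u * b * (v * u⁻¹ * v⁻¹) * b⁻¹ := by group
        _ = u * b * u⁻¹ * b⁻¹ := by rw [huv]
        _ = (b * u * b⁻¹ * u⁻¹)⁻¹ := by group
    calc a * u * (b * v) * (a * u)⁻¹ * (b * v)⁻¹
        = a * (u * (b * v) * u⁻¹ * (b * v)⁻¹) * a⁻¹ * (a * (b * v) * a⁻¹ * (b * v)⁻¹) := by group
      _ = (u * (b * v) * u⁻¹ * (b * v)⁻¹) * (a * (b * v) * a⁻¹ * (b * v)⁻¹) := by rw [h3]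
      _ = _ := by rw [h4]
  rw [key]
  exact (Yc S A).mul_mem ((Yc S A).inv_mem (mem_Yc h2 (hES hxi))) (mem_Yc h1 (hES (E.mul_mem hbE hxj)))

/-- Automorphisms of a nonabelian essential subgroup preserve `Yc`. -/
theorem aut_mem_Yc (hF : F.IsSaturated p) (h : Sit p S A) {E : Subgroup Ω} (hE : F.IsEssential p E)
    (hEA : ¬ E ≤ A) (hna : ∃ e ∈ E, ∃ e' ∈ E, e * e' ≠ e' * e) (α : MulAut E) (x : E) (hx : (x : Ω) ∈ Yc S A) :
    ((α x : E) : Ω) ∈ Yc S A := by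
  obtain ⟨x, hxE⟩ := x
  have hx' : x ∈ Yc S A := hx
  show ((α ⟨x, hxE⟩ : E) : Ω) ∈ Yc S A
  induction hx' using closure_induction with
  | mem y hy =>
    obtain ⟨b, hb, s, hs, rfl⟩ := hy
    obtain ⟨c, hc, e, he, rfl⟩ := exists_mul h hE.1.1 hEA hs
    have hbE := Zs_subset F h hE hEA hna hb
    have hz := comm_mem_Zc F hF h hE hEA hbE he
    have h1 := h.comm_decomp hb.1 hc hz
    have h2 : (⟨b * (c * e) * b⁻¹ * (c * e)⁻¹, hxE⟩ : E) =
        ⟨b, hbE⟩ * ⟨e, he⟩ * (⟨b, hbE⟩ : E)⁻¹ * (⟨e, he⟩ : E)⁻¹ := Subtype.ext h1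
    rw [h2]
    simp only [map_mul, map_inv]
    have := comm_mem_Yc F hF h hE hEA (α ⟨b, hbE⟩).2 (α ⟨e, he⟩).2
    exact this
  | one =>
    have : (⟨1, hxE⟩ : E) = 1 := rfl
    rw [this, map_one]
    exact (Yc S A).one_mem
  | mul y z hy hz ihy ihz =>
    have hyE := Zc_le_ess F hE (Yc_le_Zc hy)
    have hzE := Zc_le_ess F hE (Yc_le_Zc hz)
    have : (⟨y * z, hxE⟩ : E) = ⟨y, hyE⟩ * ⟨z, hzE⟩ := rfl
    rw [this, map_mul]
    exact (Yc S A).mul_mem (ihy hyE hy) (ihz hzE hz)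
  | inv y hy ihy =>
    have hyE := Zc_le_ess F hE (Yc_le_Zc hy)
    have : (⟨y⁻¹, hxE⟩ : E) = (⟨y, hyE⟩ : E)⁻¹ := rfl
    rw [this, map_inv]
    exact (Yc S A).inv_mem (ihy hyE hy)

/-- If `E` is a nonabelian essential subgroup, then `Yc` is nontrivial. -/
theorem Yc_ne_bot (hF : F.IsSaturated p) (h : Sit p S A) {E : Subgroup Ω} (hE : F.IsEssential p E)
    (hEA : ¬ E ≤ A) (hna : ∃ e ∈ E, ∃ e' ∈ E, e * e' ≠ e' * e) : Yc S A ≠ ⊥ := by
  intro hbot
  obtain ⟨e, he, e', he', hne⟩ := hna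
  have := comm_mem_Yc F hF h hE hEA he he'
  rw [hbot, mem_bot] at this
  apply hne
  have h2 : e * e' * e⁻¹ * e'⁻¹ * e' = e' := by rw [this]; group
  have h3 : e * e' * e⁻¹ = e' := by simpa using h2
  calc e * e' = e * e' * e⁻¹ * e := by group
    _ = e' * e := by rw [h3]

end Cfsg.Agent.Lib.H29.AbIndexC
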