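import Cfsg.Agent.Lib.H29.AbIndexC

/-!
# A `p`-group with a unique abelian subgroup of index `p`: the automorphisms
-/

set_option autoImplicit false

namespace Cfsg.Agent.Lib.H29.AbIndexD

open Subgroup
open Cfsg Cfsg.FusionSystem Cfsg.Agent.Lib.Fusion.Basic Cfsg.Agent.Lib.Fusion.Saturation
open Cfsg.Agent.Lib.Fusion.Saturation2
open Cfsg.Agent.Lib.FusionTheory.Chain Cfsg.Agent.Lib.FusionTheory.CoprimeAut
open Cfsg.Agent.Lib.Fusion.Alperin Cfsg.Agent.Lib.FusionTheory.Normal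
open Cfsg.Agent.Lib.FusionTheory.Essential
open Cfsg.Agent.Lib.Fusion.SmallEssential Cfsg.Agent.Lib.H29.AbIndexA Cfsg.Agent.Lib.H29.AbIndexB
open Cfsg.Agent.Lib.H29.AbIndexC

universe u

section abstract

variable {V : Type*} [Group V] {p : ℕ}

/-- The involution inverting `Y` and centralizing `V / Y` is unique, if `X` has no element of order `p`. -/
theorem uniq {X : Subgroup (MulAut V)} {Y : Subgroup V} (hK : ∀ τ ∈ X, τ ^ p = 1 → τ = 1)
    (hexp : ∀ w ∈ Y, w ^ p = 1) {ψ ψ' : MulAut V} (hψ : ψ ∈ X) (hψ' : ψ' ∈ X)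
    (h1 : ∀ w ∈ Y, ψ w = w⁻¹) (h2 : ∀ w ∈ Y, ψ' w = w⁻¹)
    (h3 : ∀ z, z⁻¹ * ψ z ∈ Y) (h4 : ∀ z, z⁻¹ * ψ' z ∈ Y) : ψ = ψ' := by
  have hinv : ∀ w ∈ Y, ψ⁻¹ w = w⁻¹ := by
    intro w hw
    apply ψ.injective
    have h5 : ψ (ψ⁻¹ w) = w := by simp
    rw [h5, h1 _ (Y.inv_mem hw), inv_inv]
  have hτY : ∀ w ∈ Y, (ψ⁻¹ * ψ') w = w := by
    intro w hw
    rw [MulAut.mul_apply, h2 w hw, hinv _ (Y.inv_mem hw), inv_inv]
  have hτz : ∀ z, z⁻¹ * (ψ⁻¹ * ψ') z ∈ Y := by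
    intro z
    rw [MulAut.mul_apply]
    have h5 : ψ' z = z * (z⁻¹ * ψ' z) := by group
    rw [h5, map_mul, hinv _ (h4 z)]
    have h6 := h3 (ψ⁻¹ z)
    have h7 : ψ (ψ⁻¹ z) = z := by simp
    rw [h7] at h6
    have h8 := Y.mul_mem (Y.inv_mem h6) (Y.inv_mem (h4 z))
    have h9 : ((ψ⁻¹ z)⁻¹ * z)⁻¹ * (z⁻¹ * ψ' z)⁻¹ = z⁻¹ * (ψ⁻¹ z * (z⁻¹ * ψ' z)⁻¹) := by group
    rwa [h9] at h8
  have hτ : (ψ⁻¹ * ψ') ^ p = 1 := by
    ext z
    have h5 := Cfsg.Agent.Lib.PGroups.Critical.pow_apply_of_fixed (ψ⁻¹ * ψ') (hτY _ (hτz z))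
      (by group : (ψ⁻¹ * ψ') z = z * (z⁻¹ * (ψ⁻¹ * ψ') z)) p
    rw [h5, hexp _ (hτz z), mul_one]
    rfl
  have h5 := hK _ (X.mul_mem (X.inv_mem hψ) hψ') hτ
  exact (inv_mul_eq_one.1 h5)

/-- An automorphism in `X` preserving `Y` preserves the fixed points of the unique involution. -/
theorem conj_fix {X : Subgroup (MulAut V)} {Y : Subgroup V} (hK : ∀ τ ∈ X, τ ^ p = 1 → τ = 1)
    (hexp : ∀ w ∈ Y, w ^ p = 1) {ψ : MulAut V} (hψ : ψ ∈ X) (h1 : ∀ w ∈ Y, ψ w = w⁻¹)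
    (h3 : ∀ z, z⁻¹ * ψ z ∈ Y) {γ : MulAut V} (hγ : γ ∈ X) (hγY : ∀ w ∈ Y, γ w ∈ Y)
    (hγY' : ∀ w ∈ Y, γ⁻¹ w ∈ Y) {d : V} (hd : ψ d = d) : ψ (γ d) = γ d := by
  have h5 : ψ = γ * ψ * γ⁻¹ := by
    refine uniq hK hexp hψ (X.mul_mem (X.mul_mem hγ hψ) (X.inv_mem hγ)) h1 ?_ h3 ?_
    · intro w hw
      show γ (ψ (γ⁻¹ w)) = w⁻¹
      rw [h1 _ (hγY' w hw), map_inv]
      simp
    · intro z
      have h6 := hγY _ (h3 (γ⁻¹ z))
      rw [map_mul, map_inv] at h6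
      have h7 : γ (γ⁻¹ z) = z := by simp
      rw [h7] at h6
      exact h6
  calc ψ (γ d) = (γ * ψ * γ⁻¹) (γ d) := by rw [← h5]
    _ = γ (ψ (γ⁻¹ (γ d))) := rfl
    _ = γ d := by
      have h7 : γ⁻¹ (γ d) = d := by simp
      rw [h7, hd]

end abstract

variable {Ω : Type u} [Group Ω] {S A : Subgroup Ω} {p : ℕ} [Finite S] [hp : Fact p.Prime]
variable (F : FusionSystem S)

section top

variable (huniq : ∀ B : Subgroup Ω, B ≤ S → (∀ a ∈ B, ∀ b ∈ B, a * b = b * a) → (B.subgroupOf S).index = p → B = A)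

include huniq in
omit [Finite S] hp in
/-- Automorphisms of `S` preserve `A`. -/
theorem top_aut_A (h : Sit p S A) (α : MulAut S) (a : S) (ha : (a : Ω) ∈ A) : ((α a : S) : Ω) ∈ A := by
  let B : Subgroup Ω := ((A.subgroupOf S).map α.toMonoidHom).map S.subtype
  have hBS : B ≤ S := by
    rintro _ ⟨x, -, rfl⟩
    exact x.2
  have hB : B.subgroupOf S = (A.subgroupOf S).map α.toMonoidHom := by
    ext x
    constructor
    · rintro ⟨y, hy, hyx⟩
      have : y = x := Subtype.ext hyx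
      rwa [← this]
    · intro hx
      exact ⟨x, hx, rfl⟩
  have hBA : B = A := by
    refine huniq B hBS ?_ ?_
    · rintro _ ⟨_, ⟨u, hu, rfl⟩, rfl⟩ _ ⟨_, ⟨v, hv, rfl⟩, rfl⟩
      have huv : u * v = v * u := Subtype.ext (h.comm _ hu _ hv)
      have h2 : α u * α v = α v * α u := by rw [← map_mul, ← map_mul, huv]
      exact congrArg Subtype.val h2
    · rw [hB]
      have := Subgroup.index_map_of_bijective (f := α.toMonoidHom) α.bijective (A.subgroupOf S)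
      rw [this, h.index]
  rw [← hBA]
  exact ⟨α a, ⟨a, ha, rfl⟩, rfl⟩

omit [Finite S] hp in
theorem top_aut_Zc (α : MulAut S) (z : S) (hz : (z : Ω) ∈ Zc S) : ((α z : S) : Ω) ∈ Zc S := by
  refine mem_Zc.2 ⟨(α z).2, fun s hs => ?_⟩
  have h1 : (⟨s, hs⟩ : S) = α (α⁻¹ ⟨s, hs⟩) := by simp
  have h2 : (α⁻¹ ⟨s, hs⟩ : S) * z = z * α⁻¹ ⟨s, hs⟩ := by
    apply Subtype.ext
    exact (mem_Zc.1 hz).2 _ (α⁻¹ ⟨s, hs⟩).2
  have h3 : (⟨s, hs⟩ : S) * α z = α z * ⟨s, hs⟩ := by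
    rw [h1, ← map_mul, ← map_mul, h2]
  exact congrArg Subtype.val h3

include huniq in
omit [Finite S] hp in
/-- Automorphisms of `S` preserve `Yc`. -/
theorem top_aut_Yc (h : Sit p S A) (α : MulAut S) (x : S) (hx : (x : Ω) ∈ Yc S A) : ((α x : S) : Ω) ∈ Yc S A := by
  obtain ⟨x, hxS⟩ := x
  have hx' : x ∈ Yc S A := hx
  show ((α ⟨x, hxS⟩ : S) : Ω) ∈ Yc S A
  induction hx' using closure_induction with
  | mem y hy =>
    obtain ⟨b, hb, s, hs, rfl⟩ := hy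
    have hbS := h.AS hb.1
    have h2 : (⟨b * s * b⁻¹ * s⁻¹, hxS⟩ : S) =
        ⟨b, hbS⟩ * ⟨s, hs⟩ * (⟨b, hbS⟩ : S)⁻¹ * (⟨s, hs⟩ : S)⁻¹ := rfl
    rw [h2]
    simp only [map_mul, map_inv]
    have hb' : ((α ⟨b, hbS⟩ : S) : Ω) ∈ Zs S A := by
      refine ⟨top_aut_A huniq h α _ hb.1, fun t ht => ?_⟩
      have h3 := top_aut_Zc α (⟨b, hbS⟩ * α⁻¹ ⟨t, ht⟩ * (⟨b, hbS⟩ : S)⁻¹ * (α⁻¹ ⟨t, ht⟩)⁻¹)
        (hb.2 _ (α⁻¹ ⟨t, ht⟩).2)
      simp only [map_mul, map_inv] at h3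
      have h4 : α (α⁻¹ ⟨t, ht⟩) = ⟨t, ht⟩ := by simp
      rw [h4] at h3
      exact h3
    exact mem_Yc hb' (α ⟨s, hs⟩).2
  | one =>
    have : (⟨1, hxS⟩ : S) = 1 := rfl
    rw [this, map_one]
    exact (Yc S A).one_mem
  | mul y z hy hz ihy ihz =>
    have hyS := (Yc_le_Zc hy).1
    have hzS := (Yc_le_Zc hz).1
    have : (⟨y * z, hxS⟩ : S) = ⟨y, hyS⟩ * ⟨z, hzS⟩ := rfl
    rw [this, map_mul]
    exact (Yc S A).mul_mem (ihy hyS hy) (ihz hzS hz)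
  | inv y hy ihy =>
    have hyS := (Yc_le_Zc hy).1
    have : (⟨y⁻¹, hxS⟩ : S) = (⟨y, hyS⟩ : S)⁻¹ := rfl
    rw [this, map_inv]
    exact (Yc S A).inv_mem (ihy hyS hy)

end top

section K

omit [Fact p.Prime] in
theorem normalizerIn_Zc : normalizerIn S (Zc S) = S := by
  refine le_antisymm inf_le_left (fun s hs => ⟨hs, mem_normalizer_iff.2 ?_⟩)
  intro z
  constructor
  · intro hz
    have h1 := Zc_conj hz hs
    rwa [h1]
  · intro hz
    have h1 := Zc_conj hz (S.inv_mem hs)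
    have h2 : s⁻¹ * (s * z * s⁻¹) * s⁻¹⁻¹ = z := by group
    rw [h2] at h1
    rwa [h1]

omit [Fact p.Prime] in
theorem isFullyNormalized_Zc : F.IsFullyNormalized (Zc S) := by
  refine ⟨inf_le_left, fun Q _ => ?_⟩
  rw [normalizerIn_Zc]
  exact card_le_of_le_finite inf_le_left

/-- `Aut_F(Z(S))` has no elements of order `p`. -/
theorem Zc_aut_trivial (hF : F.IsSaturated p) (hS : IsPGroup p S) {τ : MulAut (Zc S)} (hτ : τ ∈ F.autGroup (Zc S))
    (hτp : τ ^ p = 1) : τ = 1 := by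
  have hA := isFullyAutomized_of_isFullyNormalized F hS hF (isFullyNormalized_Zc F)
  have hfZ : Finite (Zc S) := finite_of_le inf_le_left
  have hfA : Finite (MulAut (Zc S)) := finite_mulAut
  have hR : IsPGroup p (zpowers τ) := by
    rw [IsPGroup.iff_card]
    rcases (Nat.dvd_prime hp.out).1 (orderOf_dvd_of_pow_eq_one hτp) with h1 | h1
    · exact ⟨0, by rw [Nat.card_zpowers, h1, pow_zero]⟩
    · exact ⟨1, by rw [Nat.card_zpowers, h1, pow_one]⟩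
  have hle : zpowers τ ≤ F.autGroup (Zc S) := by
    rw [zpowers_le]
    exact hτ
  obtain ⟨χ, -, hχ⟩ := IsFullyAutomized.exists_conj F hA hR hle
  have h1 := hχ τ (mem_zpowers τ)
  obtain ⟨g, hg, hgx⟩ := (mem_autInducedBy_iff S (Zc S) _).1 h1
  have h2 : χ * τ * χ⁻¹ = 1 := by
    ext z
    rw [hgx z, Zc_conj z.2 hg]
    rfl
  have h3 : χ * τ = χ := by
    have := congrArg (· * χ) h2
    simpa using this
  exact mul_eq_left.1 h3

end K

/-- Restricting to `Z(S)`. -/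
theorem exists_res {P : Subgroup Ω} (hZP : Zc S ≤ P) (hPS : P ≤ S) {α : MulAut P} (hα : α ∈ F.autGroup P)
    (hz : ∀ x : P, (x : Ω) ∈ Zc S → ((α x : P) : Ω) ∈ Zc S) :
    ∃ ψ ∈ F.autGroup (Zc S), ∀ z : Zc S, ((ψ z : Zc S) : Ω) = ((α ⟨z, hZP z.2⟩ : P) : Ω) := by
  have hφ := restrict_mem F hZP (autHom_mem F hPS hα)
  have hfZ : Finite (Zc S) := finite_of_le inf_le_left
  have hr : ((autHom α).comp (Subgroup.inclusion hZP)).range = Zc S := by
    apply Subgroup.eq_of_le_of_card_ge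
    · rintro _ ⟨z, rfl⟩
      exact hz _ z.2
    · rw [card_range F hφ]
  obtain ⟨ψ, hψ, hψx⟩ := exists_aut_of_range F hφ hr
  exact ⟨ψ, hψ, fun z => hψx z⟩

section abelian

variable {E : Subgroup Ω}

/-- In the abelian case, `E ∩ A ≤ Z(S)`. -/
theorem inf_le_Zc (h : Sit p S A) (hES : E ≤ S) (hEA : ¬ E ≤ A) (hab : ∀ a ∈ E, ∀ b ∈ E, a * b = b * a)
    {a : Ω} (haE : a ∈ E) (haA : a ∈ A) : a ∈ Zc S := by
  obtain ⟨x, hxE, hxA⟩ := SetLike.not_le_iff_exists.1 hEA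
  exact h.mem_Zc_of_comm haA (hES hxE) hxA (hab a haE x hxE)

/-- The index of `Z(S)` in `E`. -/
theorem index_Zc (h : Sit p S A) (hE : F.IsEssential p E) (hEA : ¬ E ≤ A) (hab : ∀ a ∈ E, ∀ b ∈ E, a * b = b * a) :
    ((Zc S).subgroupOf E).index = p := by
  haveI := h.normal
  have hES := hE.1.1
  let f : E →* S ⧸ A.subgroupOf S := (QuotientGroup.mk' (A.subgroupOf S)).comp (Subgroup.inclusion hES)
  have hker : f.ker = (Zc S).subgroupOf E := by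
    ext x
    rw [MonoidHom.mem_ker, mem_subgroupOf]
    constructor
    · intro hx
      have h1 : (Subgroup.inclusion hES x) ∈ A.subgroupOf S := (QuotientGroup.eq_one_iff _).1 hx
      exact inf_le_Zc h hES hEA hab x.2 h1
    · intro hx
      exact (QuotientGroup.eq_one_iff (N := A.subgroupOf S) _).2 (h.Zc_le hx)
  have hsurj : Function.Surjective f := by
    intro q
    obtain ⟨⟨s, hs⟩, rfl⟩ := QuotientGroup.mk_surjective q
    obtain ⟨c, hc, e, he, rfl⟩ := exists_mul h hES hEA hs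
    refine ⟨⟨e, he⟩, ?_⟩
    show ((⟨e, hES he⟩ : S) : S ⧸ A.subgroupOf S) = ((⟨c * e, hs⟩ : S) : S ⧸ A.subgroupOf S)
    rw [QuotientGroup.eq]
    show (⟨e, hES he⟩ : S)⁻¹ * ⟨c * e, hs⟩ ∈ A.subgroupOf S
    rw [mem_subgroupOf]
    show e⁻¹ * (c * e) ∈ A
    have h1 := h.conj_mem (S.inv_mem (hES he)) hc
    have h2 : e⁻¹ * c * e⁻¹⁻¹ = e⁻¹ * (c * e) := by group
    rwa [h2] at h1
  rw [← hker, Subgroup.index_ker, MonoidHom.range_eq_top.2 hsurj, Nat.card_congr Subgroup.topEquiv.toEquiv]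
  exact h.card_quot

/-- The automizer of an abelian essential subgroup. -/
theorem ctx (hF : F.IsSaturated p) (h : Sit p S A) (hE : F.IsEssential p E) (hEA : ¬ E ≤ A)
    (hab : ∀ a ∈ E, ∀ b ∈ E, a * b = b * a) (hodd : p ≠ 2) :
    letI : CommGroup E := { (inferInstance : Group E) with mul_comm := fun a b => Subtype.ext (hab _ a.2 _ b.2) }
    Ctx p (F.autGroup E) (autInducedBy S E) ((Zc S).subgroupOf E) := by
  letI : CommGroup E := { (inferInstance : Group E) with mul_comm := fun a b => Subtype.ext (hab _ a.2 _ b.2) }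
  have hES := hE.1.1
  have hfE : Finite E := finite_of_le hES
  have hEp : IsPGroup p E := h.hS.to_le hES
  have hA := isFullyAutomized_of_isFullyNormalized F h.hS hF hE.2.1
  refine
    { hV := hEp
      hodd := hodd
      TX := autInducedBy_le_autGroup F hES
      syl := fun R hR hRp => IsFullyAutomized.exists_conj F hA hRp hR
      index := index_Zc F h hE hEA hab
      fixZ := ?_
      comm := ?_
      core := ?_
      ne := ?_ }
  · intro t ht z hz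
    obtain ⟨g, hg, hgx⟩ := (mem_autInducedBy_iff S E t).1 ht
    apply Subtype.ext
    rw [hgx z]
    exact Zc_conj hz hg
  · intro t ht v
    obtain ⟨g, hg, hgx⟩ := (mem_autInducedBy_iff S E t).1 ht
    rw [mem_subgroupOf]
    refine inf_le_Zc h hES hEA hab (v⁻¹ * t v).2 ?_
    show ((v⁻¹ * t v : E) : Ω) ∈ A
    rw [Subgroup.coe_mul, hgx v, Subgroup.coe_inv]
    have h2 := h.comm_mem (hES (E.inv_mem v.2)) hg
    have h3 : (v : Ω)⁻¹ * (g * v * g⁻¹) = (v : Ω)⁻¹ * g * (v : Ω)⁻¹⁻¹ * g⁻¹ := by group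
    rw [h3]
    exact h2
  · intro R hR hRn hRp
    have h1 := (essAut_of_isEssential h.hS F hE).normal_le R hR hRn hRp
    rw [eq_bot_iff]
    intro r hr
    obtain ⟨v, hv⟩ := h1 hr
    rw [mem_bot, ← hv]
    ext x
    show ((v * x * v⁻¹ : E) : Ω) = x
    rw [mul_comm v x, mul_inv_cancel_right]
  · have hlt := IsEssential.lt F h.hS hF hE
    have hN := lt_normalizerIn h.hS hlt
    obtain ⟨-, s, hs, hsE⟩ := SetLike.lt_iff_le_and_exists.1 hN
    refine ⟨normAct E hs.2, normAct_mem_autInducedBy S E hs.2 hs.1, fun h1 => hsE ?_⟩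
    apply hE.1.2 E (isConj_refl F hES)
    refine ⟨hs.1, mem_centralizer_iff.2 (fun e he => ?_)⟩
    have h2 := normAct_apply E hs.2 ⟨e, he⟩
    rw [h1] at h2
    have h3 : e = s * e * s⁻¹ := h2
    calc e * s = (s * e * s⁻¹) * s := by rw [← h3]
      _ = s * e := by group

end abelian

end Cfsg.Agent.Lib.H29.AbIndexD
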