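import Cfsg.Agent.Lib.H29.AbIndexD

/-!
# A `p`-group with a unique abelian subgroup of index `p`: abelian essential subgroups
-/

set_option autoImplicit false

namespace Cfsg.Agent.Lib.H29.AbIndexE

open Subgroup
open Cfsg Cfsg.FusionSystem Cfsg.Agent.Lib.Fusion.Basic Cfsg.Agent.Lib.Fusion.Saturation
open Cfsg.Agent.Lib.Fusion.Saturation2
open Cfsg.Agent.Lib.FusionTheory.Chain Cfsg.Agent.Lib.FusionTheory.CoprimeAut
open Cfsg.Agent.Lib.Fusion.Alperin Cfsg.Agent.Lib.FusionTheory.Normal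
open Cfsg.Agent.Lib.FusionTheory.Essential
open Cfsg.Agent.Lib.Fusion.SmallEssential Cfsg.Agent.Lib.H29.AbIndexA Cfsg.Agent.Lib.H29.AbIndexB
open Cfsg.Agent.Lib.H29.AbIndexC Cfsg.Agent.Lib.H29.AbIndexD

universe u

variable {Ω : Type u} [Group Ω] {S A : Subgroup Ω} {p : ℕ} [Finite S] [hp : Fact p.Prime]
variable (F : FusionSystem S) {E : Subgroup Ω}

/-- The structure theorem for an abelian essential subgroup. -/
theorem abelian_data (hF : F.IsSaturated p) (h : Sit p S A) (hE : F.IsEssential p E) (hEA : ¬ E ≤ A)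
    (hab : ∀ a ∈ E, ∀ b ∈ E, a * b = b * a) (hodd : p ≠ 2) :
    ∃ y : E, (y : Ω) ∈ Zc S ∧ y ≠ 1 ∧ y ^ p = 1 ∧
      (∀ t ∈ autInducedBy S E, ∀ v : E, v⁻¹ * t v ∈ zpowers y) ∧
      (∃ t ∈ autInducedBy S E, ∃ v : E, v⁻¹ * t v = y) ∧
      (∃ k ∈ F.autGroup E, ∃ z : E, (z : Ω) ∈ Zc S ∧ ((k z : E) : Ω) ∉ Zc S) ∧
      ∀ k ∈ F.autGroup E, ∀ z₀ : E, (z₀ : Ω) ∈ Zc S → ((k z₀ : E) : Ω) ∉ Zc S →
        (∀ z : E, (z : Ω) ∈ Zc S → ∃ i : ℕ, ((k⁻¹ ((y ^ i)⁻¹ * z) : E) : Ω) ∈ Zc S) ∧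
        ∃ η ∈ F.autGroup E, η y = y⁻¹ ∧ ∀ d : E, (d : Ω) ∈ Zc S → ((k⁻¹ d : E) : Ω) ∈ Zc S → η d = d := by
  have hfE : Finite E := finite_of_le hE.1.1
  letI : CommGroup E := { (inferInstance : Group E) with mul_comm := fun a b => Subtype.ext (hab _ a.2 _ b.2) }
  have c := ctx F hF h hE hEA hab hodd
  obtain ⟨y, hyZ, hy1, hyp, ht, ht2, hk⟩ := c.exists_data
  obtain ⟨k, hkX, z, hz, hkz⟩ := c.exists_move
  refine ⟨y, hyZ, hy1, hyp, ht, ht2, ⟨k, hkX, z, hz, hkz⟩, fun k hk' z₀ hz₀ hkz₀ => ?_⟩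
  obtain ⟨-, hi, η, hηX, hη1, hη2⟩ := hk k hk' z₀ hz₀ hkz₀
  exact ⟨hi, η, hηX, hη1, hη2⟩

/-- Elements of `Zs` normalize any subgroup containing `Z(S)`. -/
theorem Zs_norm (h : Sit p S A) (hES : E ≤ S) (hZE : Zc S ≤ E) {b : Ω} (hb : b ∈ Zs S A) :
    b ∈ normalizer (E : Set Ω) := by
  have hbS := h.AS hb.1
  refine mem_normalizer_iff.2 (fun e => ?_)
  have h1 := hb.2
  constructor
  · intro he
    have h2 := hZE (h1 e (hES he))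
    have h3 := E.mul_mem h2 he
    have h4 : b * e * b⁻¹ * e⁻¹ * e = b * e * b⁻¹ := by group
    rwa [h4] at h3
  · intro he
    have heS : e ∈ S := by
      have h5 := S.mul_mem (S.mul_mem (S.inv_mem hbS) (hES he)) hbS
      have h6 : b⁻¹ * (b * e * b⁻¹) * b = e := by group
      rwa [h6] at h5
    have h2 := hZE (h1 e heS)
    have h3 := E.mul_mem (E.inv_mem h2) he
    have h4 : (b * e * b⁻¹ * e⁻¹)⁻¹ * (b * e * b⁻¹) = e := by group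
    rwa [h4] at h3

/-- In the abelian case, `Yc` is generated by `y`. -/
theorem Yc_eq_zpowers (h : Sit p S A) (hE : F.IsEssential p E) (hEA : ¬ E ≤ A)
    (hab : ∀ a ∈ E, ∀ b ∈ E, a * b = b * a) {y : E}
    (hy1 : ∀ t ∈ autInducedBy S E, ∀ v : E, v⁻¹ * t v ∈ zpowers y)
    (hy2 : ∃ t ∈ autInducedBy S E, ∃ v : E, v⁻¹ * t v = y) : Yc S A = zpowers (y : Ω) := by
  have hES := hE.1.1
  have hZE := Zc_le_ess F hE
  apply le_antisymm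
  · rw [Yc, closure_le]
    rintro _ ⟨b, hb, s, hs, rfl⟩
    obtain ⟨c, hc, e, he, rfl⟩ := exists_mul h hES hEA hs
    have hz := hb.2 e (hES he)
    show b * (c * e) * b⁻¹ * (c * e)⁻¹ ∈ zpowers (y : Ω)
    rw [h.comm_decomp hb.1 hc hz]
    have hn := Zs_norm h hES hZE hb
    have h1 := hy1 _ (normAct_mem_autInducedBy S E hn (h.AS hb.1)) ⟨e, he⟩
    obtain ⟨n, hn'⟩ := mem_zpowers_iff.1 h1
    have h2 := congrArg Subtype.val hn'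
    rw [Subgroup.coe_zpow, Subgroup.coe_mul, normAct_apply, Subgroup.coe_inv] at h2
    rw [mem_zpowers_iff]
    refine ⟨n, ?_⟩
    rw [h2]
    have h3 := (mem_normalizer_iff.1 hn e).1 he
    have h4 := hab _ (E.inv_mem he) _ h3
    show e⁻¹ * (b * e * b⁻¹) = _
    rw [h4]
  · rw [zpowers_le]
    obtain ⟨t, ht, v, hv⟩ := hy2
    obtain ⟨g, hg, hgx⟩ := (mem_autInducedBy_iff S E t).1 ht
    have hgn := mem_normalizer_of_conj E t g hgx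
    obtain ⟨c, hc, e, he, hce⟩ := exists_mul h hES hEA hg
    have hcn : c ∈ normalizer (E : Set Ω) := by
      have : c = g * e⁻¹ := by rw [hce]; group
      rw [this]
      exact mul_mem hgn (inv_mem (le_normalizer he))
    have hcZs : c ∈ Zs S A := by
      refine ⟨hc, fun s hs => ?_⟩
      obtain ⟨c', hc', e', he', rfl⟩ := exists_mul h hES hEA hs
      have hz : c * e' * c⁻¹ * e'⁻¹ ∈ Zc S := by
        refine inf_le_Zc h hES hEA hab ?_ (h.comm_mem (h.AS hc) (hES he'))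
        exact E.mul_mem ((mem_normalizer_iff.1 hcn e').1 he') (E.inv_mem he')
      rw [h.comm_decomp hc hc' hz]
      exact hz
    have h1 := congrArg Subtype.val hv
    rw [Subgroup.coe_mul, hgx v, Subgroup.coe_inv, hce] at h1
    have h2 := hab e he v v.2
    have h3 : (v : Ω)⁻¹ * (c * e * v * (c * e)⁻¹) = (c * (v : Ω)⁻¹ * c⁻¹ * ((v : Ω)⁻¹)⁻¹)⁻¹ := by
      calc (v : Ω)⁻¹ * (c * e * v * (c * e)⁻¹) = (v : Ω)⁻¹ * (c * (e * v) * e⁻¹ * c⁻¹) := by group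
        _ = (v : Ω)⁻¹ * (c * (v * e) * e⁻¹ * c⁻¹) := by rw [h2]
        _ = _ := by group
    rw [h3] at h1
    rw [← h1]
    exact (Yc S A).inv_mem (mem_Yc hcZs (S.inv_mem (hES v.2)))

/-- The fixed points of an automorphism of `Z(S)`, as a subgroup of the ambient group. -/
def Dc (ψ : MulAut (Zc S)) : Subgroup Ω where
  carrier := {d | ∃ hd : d ∈ Zc S, ψ ⟨d, hd⟩ = ⟨d, hd⟩}
  mul_mem' := by
    rintro a b ⟨ha, ha'⟩ ⟨hb, hb'⟩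
    refine ⟨mul_mem ha hb, ?_⟩
    have : (⟨a * b, mul_mem ha hb⟩ : Zc S) = ⟨a, ha⟩ * ⟨b, hb⟩ := rfl
    rw [this, map_mul, ha', hb']
  one_mem' := ⟨one_mem _, by
    have : (⟨1, one_mem _⟩ : Zc S) = 1 := rfl
    rw [this, map_one]⟩
  inv_mem' := by
    rintro a ⟨ha, ha'⟩
    refine ⟨inv_mem ha, ?_⟩
    have : (⟨a⁻¹, inv_mem ha⟩ : Zc S) = (⟨a, ha⟩ : Zc S)⁻¹ := rfl
    rw [this, map_inv, ha']

omit [Finite S] hp in
theorem mem_Dc {ψ : MulAut (Zc S)} {d : Ω} : d ∈ Dc ψ ↔ ∃ hd : d ∈ Zc S, ψ ⟨d, hd⟩ = ⟨d, hd⟩ := Iff.rfl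

omit [Finite S] hp in
theorem Dc_le (ψ : MulAut (Zc S)) : Dc ψ ≤ Zc S := fun _ hd => hd.1

/-- From the data of an abelian essential subgroup, the inverting automorphism of `Z(S)`. -/
theorem exists_psi (hE : F.IsEssential p E) {y : E} (hyZ : (y : Ω) ∈ Zc S)
    (hYc : Yc S A = zpowers (y : Ω)) {k η : MulAut E} (hηX : η ∈ F.autGroup E)
    (h1 : ∀ z : E, (z : Ω) ∈ Zc S → ∃ i : ℕ, ((k⁻¹ ((y ^ i)⁻¹ * z) : E) : Ω) ∈ Zc S)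
    (hη1 : η y = y⁻¹) (hη2 : ∀ d : E, (d : Ω) ∈ Zc S → ((k⁻¹ d : E) : Ω) ∈ Zc S → η d = d) :
    ∃ ψ ∈ F.autGroup (Zc S), (∀ w : Zc S, (w : Ω) ∈ Yc S A → ψ w = w⁻¹) ∧
      (∀ z : Zc S, z⁻¹ * ψ z ∈ (Yc S A).subgroupOf (Zc S)) ∧
      (∀ d : E, ∀ hd : (d : Ω) ∈ Zc S, ((k⁻¹ d : E) : Ω) ∈ Zc S → ψ ⟨d, hd⟩ = ⟨d, hd⟩) := by
  have hES := hE.1.1
  have hZE := Zc_le_ess F hE
  have hηy : ∀ n : ℕ, η (y ^ n) = (y ^ n)⁻¹ := by
    intro n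
    rw [map_pow, hη1, inv_pow]
  have hdec : ∀ z : E, (z : Ω) ∈ Zc S → ∃ i : ℕ, (((y ^ i)⁻¹ * z : E) : Ω) ∈ Zc S ∧
      η z = (y ^ i)⁻¹ * ((y ^ i)⁻¹ * z) := by
    intro z hz
    obtain ⟨i, hi⟩ := h1 z hz
    have hd : (((y ^ i)⁻¹ * z : E) : Ω) ∈ Zc S := by
      rw [Subgroup.coe_mul, Subgroup.coe_inv, Subgroup.coe_pow]
      exact mul_mem (inv_mem (pow_mem hyZ i)) hz
    refine ⟨i, hd, ?_⟩
    have h2 := hη2 _ hd hi
    have h3 : z = y ^ i * ((y ^ i)⁻¹ * z) := by group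
    conv_lhs => rw [h3]
    rw [map_mul, hηy, h2]
  have hres : ∀ x : E, (x : Ω) ∈ Zc S → ((η x : E) : Ω) ∈ Zc S := by
    intro z hz
    obtain ⟨i, hd, hi⟩ := hdec z hz
    rw [hi, Subgroup.coe_mul, Subgroup.coe_inv, Subgroup.coe_pow]
    exact mul_mem (inv_mem (pow_mem hyZ i)) hd
  obtain ⟨ψ, hψ, hψx⟩ := exists_res F hZE hES hηX hres
  refine ⟨ψ, hψ, ?_, ?_, ?_⟩
  · intro w hw
    rw [hYc] at hw
    obtain ⟨n, hn⟩ := mem_zpowers_iff.1 hw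
    apply Subtype.ext
    rw [hψx w]
    have h2 : (⟨w, hZE w.2⟩ : E) = y ^ n := by
      apply Subtype.ext
      rw [Subgroup.coe_zpow]
      exact hn.symm
    rw [h2, map_zpow, hη1, inv_zpow, Subgroup.coe_inv, Subgroup.coe_zpow]
    rw [Subgroup.coe_inv, hn]
  · intro z
    rw [mem_subgroupOf, Subgroup.coe_mul, Subgroup.coe_inv, hψx z]
    obtain ⟨i, hd, hi⟩ := hdec ⟨z, hZE z.2⟩ z.2
    rw [hi]
    simp only [Subgroup.coe_mul, Subgroup.coe_inv, Subgroup.coe_pow]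
    have hW : ((y : Ω) ^ i)⁻¹ ∈ Yc S A := by
      rw [hYc]
      exact inv_mem (pow_mem (mem_zpowers _) i)
    have h4 := Zc_conj (Yc_le_Zc hW) (hES (hZE z.2))
    have h5 : ((z : Ω))⁻¹ * (((y : Ω) ^ i)⁻¹ * (((y : Ω) ^ i)⁻¹ * z))
        = (z : Ω)⁻¹ * (((y : Ω) ^ i)⁻¹ * ((y : Ω) ^ i)⁻¹ * z) := by group
    rw [h5]
    have h6 := Zc_conj (Yc_le_Zc (mul_mem hW hW)) (S.inv_mem (hES (hZE z.2)))
    have h7 : (z : Ω)⁻¹ * (((y : Ω) ^ i)⁻¹ * ((y : Ω) ^ i)⁻¹) * ((z : Ω)⁻¹)⁻¹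
        = (z : Ω)⁻¹ * (((y : Ω) ^ i)⁻¹ * ((y : Ω) ^ i)⁻¹ * z) := by group
    rw [← h7, h6]
    exact mul_mem hW hW
  · intro d hd hkd
    apply Subtype.ext
    rw [hψx]
    have := hη2 d hd hkd
    rw [show (⟨((⟨d, hd⟩ : Zc S) : Ω), hZE (show ((⟨d, hd⟩ : Zc S) : Ω) ∈ Zc S from hd)⟩ : E) = d from rfl, this]


section invariance

variable {ψ₀ : MulAut (Zc S)}

/-- The invariance of the fixed points under a group of automorphisms of `P ≥ Z(S)` preserving `Z(S)` and `Y`. -/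
theorem res_inv (hK : ∀ τ ∈ F.autGroup (Zc S), τ ^ p = 1 → τ = 1)
    (hexp : ∀ w ∈ (Yc S A).subgroupOf (Zc S), w ^ p = 1) (hψ₀ : ψ₀ ∈ F.autGroup (Zc S))
    (hψ₁ : ∀ w : Zc S, (w : Ω) ∈ Yc S A → ψ₀ w = w⁻¹)
    (hψ₃ : ∀ z : Zc S, z⁻¹ * ψ₀ z ∈ (Yc S A).subgroupOf (Zc S))
    {P : Subgroup Ω} (hZP : Zc S ≤ P) (hPS : P ≤ S) {α : MulAut P} (hα : α ∈ F.autGroup P)
    (hz : ∀ β ∈ F.autGroup P, ∀ x : P, (x : Ω) ∈ Zc S → ((β x : P) : Ω) ∈ Zc S)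
    (hY : ∀ β ∈ F.autGroup P, ∀ x : P, (x : Ω) ∈ Yc S A → ((β x : P) : Ω) ∈ Yc S A)
    (x : P) (hx : (x : Ω) ∈ Dc ψ₀) : ((α x : P) : Ω) ∈ Dc ψ₀ := by
  obtain ⟨hxZ, hxψ⟩ := hx
  obtain ⟨γ, hγ, hγx⟩ := exists_res F hZP hPS hα (hz α hα)
  obtain ⟨γ', hγ', hγ'x⟩ := exists_res F hZP hPS (inv_mem hα) (hz _ (inv_mem hα))
  have hγγ' : γ⁻¹ = γ' := by
    rw [inv_eq_iff_mul_eq_one]
    ext z
    rw [MulAut.mul_apply, hγx]
    have hw : (⟨((γ' z : Zc S) : Ω), hZP (γ' z).2⟩ : P) = α⁻¹ ⟨z, hZP z.2⟩ := Subtype.ext (hγ'x z)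
    rw [hw]
    simp
  have hfix := conj_fix hK hexp hψ₀ (fun w hw => hψ₁ ⟨w, w.2⟩ hw) hψ₃ hγ
    (fun w hw => by
      show ((γ w : Zc S) : Ω) ∈ Yc S A
      rw [hγx]
      exact hY α hα _ hw)
    (fun w hw => by
      rw [hγγ']
      show ((γ' w : Zc S) : Ω) ∈ Yc S A
      rw [hγ'x]
      exact hY _ (inv_mem hα) _ hw)
    hxψ
  have h1 : ((γ ⟨x, hxZ⟩ : Zc S) : Ω) = ((α x : P) : Ω) := hγx ⟨x, hxZ⟩
  refine ⟨h1 ▸ (γ ⟨x, hxZ⟩).2, ?_⟩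
  have h2 : (⟨((α x : P) : Ω), h1 ▸ (γ ⟨x, hxZ⟩).2⟩ : Zc S) = γ ⟨x, hxZ⟩ := Subtype.ext h1.symm
  rw [h2]
  exact hfix

/-- The invariance of the fixed points under `Aut_F(E)`, for `E` abelian essential. -/
theorem ab_inv (hF : F.IsSaturated p) (h : Sit p S A) (hE : F.IsEssential p E) (hEA : ¬ E ≤ A)
    (hab : ∀ a ∈ E, ∀ b ∈ E, a * b = b * a) (hodd : p ≠ 2)
    (hK : ∀ τ ∈ F.autGroup (Zc S), τ ^ p = 1 → τ = 1)
    (hexp : ∀ w ∈ (Yc S A).subgroupOf (Zc S), w ^ p = 1) (hψ₀ : ψ₀ ∈ F.autGroup (Zc S))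
    (hψ₁ : ∀ w : Zc S, (w : Ω) ∈ Yc S A → ψ₀ w = w⁻¹)
    (hψ₃ : ∀ z : Zc S, z⁻¹ * ψ₀ z ∈ (Yc S A).subgroupOf (Zc S))
    {α : MulAut E} (hα : α ∈ F.autGroup E) (x : E) (hx : (x : Ω) ∈ Dc ψ₀) : ((α x : E) : Ω) ∈ Dc ψ₀ := by
  have hES := hE.1.1
  have hZE := Zc_le_ess F hE
  have hfE : Finite E := finite_of_le hES
  have hfZ : Finite (Zc S) := finite_of_le inf_le_left
  obtain ⟨y, hyZ, hy1, hyp, ht, ht2, ⟨k₁, hk₁, z₁, hz₁, hk₁z⟩, hk⟩ := abelian_data F hF h hE hEA hab hodd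
  have hYc := Yc_eq_zpowers F h hE hEA hab ht ht2
  -- the two properties for a moving `k`
  have hmove : ∀ k ∈ F.autGroup E, ∀ z₀ : E, (z₀ : Ω) ∈ Zc S → ((k z₀ : E) : Ω) ∉ Zc S →
      (∀ d : E, (d : Ω) ∈ Zc S → ((k⁻¹ d : E) : Ω) ∈ Zc S → (d : Ω) ∈ Dc ψ₀) ∧
      (∀ d : E, (d : Ω) ∈ Dc ψ₀ → ((k⁻¹ d : E) : Ω) ∈ Zc S) := by
    intro k hkX z₀ hz₀ hkz₀
    obtain ⟨h1, η, hηX, hη1, hη2⟩ := hk k hkX z₀ hz₀ hkz₀
    obtain ⟨ψ, hψ, hψ1, hψ3, hψ4⟩ := exists_psi F hE hyZ hYc hηX h1 hη1 hη2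
    have heq : ψ = ψ₀ := uniq hK hexp hψ hψ₀ (fun w hw => hψ1 ⟨w, w.2⟩ hw)
      (fun w hw => hψ₁ ⟨w, w.2⟩ hw) hψ3 hψ₃
    subst heq
    refine ⟨fun d hd hkd => ⟨hd, hψ4 d hd hkd⟩, fun d hd => ?_⟩
    obtain ⟨hdZ, hdψ⟩ := hd
    obtain ⟨i, hi⟩ := h1 d hdZ
    have hd' : (((y ^ i)⁻¹ * d : E) : Ω) ∈ Zc S := by
      rw [Subgroup.coe_mul, Subgroup.coe_inv, Subgroup.coe_pow]
      exact mul_mem (inv_mem (pow_mem hyZ i)) hdZ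
    have h2 := hψ4 _ hd' hi
    -- `ψ` on `y^i`
    have hyi : ((y : Ω) ^ i) ∈ Yc S A := by
      rw [hYc]
      exact pow_mem (mem_zpowers _) i
    have h3 := hψ1 ⟨(y : Ω) ^ i, Yc_le_Zc hyi⟩ hyi
    have h4 : (⟨d, hdZ⟩ : Zc S) = ⟨(y : Ω) ^ i, Yc_le_Zc hyi⟩ * ⟨((y ^ i)⁻¹ * d : E), hd'⟩ := by
      apply Subtype.ext
      show (d : Ω) = (y : Ω) ^ i * (((y ^ i)⁻¹ * d : E) : Ω)
      rw [Subgroup.coe_mul, Subgroup.coe_inv, Subgroup.coe_pow]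
      group
    rw [h4, map_mul, h3, h2] at hdψ
    -- cancel to get `y^(2i) = 1`
    have h5 : ((y : Ω) ^ i)⁻¹ = (y : Ω) ^ i := by
      have h6 : ((y : Ω) ^ i)⁻¹ * (((y ^ i)⁻¹ * d : E) : Ω) = (y : Ω) ^ i * (((y ^ i)⁻¹ * d : E) : Ω) :=
        congrArg Subtype.val hdψ
      exact mul_right_cancel h6
    have h6 : ((y : Ω) ^ i) ^ 2 = 1 := by
      rw [sq]
      nth_rewrite 1 [← h5]
      exact inv_mul_cancel _
    have hyp' : (y : Ω) ^ p = 1 := by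
      rw [← Subgroup.coe_pow, hyp]
      rfl
    have h7 : ((y : Ω) ^ i) ^ p = 1 := by
      rw [← pow_mul, mul_comm, pow_mul, hyp', one_pow]
    have h8 : (y : Ω) ^ i = 1 := by
      have hc : Nat.Coprime 2 p := by
        rw [Nat.coprime_primes Nat.prime_two hp.out]
        exact fun h => hodd h.symm
      have := pow_gcd_eq_one.2 ⟨h6, h7⟩
      rwa [Nat.Coprime.gcd_eq_one hc, pow_one] at this
    have h9 : (y ^ i)⁻¹ * d = d := by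
      have : y ^ i = 1 := by
        apply Subtype.ext
        rw [Subgroup.coe_pow]
        exact h8
      rw [this]
      simp
    rwa [h9] at hi
  -- all `k`
  have hall : ∀ k ∈ F.autGroup E, ∀ d : E, (d : Ω) ∈ Dc ψ₀ → ((k⁻¹ d : E) : Ω) ∈ Zc S := by
    intro k hkX d hd
    by_cases hm : ∃ z₀ : E, (z₀ : Ω) ∈ Zc S ∧ ((k z₀ : E) : Ω) ∉ Zc S
    · obtain ⟨z₀, hz₀, hkz₀⟩ := hm
      exact (hmove k hkX z₀ hz₀ hkz₀).2 d hd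
    · push Not at hm
      let g : Zc S → Zc S := fun z => ⟨k ⟨z, hZE z.2⟩, hm ⟨z, hZE z.2⟩ z.2⟩
      have hg : Function.Injective g := by
        intro a b hab'
        have h0 : ((g a : Zc S) : Ω) = ((g b : Zc S) : Ω) := congrArg Subtype.val hab'
        have h1 : k ⟨a, hZE a.2⟩ = k ⟨b, hZE b.2⟩ := Subtype.ext h0
        have h2 := k.injective h1
        have h3 : ((⟨a, hZE a.2⟩ : E) : Ω) = ((⟨b, hZE b.2⟩ : E) : Ω) := congrArg Subtype.val h2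
        exact Subtype.ext h3
      obtain ⟨u, hu⟩ := (Finite.injective_iff_surjective.1 hg) ⟨d, hd.1⟩
      have h0 : ((g u : Zc S) : Ω) = (d : Ω) := congrArg Subtype.val hu
      have h1 : k ⟨u, hZE u.2⟩ = d := Subtype.ext h0
      have h2 : k⁻¹ d = ⟨u, hZE u.2⟩ := by
        rw [← h1]
        simp
      rw [h2]
      exact u.2
  have h1 : ((α x : E) : Ω) ∈ Zc S := by
    have := hall α⁻¹ (inv_mem hα) x hx
    simpa using this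
  have h2 : ((k₁⁻¹ (α x) : E) : Ω) ∈ Zc S := by
    have := hall (α⁻¹ * k₁) (mul_mem (inv_mem hα) hk₁) x hx
    simpa using this
  exact (hmove k₁ hk₁ z₁ hz₁ hk₁z).1 _ h1 h2

end invariance

end Cfsg.Agent.Lib.H29.AbIndexE
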