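import Cfsg.Agent.Lib.H29.AbIndexE

/-!
# A `p`-group with a unique abelian subgroup of index `p`: the assembly
-/

set_option autoImplicit false

namespace Cfsg.Agent.Lib.H29.AbIndexF

open Subgroup
open Cfsg Cfsg.FusionSystem Cfsg.Agent.Lib.Fusion.Basic Cfsg.Agent.Lib.Fusion.Saturation
open Cfsg.Agent.Lib.Fusion.Saturation2
open Cfsg.Agent.Lib.FusionTheory.Chain Cfsg.Agent.Lib.FusionTheory.CoprimeAut
open Cfsg.Agent.Lib.Fusion.Alperin Cfsg.Agent.Lib.FusionTheory.Normal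
open Cfsg.Agent.Lib.FusionTheory.Essential
open Cfsg.Agent.Lib.Fusion.SmallEssential Cfsg.Agent.Lib.H29.AbIndexA Cfsg.Agent.Lib.H29.AbIndexB
open Cfsg.Agent.Lib.H29.AbIndexC Cfsg.Agent.Lib.H29.AbIndexD Cfsg.Agent.Lib.H29.AbIndexE

universe u

theorem card_le_map {G G' : Type*} [Group G] [Group G'] [Finite G] (f : G →* G') (K : Subgroup G) {q : ℕ}
    (hq : Nat.card f.ker ≤ q) : Nat.card K ≤ q * Nat.card (K.map f) := by
  let g : K →* G' := f.comp K.subtype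
  have h1 : Nat.card g.ker * g.ker.index = Nat.card K := Subgroup.card_mul_index _
  have h2 : g.ker.index = Nat.card g.range := Subgroup.index_ker g
  have h3 : g.range = K.map f := by
    ext y
    constructor
    · rintro ⟨x, rfl⟩
      exact ⟨x, x.2, rfl⟩
    · rintro ⟨x, hx, rfl⟩
      exact ⟨⟨x, hx⟩, rfl⟩
  have h4 : Nat.card g.ker ≤ Nat.card f.ker := by
    let e : g.ker → f.ker := fun x => ⟨x.1.1, x.2⟩
    have he : Function.Injective e := by
      intro a b hab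
      have h0 : ((e a : f.ker) : G) = ((e b : f.ker) : G) := congrArg Subtype.val hab
      exact Subtype.ext (Subtype.ext h0)
    exact Nat.card_le_card_of_injective e he
  rw [← h1, h2, h3]
  exact Nat.mul_le_mul_right _ (h4.trans hq)

/-- The iterated images. -/
def iterB {G : Type*} [Group G] (δ : G →* G) : ℕ → Subgroup G
  | 0 => ⊤
  | k + 1 => (iterB δ k).map δ

theorem card_iterB {G : Type*} [Group G] [Finite G] (δ : G →* G) {q : ℕ} (hq : Nat.card δ.ker ≤ q) (k : ℕ) :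
    Nat.card G ≤ q ^ k * Nat.card (iterB δ k) := by
  induction k with
  | zero =>
    simp [iterB]
  | succ k ih =>
    have h1 := card_le_map δ (iterB δ k) hq
    calc Nat.card G ≤ q ^ k * Nat.card (iterB δ k) := ih
      _ ≤ q ^ k * (q * Nat.card ((iterB δ k).map δ)) := Nat.mul_le_mul_left _ h1
      _ = q ^ (k + 1) * Nat.card (iterB δ (k + 1)) := by
        rw [pow_succ, mul_assoc]
        rfl

variable {Ω : Type u} [Group Ω] {S A : Subgroup Ω} {p : ℕ} [Finite S] [hp : Fact p.Prime]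

/-- **Maximal class.** -/
theorem max_class (h : Sit p S A) (hZ : Nat.card (Zc S) = p) (n : ℕ) (hn : Nat.card S = p ^ n) (hn2 : 2 ≤ n) :
    S.lowerCentralSeries (n - 2) ≠ ⊥ := by
  obtain ⟨x, hxS, hxA⟩ : ∃ x ∈ S, x ∉ A := by
    by_contra hcon
    push Not at hcon
    obtain ⟨s, hs, t, ht, hst⟩ := h.na
    exact hst (h.comm s (hcon s hs) t (hcon t ht))
  have hfA : Finite A := finite_of_le h.AS
  have hfZ : Finite (Zc S) := finite_of_le inf_le_left
  let δ : A →* A := MonoidHom.mk' (fun a => ⟨a * x * a⁻¹ * x⁻¹, h.comm_mem (h.AS a.2) hxS⟩) (by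
    intro a b
    apply Subtype.ext
    show ((a * b : A) : Ω) * x * ((a * b : A) : Ω)⁻¹ * x⁻¹ = ((a : Ω) * x * (a : Ω)⁻¹ * x⁻¹) * ((b : Ω) * x * (b : Ω)⁻¹ * x⁻¹)
    have h1 : (b : Ω) * x * (b : Ω)⁻¹ * x⁻¹ ∈ A := h.comm_mem (h.AS b.2) hxS
    have h2 := h.comm _ a.2 _ h1
    have h3 : ((a : Ω) * x * (a : Ω)⁻¹ * x⁻¹) ∈ A := h.comm_mem (h.AS a.2) hxS
    have h4 := h.comm _ h3 _ h1
    rw [h4, Subgroup.coe_mul]
    calc (a : Ω) * b * x * ((a : Ω) * b)⁻¹ * x⁻¹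
        = (((a : Ω) * ((b : Ω) * x * (b : Ω)⁻¹ * x⁻¹)) * (a : Ω)⁻¹) * ((a : Ω) * x * (a : Ω)⁻¹ * x⁻¹) := by group
      _ = ((((b : Ω) * x * (b : Ω)⁻¹ * x⁻¹) * a) * (a : Ω)⁻¹) * ((a : Ω) * x * (a : Ω)⁻¹ * x⁻¹) := by rw [h2]
      _ = _ := by group)
  have hδ : ∀ a : A, ((δ a : A) : Ω) = a * x * (a : Ω)⁻¹ * x⁻¹ := fun a => rfl
  have hker : Nat.card δ.ker ≤ p := by
    rw [← hZ]
    let e : δ.ker → Zc S := fun a => ⟨a.1.1, by
      have h1 : δ a.1 = 1 := a.2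
      have h2 : ((a.1 : A) : Ω) * x * ((a.1 : A) : Ω)⁻¹ * x⁻¹ = 1 := congrArg Subtype.val h1
      refine h.mem_Zc_of_comm a.1.2 hxS hxA ?_
      have h3 : ((a.1 : A) : Ω) * x * ((a.1 : A) : Ω)⁻¹ = x := by
        have := congrArg (· * x) h2
        simpa using this
      calc ((a.1 : A) : Ω) * x = ((a.1 : A) : Ω) * x * ((a.1 : A) : Ω)⁻¹ * ((a.1 : A) : Ω) := by group
        _ = x * ((a.1 : A) : Ω) := by rw [h3]⟩
    have he : Function.Injective e := by
      intro a b hab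
      have h0 : ((e a : Zc S) : Ω) = ((e b : Zc S) : Ω) := congrArg Subtype.val hab
      exact Subtype.ext (Subtype.ext h0)
    exact Nat.card_le_card_of_injective e he
  have hlcs : ∀ k : ℕ, ∀ a ∈ iterB δ k, (a : Ω) ∈ S.lowerCentralSeries k := by
    intro k
    induction k with
    | zero =>
      intro a _
      exact h.AS a.2
    | succ k ih =>
      rintro _ ⟨b, hb, rfl⟩
      rw [Subgroup.lowerCentralSeries_succ, hδ]
      exact Subgroup.commutator_mem_commutator (ih b hb) hxS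
  intro hbot
  have h1 := card_iterB δ hker (n - 2)
  have hAcard : Nat.card A * p = p ^ n := by
    rw [← hn, ← h.index, ← Subgroup.card_mul_index (A.subgroupOf S)]
    congr 1
    exact Nat.card_congr (Subgroup.subgroupOfEquivOfLe h.AS).toEquiv.symm
  have hbotB : iterB δ (n - 2) = ⊥ := by
    rw [eq_bot_iff]
    intro a ha
    have h2 := hlcs _ a ha
    rw [hbot, mem_bot] at h2
    rw [mem_bot]
    exact Subtype.ext h2
  rw [hbotB, Subgroup.card_bot, mul_one] at h1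
  have hpos := hp.out.pos
  have h2 : p ^ n = p ^ (n - 2) * p * p := by
    rw [← pow_succ, ← pow_succ]
    congr 1
    omega
  rw [h2] at hAcard
  have h3 : Nat.card A = p ^ (n - 2) * p := Nat.eq_of_mul_eq_mul_right hpos hAcard
  rw [h3] at h1
  have h4 : 0 < p ^ (n - 2) := pow_pos hpos _
  have h5 : p ≤ 1 := by
    have h6 : p ^ (n - 2) * p ≤ p ^ (n - 2) * 1 := by simpa using h1
    exact Nat.le_of_mul_le_mul_left h6 h4
  have h6 := hp.out.one_lt
  omega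

/-- **The main theorem**, in elementary terms. -/
theorem main (F : FusionSystem S) (hF : F.IsSaturated p) (h : Sit p S A) (hodd : p ≠ 2)
    (huniq : ∀ B : Subgroup Ω, B ≤ S → (∀ a ∈ B, ∀ b ∈ B, a * b = b * a) → (B.subgroupOf S).index = p → B = A)
    (hcore : F.core = ⊥) (hAe : ¬ F.IsEssential p A) :
    (∃ x ∈ S, x ∉ A ∧ F.IsEssential p (Zc S ⊔ zpowers x)) ∧
      Zc S ≤ (commutator ↥S).map S.subtype ∧
      ∀ n : ℕ, Nat.card S = p ^ n → 3 ≤ n → S.lowerCentralSeries (n - 2) ≠ ⊥ := by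
  have hS := h.hS
  have hnorm : ∀ Q : Subgroup Ω, F.IsNormal Q → Q = ⊥ := by
    intro Q hQ
    rw [eq_bot_iff, ← hcore]
    exact le_sSup hQ
  have hK : ∀ τ ∈ F.autGroup (Zc S), τ ^ p = 1 → τ = 1 := fun τ hτ hτp => Zc_aut_trivial F hF hS hτ hτp
  have hfZ : Finite (Zc S) := finite_of_le inf_le_left
  -- an abelian essential subgroup exists
  have hex : ∃ E : Subgroup Ω, F.IsEssential p E ∧ ∀ a ∈ E, ∀ b ∈ E, a * b = b * a := by
    by_contra hno
    push Not at hno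
    by_cases hex : ∃ P : Subgroup Ω, F.IsEssential p P
    · obtain ⟨P, hP⟩ := hex
      have hPA := not_le_A F h hP hAe
      have hne := Yc_ne_bot F hF h hP hPA (hno P hP)
      apply hne
      apply hnorm
      refine isNormal_of_invariant F hS hF (Yc_le_Zc.trans inf_le_left) (fun Q hQ => ?_)
      rcases hQ with rfl | hQe
      · exact ⟨Yc_le_Zc.trans inf_le_left, fun α _ x hx => top_aut_Yc huniq h α x hx⟩
      · exact ⟨Yc_le_Zc.trans (Zc_le_ess F hQe), fun α _ x hx =>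
          aut_mem_Yc F hF h hQe (not_le_A F h hQe hAe) (hno Q hQe) α x hx⟩
    · have hSn : F.IsNormal S := isNormal_top_of_no_essential F hS hF (fun P hP => absurd ⟨P, hP⟩ hex)
      have hSbot := hnorm S hSn
      obtain ⟨s, hs, t, ht, hst⟩ := h.na
      rw [hSbot, mem_bot] at hs ht
      exact hst (by rw [hs, ht])
  obtain ⟨E₀, hE₀, hab₀⟩ := hex
  have hE₀A := not_le_A F h hE₀ hAe
  have hE₀S := hE₀.1.1
  have hZE₀ := Zc_le_ess F hE₀
  obtain ⟨y, hyZ, hy1, hyp, ht, ht2, ⟨k₀, hk₀, z₀, hz₀, hk₀z⟩, hk⟩ := abelian_data F hF h hE₀ hE₀A hab₀ hodd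
  have hYc := Yc_eq_zpowers F h hE₀ hE₀A hab₀ ht ht2
  obtain ⟨h1, η, hηX, hη1, hη2⟩ := hk k₀ hk₀ z₀ hz₀ hk₀z
  obtain ⟨ψ₀, hψ₀, hψ₁, hψ₃, hψ₄⟩ := exists_psi F hE₀ hyZ hYc hηX h1 hη1 hη2
  have hyp' : (y : Ω) ^ p = 1 := by
    rw [← Subgroup.coe_pow, hyp]
    rfl
  have hexp : ∀ w ∈ (Yc S A).subgroupOf (Zc S), w ^ p = 1 := by
    intro w hw
    have hw' : (w : Ω) ∈ Yc S A := hw
    rw [hYc] at hw'
    obtain ⟨n, hn⟩ := mem_zpowers_iff.1 hw'
    apply Subtype.ext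
    rw [Subgroup.coe_pow, ← hn, ← zpow_natCast, zpow_comm, zpow_natCast, hyp', one_zpow]
    rfl
  -- the complement is normal
  have hD : Dc ψ₀ = ⊥ := by
    apply hnorm
    refine isNormal_of_invariant F hS hF ((Dc_le ψ₀).trans inf_le_left) (fun Q hQ => ?_)
    rcases hQ with rfl | hQe
    · refine ⟨(Dc_le ψ₀).trans inf_le_left, fun α hα x hx => ?_⟩
      exact res_inv F hK hexp hψ₀ hψ₁ hψ₃ inf_le_left le_rfl hα
        (fun β _ x hx => top_aut_Zc β x hx) (fun β _ x hx => top_aut_Yc huniq h β x hx) x hx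
    · refine ⟨(Dc_le ψ₀).trans (Zc_le_ess F hQe), fun α hα x hx => ?_⟩
      have hQA := not_le_A F h hQe hAe
      by_cases hQab : ∀ a ∈ Q, ∀ b ∈ Q, a * b = b * a
      · exact ab_inv F hF h hQe hQA hQab hodd hK hexp hψ₀ hψ₁ hψ₃ hα x hx
      · push Not at hQab
        exact res_inv F hK hexp hψ₀ hψ₁ hψ₃ (Zc_le_ess F hQe) hQe.1.1 hα
          (fun β _ x hx => aut_mem_Zc F h hQe hQA hQab β x hx)
          (fun β _ x hx => aut_mem_Yc F hF h hQe hQA hQab β x hx) x hx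
  -- `Z(S) = Y`
  have hZY : Zc S ≤ zpowers (y : Ω) := by
    intro z hz
    obtain ⟨i, hi⟩ := h1 ⟨z, hZE₀ hz⟩ hz
    have hd : (((y ^ i)⁻¹ * ⟨z, hZE₀ hz⟩ : E₀) : Ω) ∈ Zc S := by
      rw [Subgroup.coe_mul, Subgroup.coe_inv, Subgroup.coe_pow]
      exact mul_mem (inv_mem (pow_mem hyZ i)) hz
    have h2 := hψ₄ _ hd hi
    have h3 : (((y ^ i)⁻¹ * ⟨z, hZE₀ hz⟩ : E₀) : Ω) ∈ Dc ψ₀ := ⟨hd, h2⟩
    rw [hD, mem_bot, Subgroup.coe_mul, Subgroup.coe_inv, Subgroup.coe_pow] at h3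
    have h4 : z = (y : Ω) ^ i := by
      have h5 : ((y : Ω) ^ i)⁻¹ * z = 1 := h3
      exact (inv_mul_eq_one.1 h5).symm
    rw [h4]
    exact pow_mem (mem_zpowers _) i
  have hZYc : Zc S = Yc S A := le_antisymm (hZY.trans hYc.ge) Yc_le_Zc
  have hyne : (y : Ω) ≠ 1 := fun h0 => hy1 (Subtype.ext h0)
  have hcard : Nat.card (Zc S) = p := by
    rw [hZYc, hYc, Nat.card_zpowers]
    exact orderOf_eq_prime hyp' hyne
  refine ⟨?_, ?_, fun n hn hn3 => max_class h hcard n hn (by omega)⟩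
  · obtain ⟨x, hxE, hxA⟩ := SetLike.not_le_iff_exists.1 hE₀A
    refine ⟨x, hE₀S hxE, hxA, ?_⟩
    have hEeq : Zc S ⊔ zpowers x = E₀ := by
      apply le_antisymm
      · exact sup_le hZE₀ (by rw [zpowers_le]; exact hxE)
      · intro e he
        obtain ⟨a, ha, i, rfl⟩ := h.exists_decomp (hE₀S hxE) hxA (hE₀S he)
        have haE : a ∈ E₀ := by
          have := E₀.mul_mem he (E₀.inv_mem (E₀.pow_mem hxE i))
          simpa using this
        have haZ := inf_le_Zc h hE₀S hE₀A hab₀ haE ha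
        exact mul_mem (mem_sup_left haZ) (mem_sup_right (pow_mem (mem_zpowers x) i))
    rw [hEeq]
    exact hE₀
  · rw [hZYc]
    exact Yc_le_comm h.AS

end Cfsg.Agent.Lib.H29.AbIndexF
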