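import Cfsg.Agent.Lib.FusionSimple.Basic
import Cfsg.Agent.Lib.SLn.QuatSylow
import Cfsg.Agent.Lib.StrongSec.MinFail

/-!
# Simple `2`-fusion systems of groups like `PSL₃(q)`, `PSU₃(q)`, `q` odd

A criterion allowing `N_G(S)` to act on `S` by inner automorphisms of `S`, and an abstract
version of the configuration `GL₂(q) ≤ SL₃(q)`.
-/

set_option autoImplicit false

namespace Cfsg.Agent.Lib.H29.L3Fusion

open Cfsg Cfsg.FusionSystem Cfsg.Agent.Lib.SLn.QuatSylow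

section criterion

variable {G : Type*} [Group G] [Finite G]

theorem exists_conj_of_mem_autGroup' {S : Subgroup G}
    (hN : ∀ g : G, (∀ s ∈ S, g * s * g⁻¹ ∈ S) → ∃ t ∈ S, ∀ s ∈ S, g * s * g⁻¹ = t * s * t⁻¹)
    {α : MulAut S} (hα : α ∈ (groupFusionSystem S).autGroup S) :
    ∃ s ∈ S, ∀ x : S, ((α x : S) : G) = s * (x : G) * s⁻¹ := by
  induction hα using Subgroup.closure_induction with
  | mem α hα =>
    obtain ⟨-, -, g, hg⟩ := hα
    have h1 : ∀ s ∈ S, g * s * g⁻¹ ∈ S := by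
      intro s hs
      have := hg ⟨s, hs⟩
      rw [← show _ = g * s * g⁻¹ from this]
      exact (α ⟨s, hs⟩).2
    obtain ⟨t, ht, hts⟩ := hN g h1
    refine ⟨t, ht, fun x => ?_⟩
    rw [← hts x x.2]
    exact hg x
  | one => exact ⟨1, S.one_mem, fun x => by simp⟩
  | mul α β _ _ hα hβ =>
    obtain ⟨a, ha, hα⟩ := hα
    obtain ⟨b, hb, hβ⟩ := hβ
    refine ⟨a * b, S.mul_mem ha hb, fun x => ?_⟩
    show ((α (β x) : S) : G) = _
    rw [hα, hβ]
    group
  | inv α _ hα =>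
    obtain ⟨a, ha, hα⟩ := hα
    refine ⟨a⁻¹, S.inv_mem ha, fun x => ?_⟩
    have h := hα (α⁻¹ x)
    rw [MulAut.apply_inv_self] at h
    rw [h]
    group

theorem simple_of_inner (S : Sylow 2 G) (hS1 : (S : Subgroup G) ≠ ⊥)
    (hN : ∀ g : G, (∀ s ∈ (S : Subgroup G), g * s * g⁻¹ ∈ (S : Subgroup G)) →
      ∃ t ∈ (S : Subgroup G), ∀ s ∈ (S : Subgroup G), g * s * g⁻¹ = t * s * t⁻¹)
    (hT : ∀ T : Subgroup G, T ≤ S → T ≠ ⊥ →
      (∀ x ∈ T, ∀ g : G, g * x * g⁻¹ ∈ (S : Subgroup G) → g * x * g⁻¹ ∈ T) → T = S) :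
    (groupFusionSystem (S : Subgroup G)).IsSimple 2 := by
  refine ⟨Cfsg.Agent.Lib.Fusion.GroupSystem.isSaturated S, hS1, ?_⟩
  intro T E hE
  obtain ⟨⟨-, -, hsub, hsc, -, hfr⟩, -⟩ := hE
  by_cases hbot : T = ⊥
  · exact Or.inl hbot
  right
  have hTS : T = S := hT T hsc.1 hbot (Cfsg.Agent.Lib.FusionSimple.Basic.closed_of_stronglyClosed hsc)
  subst hTS
  refine ⟨rfl, fun P => Set.Subset.antisymm (hsub P) ?_⟩
  intro φ hφ
  have hP : P ≤ (S : Subgroup G) := ((groupFusionSystem (S : Subgroup G)).le_of_mem hφ).1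
  obtain ⟨α, hα, φ₀, hφ₀, hfac⟩ := hfr P hP φ hφ
  obtain ⟨s, hs, hαs⟩ := exists_conj_of_mem_autGroup' hN hα
  have hφ₀S : ∀ x : P, φ₀ x ∈ (S : Subgroup G) := (E.le_of_mem hφ₀).2
  have hc := E.comp_mem hφ₀ (E.conj_mem (le_refl (S : Subgroup G)) hs) hφ₀S
  convert hc using 1
  ext x
  rw [hfac x (hφ₀S x), hαs]
  rfl

open Cfsg.Agent.Lib.FusionSimple.Basic in
/-- The two hypotheses on one Sylow subgroup give simplicity on all of them. -/
theorem simple_of_one_sylow' (S₁ : Sylow 2 G) (hS1 : (S₁ : Subgroup G) ≠ ⊥)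
    (hN : ∀ g : G, (∀ s ∈ (S₁ : Subgroup G), g * s * g⁻¹ ∈ (S₁ : Subgroup G)) →
      ∃ t ∈ (S₁ : Subgroup G), ∀ s ∈ (S₁ : Subgroup G), g * s * g⁻¹ = t * s * t⁻¹)
    (hT : ∀ T : Subgroup G, T ≤ S₁ → T ≠ ⊥ →
      (∀ x ∈ T, ∀ g : G, g * x * g⁻¹ ∈ (S₁ : Subgroup G) → g * x * g⁻¹ ∈ T) → T = S₁)
    (S : Sylow 2 G) : (groupFusionSystem (S : Subgroup G)).IsSimple 2 := by
  obtain ⟨c, rfl⟩ := MulAction.exists_smul_eq G S₁ S
  apply simple_of_inner
  · intro h
    apply hS1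
    rw [eq_bot_iff]
    intro x hx
    have h1 : c * x * c⁻¹ ∈ ((c • S₁ : Sylow 2 G) : Subgroup G) := by
      rw [mem_smul_sylow]
      simpa [mul_assoc] using hx
    rw [h, Subgroup.mem_bot] at h1
    rw [Subgroup.mem_bot]
    have h2 : c * x = c := by
      rw [mul_inv_eq_one] at h1
      exact h1
    exact mul_left_cancel (h2.trans (mul_one c).symm)
  · intro g hg
    have hg' : ∀ s ∈ (S₁ : Subgroup G), (c⁻¹ * g * c) * s * (c⁻¹ * g * c)⁻¹ ∈ (S₁ : Subgroup G) := by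
      intro s hs
      have hs' : c * s * c⁻¹ ∈ ((c • S₁ : Sylow 2 G) : Subgroup G) := by
        rw [mem_smul_sylow]
        simpa [mul_assoc] using hs
      have h1 := hg _ hs'
      rw [mem_smul_sylow] at h1
      have e : c⁻¹ * (g * (c * s * c⁻¹) * g⁻¹) * c = c⁻¹ * g * c * s * (c⁻¹ * g * c)⁻¹ := by group
      rw [e] at h1
      exact h1
    obtain ⟨t, ht, hts⟩ := hN _ hg'
    refine ⟨c * t * c⁻¹, ?_, ?_⟩
    · rw [mem_smul_sylow]
      simpa [mul_assoc] using ht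
    · intro s hs
      rw [mem_smul_sylow] at hs
      have h1 := hts _ hs
      have e1 : (c⁻¹ * g * c) * (c⁻¹ * s * c) * (c⁻¹ * g * c)⁻¹ = c⁻¹ * (g * s * g⁻¹) * c := by group
      rw [e1] at h1
      have h2 : g * s * g⁻¹ = c * (c⁻¹ * (g * s * g⁻¹) * c) * c⁻¹ := by group
      rw [h2, h1]
      group
  · intro T hTS hT1 hcl
    let T' : Subgroup G := T.map (MulAut.conj c⁻¹).toMonoidHom
    have memT' : ∀ x, x ∈ T' ↔ c * x * c⁻¹ ∈ T := by
      intro x
      constructor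
      · rintro ⟨y, hy, rfl⟩
        have : c * ((MulAut.conj c⁻¹).toMonoidHom y) * c⁻¹ = y := by
          simp [MulAut.conj_apply, mul_assoc]
        rw [this]
        exact hy
      · intro hx
        refine ⟨_, hx, ?_⟩
        simp [MulAut.conj_apply, mul_assoc]
    have hT'S : T' ≤ S₁ := by
      intro x hx
      have h1 := hTS ((memT' x).1 hx)
      rw [mem_smul_sylow] at h1
      simpa [mul_assoc] using h1
    have hT'ne : T' ≠ ⊥ := by
      intro h
      apply hT1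
      rw [eq_bot_iff]
      intro y hy
      have : c⁻¹ * y * c ∈ T' := by
        rw [memT']
        simpa [mul_assoc] using hy
      rw [h, Subgroup.mem_bot] at this
      rw [Subgroup.mem_bot]
      have h2 : y * c = c := by
        rw [mul_assoc, inv_mul_eq_one] at this
        exact this.symm
      exact mul_right_cancel (h2.trans (one_mul c).symm)
    have hT'eq := hT T' hT'S hT'ne (by
      intro x hx g hg
      rw [memT']
      have hx' := (memT' x).1 hx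
      have e : c * (g * x * g⁻¹) * c⁻¹ = (c * g * c⁻¹) * (c * x * c⁻¹) * (c * g * c⁻¹)⁻¹ := by group
      rw [e]
      apply hcl _ hx'
      rw [← e, mem_smul_sylow]
      simpa [mul_assoc] using hg)
    ext x
    constructor
    · exact fun hx => hTS hx
    · intro hx
      rw [mem_smul_sylow] at hx
      have h1 : c⁻¹ * x * c ∈ T' := by rw [hT'eq]; exact hx
      have h2 := (memT' _).1 h1
      simpa [mul_assoc] using h2

end criterion

section data

variable {L : Type*} [Group L]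

lemma sq_refl (D : Data L) {s : L} (hs : s ∈ D.A) : (D.y * s) * (D.y * s) = D.y * D.y := by
  have h1 := D.inv s (D.A_le hs)
  have h2 : D.y * s = s⁻¹ * D.y := by
    rw [← h1]; group
  have hcomm : s⁻¹ * (D.y * D.y) * s = D.y * D.y := by
    have h3 : D.y * D.y ∈ D.A := D.yy_mem
    obtain ⟨n, hn⟩ := Subgroup.mem_zpowers_iff.mp h3
    obtain ⟨m, hm⟩ := Subgroup.mem_zpowers_iff.mp hs
    rw [← hn, ← hm]
    rw [← zpow_neg, ← zpow_add, ← zpow_add]
    congr 1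
    ring
  calc (D.y * s) * (D.y * s) = (s⁻¹ * D.y) * (D.y * s) := by rw [h2]
    _ = s⁻¹ * (D.y * D.y) * s := by group
    _ = D.y * D.y := hcomm

lemma yy_ne_one (D : Data L) : D.y * D.y ≠ 1 := by
  rw [D.y2]
  intro h
  have h3 := orderOf_dvd_of_pow_eq_one h
  rw [D.ord] at h3
  have hv := D.hv
  have h4 := Nat.le_of_dvd (by positivity) h3
  have h5 : 2 ^ D.v = 2 * 2 ^ (D.v - 1) := by
    rw [← pow_succ']
    congr 1
    omega
  have h6 : 0 < 2 ^ (D.v - 1) := by positivity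
  omega

lemma yy_sq (D : Data L) : (D.y * D.y) * (D.y * D.y) = 1 := by
  rw [D.y2, ← pow_add]
  have : 2 ^ (D.v - 1) + 2 ^ (D.v - 1) = 2 ^ D.v := by
    have hv := D.hv
    have h5 : 2 ^ D.v = 2 * 2 ^ (D.v - 1) := by
      rw [← pow_succ']
      congr 1
      omega
    omega
  rw [this, ← D.ord, pow_orderOf_eq_one]

end data

/-- The configuration `L = SL₂ ≤ H = GL₂ ≤ Ĝ = SL₃ → G = PSL₃`. -/
structure Ctx (Ĝ G H L : Type*) [Group Ĝ] [Group G] [Group H] [Group L] where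
  π : Ĝ →* G
  hπ : Function.Surjective π
  ker_central : ∀ k, π k = 1 → ∀ g, k * g = g * k
  ker_odd : ∀ k, π k = 1 → Odd (orderOf k)
  ι : H →* Ĝ
  hι : Function.Injective ι
  j : L →* H
  hj : Function.Injective j
  jn : (j.range).Normal
  D : Data L
  hD : (Nat.card L).factorization 2 = D.v + 1
  uniq : ∀ g : L, g ≠ 1 → g * g = 1 → g = D.y * D.y
  cent_m : ∀ g : Ĝ, g * ι (j (D.y * D.y)) = ι (j (D.y * D.y)) * g → g ∈ ι.range
  P : Sylow 2 H
  idx : ¬ 2 ∣ ι.range.index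
  e : H
  he : e ∈ (P : Subgroup H)
  u : H
  hu : u ∈ (P : Subgroup H)
  huu : u * u = 1
  J : L
  hJ : j J ∈ (P : Subgroup H)
  hJJ : J * J = D.y * D.y
  huJ : u * j J * u⁻¹ = (j J)⁻¹
  gen : ∀ p ∈ (P : Subgroup H), ∃ q : L, j q ∈ (P : Subgroup H) ∧ ∃ k : ℕ, p = j q * e ^ k
  invol : ∀ A ∈ (P : Subgroup H), A * A = 1 → A ≠ 1 → ∃ g : Ĝ, g * ι A * g⁻¹ = ι (j (D.y * D.y))
  J_conj : ∀ r : L, r * r = D.y * D.y → ∃ g : L, g * r * g⁻¹ = J
  d : L
  hd : j d ∈ (P : Subgroup H)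
  de : ∃ g : Ĝ, g * ι (j d) * g⁻¹ = ι e
  cent_uni : ∀ A ∈ (P : Subgroup H), A * A = 1 → A ≠ 1 → (∀ p ∈ (P : Subgroup H), A * p = p * A) →
    A = j (D.y * D.y)
  norm : ∀ B : H, (∀ p ∈ (P : Subgroup H), B * p * B⁻¹ ∈ (P : Subgroup H)) →
    ∃ t ∈ (P : Subgroup H), ∀ x ∈ (P : Subgroup H), B * x * B⁻¹ = t * x * t⁻¹

namespace Ctx

variable {Ĝ G H L : Type*} [Group Ĝ] [Group G] [Group H] [Group L] (C : Ctx Ĝ G H L)

/-- The map `H → G`. -/
def φ : H →* G := C.π.comp C.ι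

/-- `m = j(y²)`, the image of `-1`. -/
def m : H := C.j (C.D.y * C.D.y)

lemma m_ne : C.m ≠ 1 := by
  intro h
  exact yy_ne_one C.D (C.hj (by rw [map_one]; exact h))

lemma m_sq : C.m * C.m = 1 := by
  show C.j _ * C.j _ = 1
  rw [← map_mul, yy_sq, map_one]

lemma m_mem : C.m ∈ (C.P : Subgroup H) := by
  have : C.m = C.j C.J * C.j C.J := by
    show C.j _ = _
    rw [← map_mul, C.hJJ]
  rw [this]
  exact mul_mem C.hJ C.hJ

lemma y2_central (x : L) : x * (C.D.y * C.D.y) * x⁻¹ = C.D.y * C.D.y := by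
  apply C.uniq
  · intro h
    apply yy_ne_one C.D
    have : C.D.y * C.D.y = x⁻¹ * (x * (C.D.y * C.D.y) * x⁻¹) * x := by group
    rw [this, h]
    group
  · have h := yy_sq C.D
    calc x * (C.D.y * C.D.y) * x⁻¹ * (x * (C.D.y * C.D.y) * x⁻¹)
        = x * ((C.D.y * C.D.y) * (C.D.y * C.D.y)) * x⁻¹ := by group
      _ = 1 := by rw [h]; group

lemma m_central (h : H) : h * C.m = C.m * h := by
  haveI := C.jn
  have h1 : h * C.m * h⁻¹ ∈ C.j.range := by
    apply Subgroup.Normal.conj_mem C.jn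
    exact ⟨_, rfl⟩
  obtain ⟨w, hw⟩ := h1
  have hw2 : w = C.D.y * C.D.y := by
    apply C.uniq
    · rintro rfl
      rw [map_one] at hw
      apply C.m_ne
      have : C.m = h⁻¹ * (h * C.m * h⁻¹) * h := by group
      rw [this, ← hw]
      group
    · apply C.hj
      rw [map_mul, hw, map_one]
      have h3 := C.m_sq
      calc h * C.m * h⁻¹ * (h * C.m * h⁻¹) = h * (C.m * C.m) * h⁻¹ := by group
        _ = 1 := by rw [h3]; group
  have h4 : h * C.m * h⁻¹ = C.m := by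
    rw [← hw, hw2]
    rfl
  calc h * C.m = (h * C.m * h⁻¹) * h := by group
    _ = C.m * h := by rw [h4]

variable [Finite Ĝ] [Finite G] [Finite H] [Finite L]

/-- Elements of `ker π` that are `2`-elements are trivial. -/
lemma ker_two {k : Ĝ} (hk : C.π k = 1) {n : ℕ} (hn : k ^ (2 ^ n) = 1) : k = 1 := by
  have h1 := C.ker_odd k hk
  have h2 := orderOf_dvd_of_pow_eq_one hn
  obtain ⟨i, hi, h3⟩ := (Nat.dvd_prime_pow Nat.prime_two).1 h2
  rcases Nat.eq_zero_or_pos i with rfl | hpos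
  · exact orderOf_eq_one_iff.1 (by simpa using h3)
  · exfalso
    rw [h3] at h1
    exact (Nat.not_even_iff_odd.2 h1) ((Nat.even_pow.2 ⟨even_two, hpos.ne'⟩))

theorem pP : IsPGroup 2 (C.P : Subgroup H) := C.P.isPGroup'

/-- The Sylow subgroup of `G`. -/
def S₀ : Subgroup G := (C.P : Subgroup H).map C.φ

lemma φ_mem {x : H} (hx : x ∈ (C.P : Subgroup H)) : C.φ x ∈ C.S₀ := ⟨x, hx, rfl⟩

lemma pS₀ : IsPGroup 2 C.S₀ := C.pP.map C.φ

lemma idx_S₀ : ¬ 2 ∣ C.S₀.index := by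
  haveI : Fact (Nat.Prime 2) := ⟨Nat.prime_two⟩
  have h1 : ((C.P : Subgroup H).map C.ι).index = ((C.P : Subgroup H) ⊔ C.ι.ker).index * C.ι.range.index :=
    Subgroup.index_map _ _
  have hker : C.ι.ker = ⊥ := (MonoidHom.ker_eq_bot_iff _).2 C.hι
  rw [hker, sup_bot_eq] at h1
  have h2 : C.S₀ = ((C.P : Subgroup H).map C.ι).map C.π := by
    rw [S₀, φ, Subgroup.map_map]
  have h3 : C.S₀.index ∣ ((C.P : Subgroup H).map C.ι).index := by
    rw [h2]
    exact Subgroup.index_map_dvd _ C.hπ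
  intro h4
  have h5 := h4.trans (h3.trans (dvd_of_eq h1))
  rcases (Nat.Prime.dvd_mul Nat.prime_two).1 h5 with h6 | h6
  · exact C.P.not_dvd_index h6
  · exact C.idx h6

/-- The Sylow subgroup of `G`. -/
noncomputable def S₁ : Sylow 2 G := C.pS₀.toSylow C.idx_S₀

lemma coe_S₁ : (C.S₁ : Subgroup G) = C.S₀ := rfl

lemma u_ne : C.u ≠ 1 := by
  intro h
  have h1 := C.huJ
  rw [h] at h1
  simp only [one_mul, inv_one, mul_one] at h1
  apply C.m_ne
  show C.j _ = 1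
  rw [← C.hJJ, map_mul]
  nth_rewrite 1 [h1]
  group

lemma uJ_ne : C.u * C.j C.J ≠ 1 := by
  intro h
  have h1 : C.u = (C.j C.J)⁻¹ := eq_inv_of_mul_eq_one_left h
  apply C.m_ne
  have h2 := C.huu
  rw [h1] at h2
  show C.j _ = 1
  rw [← C.hJJ, map_mul]
  calc C.j C.J * C.j C.J = ((C.j C.J)⁻¹ * (C.j C.J)⁻¹)⁻¹ := by simp [mul_inv_rev]
    _ = 1 := by rw [h2]; group

lemma uJ_sq : (C.u * C.j C.J) * (C.u * C.j C.J) = 1 := by
  have h1 := C.huJ
  have hinv : C.u⁻¹ = C.u := inv_eq_of_mul_eq_one_left C.huu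
  rw [hinv] at h1
  calc (C.u * C.j C.J) * (C.u * C.j C.J) = (C.u * C.j C.J * C.u) * C.j C.J := by group
    _ = 1 := by rw [h1]; group

/-- The closure step. -/
theorem closed_eq (T : Subgroup G) (hTS : T ≤ C.S₀) (hT1 : T ≠ ⊥)
    (hcl : ∀ x ∈ T, ∀ g : G, g * x * g⁻¹ ∈ C.S₀ → g * x * g⁻¹ ∈ T) : T = C.S₀ := by
  classical
  haveI : Fact (Nat.Prime 2) := ⟨Nat.prime_two⟩
  have hpT : IsPGroup 2 T := C.pS₀.to_le hTS
  have hne : Nontrivial T := by
    rw [Subgroup.nontrivial_iff_ne_bot]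
    exact hT1
  have hdvd : 2 ∣ Nat.card T := by
    obtain ⟨n, hn⟩ := hpT.exists_card_eq
    rw [hn]
    have : n ≠ 0 := by
      rintro rfl
      have h1 : Nat.card T = 1 := by simpa using hn
      have := Finite.one_lt_card (α := T)
      omega
    exact dvd_pow_self 2 this
  obtain ⟨t, ht⟩ := exists_prime_orderOf_dvd_card' (G := T) 2 hdvd
  have ht1 : (t : G) ≠ 1 := by
    intro h
    have : t = 1 := Subtype.ext h
    rw [this, orderOf_one] at ht
    omega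
  have ht2 : (t : G) * t = 1 := by
    have h := pow_orderOf_eq_one t
    rw [ht, pow_two] at h
    exact congrArg Subtype.val h
  obtain ⟨A, hAP, hAt⟩ := hTS t.2
  have hAt' : C.φ A = (t : G) := hAt
  have hA1 : A ≠ 1 := by
    rintro rfl
    rw [map_one] at hAt'
    exact ht1 hAt'.symm
  have hAA : A * A = 1 := by
    apply C.hι
    rw [map_one]
    have hπ1 : C.π (C.ι (A * A)) = 1 := by
      show C.φ (A * A) = 1
      rw [map_mul, hAt', ht2]
    obtain ⟨n, hn⟩ := C.pP ⟨A * A, mul_mem hAP hAP⟩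
    have hn' : (A * A) ^ (2 ^ n) = 1 := congrArg Subtype.val hn
    exact C.ker_two hπ1 (by rw [← map_pow, hn', map_one])
  -- every involution of `P` has image in `T`
  have hinv0 : C.φ C.m ∈ T := by
    obtain ⟨g, hg⟩ := C.invol A hAP hAA hA1
    have h1 : C.π g * (t : G) * (C.π g)⁻¹ = C.φ C.m := by
      rw [← hAt']
      show C.π g * C.π (C.ι A) * (C.π g)⁻¹ = C.π (C.ι _)
      rw [← map_inv, ← map_mul, ← map_mul, hg]
      rfl
    rw [← h1]
    apply hcl _ t.2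
    rw [h1]
    exact C.φ_mem C.m_mem
  have hinv : ∀ A' ∈ (C.P : Subgroup H), A' * A' = 1 → A' ≠ 1 → C.φ A' ∈ T := by
    intro A' hA'P hA'A' hA'1
    obtain ⟨g, hg⟩ := C.invol A' hA'P hA'A' hA'1
    have h1 : (C.π g)⁻¹ * C.φ C.m * ((C.π g)⁻¹)⁻¹ = C.φ A' := by
      show (C.π g)⁻¹ * C.π (C.ι _) * ((C.π g)⁻¹)⁻¹ = C.π (C.ι A')
      rw [← map_inv, ← map_mul, ← map_inv, ← map_mul]
      congr 1
      have hm : C.ι C.m = g * C.ι A' * g⁻¹ := hg.symm
      rw [hm]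
      group
    rw [← h1]
    apply hcl _ hinv0
    rw [h1]
    exact C.φ_mem hA'P
  -- `J`
  have hJT : C.φ (C.j C.J) ∈ T := by
    have h1 := hinv C.u C.hu C.huu C.u_ne
    have h2 := hinv (C.u * C.j C.J) (mul_mem C.hu C.hJ) C.uJ_sq C.uJ_ne
    have h3 : C.φ (C.j C.J) = (C.φ C.u)⁻¹ * C.φ (C.u * C.j C.J) := by
      rw [map_mul]; group
    rw [h3]
    exact T.mul_mem (T.inv_mem h1) h2
  -- all square roots of `m` in `Q`
  have hroot : ∀ r : L, C.j r ∈ (C.P : Subgroup H) → r * r = C.D.y * C.D.y → C.φ (C.j r) ∈ T := by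
    intro r hrP hrr
    obtain ⟨g, hg⟩ := C.J_conj r hrr
    have h1 : (C.φ (C.j g))⁻¹ * C.φ (C.j C.J) * ((C.φ (C.j g))⁻¹)⁻¹ = C.φ (C.j r) := by
      rw [← hg]
      simp only [map_mul, map_inv]
      group
    rw [← h1]
    apply hcl _ hJT
    rw [h1]
    exact C.φ_mem hrP
  -- the Sylow subgroup `Q` of `L`
  let Q : Subgroup L := (C.P : Subgroup H).comap C.j
  have hQp : IsPGroup 2 Q := by
    apply IsPGroup.comap_of_injective C.pP C.j C.hj
  have hQidx : ¬ 2 ∣ Q.index := by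
    haveI := C.jn
    rw [Subgroup.index_comap, ← Subgroup.inf_relIndex_right]
    exact Cfsg.Agent.Lib.StrongSec.MinFail.not_dvd_inf_relIndex_of_normal C.P C.j.range
  let Qs : Sylow 2 L := hQp.toSylow hQidx
  obtain ⟨c, hc⟩ := C.D.exists_conj C.hD Qs
  have hmemQ : ∀ w : L, w ∈ C.D.S → C.j (c⁻¹ * w * c) ∈ (C.P : Subgroup H) := by
    intro w hw
    have h1 : w ∈ (Qs : Subgroup L).map (MulAut.conj c).toMonoidHom := by rw [hc]; exact hw
    obtain ⟨w', hw', rfl⟩ := h1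
    have h2 : c⁻¹ * ((MulAut.conj c).toMonoidHom w') * c = w' := by
      simp [MulAut.conj_apply, mul_assoc]
    rw [h2]
    exact hw'
  have hrefl : ∀ s ∈ C.D.A, C.φ (C.j (c⁻¹ * (C.D.y * s) * c)) ∈ T := by
    intro s hs
    apply hroot
    · apply hmemQ
      refine Or.inr ?_
      simpa using hs
    · have h1 := sq_refl C.D hs
      calc c⁻¹ * (C.D.y * s) * c * (c⁻¹ * (C.D.y * s) * c)
          = c⁻¹ * ((C.D.y * s) * (C.D.y * s)) * c := by group
        _ = C.D.y * C.D.y := by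
          rw [h1]
          have := C.y2_central c⁻¹
          simpa using this
  have hQT : ∀ w : L, C.j w ∈ (C.P : Subgroup H) → C.φ (C.j w) ∈ T := by
    intro w hw
    have h1 : c * w * c⁻¹ ∈ C.D.S := by
      rw [← hc]
      exact ⟨w, hw, rfl⟩
    rcases h1 with h2 | h2
    · -- `c w c⁻¹ ∈ A`
      have h3 := hrefl 1 C.D.A.one_mem
      have h4 := hrefl _ h2
      have e : C.φ (C.j w) = (C.φ (C.j (c⁻¹ * (C.D.y * 1) * c)))⁻¹ *
          C.φ (C.j (c⁻¹ * (C.D.y * (c * w * c⁻¹)) * c)) := by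
        rw [← map_inv, ← map_inv, ← map_mul, ← map_mul]
        congr 2
        group
      rw [e]
      exact T.mul_mem (T.inv_mem h3) h4
    · have h4 := hrefl _ h2
      have e : c⁻¹ * (C.D.y * (C.D.y⁻¹ * (c * w * c⁻¹))) * c = w := by group
      rw [e] at h4
      exact h4
  -- `e`
  have heT : C.φ C.e ∈ T := by
    obtain ⟨g, hg⟩ := C.de
    have h1 : C.π g * C.φ (C.j C.d) * (C.π g)⁻¹ = C.φ C.e := by
      show C.π g * C.π (C.ι _) * (C.π g)⁻¹ = C.π (C.ι _)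
      rw [← map_inv, ← map_mul, ← map_mul, hg]
    rw [← h1]
    apply hcl _ (hQT _ C.hd)
    rw [h1]
    exact C.φ_mem C.he
  apply le_antisymm hTS
  rintro _ ⟨p, hp, rfl⟩
  obtain ⟨q, hq, k, rfl⟩ := C.gen p hp
  show C.φ _ ∈ T
  rw [map_mul, map_pow]
  exact T.mul_mem (hQT q hq) (T.pow_mem heT k)

/-- The action of the normalizer. -/
theorem norm_inner (g : G) (hg : ∀ s ∈ C.S₀, g * s * g⁻¹ ∈ C.S₀) :
    ∃ t ∈ C.S₀, ∀ s ∈ C.S₀, g * s * g⁻¹ = t * s * t⁻¹ := by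
  classical
  obtain ⟨gt, rfl⟩ := C.hπ g
  set X : Subgroup Ĝ := (C.P : Subgroup H).map C.ι with hX
  have hXp : IsPGroup 2 X := C.pP.map C.ι
  -- `gt` normalizes `X`
  have hnorm : ∀ x ∈ X, gt * x * gt⁻¹ ∈ X := by
    rintro _ ⟨p, hp, rfl⟩
    have h1 := hg (C.φ p) (C.φ_mem hp)
    obtain ⟨p', hp', he⟩ := h1
    have he' : C.π (C.ι p') = C.π (gt * C.ι p * gt⁻¹) := by
      rw [map_mul, map_mul, map_inv]
      exact he
    set k := (C.ι p')⁻¹ * (gt * C.ι p * gt⁻¹) with hk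
    have hk1 : C.π k = 1 := by
      rw [hk, map_mul, map_inv, he']
      group
    have hxx : gt * C.ι p * gt⁻¹ = C.ι p' * k := by
      rw [hk]; group
    obtain ⟨n, hn⟩ := C.pP ⟨p, hp⟩
    obtain ⟨n', hn'⟩ := C.pP ⟨p', hp'⟩
    have hn1 : p ^ (2 ^ n) = 1 := congrArg Subtype.val hn
    have hn1' : p' ^ (2 ^ n') = 1 := congrArg Subtype.val hn'
    have hcomm : Commute (C.ι p') k := (C.ker_central k hk1 _).symm
    have hpow : (C.ι p' * k) ^ (2 ^ (n + n')) = 1 := by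
      rw [← hxx]
      have e1 : (gt * C.ι p * gt⁻¹) ^ (2 ^ (n + n')) = gt * (C.ι p) ^ (2 ^ (n + n')) * gt⁻¹ := by
        simp [conj_pow]
      rw [e1, ← map_pow, pow_add, pow_mul, hn1]
      simp
    rw [hcomm.mul_pow] at hpow
    have hp'1 : (C.ι p') ^ (2 ^ (n + n')) = 1 := by
      rw [← map_pow, pow_add, mul_comm, pow_mul, hn1']
      simp
    rw [hp'1, one_mul] at hpow
    have hk2 : k = 1 := C.ker_two hk1 hpow
    rw [hxx, hk2, mul_one]
    exact ⟨p', hp', rfl⟩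
  have hconj_surj : ∀ x ∈ X, ∃ x' ∈ X, gt * x' * gt⁻¹ = x := by
    -- finite: an injective self-map of `X` is surjective
    let f : X → X := fun x => ⟨gt * x * gt⁻¹, hnorm x x.2⟩
    have hf : Function.Injective f := by
      intro a b hab
      have h1 : gt * (a : Ĝ) * gt⁻¹ = gt * b * gt⁻¹ := congrArg Subtype.val hab
      exact Subtype.ext (mul_left_cancel (mul_right_cancel h1))
    have hs := Finite.surjective_of_injective hf
    intro x hx
    obtain ⟨a, ha⟩ := hs ⟨x, hx⟩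
    exact ⟨a, a.2, congrArg Subtype.val ha⟩
  -- `gt` centralizes `z = ι m`
  have hz : gt * C.ι C.m * gt⁻¹ = C.ι C.m := by
    have h1 := hnorm (C.ι C.m) ⟨C.m, C.m_mem, rfl⟩
    obtain ⟨A, hA, hAe⟩ := h1
    have hAe' : C.ι A = gt * C.ι C.m * gt⁻¹ := hAe
    have hAA : A * A = 1 := by
      apply C.hι
      rw [map_mul, hAe', map_one]
      have h3 : C.ι C.m * C.ι C.m = 1 := by rw [← map_mul, C.m_sq, map_one]
      calc gt * C.ι C.m * gt⁻¹ * (gt * C.ι C.m * gt⁻¹) = gt * (C.ι C.m * C.ι C.m) * gt⁻¹ := by group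
        _ = 1 := by rw [h3]; group
    have hA1 : A ≠ 1 := by
      rintro rfl
      rw [map_one] at hAe'
      apply C.m_ne
      apply C.hι
      rw [map_one]
      have : C.ι C.m = gt⁻¹ * (gt * C.ι C.m * gt⁻¹) * gt := by group
      rw [this, ← hAe']
      group
    have hAc : ∀ p ∈ (C.P : Subgroup H), A * p = p * A := by
      intro p hp
      obtain ⟨x', hx', hx'e⟩ := hconj_surj (C.ι p) ⟨p, hp, rfl⟩
      obtain ⟨p', -, rfl⟩ := hx'
      apply C.hι
      rw [map_mul, map_mul, hAe', ← hx'e]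
      have hc := C.m_central p'
      have hc' : C.ι p' * C.ι C.m = C.ι C.m * C.ι p' := by
        rw [← map_mul, hc, map_mul]
      calc gt * C.ι C.m * gt⁻¹ * (gt * C.ι p' * gt⁻¹) = gt * (C.ι C.m * C.ι p') * gt⁻¹ := by group
        _ = gt * (C.ι p' * C.ι C.m) * gt⁻¹ := by rw [hc']
        _ = gt * C.ι p' * gt⁻¹ * (gt * C.ι C.m * gt⁻¹) := by group
    have := C.cent_uni A hA hAA hA1 hAc
    rw [← hAe', this]
    rfl
  have hgt : gt ∈ C.ι.range := by
    apply C.cent_m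
    have h1 : gt * C.ι C.m = C.ι C.m * gt := by
      calc gt * C.ι C.m = (gt * C.ι C.m * gt⁻¹) * gt := by group
        _ = C.ι C.m * gt := by rw [hz]
    exact h1
  obtain ⟨B, rfl⟩ := hgt
  have hB : ∀ p ∈ (C.P : Subgroup H), B * p * B⁻¹ ∈ (C.P : Subgroup H) := by
    intro p hp
    have h1 := hnorm (C.ι p) ⟨p, hp, rfl⟩
    obtain ⟨p', hp', he⟩ := h1
    have h2 : p' = B * p * B⁻¹ := by
      apply C.hι
      rw [map_mul, map_mul, map_inv]
      exact he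
    rw [← h2]
    exact hp'
  obtain ⟨t, ht, hts⟩ := C.norm B hB
  refine ⟨C.φ t, C.φ_mem ht, ?_⟩
  rintro _ ⟨x, hx, rfl⟩
  have h1 := hts x hx
  have h2 : C.π (C.ι B) * C.φ x * (C.π (C.ι B))⁻¹ = C.φ (B * x * B⁻¹) := by
    show C.π (C.ι B) * C.π (C.ι x) * (C.π (C.ι B))⁻¹ = C.π (C.ι _)
    simp only [map_mul, map_inv]
  rw [h2, h1]
  simp only [map_mul, map_inv]

/-- The main theorem. -/
theorem simple (C : Ctx Ĝ G H L) (S : Sylow 2 G) : (groupFusionSystem (S : Subgroup G)).IsSimple 2 := by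
  refine simple_of_one_sylow' C.S₁ ?_ ?_ ?_ S
  · rw [C.coe_S₁]
    intro h
    have h1 : C.φ C.m ∈ C.S₀ := C.φ_mem C.m_mem
    rw [h, Subgroup.mem_bot] at h1
    have h2 : C.ι C.m = 1 := by
      obtain ⟨n, hn⟩ := C.pP ⟨C.m, C.m_mem⟩
      have hn' : C.m ^ (2 ^ n) = 1 := congrArg Subtype.val hn
      exact C.ker_two h1 (by rw [← map_pow, hn', map_one])
    apply C.m_ne
    apply C.hι
    rw [h2, map_one]
  · intro g hg
    exact C.norm_inner g hg
  · intro T hT hT1 hcl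
    exact C.closed_eq T hT hT1 hcl

end Ctx

end Cfsg.Agent.Lib.H29.L3Fusion
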