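import Cfsg.Agent.Lib.H29.L3Norm
import Cfsg.Agent.Lib.Invol2.EigenBasis
import Cfsg.Agent.Lib.Classical.SLBasic
import Cfsg.Agent.Lib.SLn.Basic

/-!
# The block embedding `GL₂(F) → SL₃(F)`

The centraliser of the central involution of `GL₂(F)` in `SL₃(F)`, conjugacy of involutions.
-/

set_option autoImplicit false

namespace Cfsg.Agent.Lib.H29.L3InstA

open scoped MatrixGroups
open Matrix Module

variable {F : Type*} [Field F]

/-- The matrix of the block embedding. -/
noncomputable def blockM (B : GL (Fin 2) F) : Matrix (Fin 3) (Fin 3) F :=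
  !![B 0 0, B 0 1, 0; B 1 0, B 1 1, 0; 0, 0, ((B : Matrix (Fin 2) (Fin 2) F).det)⁻¹]

lemma det_ne (B : GL (Fin 2) F) : (B : Matrix (Fin 2) (Fin 2) F).det ≠ 0 := by
  have := (Matrix.GeneralLinearGroup.det B).ne_zero
  rwa [Matrix.GeneralLinearGroup.val_det_apply] at this

lemma blockM_mul (B C : GL (Fin 2) F) : blockM (B * C) = blockM B * blockM C := by
  have hd : ((B * C : GL (Fin 2) F) : Matrix (Fin 2) (Fin 2) F).det =
      (B : Matrix (Fin 2) (Fin 2) F).det * (C : Matrix (Fin 2) (Fin 2) F).det := by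
    rw [Units.val_mul, Matrix.det_mul]
  have hm : ∀ i j, (B * C : GL (Fin 2) F) i j = ∑ k, B i k * C k j := by
    intro i j
    rw [Units.val_mul, Matrix.mul_apply]
  ext i j
  fin_cases i <;> fin_cases j <;>
    simp [blockM, Matrix.mul_apply, Fin.sum_univ_three, Fin.sum_univ_two, hd, mul_inv, hm]
  exact mul_comm _ _

lemma blockM_one : blockM (1 : GL (Fin 2) F) = 1 := by
  ext i j
  fin_cases i <;> fin_cases j <;> simp [blockM]

lemma blockM_det (B : GL (Fin 2) F) : (blockM B).det = 1 := by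
  have h := det_ne B
  rw [Matrix.det_fin_two] at h
  rw [blockM, Matrix.det_fin_three, Matrix.det_fin_two]
  simp
  field_simp

/-- The involution `diag(-1,-1,1)`. -/
noncomputable def DD : Matrix (Fin 3) (Fin 3) F := !![-1, 0, 0; 0, -1, 0; 0, 0, 1]

lemma blockM_comm (B : GL (Fin 2) F) : blockM B * DD = DD * blockM B := by
  ext i j
  fin_cases i <;> fin_cases j <;>
    simp [blockM, DD, Matrix.mul_apply, Fin.sum_univ_three]

/-- matrices commuting with `DD` of det one are blocks -/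
lemma eq_blockM_of_comm (h2 : (2 : F) ≠ 0) (Y : Matrix (Fin 3) (Fin 3) F) (hY : Y.det = 1)
    (hc : Y * DD = DD * Y) : ∃ B : GL (Fin 2) F, blockM B = Y := by
  have h := fun i j => congrFun (congrFun hc i) j
  have h02 := h 0 2
  have h12 := h 1 2
  have h20 := h 2 0
  have h21 := h 2 1
  simp [DD, Matrix.mul_apply, Fin.sum_univ_three] at h02 h12 h20 h21
  have hz : ∀ x : F, x = -x → x = 0 := by
    intro x hx
    have : (2 : F) * x = 0 := by linear_combination hx
    exact (mul_eq_zero.1 this).resolve_left h2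
  have e02 : Y 0 2 = 0 := hz _ h02
  have e12 : Y 1 2 = 0 := hz _ h12
  have e20 : Y 2 0 = 0 := hz _ (by linear_combination -h20)
  have e21 : Y 2 1 = 0 := hz _ (by linear_combination -h21)
  rw [Matrix.det_fin_three, e02, e12, e20, e21] at hY
  have hY' : (Y 0 0 * Y 1 1 - Y 0 1 * Y 1 0) * Y 2 2 = 1 := by linear_combination hY
  have hdet : (!![Y 0 0, Y 0 1; Y 1 0, Y 1 1] : Matrix (Fin 2) (Fin 2) F).det ≠ 0 := by
    rw [Matrix.det_fin_two_of]
    intro h0
    rw [h0] at hY'
    simp at hY'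
  refine ⟨Matrix.GeneralLinearGroup.mkOfDetNeZero _ hdet, ?_⟩
  have hd : (((Matrix.GeneralLinearGroup.mkOfDetNeZero _ hdet : GL (Fin 2) F)) :
      Matrix (Fin 2) (Fin 2) F) = !![Y 0 0, Y 0 1; Y 1 0, Y 1 1] := rfl
  have hinv : ((!![Y 0 0, Y 0 1; Y 1 0, Y 1 1] : Matrix (Fin 2) (Fin 2) F).det)⁻¹ = Y 2 2 := by
    rw [Matrix.det_fin_two_of]
    exact inv_eq_of_mul_eq_one_right hY'
  rw [blockM, hd, hinv]
  ext i j
  fin_cases i <;> fin_cases j <;> simp [e02, e12, e20, e21]

lemma column_eq (A : Matrix (Fin 3) (Fin 3) F) (b : Basis (Fin 3) F (Fin 3 → F))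
    (ε : Fin 3 → F) (h : ∀ j, A *ᵥ b j = ε j • b j) :
    A * (Pi.basisFun F (Fin 3)).toMatrix b =
      (Pi.basisFun F (Fin 3)).toMatrix b * Matrix.diagonal ε := by
  ext i j
  rw [Matrix.mul_diagonal, Matrix.mul_apply]
  have := congrFun (h j) i
  simp only [Matrix.mulVec, dotProduct, Pi.smul_apply, smul_eq_mul] at this
  simp only [Module.Basis.toMatrix_apply, Pi.basisFun_repr]
  rw [this, mul_comm]

lemma exists_of_basis (A : Matrix (Fin 3) (Fin 3) F) (b : Basis (Fin 3) F (Fin 3 → F))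
    (h0 : A *ᵥ b 0 = - b 0) (h1 : A *ᵥ b 1 = - b 1) (h2 : A *ᵥ b 2 = b 2) :
    ∃ P Q : Matrix (Fin 3) (Fin 3) F, P * Q = 1 ∧ Q * P = 1 ∧ A = P * DD * Q := by
  refine ⟨(Pi.basisFun F (Fin 3)).toMatrix b, b.toMatrix (Pi.basisFun F (Fin 3)),
    Module.Basis.toMatrix_mul_toMatrix_flip _ _, Module.Basis.toMatrix_mul_toMatrix_flip _ _, ?_⟩
  have key := column_eq A b ![-1, -1, 1] (by
    intro j
    fin_cases j
    · simpa using h0
    · simpa using h1
    · simpa using h2)
  have hD : Matrix.diagonal ![(-1 : F), -1, 1] = DD := by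
    ext i j
    fin_cases i <;> fin_cases j <;> simp [DD]
  rw [hD] at key
  rw [← key, Matrix.mul_assoc, Module.Basis.toMatrix_mul_toMatrix_flip, Matrix.mul_one]

lemma exists_basis (h2 : (2 : F) ≠ 0) (A : SL(3, F)) (hA : A * A = 1) (hne : A ≠ 1) :
    ∃ P Q : Matrix (Fin 3) (Fin 3) F, P * Q = 1 ∧ Q * P = 1 ∧
      (A : Matrix (Fin 3) (Fin 3) F) = P * DD * Q := by
  have hA' : (A : Matrix (Fin 3) (Fin 3) F) * A = 1 := congrArg Subtype.val hA
  have hvv : ∀ v : Fin 3 → F, (A : Matrix (Fin 3) (Fin 3) F) *ᵥ ((A : Matrix (Fin 3) (Fin 3) F) *ᵥ v) = v := by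
    intro v
    rw [Matrix.mulVec_mulVec, hA', Matrix.one_mulVec]
  obtain ⟨ι, _, b₀, hb₀⟩ := Cfsg.Agent.Lib.Invol2.EigenBasis.exists_eigenbasis h2 3 (V := Fin 3 → F)
    {Matrix.mulVecLin (A : Matrix (Fin 3) (Fin 3) F)}
    (by rintro a rfl b rfl v; rfl) (by rintro a rfl v; exact hvv v) (by simp)
  have hcard : Fintype.card ι = 3 := by
    rw [← Module.finrank_eq_card_basis b₀]
    simp
  let e : ι ≃ Fin 3 := Fintype.equivFinOfCardEq hcard
  let b₁ := b₀.reindex e
  have hb₁ : ∀ j, ∃ ε : F, (ε = 1 ∨ ε = -1) ∧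
      (A : Matrix (Fin 3) (Fin 3) F) *ᵥ b₁ j = ε • b₁ j := by
    intro j
    have := hb₀ _ rfl (e.symm j)
    have hbj : b₁ j = b₀ (e.symm j) := by simp [b₁]
    rcases this with h | h
    · refine ⟨1, Or.inl rfl, ?_⟩
      rw [one_smul, hbj]
      exact h
    · refine ⟨-1, Or.inr rfl, ?_⟩
      rw [neg_one_smul, hbj]
      exact h
  choose ε hε hε' using hb₁
  have key := column_eq _ b₁ ε hε'
  have hPdet : ((Pi.basisFun F (Fin 3)).toMatrix b₁).det ≠ 0 := by
    intro h0
    have := congrArg Matrix.det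
      (Module.Basis.toMatrix_mul_toMatrix_flip (Pi.basisFun F (Fin 3)) b₁)
    rw [Matrix.det_mul, h0, zero_mul, Matrix.det_one] at this
    exact zero_ne_one this
  have hprod : ε 0 * ε 1 * ε 2 = 1 := by
    have := congrArg Matrix.det key
    rw [Matrix.det_mul, Matrix.det_mul, A.2, one_mul, Matrix.det_diagonal, Fin.prod_univ_three] at this
    exact (mul_right_eq_self₀.1 this.symm).resolve_right hPdet
  have hnot : ¬ (ε 0 = 1 ∧ ε 1 = 1 ∧ ε 2 = 1) := by
    rintro ⟨h0, h1, h2'⟩
    apply hne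
    apply Subtype.ext
    have hb : ∀ j, ε j = 1 := by
      intro j
      fin_cases j
      · exact h0
      · exact h1
      · exact h2'
    have hD : Matrix.diagonal ε = 1 := by
      rw [show ε = fun _ => 1 from funext hb]
      exact Matrix.diagonal_one
    rw [hD, Matrix.mul_one] at key
    have h3 := congrArg (fun M => M * b₁.toMatrix (Pi.basisFun F (Fin 3))) key
    simp only [Matrix.mul_assoc] at h3
    rw [Module.Basis.toMatrix_mul_toMatrix_flip, Matrix.mul_one] at h3
    exact h3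
  have hneg : (-1 : F) ≠ 1 := by
    intro h
    apply h2
    linear_combination -h
  rcases hε 0 with e0 | e0 <;> rcases hε 1 with e1 | e1 <;> rcases hε 2 with e2 | e2
  · exact absurd ⟨e0, e1, e2⟩ hnot
  · rw [e0, e1, e2] at hprod
    exact absurd (by linear_combination hprod) hneg
  · rw [e0, e1, e2] at hprod
    exact absurd (by linear_combination hprod) hneg
  · -- (1, -1, -1)
    apply exists_of_basis _ (b₁.reindex (Equiv.swap 0 2))
    · have := hε' 2
      rw [e2] at this
      simpa using this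
    · have := hε' 1
      rw [e1] at this
      simpa [Equiv.swap_apply_of_ne_of_ne] using this
    · have := hε' 0
      rw [e0, one_smul] at this
      simpa using this
  · rw [e0, e1, e2] at hprod
    exact absurd (by linear_combination hprod) hneg
  · -- (-1, 1, -1)
    apply exists_of_basis _ (b₁.reindex (Equiv.swap 1 2))
    · have := hε' 0
      rw [e0] at this
      simpa [Equiv.swap_apply_of_ne_of_ne] using this
    · have := hε' 2
      rw [e2] at this
      simpa using this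
    · have := hε' 1
      rw [e1, one_smul] at this
      simpa using this
  · -- (-1, -1, 1)
    apply exists_of_basis _ b₁
    · have := hε' 0
      rw [e0] at this
      simpa using this
    · have := hε' 1
      rw [e1] at this
      simpa using this
    · have := hε' 2
      rw [e2, one_smul] at this
      exact this
  · rw [e0, e1, e2] at hprod
    exact absurd (by linear_combination hprod) hneg


/-- The involution `diag(-1,-1,1)` of `SL₃`. -/
noncomputable def DDs : SL(3, F) := ⟨DD, by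
  rw [DD, Matrix.det_fin_three]
  simp⟩

/-- All involutions of `SL₃(F)`, `F` of characteristic `≠ 2`, are conjugate. -/
lemma invol_conj (h2 : (2 : F) ≠ 0) (A : SL(3, F)) (hA : A * A = 1) (hne : A ≠ 1) :
    ∃ g : SL(3, F), g * A * g⁻¹ = DDs := by
  obtain ⟨P, Q, hPQ, hQP, hAPQ⟩ := exists_basis h2 A hA hne
  have hdQ : Q.det * P.det = 1 := by rw [← Matrix.det_mul, hQP, Matrix.det_one]
  have hQ0 : Q.det ≠ 0 := left_ne_zero_of_mul_eq_one hdQ
  -- the correcting diagonal matrix
  let T : Matrix (Fin 3) (Fin 3) F := !![(Q.det)⁻¹, 0, 0; 0, 1, 0; 0, 0, 1]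
  have hTdet : T.det = (Q.det)⁻¹ := by
    simp [T, Matrix.det_fin_three]
  have hTD : T * DD = DD * T := by
    ext i j
    fin_cases i <;> fin_cases j <;>
      simp [T, DD, Matrix.mul_apply, Fin.sum_univ_three]
  let g : SL(3, F) := ⟨T * Q, by rw [Matrix.det_mul, hTdet]; exact inv_mul_cancel₀ hQ0⟩
  refine ⟨g, ?_⟩
  rw [mul_inv_eq_iff_eq_mul]
  apply Subtype.ext
  change T * Q * (A : Matrix (Fin 3) (Fin 3) F) = DD * (T * Q)
  rw [hAPQ]
  calc T * Q * (P * DD * Q) = T * (Q * P) * DD * Q := by simp only [Matrix.mul_assoc]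
    _ = (T * DD) * Q := by rw [hQP, Matrix.mul_one]
    _ = DD * (T * Q) := by rw [hTD, Matrix.mul_assoc]

end Cfsg.Agent.Lib.H29.L3InstA
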