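import Cfsg.Agent.Lib.H29.L3InstA
import Cfsg.Agent.Lib.H29.L3Fusion

/-!
# Monomial matrices in `GL₂(F)`, cyclic groups of even order
-/

set_option autoImplicit false

namespace Cfsg.Agent.Lib.H29.L3InstB

open scoped MatrixGroups
open Matrix

section cyc

variable {N : Type*} [CommGroup N] [Finite N] [IsCyclic N]

lemma not_sq (x : N) {a w : ℕ} (hcard : Nat.card N = 2 ^ a * w) (hw : Odd w) (ha : 1 ≤ a)
    (hx : orderOf x = 2 ^ a) (μ : N) : x ≠ μ * μ := by
  rintro rfl
  have h1 : μ ^ (2 ^ (a + 1)) = 1 := by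
    rw [pow_succ', pow_mul, ← hx, pow_two, pow_orderOf_eq_one]
  have h2 : orderOf μ ∣ 2 ^ (a + 1) := orderOf_dvd_of_pow_eq_one h1
  have h3 : orderOf μ ∣ 2 ^ a * w := hcard ▸ orderOf_dvd_natCard μ
  have hco : Nat.Coprime (orderOf μ) w :=
    Nat.Coprime.coprime_dvd_left h2 (Nat.Coprime.pow_left _ (Nat.coprime_two_left.2 hw))
  have h4 : orderOf μ ∣ 2 ^ a := hco.dvd_of_dvd_mul_right h3
  have h5 : (μ * μ) ^ (2 ^ (a - 1)) = 1 := by
    have e : (2 : ℕ) ^ a = 2 * 2 ^ (a - 1) := by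
      rw [← pow_succ']
      congr 1
      omega
    rw [← pow_two, ← pow_mul, ← e]
    exact orderOf_dvd_iff_pow_eq_one.mp h4
  have h6 := orderOf_dvd_of_pow_eq_one h5
  rw [hx] at h6
  have h7 := Nat.le_of_dvd (by positivity) h6
  have h8 : (2 : ℕ) ^ (a - 1) < 2 ^ a := Nat.pow_lt_pow_right (by norm_num) (by omega)
  omega

lemma sq_dich (x : N) {a w : ℕ} (hcard : Nat.card N = 2 ^ a * w) (hw : Odd w) (ha : 1 ≤ a)
    (hx : orderOf x = 2 ^ a) (δ : N) : ∃ μ : N, δ = μ * μ ∨ δ = x * (μ * μ) := by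
  obtain ⟨g, hg⟩ := IsCyclic.exists_generator (α := N)
  obtain ⟨k, hk⟩ := Subgroup.mem_zpowers_iff.mp (hg δ)
  obtain ⟨t, ht⟩ := Subgroup.mem_zpowers_iff.mp (hg x)
  have hto : Odd t := by
    by_contra hne
    obtain ⟨r, hr⟩ := Int.not_odd_iff_even.mp hne
    apply not_sq x hcard hw ha hx (g ^ r)
    rw [← ht, hr, _root_.zpow_add]
  rcases Int.even_or_odd k with hk' | hk'
  · obtain ⟨r, hr⟩ := hk'
    exact ⟨g ^ r, Or.inl (by rw [← hk, hr, _root_.zpow_add])⟩
  · obtain ⟨r, hr⟩ := (hk'.sub_odd hto)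
    refine ⟨g ^ r, Or.inr ?_⟩
    rw [← hk, ← ht, ← _root_.zpow_add, ← _root_.zpow_add]
    congr 1
    linarith

lemma mem_of_two (x : N) {a w : ℕ} (hcard : Nat.card N = 2 ^ a * w) (hw : Odd w)
    (hx : orderOf x = 2 ^ a) (δ : N) (b : ℕ) (hδ : δ ^ (2 ^ b) = 1) : ∃ k : ℕ, δ = x ^ k := by
  classical
  haveI := Fintype.ofFinite N
  have h2 : orderOf δ ∣ 2 ^ b := orderOf_dvd_of_pow_eq_one hδ
  have h3 : orderOf δ ∣ 2 ^ a * w := hcard ▸ orderOf_dvd_natCard δ
  have hco : Nat.Coprime (orderOf δ) w :=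
    Nat.Coprime.coprime_dvd_left h2 (Nat.Coprime.pow_left _ (Nat.coprime_two_left.2 hw))
  have h4 : orderOf δ ∣ 2 ^ a := hco.dvd_of_dvd_mul_right h3
  have hδa : δ ^ (2 ^ a) = 1 := orderOf_dvd_iff_pow_eq_one.mp h4
  have hpos : 0 < 2 ^ a := by positivity
  have hle := IsCyclic.card_pow_eq_one_le (α := N) hpos
  let T : Finset N := (Finset.range (2 ^ a)).image (fun k => x ^ k)
  have hTc : T.card = 2 ^ a := by
    rw [Finset.card_image_of_injOn, Finset.card_range]
    intro i hi j hj hij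
    have hi' : i < orderOf x := by rw [hx]; simpa using hi
    have hj' : j < orderOf x := by rw [hx]; simpa using hj
    exact pow_injOn_Iio_orderOf hi' hj' hij
  have hsub : T ⊆ Finset.univ.filter (fun y : N => y ^ (2 ^ a) = 1) := by
    intro y hy
    obtain ⟨i, -, rfl⟩ := Finset.mem_image.mp hy
    simp only [Finset.mem_filter, Finset.mem_univ, true_and]
    rw [← pow_mul, mul_comm, pow_mul, ← hx, pow_orderOf_eq_one, one_pow]
  have heq := Finset.eq_of_subset_of_card_le hsub (by rw [hTc]; exact hle)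
  have hm : δ ∈ Finset.univ.filter (fun y : N => y ^ (2 ^ a) = 1) := by
    simp only [Finset.mem_filter, Finset.mem_univ, true_and]
    exact hδa
  rw [← heq] at hm
  obtain ⟨i, -, hi⟩ := Finset.mem_image.mp hm
  exact ⟨i, hi.symm⟩

end cyc

variable {F : Type*} [Field F]

/-- Diagonal matrices. -/
noncomputable def dg (α β : Fˣ) : GL (Fin 2) F where
  val := !![(α : F), 0; 0, (β : F)]
  inv := !![((α⁻¹ : Fˣ) : F), 0; 0, ((β⁻¹ : Fˣ) : F)]
  val_inv := by
    ext i j
    fin_cases i <;> fin_cases j <;> simp [Matrix.mul_apply, Fin.sum_univ_two]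
  inv_val := by
    ext i j
    fin_cases i <;> fin_cases j <;> simp [Matrix.mul_apply, Fin.sum_univ_two]

/-- Antidiagonal matrices. -/
noncomputable def ag (α β : Fˣ) : GL (Fin 2) F where
  val := !![0, (α : F); (β : F), 0]
  inv := !![0, ((β⁻¹ : Fˣ) : F); ((α⁻¹ : Fˣ) : F), 0]
  val_inv := by
    ext i j
    fin_cases i <;> fin_cases j <;> simp [Matrix.mul_apply, Fin.sum_univ_two]
  inv_val := by
    ext i j
    fin_cases i <;> fin_cases j <;> simp [Matrix.mul_apply, Fin.sum_univ_two]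

@[simp] lemma dg_val (α β : Fˣ) : ((dg α β : GL (Fin 2) F) : Matrix (Fin 2) (Fin 2) F) =
    !![(α : F), 0; 0, (β : F)] := rfl

@[simp] lemma ag_val (α β : Fˣ) : ((ag α β : GL (Fin 2) F) : Matrix (Fin 2) (Fin 2) F) =
    !![0, (α : F); (β : F), 0] := rfl

lemma dg_mul_dg (α β γ δ : Fˣ) : dg α β * dg γ δ = dg (α * γ) (β * δ) := by
  apply Units.ext
  ext i j
  fin_cases i <;> fin_cases j <;> simp [Matrix.mul_apply, Fin.sum_univ_two]

lemma dg_mul_ag (α β γ δ : Fˣ) : dg α β * ag γ δ = ag (α * γ) (β * δ) := by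
  apply Units.ext
  ext i j
  fin_cases i <;> fin_cases j <;> simp [Matrix.mul_apply, Fin.sum_univ_two]

lemma ag_mul_dg (α β γ δ : Fˣ) : ag α β * dg γ δ = ag (α * δ) (β * γ) := by
  apply Units.ext
  ext i j
  fin_cases i <;> fin_cases j <;> simp [Matrix.mul_apply, Fin.sum_univ_two]

lemma ag_mul_ag (α β γ δ : Fˣ) : ag α β * ag γ δ = dg (α * δ) (β * γ) := by
  apply Units.ext
  ext i j
  fin_cases i <;> fin_cases j <;> simp [Matrix.mul_apply, Fin.sum_univ_two]

lemma dg_one : dg (1 : Fˣ) 1 = 1 := by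
  apply Units.ext
  ext i j
  fin_cases i <;> fin_cases j <;> simp

lemma dg_inv (α β : Fˣ) : (dg α β)⁻¹ = dg α⁻¹ β⁻¹ := by
  rw [inv_eq_iff_mul_eq_one, dg_mul_dg, mul_inv_cancel, mul_inv_cancel, dg_one]

lemma ag_inv (α β : Fˣ) : (ag α β)⁻¹ = ag β⁻¹ α⁻¹ := by
  rw [inv_eq_iff_mul_eq_one, ag_mul_ag, mul_inv_cancel, mul_inv_cancel, dg_one]

lemma dg_pow (α β : Fˣ) (n : ℕ) : (dg α β) ^ n = dg (α ^ n) (β ^ n) := by
  induction n with
  | zero => simp [dg_one]
  | succ n ih => rw [pow_succ, ih, dg_mul_dg, pow_succ, pow_succ]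

lemma det_dg (α β : Fˣ) : Matrix.GeneralLinearGroup.det (dg α β) = α * β := by
  apply Units.ext
  rw [Matrix.GeneralLinearGroup.val_det_apply, dg_val, Matrix.det_fin_two_of]
  simp

lemma det_ag (α β : Fˣ) : Matrix.GeneralLinearGroup.det (ag α β) = -(α * β) := by
  apply Units.ext
  rw [Matrix.GeneralLinearGroup.val_det_apply, ag_val, Matrix.det_fin_two_of]
  simp

/-- The monomial subgroup with entries the `n`-th roots of unity. -/
noncomputable def W (n : ℕ) : Subgroup (GL (Fin 2) F) where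
  carrier := {A | ∃ α β : Fˣ, α ^ n = 1 ∧ β ^ n = 1 ∧ (A = dg α β ∨ A = ag α β)}
  mul_mem' := by
    rintro A B ⟨α, β, hα, hβ, rfl | rfl⟩ ⟨γ, δ, hγ, hδ, rfl | rfl⟩
    · exact ⟨_, _, by rw [mul_pow, hα, hγ, one_mul], by rw [mul_pow, hβ, hδ, one_mul],
        Or.inl (dg_mul_dg _ _ _ _)⟩
    · exact ⟨_, _, by rw [mul_pow, hα, hγ, one_mul], by rw [mul_pow, hβ, hδ, one_mul],
        Or.inr (dg_mul_ag _ _ _ _)⟩
    · exact ⟨_, _, by rw [mul_pow, hα, hδ, one_mul], by rw [mul_pow, hβ, hγ, one_mul],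
        Or.inr (ag_mul_dg _ _ _ _)⟩
    · exact ⟨_, _, by rw [mul_pow, hα, hδ, one_mul], by rw [mul_pow, hβ, hγ, one_mul],
        Or.inl (ag_mul_ag _ _ _ _)⟩
  one_mem' := ⟨1, 1, one_pow _, one_pow _, Or.inl dg_one.symm⟩
  inv_mem' := by
    rintro A ⟨α, β, hα, hβ, rfl | rfl⟩
    · exact ⟨α⁻¹, β⁻¹, by rw [inv_pow, hα, inv_one], by rw [inv_pow, hβ, inv_one],
        Or.inl (dg_inv _ _)⟩
    · exact ⟨β⁻¹, α⁻¹, by rw [inv_pow, hβ, inv_one], by rw [inv_pow, hα, inv_one],
        Or.inr (ag_inv _ _)⟩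

lemma pow_W {a : ℕ} {A : GL (Fin 2) F} (hA : A ∈ W (F := F) (2 ^ a)) : A ^ (2 ^ (a + 1)) = 1 := by
  obtain ⟨α, β, hα, hβ, rfl | rfl⟩ := hA
  · rw [pow_succ, pow_mul, dg_pow, hα, hβ, dg_one, one_pow]
  · rw [pow_succ', pow_mul, pow_two, ag_mul_ag, dg_pow, mul_pow, mul_pow, hα, hβ, one_mul, dg_one]

/-- A `2 × 2` involution of determinant one. -/
lemma invol_eq (h2 : (2 : F) ≠ 0) (A : GL (Fin 2) F)
    (hdet : Matrix.GeneralLinearGroup.det A = 1) (hA : A * A = 1) (hne : A ≠ 1) :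
    A = dg (-1) (-1) := by
  have hd : (A 0 0) * (A 1 1) - (A 0 1) * (A 1 0) = 1 := by
    have := congrArg Units.val hdet
    rw [Matrix.GeneralLinearGroup.val_det_apply, Matrix.det_fin_two] at this
    simpa using this
  have hM : (A : Matrix (Fin 2) (Fin 2) F) * A = 1 := congrArg Units.val hA
  have h00 := congrFun (congrFun hM 0) 0
  have h01 := congrFun (congrFun hM 0) 1
  have h10 := congrFun (congrFun hM 1) 0
  have h11 := congrFun (congrFun hM 1) 1
  simp only [Matrix.mul_apply, Fin.sum_univ_two, Matrix.one_apply_eq,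
    Matrix.one_apply_ne (show (0 : Fin 2) ≠ 1 by decide),
    Matrix.one_apply_ne (show (1 : Fin 2) ≠ 0 by decide)] at h00 h01 h10 h11
  set a := A 0 0 with ha
  set b := A 0 1 with hb
  set c := A 1 0 with hc
  set d := A 1 1 with hd'
  have hs : a * (a + d) = 2 := by linear_combination h00 + hd
  have hs' : a + d ≠ 0 := by
    intro h0
    rw [h0, mul_zero] at hs
    exact h2 hs.symm
  have hb0 : b = 0 := by
    have : b * (a + d) = 0 := by linear_combination h01
    exact (mul_eq_zero.mp this).resolve_right hs'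
  have hc0 : c = 0 := by
    have : c * (a + d) = 0 := by linear_combination h10
    exact (mul_eq_zero.mp this).resolve_right hs'
  rw [hb0] at hd h00
  have hda : d = a := by
    have h1 : a * (a - d) = 0 := by linear_combination h00 - hd
    have ha0 : a ≠ 0 := by
      intro h0
      rw [h0] at hd
      simp at hd
    have := (mul_eq_zero.mp h1).resolve_left ha0
    linear_combination -this
  have ha2 : (a - 1) * (a + 1) = 0 := by linear_combination h00
  have ham : a = -1 := by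
    rcases mul_eq_zero.mp ha2 with h | h
    · exfalso
      apply hne
      apply Units.ext
      ext i j
      have ha1 : a = 1 := by linear_combination h
      fin_cases i <;> fin_cases j
      · simpa using ha1
      · simpa using hb0
      · simpa using hc0
      · simp only [Fin.mk_one, Fin.isValue, Units.val_one, Matrix.one_apply_eq]
        rw [← hd', hda, ha1]
    · linear_combination h
  apply Units.ext
  ext i j
  fin_cases i <;> fin_cases j
  · simpa using ham
  · simpa using hb0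
  · simpa using hc0
  · simp only [dg_val]
    change d = _
    rw [hda, ham]
    simp

/-- The commutant of a quaternion pair, in coordinates. -/
lemma com_aux (h2 : (2 : F) ≠ 0) (a b c d p q₁ t p₂ p' q' t' p₂' : F)
    (r00 : p * p + q₁ * t = -1) (r11 : t * q₁ + p₂ * p₂ = -1) (hdr : p * p₂ - q₁ * t = 1)
    (s00 : p' * p' + q' * t' = -1) (s11 : t' * q' + p₂' * p₂' = -1) (hds : p' * p₂' - q' * t' = 1)
    (a00 : p' * p + q' * t = -(p * p' + q₁ * t'))
    (x00 : a * p + b * t = p * a + q₁ * c) (x01 : a * q₁ + b * p₂ = p * b + q₁ * d)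
    (x10 : c * p + d * t = t * a + p₂ * c)
    (y00 : a * p' + b * t' = p' * a + q' * c) (y01 : a * q' + b * p₂' = p' * b + q' * d)
    (y10 : c * p' + d * t' = t' * a + p₂' * c) : b = 0 ∧ c = 0 ∧ a = d := by
  have trr : p₂ = -p := by
    have h3 : p * (p + p₂) = 0 := by linear_combination r00 + hdr
    have h4 : p₂ * (p + p₂) = 0 := by linear_combination r11 + hdr
    have h5 : (p + p₂) * (p + p₂) = 0 := by linear_combination h3 + h4
    have h6 := mul_self_eq_zero.mp h5
    linear_combination h6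
  have trs : p₂' = -p' := by
    have h3 : p' * (p' + p₂') = 0 := by linear_combination s00 + hds
    have h4 : p₂' * (p' + p₂') = 0 := by linear_combination s11 + hds
    have h5 : (p' + p₂') * (p' + p₂') = 0 := by linear_combination h3 + h4
    have h6 := mul_self_eq_zero.mp h5
    linear_combination h6
  subst trr
  subst trs
  obtain ⟨h, hh⟩ : ∃ h, h = a - d := ⟨_, rfl⟩
  have E1 : b * t = q₁ * c := by linear_combination x00
  have E2 : h * q₁ = 2 * p * b := by rw [hh]; linear_combination x01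
  have E3 : h * t = 2 * p * c := by rw [hh]; linear_combination -x10
  have E1' : b * t' = q' * c := by linear_combination y00
  have E2' : h * q' = 2 * p' * b := by rw [hh]; linear_combination y01
  have E3' : h * t' = 2 * p' * c := by rw [hh]; linear_combination -y10
  have A0 : 2 * p * p' + q₁ * t' + q' * t = 0 := by linear_combination a00
  obtain ⟨τ, hτ⟩ : ∃ τ, τ = h * p + b * t + c * q₁ := ⟨_, rfl⟩
  obtain ⟨τ', hτ'⟩ : ∃ τ', τ' = h * p' + b * t' + c * q' := ⟨_, rfl⟩
  have T1 : 2 * (τ * p) = -2 * h := by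
    rw [hτ]
    linear_combination 2 * h * r00 - t * E2 - q₁ * E3
  have T2 : τ * q₁ = -2 * b := by
    rw [hτ]
    linear_combination p * E2 - q₁ * E1 + 2 * b * r00
  have T3 : τ * t = -2 * c := by
    rw [hτ]
    linear_combination p * E3 + t * E1 + 2 * c * r00
  have T1' : 2 * (τ' * p') = -2 * h := by
    rw [hτ']
    linear_combination 2 * h * s00 - t' * E2' - q' * E3'
  have T2' : τ' * q' = -2 * b := by
    rw [hτ']
    linear_combination p' * E2' - q' * E1' + 2 * b * s00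
  have T3' : τ' * t' = -2 * c := by
    rw [hτ']
    linear_combination p' * E3' + t' * E1' + 2 * c * s00
  have Z : 2 * τ = 0 := by
    rw [hτ]
    linear_combination p * T1' + t * T2' + q₁ * T3' - τ' * A0
  have Z' : τ = 0 := (mul_eq_zero.mp Z).resolve_left h2
  rw [Z', zero_mul, mul_zero] at T1
  rw [Z', zero_mul] at T2 T3
  have hh0 : (2 : F) * h = 0 := by linear_combination T1
  have hb0 : (2 : F) * b = 0 := by linear_combination T2
  have hc0 : (2 : F) * c = 0 := by linear_combination T3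
  refine ⟨(mul_eq_zero.mp hb0).resolve_left h2, (mul_eq_zero.mp hc0).resolve_left h2, ?_⟩
  have := (mul_eq_zero.mp hh0).resolve_left h2
  rw [hh] at this
  linear_combination this

/-- The commutant of a quaternion pair. -/
lemma com_matrix (h2 : (2 : F) ≠ 0) (X r s : Matrix (Fin 2) (Fin 2) F) (hr : r * r = -1)
    (hs : s * s = -1) (hdr : r.det = 1) (hds : s.det = 1) (hrs : s * r = -(r * s))
    (h1 : X * r = r * X) (h2' : X * s = s * X) : X 0 1 = 0 ∧ X 1 0 = 0 ∧ X 0 0 = X 1 1 := by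
  have ent : ∀ M N : Matrix (Fin 2) (Fin 2) F, M = N → ∀ i j, M i j = N i j := by
    rintro M N rfl i j
    rfl
  have r00 := ent _ _ hr 0 0
  have r11 := ent _ _ hr 1 1
  have s00 := ent _ _ hs 0 0
  have s11 := ent _ _ hs 1 1
  have a00 := ent _ _ hrs 0 0
  have x00 := ent _ _ h1 0 0
  have x01 := ent _ _ h1 0 1
  have x10 := ent _ _ h1 1 0
  have y00 := ent _ _ h2' 0 0
  have y01 := ent _ _ h2' 0 1
  have y10 := ent _ _ h2' 1 0
  rw [Matrix.det_fin_two] at hdr hds
  simp only [Matrix.mul_apply, Fin.sum_univ_two, Matrix.neg_apply, Matrix.one_apply_eq] at r00 r11 s00 s11 a00 x00 x01 x10 y00 y01 y10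
  exact com_aux h2 _ _ _ _ _ _ _ _ _ _ _ _ r00 r11 hdr s00 s11 hds a00 x00 x01 x10 y00 y01 y10

end Cfsg.Agent.Lib.H29.L3InstB
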