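import Cfsg.Agent.Lib.H29.L3InstB

/-!
# The abstract linear-or-unitary setup

Hypotheses on `H ≤ GL₂(F)`, `L = H ∩ SL₂(F)`, `Ĝ ≤ SL₃(F)` giving a simple `2`-fusion system.
-/

set_option autoImplicit false

namespace Cfsg.Agent.Lib.H29.L3InstC

open scoped MatrixGroups
open Matrix Cfsg.Agent.Lib.H29.L3InstA Cfsg.Agent.Lib.H29.L3InstB
open Cfsg.Agent.Lib.H29.L3Fusion Cfsg.Agent.Lib.H29.L3Norm Cfsg.Agent.Lib.SLn.QuatSylow

/-- The matrix conjugating `diag(x, x⁻¹, 1)` to `diag(x, 1, x⁻¹)`. -/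
def g₀ (F : Type*) [Field F] : Matrix (Fin 3) (Fin 3) F := !![1, 0, 0; 0, 0, 1; 0, -1, 0]

/-- The setup. -/
structure Setup (F Ĝ G H L : Type*) [Field F] [Group Ĝ] [Group G] [Group H] [Group L] where
  two : (2 : F) ≠ 0
  π : Ĝ →* G
  hπ : Function.Surjective π
  ker_central : ∀ k, π k = 1 → ∀ g, k * g = g * k
  ker_odd : ∀ k, π k = 1 → Odd (orderOf k)
  ρ : H →* GL (Fin 2) F
  hρ : Function.Injective ρ
  κ : Ĝ →* SL(3, F)
  hκ : Function.Injective κ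
  ι : H →* Ĝ
  hικ : ∀ h, ((κ (ι h) : SL(3, F)) : Matrix (Fin 3) (Fin 3) F) = blockM (ρ h)
  j : L →* H
  hj : Function.Injective j
  hjr : ∀ h, Matrix.GeneralLinearGroup.det (ρ h) = 1 ↔ h ∈ j.range
  N : Subgroup Fˣ
  x : Fˣ
  hxN : x ∈ N
  a : ℕ
  w : ℕ
  hcard : Nat.card N = 2 ^ a * w
  hw : Odd w
  ha : 1 ≤ a
  hx : orderOf x = 2 ^ a
  hdet : ∀ h, Matrix.GeneralLinearGroup.det (ρ h) ∈ N
  hdg : ∀ α ∈ N, ∀ β ∈ N, ∃ h, ρ h = dg α β
  hag : ∀ α ∈ N, ∀ β ∈ N, ∃ h, ρ h = ag α β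
  hsc : ∀ h γ, ρ h = dg γ γ → γ ∈ N
  D : Data L
  hD : (Nat.card L).factorization 2 = D.v + 1
  v2 : D.v = 2 → x ^ 4 = 1
  hcent : ∀ g : Ĝ, ((κ g : SL(3, F)) : Matrix (Fin 3) (Fin 3) F) * DD =
    DD * ((κ g : SL(3, F)) : Matrix (Fin 3) (Fin 3) F) → g ∈ ι.range
  hidx : ¬ 2 ∣ ι.range.index
  hinvol : ∀ A : Ĝ, A * A = 1 → A ≠ 1 → ∃ g : Ĝ, κ (g * A * g⁻¹) = DDs
  hJ : ∀ r r' : L, r * r = D.y * D.y → r' * r' = D.y * D.y → ∃ g, g * r * g⁻¹ = r'
  hg₀ : ∃ g : Ĝ, ((κ g : SL(3, F)) : Matrix (Fin 3) (Fin 3) F) = g₀ F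

namespace Setup

variable {F Ĝ G H L : Type*} [Field F] [Group Ĝ] [Group G] [Group H] [Group L]
  (C : Setup F Ĝ G H L)

local notation "detG" => Matrix.GeneralLinearGroup.det

lemma neg_one_eq : C.x ^ (2 ^ (C.a - 1)) = -1 := by
  have e : (2 : ℕ) ^ C.a = 2 ^ (C.a - 1) * 2 := by
    rw [← pow_succ]
    congr 1
    have := C.ha
    omega
  have h1 : (C.x ^ (2 ^ (C.a - 1))) ^ 2 = 1 := by
    rw [← pow_mul, ← e, ← C.hx, pow_orderOf_eq_one]
  have h2 : C.x ^ (2 ^ (C.a - 1)) ≠ 1 := by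
    apply pow_ne_one_of_lt_orderOf (by positivity)
    rw [C.hx]
    exact Nat.pow_lt_pow_right (by norm_num) (by have := C.ha; omega)
  have h3 : ((C.x ^ (2 ^ (C.a - 1)) : Fˣ) : F) * ((C.x ^ (2 ^ (C.a - 1)) : Fˣ) : F) = 1 := by
    rw [← Units.val_mul, ← pow_two, h1, Units.val_one]
  rcases mul_self_eq_one_iff.mp h3 with h | h
  · exact absurd (Units.ext (by simpa using h)) h2
  · apply Units.ext
    simpa using h

lemma neg_mem : (-1 : Fˣ) ∈ C.N := by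
  rw [← C.neg_one_eq]
  exact pow_mem C.hxN _

lemma exists_j_of_det {h : H} (hd : detG (C.ρ h) = 1) : ∃ l : L, C.j l = h := (C.hjr h).mp hd

lemma rj_inj {l l' : L} (h : C.ρ (C.j l) = C.ρ (C.j l')) : l = l' := C.hj (C.hρ h)

lemma det_rj (l : L) : detG (C.ρ (C.j l)) = 1 := (C.hjr _).mpr ⟨l, rfl⟩

lemma two_part_eq : C.x ^ (2 ^ C.a) = 1 := by
  rw [← C.hx, pow_orderOf_eq_one]

lemma neg_two_part : (-1 : Fˣ) ^ (2 ^ C.a) = 1 := by
  have e : (2 : ℕ) ^ C.a = 2 * 2 ^ (C.a - 1) := by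
    rw [← pow_succ']
    congr 1
    have := C.ha
    omega
  rw [e, pow_mul]
  simp

/-- The `2`-subgroup of `H`. -/
noncomputable def WW : Subgroup H := (W (F := F) (2 ^ C.a)).comap C.ρ

lemma isP_WW : IsPGroup 2 C.WW := by
  rintro ⟨A, hA⟩
  refine ⟨C.a + 1, ?_⟩
  apply Subtype.ext
  apply C.hρ
  have := pow_W (F := F) (a := C.a) (A := C.ρ A) hA
  simpa using this

lemma mem_WW_dg {A : H} {α β : Fˣ} (hA : C.ρ A = dg α β) (hα : α ^ (2 ^ C.a) = 1)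
    (hβ : β ^ (2 ^ C.a) = 1) : A ∈ C.WW :=
  ⟨α, β, hα, hβ, Or.inl hA⟩

lemma mem_WW_ag {A : H} {α β : Fˣ} (hA : C.ρ A = ag α β) (hα : α ^ (2 ^ C.a) = 1)
    (hβ : β ^ (2 ^ C.a) = 1) : A ∈ C.WW :=
  ⟨α, β, hα, hβ, Or.inr hA⟩

/-- `y²` is `-1`. -/
lemma rho_m : C.ρ (C.j (C.D.y * C.D.y)) = dg (-1) (-1) := by
  apply invol_eq C.two _ (C.det_rj _)
  · rw [← map_mul, ← map_mul, yy_sq, map_one, map_one]
  · intro h
    apply yy_ne_one C.D
    apply C.rj_inj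
    rw [h, map_one, map_one]

lemma uniq (g : L) (h1 : g ≠ 1) (h2 : g * g = 1) : g = C.D.y * C.D.y := by
  apply C.rj_inj
  rw [rho_m]
  apply invol_eq C.two _ (C.det_rj _)
  · rw [← map_mul, ← map_mul, h2, map_one, map_one]
  · intro h
    apply h1
    apply C.rj_inj
    rw [h, map_one, map_one]

lemma blockM_inj {A B : GL (Fin 2) F} (h : blockM A = blockM B) : A = B := by
  have ent := fun i j => congrFun (congrFun h i) j
  apply Units.ext
  ext i j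
  fin_cases i <;> fin_cases j
  · simpa [blockM] using ent 0 0
  · simpa [blockM] using ent 0 1
  · simpa [blockM] using ent 1 0
  · simpa [blockM] using ent 1 1

lemma hι_inj : Function.Injective C.ι := by
  intro h h' e
  apply C.hρ
  apply blockM_inj
  rw [← C.hικ, ← C.hικ, e]

lemma blockM_dg (α β : Fˣ) : blockM (dg α β) =
    !![(α : F), 0, 0; 0, (β : F), 0; 0, 0, ((α : F) * (β : F))⁻¹] := by
  rw [blockM, dg_val, Matrix.det_fin_two_of]
  ext i j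
  fin_cases i <;> fin_cases j <;> simp

lemma blockM_m : blockM (dg (-1 : Fˣ) (-1)) = DD := by
  rw [blockM_dg, DD]
  ext i j
  fin_cases i <;> fin_cases j <;> simp

lemma kappa_m : ((C.κ (C.ι (C.j (C.D.y * C.D.y))) : SL(3, F)) : Matrix (Fin 3) (Fin 3) F) = DD := by
  rw [C.hικ, C.rho_m, blockM_m]

lemma cent_m (g : Ĝ) (hg : g * C.ι (C.j (C.D.y * C.D.y)) = C.ι (C.j (C.D.y * C.D.y)) * g) :
    g ∈ C.ι.range := by
  apply C.hcent
  have h1 := congrArg C.κ hg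
  rw [map_mul C.κ g, map_mul C.κ (C.ι _) g] at h1
  have h2 := congrArg Subtype.val h1
  rw [Matrix.SpecialLinearGroup.coe_mul, Matrix.SpecialLinearGroup.coe_mul, C.kappa_m] at h2
  exact h2

lemma jn : C.j.range.Normal := by
  have : C.j.range = ((detG).comp C.ρ).ker := by
    ext h
    rw [MonoidHom.mem_ker, MonoidHom.comp_apply, C.hjr]
  rw [this]
  infer_instance

/-- The scalars. -/
noncomputable def ZZ : Subgroup (GL (Fin 2) F) where
  carrier := {A | ∃ γ : Fˣ, A = dg γ γ}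
  mul_mem' := by
    rintro A B ⟨γ, rfl⟩ ⟨δ, rfl⟩
    exact ⟨γ * δ, dg_mul_dg _ _ _ _⟩
  one_mem' := ⟨1, dg_one.symm⟩
  inv_mem' := by
    rintro A ⟨γ, rfl⟩
    exact ⟨γ⁻¹, dg_inv _ _⟩

lemma dg_comm (γ : Fˣ) (A : GL (Fin 2) F) : dg γ γ * A = A * dg γ γ := by
  apply Units.ext
  ext i j
  fin_cases i <;> fin_cases j <;>
    simp [Matrix.mul_apply, Fin.sum_univ_two, mul_comm]

/-- The scalars in `H`. -/
noncomputable def Z : Subgroup H := (ZZ (F := F)).comap C.ρ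

lemma hZ (c : H) (hc : c ∈ C.Z) (h : H) : c * h = h * c := by
  obtain ⟨γ, hγ⟩ := hc
  apply C.hρ
  rw [map_mul, map_mul, hγ, dg_comm]

lemma hmc (h : H) : h * C.j (C.D.y * C.D.y) = C.j (C.D.y * C.D.y) * h := by
  apply C.hρ
  rw [map_mul C.ρ h, map_mul C.ρ (C.j _) h, rho_m, dg_comm]

variable [Finite F]

lemma x_not_sq (μ : Fˣ) (hμ : μ ∈ C.N) : C.x ≠ μ * μ := by
  intro h
  apply not_sq (N := C.N) ⟨C.x, C.hxN⟩ C.hcard C.hw C.ha (by rw [Subgroup.orderOf_mk, C.hx])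
    ⟨μ, hμ⟩
  apply Subtype.ext
  exact h

lemma cov (e : H) (he : C.ρ e = dg C.x 1) (B : H) :
    ∃ c ∈ C.Z, ∃ w : L, B = c * C.j w ∨ B = e * (c * C.j w) := by
  obtain ⟨μ, hμ⟩ := sq_dich (N := C.N) ⟨C.x, C.hxN⟩ C.hcard C.hw C.ha
    (by rw [Subgroup.orderOf_mk, C.hx]) ⟨detG (C.ρ B), C.hdet B⟩
  obtain ⟨c, hc⟩ := C.hdg μ μ.2 μ μ.2
  have hcdet : detG (C.ρ c) = μ * μ := by rw [hc, det_dg]
  have hcZ : c ∈ C.Z := ⟨μ, hc⟩
  rcases hμ with hμ | hμ
  · have hd : detG (C.ρ B) = μ * μ := congrArg Subtype.val hμ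
    obtain ⟨w, hw⟩ := C.exists_j_of_det (h := c⁻¹ * B) (by
      rw [map_mul, map_mul, map_inv, map_inv, hcdet, hd, inv_mul_cancel])
    exact ⟨c, hcZ, w, Or.inl (by rw [hw]; group)⟩
  · have hd : detG (C.ρ B) = C.x * (μ * μ) := congrArg Subtype.val hμ
    have hedet : detG (C.ρ e) = C.x := by rw [he, det_dg, mul_one]
    obtain ⟨w, hw⟩ := C.exists_j_of_det (h := c⁻¹ * (e⁻¹ * B)) (by
      simp only [map_mul, map_inv]
      rw [hcdet, hedet, hd]
      group)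
    exact ⟨c, hcZ, w, Or.inr (by rw [hw]; group)⟩

lemma ne_e (e : H) (he : C.ρ e = dg C.x 1) (c : H) (hc : c ∈ C.Z) (w : L) : e ≠ c * C.j w := by
  intro h
  obtain ⟨γ, hγ⟩ := hc
  have hγN := C.hsc c γ hγ
  have h1 := congrArg (fun z => detG (C.ρ z)) h
  simp only [map_mul] at h1
  rw [he, hγ, C.det_rj, det_dg, det_dg, mul_one, mul_one] at h1
  exact C.x_not_sq γ hγN h1

lemma com (X : H) (r₀ r₁ : L) (h0 : r₀ * r₀ = C.D.y * C.D.y) (h1 : r₁ * r₁ = C.D.y * C.D.y)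
    (h2 : r₁ * r₀ * r₁⁻¹ = (C.D.y * C.D.y) * r₀) (h3 : X * C.j r₀ = C.j r₀ * X)
    (h4 : X * C.j r₁ = C.j r₁ * X) : X ∈ C.Z := by
  have hm : ((C.ρ (C.j (C.D.y * C.D.y)) : GL (Fin 2) F) : Matrix (Fin 2) (Fin 2) F) = -1 := by
    rw [C.rho_m, dg_val]
    ext i j
    fin_cases i <;> fin_cases j <;> simp
  have dd : ∀ l : L, ((C.ρ (C.j l) : GL (Fin 2) F) : Matrix (Fin 2) (Fin 2) F).det = 1 := by
    intro l
    have := congrArg Units.val (C.det_rj l)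
    rwa [Matrix.GeneralLinearGroup.val_det_apply] at this
  have sq : ∀ l : L, l * l = C.D.y * C.D.y →
      ((C.ρ (C.j l) : GL (Fin 2) F) : Matrix (Fin 2) (Fin 2) F) * ((C.ρ (C.j l) : GL (Fin 2) F) : Matrix (Fin 2) (Fin 2) F) = -1 := by
    intro l hl
    rw [← hm, ← hl, map_mul, map_mul, Units.val_mul]
  have hcom : r₁ * r₀ = (C.D.y * C.D.y) * (r₀ * r₁) := by
    have : r₁ * r₀ = (r₁ * r₀ * r₁⁻¹) * r₁ := by group
    rw [this, h2]
    group
  have hcom' : ((C.ρ (C.j r₁) : GL (Fin 2) F) : Matrix (Fin 2) (Fin 2) F) * ((C.ρ (C.j r₀) : GL (Fin 2) F) : Matrix (Fin 2) (Fin 2) F) =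
      -(((C.ρ (C.j r₀) : GL (Fin 2) F) : Matrix (Fin 2) (Fin 2) F) * ((C.ρ (C.j r₁) : GL (Fin 2) F) : Matrix (Fin 2) (Fin 2) F)) := by
    have e1 : ((C.ρ (C.j r₁) : GL (Fin 2) F) : Matrix (Fin 2) (Fin 2) F) * ((C.ρ (C.j r₀) : GL (Fin 2) F) : Matrix (Fin 2) (Fin 2) F) =
        ((C.ρ (C.j (r₁ * r₀)) : GL (Fin 2) F) : Matrix (Fin 2) (Fin 2) F) := by
      rw [map_mul, map_mul, Units.val_mul]
    have e2 : ((C.ρ (C.j ((C.D.y * C.D.y) * (r₀ * r₁))) : GL (Fin 2) F) : Matrix (Fin 2) (Fin 2) F) =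
        ((C.ρ (C.j (C.D.y * C.D.y)) : GL (Fin 2) F) : Matrix (Fin 2) (Fin 2) F) *
        (((C.ρ (C.j r₀) : GL (Fin 2) F) : Matrix (Fin 2) (Fin 2) F) * ((C.ρ (C.j r₁) : GL (Fin 2) F) : Matrix (Fin 2) (Fin 2) F)) := by
      rw [map_mul C.j (C.D.y * C.D.y), map_mul C.ρ, Units.val_mul, map_mul C.j r₀ r₁, map_mul C.ρ, Units.val_mul]
    rw [e1, hcom, e2, hm, neg_mul, one_mul]
  have c1 : ((C.ρ X : GL (Fin 2) F) : Matrix (Fin 2) (Fin 2) F) * ((C.ρ (C.j r₀) : GL (Fin 2) F) : Matrix (Fin 2) (Fin 2) F) =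
      ((C.ρ (C.j r₀) : GL (Fin 2) F) : Matrix (Fin 2) (Fin 2) F) * ((C.ρ X : GL (Fin 2) F) : Matrix (Fin 2) (Fin 2) F) := by
    rw [← Units.val_mul, ← Units.val_mul, ← map_mul, ← map_mul, h3]
  have c2 : ((C.ρ X : GL (Fin 2) F) : Matrix (Fin 2) (Fin 2) F) * ((C.ρ (C.j r₁) : GL (Fin 2) F) : Matrix (Fin 2) (Fin 2) F) =
      ((C.ρ (C.j r₁) : GL (Fin 2) F) : Matrix (Fin 2) (Fin 2) F) * ((C.ρ X : GL (Fin 2) F) : Matrix (Fin 2) (Fin 2) F) := by
    rw [← Units.val_mul, ← Units.val_mul, ← map_mul, ← map_mul, h4]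
  obtain ⟨e01, e10, e00⟩ := com_matrix C.two _ _ _ (sq _ h0) (sq _ h1) (dd _) (dd _) hcom' c1 c2
  have hdet0 := det_ne (C.ρ X)
  rw [Matrix.det_fin_two, e01, e10, ← e00] at hdet0
  have ha0 : ((C.ρ X : GL (Fin 2) F) : Matrix (Fin 2) (Fin 2) F) 0 0 ≠ 0 := by
    intro h
    apply hdet0
    rw [h]
    ring
  refine ⟨Units.mk0 _ ha0, ?_⟩
  apply Units.ext
  ext i j
  fin_cases i <;> fin_cases j
  · simp
  · simpa using e01
  · simpa using e10
  · simpa using e00.symm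

lemma gen (P : Sylow 2 H) (e : H) (he : C.ρ e = dg C.x 1) (heP : e ∈ (P : Subgroup H))
    (p : H) (hp : p ∈ (P : Subgroup H)) :
    ∃ q : L, C.j q ∈ (P : Subgroup H) ∧ ∃ k : ℕ, p = C.j q * e ^ k := by
  obtain ⟨b, hb⟩ := P.isPGroup' ⟨p, hp⟩
  have hb' : p ^ (2 ^ b) = 1 := by
    have := congrArg Subtype.val hb
    simpa using this
  have hδ : (⟨detG (C.ρ p), C.hdet p⟩ : C.N) ^ (2 ^ b) = 1 := by
    apply Subtype.ext
    change (detG (C.ρ p)) ^ (2 ^ b) = 1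
    rw [← map_pow, ← map_pow, hb', map_one, map_one]
  obtain ⟨k, hk⟩ := mem_of_two (N := C.N) ⟨C.x, C.hxN⟩ C.hcard C.hw
    (by rw [Subgroup.orderOf_mk, C.hx]) _ b hδ
  have hk' : detG (C.ρ p) = C.x ^ k := congrArg Subtype.val hk
  have hedet : detG (C.ρ e) = C.x := by rw [he, det_dg, mul_one]
  have hmem : p * (e ^ k)⁻¹ ∈ (P : Subgroup H) :=
    (P : Subgroup H).mul_mem hp ((P : Subgroup H).inv_mem ((P : Subgroup H).pow_mem heP k))
  obtain ⟨q, hq⟩ := C.exists_j_of_det (h := p * (e ^ k)⁻¹) (by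
    simp only [map_mul, map_inv, map_pow]
    rw [hk', hedet, mul_inv_cancel])
  exact ⟨q, hq ▸ hmem, k, by rw [hq]; group⟩

include C in
/-- The abstract theorem. -/
theorem simple [Finite Ĝ] [Finite G] [Finite H] [Finite L] (S : Sylow 2 G) :
    (Cfsg.groupFusionSystem (S : Subgroup G)).IsSimple 2 := by
  classical
  haveI : Fact (Nat.Prime 2) := ⟨Nat.prime_two⟩
  have hone : (1 : Fˣ) ∈ C.N := C.N.one_mem
  obtain ⟨P, hP⟩ := C.isP_WW.exists_le_sylow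
  have hxa := C.two_part_eq
  have hna := C.neg_two_part
  have hoa : (1 : Fˣ) ^ (2 ^ C.a) = 1 := one_pow _
  have hxia : (C.x⁻¹) ^ (2 ^ C.a) = 1 := by rw [inv_pow, hxa, inv_one]
  obtain ⟨e, he⟩ := C.hdg C.x C.hxN 1 hone
  obtain ⟨u, hu⟩ := C.hdg (-1) C.neg_mem 1 hone
  have heP : e ∈ (P : Subgroup H) := hP (C.mem_WW_dg he hxa hoa)
  have huP : u ∈ (P : Subgroup H) := hP (C.mem_WW_dg hu hna hoa)
  obtain ⟨J₀, hJ₀⟩ := C.hag 1 hone (-1) C.neg_mem
  obtain ⟨d₀, hd₀⟩ := C.hdg C.x C.hxN C.x⁻¹ (C.N.inv_mem C.hxN)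
  obtain ⟨J, rfl⟩ := C.exists_j_of_det (h := J₀) (by rw [hJ₀, det_ag]; simp)
  obtain ⟨d, rfl⟩ := C.exists_j_of_det (h := d₀) (by rw [hd₀, det_dg]; simp)
  have hJP : C.j J ∈ (P : Subgroup H) := hP (C.mem_WW_ag hJ₀ hoa hna)
  have hdP : C.j d ∈ (P : Subgroup H) := hP (C.mem_WW_dg hd₀ hxa hxia)
  have hJJ : J * J = C.D.y * C.D.y := by
    apply C.rj_inj
    rw [C.rho_m, map_mul, map_mul, hJ₀, ag_mul_ag]
    simp
  have hfix : C.D.v = 2 → ∃ r₀ : L, C.j r₀ ∈ (P : Subgroup H) ∧ r₀ * r₀ = C.D.y * C.D.y ∧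
      Sg (C.j (C.D.y * C.D.y)) (e * C.j r₀ * e⁻¹) (C.j r₀) := by
    intro hv
    have hx4 := C.v2 hv
    have h2 : (((C.x ^ 2 : Fˣ) : F)) * ((C.x ^ 2 : Fˣ) : F) = 1 := by
      rw [← Units.val_mul, ← pow_add, hx4, Units.val_one]
    rcases mul_self_eq_one_iff.mp h2 with h | h
    · -- `x = -1`
      have hxx : (C.x : F) * C.x = 1 := by simpa [pow_two] using h
      have hxne : C.x ≠ 1 := by
        intro h1
        have := C.hx
        rw [h1, orderOf_one] at this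
        have h3 : 1 < 2 ^ C.a := Nat.one_lt_two_pow (by have := C.ha; omega)
        omega
      have hxm : C.x = -1 := by
        rcases mul_self_eq_one_iff.mp hxx with h' | h'
        · exact absurd (Units.ext h') hxne
        · exact Units.ext (by simpa using h')
      refine ⟨J, hJP, hJJ, Or.inr ?_⟩
      apply C.hρ
      rw [map_mul, map_mul, map_inv, map_mul, he, hJ₀, C.rho_m, hxm, dg_mul_ag, dg_inv, ag_mul_dg, dg_mul_ag]
      simp
    · -- `x² = -1`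
      have hxx : C.x * C.x = -1 := by
        apply Units.ext
        simpa [pow_two] using h
      refine ⟨d, hdP, ?_, Or.inl ?_⟩
      · apply C.rj_inj
        rw [C.rho_m, map_mul, map_mul, hd₀, dg_mul_dg, hxx]
        have : C.x⁻¹ * C.x⁻¹ = -1 := by
          rw [← mul_inv, hxx]
          simp
        rw [this]
      · apply C.hρ
        rw [map_mul, map_mul, map_inv, he, hd₀, dg_inv, dg_mul_dg, dg_mul_dg]
        simp
  refine Ctx.simple
    { π := C.π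
      hπ := C.hπ
      ker_central := C.ker_central
      ker_odd := C.ker_odd
      ι := C.ι
      hι := C.hι_inj
      j := C.j
      hj := C.hj
      jn := C.jn
      D := C.D
      hD := C.hD
      uniq := C.uniq
      cent_m := C.cent_m
      P := P
      idx := C.hidx
      e := e
      he := heP
      u := u
      hu := huP
      huu := ?_
      J := J
      hJ := hJP
      hJJ := hJJ
      huJ := ?_
      gen := C.gen P e he heP
      invol := ?_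
      J_conj := fun r hr => C.hJ r J hr hJJ
      d := d
      hd := hdP
      de := ?_
      cent_uni := ?_
      norm := norm_of C.hj C.jn C.hD C.hmc P heP C.hZ (C.cov e he) (C.ne_e e he) C.com hfix } S
  · -- `u * u = 1`
    apply C.hρ
    rw [map_mul, hu, dg_mul_dg, map_one]
    simp [dg_one]
  · -- `u` inverts `J`
    apply C.hρ
    rw [map_mul, map_mul, map_inv, map_inv, hu, hJ₀, dg_mul_ag, dg_inv, ag_mul_dg, ag_inv]
    simp
  · -- involutions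
    intro A _ hAA hA1
    obtain ⟨g, hg⟩ := C.hinvol (C.ι A) (by rw [← map_mul, hAA, map_one]) (by
      intro h
      apply hA1
      apply C.hι_inj
      rw [h, map_one])
    refine ⟨g, ?_⟩
    apply C.hκ
    rw [hg]
    apply Subtype.ext
    rw [C.kappa_m]
    rfl
  · -- `d` and `e`
    obtain ⟨g, hg⟩ := C.hg₀
    refine ⟨g, ?_⟩
    rw [mul_inv_eq_iff_eq_mul]
    apply C.hκ
    rw [map_mul C.κ g, map_mul C.κ _ g]
    apply Subtype.ext
    rw [Matrix.SpecialLinearGroup.coe_mul, Matrix.SpecialLinearGroup.coe_mul, hg, C.hικ, C.hικ, hd₀, he,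
      blockM_dg, blockM_dg]
    ext i j
    fin_cases i <;> fin_cases j <;>
      simp [g₀, Matrix.mul_apply, Fin.sum_univ_three]
  · -- the central involution
    intro A hA hAA hA1 hcen
    have c1 := hcen u huP
    have c2 := hcen _ hJP
    apply C.hρ
    rw [C.rho_m]
    have c1' := congrArg (fun z => ((C.ρ z : GL (Fin 2) F) : Matrix (Fin 2) (Fin 2) F)) c1
    have c2' := congrArg (fun z => ((C.ρ z : GL (Fin 2) F) : Matrix (Fin 2) (Fin 2) F)) c2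
    simp only [map_mul, Units.val_mul, hu, hJ₀, dg_val, ag_val] at c1' c2'
    have ent1 := fun i k => congrFun (congrFun c1' i) k
    have ent2 := fun i k => congrFun (congrFun c2' i) k
    have e01 := ent1 0 1
    have e10 := ent1 1 0
    have e00 := ent2 0 1
    simp [Matrix.mul_apply, Fin.sum_univ_two] at e01 e10 e00
    have hz : ∀ z : F, z = -z → z = 0 := by
      intro z hz
      have : (2 : F) * z = 0 := by linear_combination hz
      exact (mul_eq_zero.mp this).resolve_left C.two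
    have h01 := hz _ e01
    have h10 : ((C.ρ A : GL (Fin 2) F) : Matrix (Fin 2) (Fin 2) F) 1 0 = 0 := hz _ (by linear_combination -e10)
    have hM : ((C.ρ A : GL (Fin 2) F) : Matrix (Fin 2) (Fin 2) F) * ((C.ρ A : GL (Fin 2) F) : Matrix (Fin 2) (Fin 2) F) = 1 := by
      rw [← Units.val_mul, ← map_mul, hAA, map_one, Units.val_one]
    have h00 := congrFun (congrFun hM 0) 0
    simp only [Matrix.mul_apply, Fin.sum_univ_two, Matrix.one_apply_eq] at h00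
    rw [h01, zero_mul, add_zero] at h00
    apply invol_eq C.two
    · apply Units.ext
      rw [Matrix.GeneralLinearGroup.val_det_apply, Matrix.det_fin_two, h01, ← e00]
      simpa using h00
    · rw [← map_mul, hAA, map_one]
    · intro h
      apply hA1
      apply C.hρ
      rw [h, map_one]

end Setup

end Cfsg.Agent.Lib.H29.L3InstC
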