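import Cfsg.Agent.Lib.H29.L3Fusion

/-!
# The normalizer hypothesis in the `GL₂ ≤ SL₃` configuration
-/

set_option autoImplicit false

namespace Cfsg.Agent.Lib.H29.L3Norm

open Cfsg Cfsg.Agent.Lib.SLn.QuatSylow Cfsg.Agent.Lib.H29.L3Fusion Cfsg.Agent.Lib.SLn.SylowTorus

section q8

variable {L : Type*} [Group L]

/-- In `A` with `v = 2`. -/
lemma A_cases (D : Data L) (hv : D.v = 2) {s : L} (hs : s ∈ D.A) :
    s = 1 ∨ s = D.y * D.y ∨ s * s = D.y * D.y := by
  obtain ⟨k, rfl⟩ := Subgroup.mem_zpowers_iff.mp hs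
  have hord : orderOf D.a = 4 := by rw [D.ord, hv]; norm_num
  have hyy : D.y * D.y = D.a ^ 2 := by rw [D.y2, hv]; norm_num
  have h4 : D.a ^ 4 = 1 := by rw [← hord]; exact pow_orderOf_eq_one _
  have hk : D.a ^ k = D.a ^ (k % 4) := by
    have := zpow_mod_orderOf D.a k
    rw [hord] at this
    exact_mod_cast this.symm
  rw [hk, hyy]
  have h0 : 0 ≤ k % 4 := Int.emod_nonneg _ (by norm_num)
  have h1 : k % 4 < 4 := Int.emod_lt_of_pos _ (by norm_num)
  generalize k % 4 = r at h0 h1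
  interval_cases r
  · left; simp
  · right; right
    simp [pow_two]
  · right; left
    exact zpow_natCast D.a 2
  · right; right
    have e : D.a ^ (3 : ℤ) * D.a ^ (3 : ℤ) = D.a ^ 4 * D.a ^ 2 := by
      rw [← zpow_add, ← zpow_natCast, ← zpow_natCast, ← zpow_add]
      norm_num
    rw [e, h4, one_mul]

variable [Finite L]

/-- Every element of a Sylow subgroup is `1`, `m₀` or a square root of `m₀`. -/
lemma Q_cases (D : Data L) (hv : D.v = 2)
    (hcentral : ∀ x : L, x * (D.y * D.y) * x⁻¹ = D.y * D.y) {Q : Subgroup L} {c : L}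
    (hc : Q.map (MulAut.conj c).toMonoidHom = D.S) {w : L} (hw : w ∈ Q) :
    w = 1 ∨ w = D.y * D.y ∨ w * w = D.y * D.y := by
  have h1 : c * w * c⁻¹ ∈ D.S := by
    rw [← hc]
    exact ⟨w, hw, rfl⟩
  have hback : ∀ z, c * w * c⁻¹ = z → w = c⁻¹ * z * c := by
    intro z hz
    rw [← hz]; group
  have hm : c⁻¹ * (D.y * D.y) * c = D.y * D.y := by
    simpa using hcentral c⁻¹
  have hsq : ∀ z, c * w * c⁻¹ * (c * w * c⁻¹) = z → w * w = c⁻¹ * z * c := by
    intro z hz
    rw [← hz]; group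
  rcases h1 with h2 | h2
  · rcases A_cases D hv h2 with h3 | h3 | h3
    · left
      rw [hback _ h3]; group
    · right; left
      rw [hback _ h3, hm]
    · right; right
      rw [hsq _ h3, hm]
  · right; right
    have h3 := sq_refl D h2
    have e : D.y * (D.y⁻¹ * (c * w * c⁻¹)) = c * w * c⁻¹ := by group
    rw [e] at h3
    rw [hsq _ h3, hm]

lemma zp4 {m r s : L} (hrr : r * r = m) (hmm : m * m = 1) (hs : s ∈ Subgroup.zpowers r) :
    s = 1 ∨ s = r ∨ s = m ∨ s = m * r := by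
  obtain ⟨k, rfl⟩ := Subgroup.mem_zpowers_iff.mp hs
  have h4 : r ^ 4 = 1 := by
    have : r ^ 4 = (r * r) * (r * r) := by
      rw [show (4 : ℕ) = 2 + 2 from rfl, pow_add, pow_two]
    rw [this, hrr, hmm]
  have hdvd : orderOf r ∣ 4 := orderOf_dvd_of_pow_eq_one h4
  have hk : r ^ k = r ^ (k % 4) := by
    have hz : r ^ (4 : ℤ) = 1 := by exact_mod_cast h4
    conv_lhs => rw [← Int.mul_ediv_add_emod k 4, zpow_add, zpow_mul, hz, one_zpow, one_mul]
  rw [hk]
  have h0 : 0 ≤ k % 4 := Int.emod_nonneg _ (by norm_num)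
  have h1 : k % 4 < 4 := Int.emod_lt_of_pos _ (by norm_num)
  generalize k % 4 = t at h0 h1
  interval_cases t
  · left; simp
  · right; left; simp
  · right; right; left
    rw [← hrr]
    have : r ^ (2 : ℤ) = r ^ 2 := zpow_natCast r 2
    rw [this, pow_two]
  · right; right; right
    rw [← hrr]
    have : r ^ (3 : ℤ) = r ^ 3 := zpow_natCast r 3
    rw [this, pow_succ, pow_two]

/-- The enumeration of `Q₈`. -/
lemma q8_enum {m₀ : L} (hm : ∀ x : L, x * m₀ = m₀ * x) (hmm : m₀ * m₀ = 1) (hm1 : m₀ ≠ 1) {Q : Subgroup L}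
    (hcard : Nat.card Q = 8) (hQ : ∀ w ∈ Q, w = 1 ∨ w = m₀ ∨ w * w = m₀) {r₀ : L} (hr₀ : r₀ ∈ Q)
    (hrr : r₀ * r₀ = m₀) :
    ∃ r₁ ∈ Q, r₁ * r₁ = m₀ ∧ r₁ * r₀ * r₁⁻¹ = m₀ * r₀ ∧
      ∀ w ∈ Q, w = 1 ∨ w = m₀ ∨ w = r₀ ∨ w = m₀ * r₀ ∨ w = r₁ ∨ w = m₀ * r₁ ∨ w = r₀ * r₁ ∨ w = m₀ * (r₀ * r₁) := by
  classical
  have hinv : r₀⁻¹ = m₀ * r₀ := by
    apply inv_eq_of_mul_eq_one_left
    calc m₀ * r₀ * r₀ = m₀ * (r₀ * r₀) := by group
      _ = 1 := by rw [hrr, hmm]
  haveI : Fact (Nat.Prime 2) := ⟨Nat.prime_two⟩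
  have hord : orderOf r₀ = 4 := by
    have := orderOf_eq_prime_pow (x := r₀) (p := 2) (n := 1)
      (by rw [pow_one, pow_two, hrr]; exact hm1)
      (by
        have e : r₀ ^ 2 ^ (1 + 1) = (r₀ * r₀) * (r₀ * r₀) := by
          rw [show 2 ^ (1 + 1) = 2 + 2 from rfl, pow_add, pow_two]
        rw [e, hrr, hmm])
    simpa using this
  -- the subgroup `⟨r₀⟩` of `Q`
  have hle : Subgroup.zpowers r₀ ≤ Q := (Subgroup.zpowers_le).2 hr₀
  let A' : Subgroup Q := (Subgroup.zpowers r₀).subgroupOf Q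
  have hA'card : Nat.card A' = 4 := by
    have : Nat.card A' = Nat.card (Subgroup.zpowers r₀) :=
      Nat.card_congr (Subgroup.subgroupOfEquivOfLe hle).toEquiv
    rw [this, Nat.card_zpowers, hord]
  have hidx : A'.index = 2 := by
    have h := Subgroup.card_mul_index A'
    rw [hA'card, hcard] at h
    omega
  have hex : ∃ r₁ : Q, r₁ ∉ A' := by
    by_contra hcon
    push Not at hcon
    have : A' = ⊤ := by
      ext x
      simp [hcon x]
    rw [this, Subgroup.index_top] at hidx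
    omega
  obtain ⟨⟨r₁, hr₁⟩, hr₁A⟩ := hex
  have hmemA : ∀ x : Q, x ∈ A' ↔ (x : L) ∈ Subgroup.zpowers r₀ := fun x => Subgroup.mem_subgroupOf
  have hr₁A' : r₁ ∉ Subgroup.zpowers r₀ := fun h => hr₁A ((hmemA _).2 h)
  have hinA : ∀ x ∈ ({1, r₀, m₀, m₀ * r₀} : Set L), x ∈ Subgroup.zpowers r₀ := by
    rintro x (rfl | rfl | rfl | rfl)
    · exact one_mem _
    · exact Subgroup.mem_zpowers _
    · rw [← hrr]
      exact mul_mem (Subgroup.mem_zpowers _) (Subgroup.mem_zpowers _)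
    · rw [← hrr]
      exact mul_mem (mul_mem (Subgroup.mem_zpowers _) (Subgroup.mem_zpowers _)) (Subgroup.mem_zpowers _)
  have hr₁r₁ : r₁ * r₁ = m₀ := by
    rcases hQ r₁ hr₁ with h | h | h
    · exact absurd (h ▸ hinA 1 (by simp)) hr₁A'
    · exact absurd (h ▸ hinA m₀ (by simp)) hr₁A'
    · exact h
  have hr₀r₁ : (r₀ * r₁) * (r₀ * r₁) = m₀ := by
    rcases hQ (r₀ * r₁) (Q.mul_mem hr₀ hr₁) with h | h | h
    · exfalso
      apply hr₁A'
      have : r₁ = r₀⁻¹ := eq_inv_of_mul_eq_one_right h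
      rw [this]
      exact inv_mem (Subgroup.mem_zpowers _)
    · exfalso
      apply hr₁A'
      have h5 : r₁ = r₀⁻¹ * m₀ := by
        rw [← h]; group
      rw [h5]
      exact mul_mem (inv_mem (Subgroup.mem_zpowers _)) (hinA m₀ (by simp))
    · exact h
  have hr₁inv : r₁⁻¹ = m₀ * r₁ := by
    apply inv_eq_of_mul_eq_one_left
    calc m₀ * r₁ * r₁ = m₀ * (r₁ * r₁) := by group
      _ = 1 := by rw [hr₁r₁, hmm]
  have hanti : r₁ * r₀ * r₁⁻¹ = m₀ * r₀ := by
    have h6 : r₁ * r₀ * r₁ = r₀⁻¹ * m₀ := by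
      have : r₀ * (r₁ * r₀ * r₁) = m₀ := by rw [← hr₀r₁]; group
      rw [eq_inv_mul_iff_mul_eq]
      exact this
    calc r₁ * r₀ * r₁⁻¹ = r₁ * r₀ * (m₀ * r₁) := by rw [hr₁inv]
      _ = r₁ * r₀ * (r₁ * m₀) := by rw [hm r₁]
      _ = (r₁ * r₀ * r₁) * m₀ := by group
      _ = r₀⁻¹ * m₀ * m₀ := by rw [h6]
      _ = r₀⁻¹ * (m₀ * m₀) := by group
      _ = m₀ * r₀ := by rw [hmm, mul_one, hinv]
  refine ⟨r₁, hr₁, hr₁r₁, hanti, ?_⟩
  intro w hw
  by_cases hwA : w ∈ Subgroup.zpowers r₀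
  · rcases zp4 hrr hmm hwA with h | h | h | h
    · exact Or.inl h
    · exact Or.inr (Or.inr (Or.inl h))
    · exact Or.inr (Or.inl h)
    · exact Or.inr (Or.inr (Or.inr (Or.inl h)))
  · have hmul := Subgroup.mul_mem_iff_of_index_two hidx (a := (⟨w, hw⟩ : Q)) (b := (⟨r₁, hr₁⟩ : Q))
    have h1 : (⟨w, hw⟩ : Q) * ⟨r₁, hr₁⟩ ∈ A' := by
      rw [hmul, hmemA, hmemA]
      simp [hwA, hr₁A']
    rw [hmemA] at h1
    have h2 : w * r₁ ∈ Subgroup.zpowers r₀ := h1
    have hmwr : ∀ z, w * r₁ = z → w = z * (m₀ * r₁) := by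
      intro z hz
      rw [← hz, ← hr₁inv]
      group
    have hcm : ∀ z, z * (m₀ * r₁) = m₀ * (z * r₁) := by
      intro z
      rw [← mul_assoc, hm z, mul_assoc]
    rcases zp4 hrr hmm h2 with h | h | h | h
    · right; right; right; right; right; left
      rw [hmwr _ h, one_mul]
    · right; right; right; right; right; right; right
      rw [hmwr _ h, hcm]
    · right; right; right; right; left
      rw [hmwr _ h, ← mul_assoc, hmm, one_mul]
    · right; right; right; right; right; right; left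
      rw [hmwr _ h, hcm, ← mul_assoc, ← mul_assoc]
      rw [← mul_assoc] at *
      calc m₀ * m₀ * r₀ * r₁ = (m₀ * m₀) * r₀ * r₁ := rfl
        _ = r₀ * r₁ := by rw [hmm, one_mul]

end q8

section sg

variable {H : Type*} [Group H]

/-- Equality up to the central involution `m`. -/
def Sg (m a b : H) : Prop := a = b ∨ a = m * b

variable {m : H} (hm : ∀ x : H, x * m = m * x) (hmm : m * m = 1)
include hm hmm

lemma Sg.symm {a b : H} (h : Sg m a b) : Sg m b a := by
  rcases h with rfl | rfl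
  · exact Or.inl rfl
  · right
    rw [← mul_assoc, hmm, one_mul]

lemma Sg.trans {a b c : H} (h : Sg m a b) (h' : Sg m b c) : Sg m a c := by
  rcases h with rfl | rfl <;> rcases h' with rfl | rfl
  · exact Or.inl rfl
  · exact Or.inr rfl
  · exact Or.inr rfl
  · left
    rw [← mul_assoc, hmm, one_mul]

lemma Sg.mul {a b c d : H} (h : Sg m a b) (h' : Sg m c d) : Sg m (a * c) (b * d) := by
  rcases h with rfl | rfl <;> rcases h' with rfl | rfl
  · exact Or.inl rfl
  · right
    rw [← mul_assoc, hm a, mul_assoc]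
  · right
    rw [mul_assoc]
  · left
    calc m * b * (m * d) = m * (b * m) * d := by group
      _ = m * (m * b) * d := by rw [hm b]
      _ = (m * m) * b * d := by group
      _ = b * d := by rw [hmm, one_mul]

lemma Sg.conj (Y : H) {a b : H} (h : Sg m a b) : Sg m (Y * a * Y⁻¹) (Y * b * Y⁻¹) := by
  rcases h with rfl | rfl
  · exact Or.inl rfl
  · right
    calc Y * (m * b) * Y⁻¹ = (Y * m) * b * Y⁻¹ := by group
      _ = (m * Y) * b * Y⁻¹ := by rw [hm Y]
      _ = m * (Y * b * Y⁻¹) := by group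

lemma Sg.of_conj (Y : H) {a b : H} (h : Sg m (Y * a * Y⁻¹) (Y * b * Y⁻¹)) : Sg m a b := by
  have h1 := Sg.conj hm hmm Y⁻¹ h
  have e : ∀ z, Y⁻¹ * (Y * z * Y⁻¹) * Y⁻¹⁻¹ = z := fun z => by group
  rwa [e, e] at h1

end sg

section norm

variable {H L : Type*} [Group H] [Group L] [Finite H] [Finite L]

variable {j : L →* H} {D : Data L} {e : H} {P : Subgroup H} {Z : Subgroup H}

/-- The normalizer hypothesis. -/
theorem norm_of (hj : Function.Injective j) (hjn : j.range.Normal) (hD : (Nat.card L).factorization 2 = D.v + 1)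
    (hmc : ∀ x : H, x * j (D.y * D.y) = j (D.y * D.y) * x)
    (PS : Sylow 2 H) (he : e ∈ (PS : Subgroup H))
    (hZ : ∀ c ∈ Z, ∀ h : H, c * h = h * c)
    (cov : ∀ B : H, ∃ c ∈ Z, ∃ w : L, B = c * j w ∨ B = e * (c * j w))
    (ne : ∀ c ∈ Z, ∀ w : L, e ≠ c * j w)
    (com : ∀ (X : H) (r₀ r₁ : L), r₀ * r₀ = D.y * D.y → r₁ * r₁ = D.y * D.y →
      r₁ * r₀ * r₁⁻¹ = (D.y * D.y) * r₀ → X * j r₀ = j r₀ * X → X * j r₁ = j r₁ * X → X ∈ Z)
    (fix : D.v = 2 → ∃ r₀ : L, j r₀ ∈ (PS : Subgroup H) ∧ r₀ * r₀ = D.y * D.y ∧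
      Sg (j (D.y * D.y)) (e * j r₀ * e⁻¹) (j r₀))
    (B : H) (hB : ∀ p ∈ (PS : Subgroup H), B * p * B⁻¹ ∈ (PS : Subgroup H)) :
    ∃ t ∈ (PS : Subgroup H), ∀ x ∈ (PS : Subgroup H), B * x * B⁻¹ = t * x * t⁻¹ := by
  classical
  haveI : Fact (Nat.Prime 2) := ⟨Nat.prime_two⟩
  set m₀ := D.y * D.y with hm₀
  set m := j m₀ with hm
  have hmm₀ : m₀ * m₀ = 1 := yy_sq D
  have hmm : m * m = 1 := by rw [hm, ← map_mul, hmm₀, map_one]
  have hm₀c : ∀ x : L, x * m₀ = m₀ * x := by
    intro x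
    apply hj
    rw [map_mul j x m₀, map_mul j m₀ x]
    exact hmc (j x)
  have hm₀1 : m₀ ≠ 1 := yy_ne_one D
  -- the Sylow subgroup of `L`
  let Q : Subgroup L := (PS : Subgroup H).comap j
  have hQp : IsPGroup 2 Q := IsPGroup.comap_of_injective PS.isPGroup' j hj
  have hQidx : ¬ 2 ∣ Q.index := by
    haveI := hjn
    rw [Subgroup.index_comap, ← Subgroup.inf_relIndex_right]
    exact Cfsg.Agent.Lib.StrongSec.MinFail.not_dvd_inf_relIndex_of_normal PS j.range
  let Qs : Sylow 2 L := hQp.toSylow hQidx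
  have hQs : (Qs : Subgroup L) = Q := rfl
  have hmemQ : ∀ s, s ∈ Q ↔ j s ∈ (PS : Subgroup H) := fun s => Iff.rfl
  -- reduction to the claim on `j w`
  have hclaim : ∀ w : L, (∀ p ∈ (PS : Subgroup H), j w * p * (j w)⁻¹ ∈ (PS : Subgroup H)) →
      ∃ c ∈ Z, ∃ q : L, j q ∈ (PS : Subgroup H) ∧ j w = c * j q := by
    intro w hw
    have hwQ : ∀ s ∈ Q, w * s * w⁻¹ ∈ Q := by
      intro s hs
      rw [hmemQ]
      simpa [map_mul, map_inv] using hw _ hs
    rcases eq_or_lt_of_le D.hv with hv | hv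
    · -- `v = 2`
      have hv : D.v = 2 := hv.symm
      obtain ⟨r₀, hr₀, hrr, hfix⟩ := fix hv
      obtain ⟨c₀, hc₀⟩ := D.exists_conj hD Qs
      have hQcard : Nat.card Q = 8 := by
        have h1 := D.card_S
        rw [← hc₀, card_map_conj, hv] at h1
        exact (by simpa using h1 : Nat.card (Qs : Subgroup L) = 8)
      have hQcases : ∀ x ∈ Q, x = 1 ∨ x = m₀ ∨ x * x = m₀ := by
        intro x hx
        refine Q_cases D hv ?_ hc₀ hx
        intro y
        rw [← hm₀, hm₀c y]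
        group
      obtain ⟨r₁, hr₁, hr₁r₁, hanti, henum⟩ := q8_enum hm₀c hmm₀ hm₀1 hQcard hQcases hr₀ hrr
      set R₀ := j r₀ with hR₀
      set R₁ := j r₁ with hR₁
      have hR₀P : R₀ ∈ (PS : Subgroup H) := hr₀
      have hR₁P : R₁ ∈ (PS : Subgroup H) := hr₁
      have hR₀R₀ : R₀ * R₀ = m := by rw [hR₀, ← map_mul, hrr]
      have hR₁R₁ : R₁ * R₁ = m := by rw [hR₁, ← map_mul, hr₁r₁]
      have hanti' : R₁ * R₀ * R₁⁻¹ = m * R₀ := by
        rw [hR₁, hR₀, ← map_inv, ← map_mul, ← map_mul, hanti, map_mul]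
      have hrel : R₁ * R₀ = m * (R₀ * R₁) := by
        calc R₁ * R₀ = (R₁ * R₀ * R₁⁻¹) * R₁ := by group
          _ = m * R₀ * R₁ := by rw [hanti']
          _ = m * (R₀ * R₁) := by group
      have hm1 : m ≠ 1 := fun h => hm₀1 (hj (by rw [map_one]; exact h))
      set R₂ := R₀ * R₁ with hR₂
      have hR₂R₂ : R₂ * R₂ = m := by
        calc R₂ * R₂ = R₀ * (R₁ * R₀) * R₁ := by rw [hR₂]; group
          _ = R₀ * (m * (R₀ * R₁)) * R₁ := by rw [hrel]
          _ = (R₀ * m) * (R₀ * R₁) * R₁ := by group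
          _ = (m * R₀) * (R₀ * R₁) * R₁ := by rw [hmc R₀]
          _ = m * (R₀ * R₀) * (R₁ * R₁) := by group
          _ = m * m * m := by rw [hR₀R₀, hR₁R₁]
          _ = m := by rw [hmm, one_mul]
      -- the sign lemmas
      have Ssymm : ∀ {a b : H}, Sg m a b → Sg m b a := fun h => Sg.symm hmc hmm h
      have Strans : ∀ {a b c : H}, Sg m a b → Sg m b c → Sg m a c := fun h h' => Sg.trans hmc hmm h h'
      have Smul : ∀ {a b c d : H}, Sg m a b → Sg m c d → Sg m (a * c) (b * d) := fun h h' => Sg.mul hmc hmm h h'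
      have Sconj : ∀ (Y : H) {a b : H}, Sg m a b → Sg m (Y * a * Y⁻¹) (Y * b * Y⁻¹) :=
        fun Y _ _ h => Sg.conj hmc hmm Y h
      have Soc : ∀ (Y : H) {a b : H}, Sg m (Y * a * Y⁻¹) (Y * b * Y⁻¹) → Sg m a b :=
        fun Y _ _ h => Sg.of_conj hmc hmm Y h
      -- distinctness
      have hd10 : ¬ Sg m R₁ R₀ := by
        intro h
        have hc : R₁ * R₀ * R₁⁻¹ = R₀ := by
          rcases h with h | h
          · rw [h]; group
          · rw [h]
            have e1 : m * R₀ * R₀ * (m * R₀)⁻¹ = (m * R₀) * R₀ * ((m * R₀)⁻¹) := rfl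
            calc m * R₀ * R₀ * (m * R₀)⁻¹ = m * R₀ * (R₀ * R₀⁻¹) * m⁻¹ := by group
              _ = m * R₀ * m⁻¹ := by group
              _ = R₀ * m * m⁻¹ := by rw [hmc R₀]
              _ = R₀ := by group
        rw [hc] at hanti'
        apply hm1
        have : R₀ * R₀⁻¹ = m * R₀ * R₀⁻¹ := by rw [← hanti']
        simpa using this.symm
      have hd21 : ¬ Sg m R₂ R₁ := by
        intro h
        rcases h with h | h
        · have : R₀ = 1 := by
            have h5 : R₀ * R₁ = 1 * R₁ := by rw [one_mul]; exact h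
            exact mul_right_cancel h5
          rw [this, one_mul] at hR₀R₀
          exact hm1 hR₀R₀.symm
        · have : R₀ = m := mul_right_cancel h
          rw [this, hmm] at hR₀R₀
          exact hm1 hR₀R₀.symm
      have hd20 : ¬ Sg m R₂ R₀ := by
        intro h
        rcases h with h | h
        · have : R₁ = 1 := by
            have h5 : R₀ * R₁ = R₀ * 1 := by rw [mul_one]; exact h
            exact mul_left_cancel h5
          rw [this, one_mul] at hR₁R₁
          exact hm1 hR₁R₁.symm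
        · have : R₁ = m := by
            have h5 : R₀ * R₁ = R₀ * m := by rw [hmc R₀]; exact h
            exact mul_left_cancel h5
          rw [this, hmm] at hR₁R₁
          exact hm1 hR₁R₁.symm
      -- the list
      have hlist : ∀ g ∈ (PS : Subgroup H), g ∈ j.range → g * g = m → Sg m g R₀ ∨ Sg m g R₁ ∨ Sg m g R₂ := by
        rintro _ hg ⟨s, rfl⟩ hss
        have hss' : s * s = m₀ := hj (by rw [map_mul]; exact hss)
        rcases henum s hg with h | h | h | h | h | h | h | h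
        · exfalso
          rw [h, one_mul] at hss'
          exact hm₀1 hss'.symm
        · exfalso
          rw [h, hmm₀] at hss'
          exact hm₀1 hss'.symm
        · left; left; rw [h]
        · left; right; rw [h, map_mul]
        · right; left; left; rw [h]
        · right; left; right; rw [h, map_mul]
        · right; right; left; rw [h, map_mul]
        · right; right; right
          rw [h]
          have : j (m₀ * (r₀ * r₁)) = m * R₂ := by
            rw [map_mul j m₀, map_mul j r₀]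
          exact this
      -- conjugates
      have hact : ∀ Y : H, (∀ p ∈ (PS : Subgroup H), Y * p * Y⁻¹ ∈ (PS : Subgroup H)) →
          ∀ g ∈ (PS : Subgroup H), g ∈ j.range → g * g = m →
            Sg m (Y * g * Y⁻¹) R₀ ∨ Sg m (Y * g * Y⁻¹) R₁ ∨ Sg m (Y * g * Y⁻¹) R₂ := by
        intro Y hY g hgP hgj hgg
        apply hlist _ (hY g hgP) (hjn.conj_mem g hgj Y)
        have hmY : Y * m * Y⁻¹ = m := by
          rw [hmc Y]; group
        calc Y * g * Y⁻¹ * (Y * g * Y⁻¹) = Y * (g * g) * Y⁻¹ := by group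
          _ = m := by rw [hgg, hmY]
      have hePS : ∀ p ∈ (PS : Subgroup H), e * p * e⁻¹ ∈ (PS : Subgroup H) := fun p hp =>
        (PS : Subgroup H).mul_mem ((PS : Subgroup H).mul_mem he hp) ((PS : Subgroup H).inv_mem he)
      have hR₀j : R₀ ∈ j.range := ⟨r₀, rfl⟩
      have hR₁j : R₁ ∈ j.range := ⟨r₁, rfl⟩
      have hR₂j : R₂ ∈ j.range := mul_mem hR₀j hR₁j
      have hR₂P : R₂ ∈ (PS : Subgroup H) := mul_mem hR₀P hR₁P
      -- the commuting lemma
      have hfin : ∀ (Y : H) (q : L), j q ∈ (PS : Subgroup H) → (j q * Y) * R₀ = R₀ * (j q * Y) →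
          (j q * Y) * R₁ = R₁ * (j q * Y) → ∃ c ∈ Z, ∃ q' : L, j q' ∈ (PS : Subgroup H) ∧ Y = c * j q' := by
        intro Y q hq h0 h1
        have hz := com _ r₀ r₁ hrr hr₁r₁ hanti h0 h1
        refine ⟨_, hz, q⁻¹, by rw [map_inv]; exact (PS : Subgroup H).inv_mem hq, ?_⟩
        rw [hZ _ hz, map_inv]
        group
      have hL1 : ∀ Y : H, Sg m (Y * R₀ * Y⁻¹) R₀ → Sg m (Y * R₁ * Y⁻¹) R₁ →
          ∃ c ∈ Z, ∃ q' : L, j q' ∈ (PS : Subgroup H) ∧ Y = c * j q' := by
        intro Y h0 h1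
        have hY0 : ∀ z, Y * R₀ * Y⁻¹ = z → Y * R₀ = z * Y := by
          intro z hz; rw [← hz]; group
        have hY1 : ∀ z, Y * R₁ * Y⁻¹ = z → Y * R₁ = z * Y := by
          intro z hz; rw [← hz]; group
        rcases h0 with h0 | h0 <;> rcases h1 with h1 | h1
        · refine hfin Y 1 (by rw [map_one]; exact one_mem _) ?_ ?_
          · rw [map_one, one_mul, hY0 _ h0]
          · rw [map_one, one_mul, hY1 _ h1]
        · refine hfin Y r₀ hr₀ ?_ ?_
          · rw [mul_assoc, hY0 _ h0]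
          · rw [mul_assoc, hY1 _ h1]
            calc R₀ * (m * R₁ * Y) = (R₀ * m) * R₁ * Y := by group
              _ = (m * R₀) * R₁ * Y := by rw [hmc R₀]
              _ = (m * (R₀ * R₁)) * Y := by group
              _ = (R₁ * R₀) * Y := by rw [hrel]
              _ = R₁ * (R₀ * Y) := by group
        · refine hfin Y r₁ hr₁ ?_ ?_
          · rw [mul_assoc, hY0 _ h0]
            calc R₁ * (m * R₀ * Y) = (R₁ * m) * R₀ * Y := by group
              _ = (m * R₁) * R₀ * Y := by rw [hmc R₁]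
              _ = m * (R₁ * R₀) * Y := by group
              _ = m * (m * (R₀ * R₁)) * Y := by rw [hrel]
              _ = (m * m) * (R₀ * R₁) * Y := by group
              _ = R₀ * (R₁ * Y) := by rw [hmm]; group
          · rw [mul_assoc, hY1 _ h1]
        · refine hfin Y (r₀ * r₁) (by rw [map_mul]; exact hR₂P) ?_ ?_
          · rw [map_mul, mul_assoc, mul_assoc, hY0 _ h0]
            calc R₀ * (R₁ * (m * R₀ * Y)) = R₀ * ((R₁ * m) * R₀ * Y) := by group
              _ = R₀ * ((m * R₁) * R₀ * Y) := by rw [hmc R₁]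
              _ = R₀ * (m * (R₁ * R₀) * Y) := by group
              _ = R₀ * (m * (m * (R₀ * R₁)) * Y) := by rw [hrel]
              _ = R₀ * ((m * m) * (R₀ * R₁) * Y) := by group
              _ = R₀ * (R₀ * R₁ * Y) := by rw [hmm, one_mul]
          · rw [map_mul, mul_assoc, mul_assoc, hY1 _ h1]
            calc R₀ * (R₁ * (m * R₁ * Y)) = R₀ * ((R₁ * m) * R₁ * Y) := by group
              _ = R₀ * ((m * R₁) * R₁ * Y) := by rw [hmc R₁]
              _ = (R₀ * m) * (R₁ * R₁) * Y := by group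
              _ = (m * R₀) * (R₁ * R₁) * Y := by rw [hmc R₀]
              _ = (m * (R₀ * R₁)) * R₁ * Y := by group
              _ = (R₁ * R₀) * R₁ * Y := by rw [hrel]
              _ = R₁ * (R₀ * R₁ * Y) := by group
      -- the argument
      have h1 : Sg m (e * R₁ * e⁻¹) R₂ := by
        rcases hact e hePS R₁ hR₁P hR₁j hR₁R₁ with h | h | h
        · exact absurd (Soc e (Strans h (Ssymm hfix))) hd10
        · exfalso
          obtain ⟨c, hc, q, -, hq⟩ := hL1 e hfix h
          exact ne c hc q hq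
        · exact h
      have hX : j w * R₀ * (j w)⁻¹ ∈ (PS : Subgroup H) := hw _ hR₀P
      -- `e₂ = X⁻¹ e X` differs from `e` by an element of `jQ`
      have hXe : ∃ s : L, j s ∈ (PS : Subgroup H) ∧ (j w)⁻¹ * e * j w = j s * e := by
        have h5 : (j w)⁻¹ * e * j w * e⁻¹ ∈ j.range := by
          have h6 := hjn.conj_mem (j w) ⟨w, rfl⟩ e
          have : (j w)⁻¹ * e * j w * e⁻¹ = (j w)⁻¹ * (e * j w * e⁻¹) := by group
          rw [this]
          exact mul_mem (inv_mem ⟨w, rfl⟩) h6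
        have h7 : (j w)⁻¹ * e * j w * e⁻¹ ∈ (PS : Subgroup H) := by
          -- `X` normalizes `P` and so does its inverse, by finiteness
          have hinvP : ∀ p ∈ (PS : Subgroup H), (j w)⁻¹ * p * j w ∈ (PS : Subgroup H) := by
            intro p hp
            have hn : j w ∈ Subgroup.normalizer ((PS : Subgroup H) : Set H) :=
              Subgroup.mem_normalizer_fintype (fun n hn => hw n hn)
            have := (Subgroup.mem_normalizer_iff.mp ((Subgroup.normalizer _).inv_mem hn) p).mp hp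
            simpa using this
          exact (PS : Subgroup H).mul_mem (hinvP e he) ((PS : Subgroup H).inv_mem he)
        obtain ⟨s, hs⟩ := h5
        refine ⟨s, ?_, ?_⟩
        · rw [hs]; exact h7
        · rw [hs]; group
      obtain ⟨s, hsP, hse⟩ := hXe
      -- elements of `jQ` fix the axis of `R₀`
      have hQfix : ∀ t ∈ Q, Sg m (j t * R₀ * (j t)⁻¹) R₀ := by
        have hgen0 : Sg m (R₀ * R₀ * R₀⁻¹) R₀ := by
          left; group
        have hgen1 : Sg m (R₁ * R₀ * R₁⁻¹) R₀ := Or.inr hanti'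
        have hgenm : ∀ z, z = m → Sg m (z * R₀ * z⁻¹) R₀ := by
          rintro _ rfl
          left
          rw [← hmc R₀]
          group
        have hcomp : ∀ a b : H, Sg m (a * R₀ * a⁻¹) R₀ → Sg m (b * R₀ * b⁻¹) R₀ →
            Sg m ((a * b) * R₀ * (a * b)⁻¹) R₀ := by
          intro a b ha hb
          have e1 : (a * b) * R₀ * (a * b)⁻¹ = a * (b * R₀ * b⁻¹) * a⁻¹ := by group
          rw [e1]
          exact Strans (Sconj a hb) ha
        intro t ht
        have ej1 : j (m₀ * r₀) = m * R₀ := map_mul j m₀ r₀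
        have ej2 : j (m₀ * r₁) = m * R₁ := map_mul j m₀ r₁
        have ej3 : j (r₀ * r₁) = R₀ * R₁ := map_mul j r₀ r₁
        have ej4 : j (m₀ * (r₀ * r₁)) = m * (R₀ * R₁) := by
          rw [map_mul j m₀, ej3]
        rcases henum t ht with h | h | h | h | h | h | h | h
        · rw [h]; left; simp
        · rw [h]; exact hgenm m rfl
        · rw [h]; exact hgen0
        · rw [h, ej1]; exact hcomp _ _ (hgenm m rfl) hgen0
        · rw [h]; exact hgen1
        · rw [h, ej2]; exact hcomp _ _ (hgenm m rfl) hgen1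
        · rw [h, ej3]; exact hcomp _ _ hgen0 hgen1
        · rw [h, ej4]; exact hcomp _ _ (hgenm m rfl) (hcomp _ _ hgen0 hgen1)
      set X := j w with hXdef
      -- `e` fixes the axis of `X R₀ X⁻¹`
      have hfixX : Sg m (e * (X * R₀ * X⁻¹) * e⁻¹) (X * R₀ * X⁻¹) := by
        have h5 : e * X = X * (j s * e) := by
          rw [← hse]; group
        have h6 : e * (X * R₀ * X⁻¹) * e⁻¹ = X * (j s * (e * R₀ * e⁻¹) * (j s)⁻¹) * X⁻¹ := by
          have h7 : X⁻¹ * e⁻¹ = (j s * e)⁻¹ * X⁻¹ := by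
            rw [← mul_inv_rev, ← mul_inv_rev, h5]
          calc e * (X * R₀ * X⁻¹) * e⁻¹ = (e * X) * R₀ * (X⁻¹ * e⁻¹) := by group
            _ = X * (j s * e) * R₀ * ((j s * e)⁻¹ * X⁻¹) := by rw [h5, h7]
            _ = _ := by group
        rw [h6]
        apply Sconj
        exact Strans (Sconj _ hfix) (hQfix s hsP)
      have heR₂ : Sg m (e * R₂ * e⁻¹) R₁ := by
        have e1 : e * R₂ * e⁻¹ = (e * R₀ * e⁻¹) * (e * R₁ * e⁻¹) := by rw [hR₂]; group
        rw [e1]
        have h5 := Smul hfix h1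
        refine Strans h5 ?_
        have e2 : R₀ * R₂ = m * R₁ := by
          rw [hR₂, ← mul_assoc, hR₀R₀]
        rw [e2]
        exact Or.inr rfl
      have h2 : Sg m (X * R₀ * X⁻¹) R₀ := by
        rcases hact X hw R₀ hR₀P hR₀j hR₀R₀ with h | h | h
        · exact h
        · exfalso
          have h5 := Sconj e h
          exact hd21 (Ssymm (Strans (Ssymm h) (Strans (Ssymm hfixX) (Strans h5 h1))))
        · exfalso
          have h5 := Sconj e h
          exact hd21 (Strans (Ssymm h) (Strans (Ssymm hfixX) (Strans h5 heR₂)))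
      rcases hact X hw R₁ hR₁P hR₁j hR₁R₁ with h | h | h
      · exact absurd (Soc X (Strans h (Ssymm h2))) hd10
      · exact hL1 X h2 h
      · exfalso
        -- `e⁻¹ X` fixes both axes
        have he0 : Sg m (e⁻¹ * R₀ * e⁻¹⁻¹) R₀ := by
          have h5 := Sconj e⁻¹ hfix
          have e1 : e⁻¹ * (e * R₀ * e⁻¹) * e⁻¹⁻¹ = R₀ := by group
          rw [e1] at h5
          exact Ssymm h5
        have he2 : Sg m (e⁻¹ * R₂ * e⁻¹⁻¹) R₁ := by
          have h5 := Sconj e⁻¹ h1
          have e1 : e⁻¹ * (e * R₁ * e⁻¹) * e⁻¹⁻¹ = R₁ := by group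
          rw [e1] at h5
          exact Ssymm h5
        obtain ⟨c, hc, q, -, hq⟩ := hL1 (e⁻¹ * X) (by
          have e1 : e⁻¹ * X * R₀ * (e⁻¹ * X)⁻¹ = e⁻¹ * (X * R₀ * X⁻¹) * e⁻¹⁻¹ := by group
          rw [e1]
          exact Strans (Sconj _ h2) he0) (by
          have e1 : e⁻¹ * X * R₁ * (e⁻¹ * X)⁻¹ = e⁻¹ * (X * R₁ * X⁻¹) * e⁻¹⁻¹ := by group
          rw [e1]
          exact Strans (Sconj _ h) he2)
        apply ne c⁻¹ (Z.inv_mem hc) (w * q⁻¹)
        rw [map_mul, map_inv, ← hXdef]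
        have h5 : X = e * (c * j q) := by
          rw [← hq]; group
        rw [h5]
        have h6 : e * (c * j q) * (j q)⁻¹ = e * c := by group
        rw [h6, ← hZ c hc e]
        group
    · exact ⟨1, Z.one_mem, w, by
        have h1 := D.sylow_normalizer_of_three hD Qs hv
        have h2 : w ∈ Subgroup.normalizer ((Qs : Subgroup L) : Set L) := by
          apply Subgroup.mem_normalizer_fintype
          intro s hs
          exact hwQ s hs
        rw [h1] at h2
        exact h2, by simp⟩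
  obtain ⟨c, hc, w, hBw⟩ := cov B
  have hcinv : ∀ x, c * x * c⁻¹ = x := by
    intro x
    rw [hZ c hc x]
    group
  have hcB : ∀ (c' : H), c' ∈ Z → ∀ x, c' * x * c'⁻¹ = x := by
    intro c' hc' x
    rw [hZ c' hc' x]
    group
  rcases hBw with rfl | rfl
  · have hw : ∀ p ∈ (PS : Subgroup H), j w * p * (j w)⁻¹ ∈ (PS : Subgroup H) := by
      intro p hp
      have h1 := hB p hp
      have e1 : c * j w * p * (c * j w)⁻¹ = c * (j w * p * (j w)⁻¹) * c⁻¹ := by group
      rwa [e1, hcinv] at h1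
    obtain ⟨c', hc', q, hq, hqe⟩ := hclaim w hw
    refine ⟨j q, hq, fun x _ => ?_⟩
    have e1 : c * j w * x * (c * j w)⁻¹ = c * (j w * x * (j w)⁻¹) * c⁻¹ := by group
    rw [e1, hcinv, hqe]
    have e2 : c' * j q * x * (c' * j q)⁻¹ = c' * (j q * x * (j q)⁻¹) * c'⁻¹ := by group
    rw [e2, hcB c' hc']
  · have hw : ∀ p ∈ (PS : Subgroup H), j w * p * (j w)⁻¹ ∈ (PS : Subgroup H) := by
      intro p hp
      have h1 := hB p hp
      have e1 : e * (c * j w) * p * (e * (c * j w))⁻¹ = e * (c * (j w * p * (j w)⁻¹) * c⁻¹) * e⁻¹ := by group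
      rw [e1, hcinv] at h1
      have h2 := (PS : Subgroup H).mul_mem ((PS : Subgroup H).mul_mem ((PS : Subgroup H).inv_mem he) h1) he
      have e2 : e⁻¹ * (e * (j w * p * (j w)⁻¹) * e⁻¹) * e = j w * p * (j w)⁻¹ := by group
      rwa [e2] at h2
    obtain ⟨c', hc', q, hq, hqe⟩ := hclaim w hw
    refine ⟨e * j q, (PS : Subgroup H).mul_mem he hq, fun x _ => ?_⟩
    have e1 : e * (c * j w) * x * (e * (c * j w))⁻¹ = e * (c * (j w * x * (j w)⁻¹) * c⁻¹) * e⁻¹ := by group
    rw [e1, hcinv, hqe]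
    have e2 : c' * j q * x * (c' * j q)⁻¹ = c' * (j q * x * (j q)⁻¹) * c'⁻¹ := by group
    rw [e2, hcB c' hc']
    group

end norm

end Cfsg.Agent.Lib.H29.L3Norm
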