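import Cfsg.Agent.Lib.Fusion.Model
import Cfsg.Agent.Lib.FusionExt.Realized

/-!
# Fusion systems induced by an injection into a finite group; a hom criterion for groups with a
cyclic subgroup of index two
-/

set_option autoImplicit false

namespace Cfsg.Agent.Lib.H29.MetaSuperB

open Cfsg Subgroup

section system

variable {Ω : Type*} [Group Ω] {S : Subgroup Ω} {G : Type*} [Group G]

/-- The fusion system over `S` induced by an injection of `S` into `G`. -/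
def realizedSys (ι : S →* G) (hι : Function.Injective ι) : FusionSystem S where
  Hom P := {φ | ∃ hP : P ≤ S, ∃ hφ : ∀ x : P, φ x ∈ S, ∃ g : G, ∀ x : P,
    ι ⟨φ x, hφ x⟩ = g * ι ⟨x, hP x.2⟩ * g⁻¹}
  le_of_mem := by
    rintro P φ ⟨hP, hφ, -⟩
    exact ⟨hP, hφ⟩
  injective_of_mem := by
    rintro P φ ⟨hP, hφ, g, h⟩ a b hab
    have h1 : ι ⟨φ a, hφ a⟩ = ι ⟨φ b, hφ b⟩ := by
      congr 1
      exact Subtype.ext hab
    rw [h a, h b] at h1
    have h2 := hι (mul_left_cancel (mul_right_cancel h1))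
    exact Subtype.ext (congrArg (Subtype.val : S → Ω) h2)
  conj_mem := by
    intro P g hP hg
    refine ⟨hP, fun x => S.mul_mem (S.mul_mem hg (hP x.2)) (S.inv_mem hg), ι ⟨g, hg⟩, fun x => ?_⟩
    rw [← map_inv, ← map_mul, ← map_mul]
    rfl
  comp_mem := by
    rintro P Q φ ψ ⟨hP, hφ, g, h⟩ ⟨hQ, hψ, g', k⟩ hh
    refine ⟨hP, fun x => hψ _, g' * g, fun x => ?_⟩
    have h1 := k (φ.codRestrict Q hh x)
    have h2 : (⟨((φ.codRestrict Q hh x : Q) : Ω), hQ (φ.codRestrict Q hh x).2⟩ : S) = ⟨φ x, hφ x⟩ := rfl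
    rw [h2, h x] at h1
    show ι ⟨ψ (φ.codRestrict Q hh x), _⟩ = _
    rw [h1]
    group
  inv_mem := by
    rintro P φ ⟨hP, hφ, g, h⟩
    have hr : φ.range ≤ S := by
      rintro _ ⟨x, rfl⟩
      exact hφ x
    -- the preimage map
    have hinjφ : Function.Injective φ := by
      intro a b hab
      have h1 : ι ⟨φ a, hφ a⟩ = ι ⟨φ b, hφ b⟩ := by
        congr 1
        exact Subtype.ext hab
      rw [h a, h b] at h1
      have h2 := hι (mul_left_cancel (mul_right_cancel h1))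
      exact Subtype.ext (congrArg (Subtype.val : S → Ω) h2)
    let e : P ≃* φ.range := MonoidHom.ofInjective hinjφ
    let ψ : φ.range →* Ω := P.subtype.comp e.symm.toMonoidHom
    have he : ∀ x : P, e.symm ⟨φ x, ⟨x, rfl⟩⟩ = x := fun x => e.symm_apply_apply x
    have hψ : ∀ x : φ.range, ψ x ∈ S := fun x => hP (e.symm x).2
    refine ⟨ψ, ⟨hr, hψ, g⁻¹, ?_⟩, fun x => ?_⟩
    · intro x
      obtain ⟨_, y, rfl⟩ := x
      have h1 : (⟨ψ ⟨φ y, ⟨y, rfl⟩⟩, hψ _⟩ : S) = ⟨y, hP y.2⟩ := by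
        apply Subtype.ext
        show ((e.symm ⟨φ y, ⟨y, rfl⟩⟩ : P) : Ω) = y
        rw [he]
      rw [h1]
      have h2 : (⟨((⟨φ y, ⟨y, rfl⟩⟩ : φ.range) : Ω), hr (⟨φ y, ⟨y, rfl⟩⟩ : φ.range).2⟩ : S) = ⟨φ y, hφ y⟩ := rfl
      rw [h2, h y]
      group
    · show ((e.symm ⟨φ x, ⟨x, rfl⟩⟩ : P) : Ω) = x
      rw [he]

theorem realizedSys_isRealizedBy (ι : S →* G) (hι : Function.Injective ι) :
    (realizedSys ι hι).IsRealizedBy ι := by
  refine ⟨hι, fun P hP φ hφ => ⟨?_, ?_⟩⟩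
  · rintro ⟨_, _, g, h⟩
    exact ⟨g, h⟩
  · rintro ⟨g, h⟩
    exact ⟨hP, hφ, g, h⟩

theorem not_normal_of_conj [Finite G] (ι : S →* G) (hι : Function.Injective ι) (hS : IsPGroup 2 S)
    (hindex : ¬ 2 ∣ ι.range.index) (w₀ y₀ : S) (g : G) (hg : ι y₀ = g * ι (w₀ ^ 2) * g⁻¹)
    (hsq : ∀ w : S, w ^ 2 ≠ y₀) : ∃ F : FusionSystem S, F.IsSaturated 2 ∧ ¬ F.IsNormal S := by
  haveI : Fact (Nat.Prime 2) := ⟨Nat.prime_two⟩
  have hreal := realizedSys_isRealizedBy ι hι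
  have hrp : IsPGroup 2 ι.range := hS.of_equiv (MonoidHom.ofInjective hι)
  refine ⟨realizedSys ι hι,
    Cfsg.Agent.Lib.FusionExt.Realized.isSaturated_of_isRealizedBy hreal (hrp.toSylow hindex) rfl, ?_⟩
  intro hN
  let P : Subgroup Ω := zpowers ((w₀ ^ 2 : S) : Ω)
  have hPS : P ≤ S := by
    rw [Subgroup.zpowers_le]
    exact (w₀ ^ 2).2
  have hconj : ∀ x : P, ∃ s : S, ι s = g * ι ⟨x, hPS x.2⟩ * g⁻¹ := by
    rintro ⟨_, k, rfl⟩
    refine ⟨y₀ ^ k, ?_⟩
    have h1 : (⟨((w₀ ^ 2 : S) : Ω) ^ k, hPS ⟨k, rfl⟩⟩ : S) = (w₀ ^ 2) ^ k := by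
      apply Subtype.ext
      simp
    show ι (y₀ ^ k) = g * ι ⟨((w₀ ^ 2 : S) : Ω) ^ k, _⟩ * g⁻¹
    rw [h1, map_zpow, map_zpow, hg, conj_zpow]
  obtain ⟨φ, hφ, hφg⟩ := Cfsg.Agent.Lib.Fusion.Model.exists_conj_hom hι hPS g hconj
  have hφF : φ ∈ (realizedSys ι hι).Hom P := ⟨hPS, hφ, g, hφg⟩
  obtain ⟨ψ, hψ, hψφ, -⟩ := hN.2 P φ hφF
  have hle := ((realizedSys ι hι).le_of_mem hψ).2
  have hy : φ ⟨((w₀ ^ 2 : S) : Ω), mem_zpowers _⟩ = (y₀ : Ω) := by
    have h1 := hφg ⟨((w₀ ^ 2 : S) : Ω), mem_zpowers _⟩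
    have h2 : (⟨(((⟨((w₀ ^ 2 : S) : Ω), mem_zpowers _⟩ : P)) : Ω), hPS (mem_zpowers _)⟩ : S) = w₀ ^ 2 := rfl
    rw [h2, ← hg] at h1
    exact congrArg (Subtype.val : S → Ω) (hι h1)
  let w₂ : ↥(P ⊔ S) := ⟨(w₀ : Ω), mem_sup_right w₀.2⟩
  have h3 : Subgroup.inclusion (le_sup_left : P ≤ P ⊔ S) ⟨((w₀ ^ 2 : S) : Ω), mem_zpowers _⟩ = w₂ ^ 2 := by
    apply Subtype.ext
    simp [w₂]
  have h4 := hψφ ⟨((w₀ ^ 2 : S) : Ω), mem_zpowers _⟩
  rw [h3, map_pow, hy] at h4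
  apply hsq ⟨ψ w₂, hle w₂⟩
  apply Subtype.ext
  simpa using h4

end system

section hom

variable {S G : Type*} [Group S] [Group G]

/-- A homomorphism out of a group with a cyclic subgroup of index two, from the relations. -/
theorem exists_hom_of_index_two {x y : S} {X Y : G} {c d : ℤ}
    (hcx : y * x * y⁻¹ = x ^ c) (hdx : y ^ 2 = x ^ d)
    (hcX : Y * X * Y⁻¹ = X ^ c) (hdX : Y ^ 2 = X ^ d)
    (hor : orderOf X = orderOf x) (hyx : y ∉ zpowers x) (hYX : Y ∉ zpowers X)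
    (hgen : ∀ s : S, (∃ i : ℤ, s = x ^ i) ∨ (∃ i : ℤ, s = x ^ i * y)) :
    ∃ ι : S →* G, Function.Injective ι ∧ ι x = X ∧ ι y = Y := by
  let z : S × G := (x, X)
  let t : S × G := (y, Y)
  have hc : t * z * t⁻¹ = z ^ c := by
    apply Prod.ext
    · simpa [z, t] using hcx
    · simpa [z, t] using hcX
  have hd : t ^ 2 = z ^ d := by
    apply Prod.ext
    · simpa [z, t] using hdx
    · simpa [z, t] using hdX
  have hti : ∀ i : ℤ, t * z ^ i = z ^ (c * i) * t := by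
    intro i
    have h1 : t * z ^ i * t⁻¹ = z ^ (c * i) := by
      rw [← conj_zpow, hc, zpow_mul]
    calc t * z ^ i = t * z ^ i * t⁻¹ * t := by group
      _ = _ := by rw [h1]
  have htinv : t⁻¹ = z ^ (-d) * t := by
    have h1 : t ^ 2 = t * t := sq t
    rw [hd] at h1
    rw [zpow_neg, h1]
    group
  have htt : t * t = z ^ d := by rw [← hd, sq]
  let K : Subgroup (S × G) := closure {z, t}
  have hKform : ∀ u ∈ K, (∃ i : ℤ, u = z ^ i) ∨ (∃ i : ℤ, u = z ^ i * t) := by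
    intro u hu
    induction hu using Subgroup.closure_induction_left with
    | one => exact Or.inl ⟨0, by simp⟩
    | mul_left a ha b hb ih =>
      rcases ha with rfl | rfl
      · rcases ih with ⟨i, rfl⟩ | ⟨i, rfl⟩
        · exact Or.inl ⟨i + 1, by rw [zpow_add_one, ← zpow_one_add, add_comm, zpow_add_one]⟩
        · refine Or.inr ⟨i + 1, ?_⟩
          rw [← mul_assoc, zpow_add_one, ← zpow_one_add, add_comm, zpow_add_one]
      · rcases ih with ⟨i, rfl⟩ | ⟨i, rfl⟩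
        · exact Or.inr ⟨c * i, hti i⟩
        · refine Or.inl ⟨c * i + d, ?_⟩
          rw [← mul_assoc, hti, zpow_add, mul_assoc, htt]
    | inv_mul_cancel a ha b hb ih =>
      rcases ha with rfl | rfl
      · rcases ih with ⟨i, rfl⟩ | ⟨i, rfl⟩
        · exact Or.inl ⟨-1 + i, by rw [zpow_add, zpow_neg_one]⟩
        · refine Or.inr ⟨-1 + i, ?_⟩
          rw [zpow_add, zpow_neg_one, mul_assoc]
      · rcases ih with ⟨i, rfl⟩ | ⟨i, rfl⟩
        · refine Or.inr ⟨-d + c * i, ?_⟩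
          rw [htinv, mul_assoc, hti, zpow_add, mul_assoc]
        · refine Or.inl ⟨-d + c * i + d, ?_⟩
          rw [htinv, zpow_add, zpow_add, ← htt]
          rw [mul_assoc, ← mul_assoc t, hti]
          have : z ^ (-d) = (t * t)⁻¹ := by rw [zpow_neg, htt]
          rw [this]
          group
  have hzK : z ∈ K := subset_closure (Or.inl rfl)
  have htK : t ∈ K := subset_closure (Or.inr rfl)
  let π₁ : K →* S := (MonoidHom.fst S G).comp K.subtype
  have hπ₁ : Function.Bijective π₁ := by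
    constructor
    · rw [injective_iff_map_eq_one]
      rintro ⟨u, hu⟩ h1
      have h1' : u.1 = 1 := h1
      apply Subtype.ext
      show u = 1
      rcases hKform u hu with ⟨i, rfl⟩ | ⟨i, rfl⟩
      · have h2 : x ^ i = 1 := by simpa [z] using h1'
        have h3 : X ^ i = 1 := by
          rw [← orderOf_dvd_iff_zpow_eq_one] at h2 ⊢
          rwa [hor]
        apply Prod.ext
        · simpa [z] using h2
        · simpa [z] using h3
      · exfalso
        have h2 : x ^ i * y = 1 := by simpa [z, t] using h1'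
        apply hyx
        have h3 : y = (x ^ i)⁻¹ := eq_inv_of_mul_eq_one_right h2
        rw [h3]
        exact inv_mem (zpow_mem (mem_zpowers x) i)
    · intro s
      rcases hgen s with ⟨i, rfl⟩ | ⟨i, rfl⟩
      · exact ⟨⟨z ^ i, zpow_mem hzK i⟩, by simp [π₁, z]⟩
      · exact ⟨⟨z ^ i * t, mul_mem (zpow_mem hzK i) htK⟩, by simp [π₁, z, t]⟩
  let e : K ≃* S := MulEquiv.ofBijective π₁ hπ₁
  let ι : S →* G := ((MonoidHom.snd S G).comp K.subtype).comp e.symm.toMonoidHom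
  have hιz : e.symm x = ⟨z, hzK⟩ := by
    rw [MulEquiv.symm_apply_eq]
    rfl
  have hιt : e.symm y = ⟨t, htK⟩ := by
    rw [MulEquiv.symm_apply_eq]
    rfl
  have hιx : ι x = X := by
    show ((e.symm x : K) : S × G).2 = X
    rw [hιz]
  have hιy : ι y = Y := by
    show ((e.symm y : K) : S × G).2 = Y
    rw [hιt]
  refine ⟨ι, ?_, hιx, hιy⟩
  rw [injective_iff_map_eq_one]
  intro s hs
  rcases hgen s with ⟨i, rfl⟩ | ⟨i, rfl⟩
  · rw [map_zpow, hιx] at hs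
    rw [← orderOf_dvd_iff_zpow_eq_one] at hs ⊢
    rwa [← hor]
  · exfalso
    rw [map_mul, map_zpow, hιx, hιy] at hs
    apply hYX
    have h3 : Y = (X ^ i)⁻¹ := eq_inv_of_mul_eq_one_right hs
    rw [h3]
    exact inv_mem (zpow_mem (mem_zpowers X) i)

end hom

end Cfsg.Agent.Lib.H29.MetaSuperB
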