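import Mathlib

/-!
# The torus of `GL₂(p)`, `p ≡ 3 (mod 4)`: explicit elements of the Sylow `2`-subgroups
-/

set_option autoImplicit false

namespace Cfsg.Agent.Lib.H29.MetaSuperC

open QuadraticAlgebra Matrix

variable (p : ℕ) [hp : Fact p.Prime]

/-- A prime with a prescribed `2`-part of `p + 1`. -/
theorem exists_prime_two_part (r : ℕ) (hr : 2 ≤ r) :
    ∃ q : ℕ, q.Prime ∧ ∃ o e : ℕ, Odd o ∧ Odd e ∧ q + 1 = 2 ^ r * o ∧ q = 2 * e + 1 := by
  have hc : (2 ^ r - 1).Coprime (2 ^ (r + 1)) := by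
    apply Nat.Coprime.pow_right
    rw [Nat.coprime_two_right]
    have : 2 ^ r = 2 * 2 ^ (r - 1) := by
      rw [← pow_succ']
      congr 1
      omega
    have h1 : 1 ≤ 2 ^ (r - 1) := Nat.one_le_two_pow
    refine ⟨2 ^ (r - 1) - 1, ?_⟩
    omega
  obtain ⟨q, hq3, hq, hmod⟩ := Nat.forall_exists_prime_gt_and_modEq 2 (q := 2 ^ (r + 1)) (by positivity) hc
  refine ⟨q, hq, ?_⟩
  have h2r : 2 ^ r = 4 * 2 ^ (r - 2) := by
    rw [show (4 : ℕ) = 2 ^ 2 by norm_num, ← pow_add]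
    congr 1
    omega
  have h2r1 : 2 ^ (r + 1) = 2 * 2 ^ r := by rw [pow_succ']
  have h1 : 1 ≤ 2 ^ (r - 2) := Nat.one_le_two_pow
  -- `q ≡ 2^r - 1 (mod 2^(r+1))`
  have hmod' : (q + 1) % 2 ^ (r + 1) = 2 ^ r := by
    have h3 : (q + 1) ≡ (2 ^ r - 1 + 1) [MOD 2 ^ (r + 1)] := hmod.add_right 1
    rw [Nat.sub_add_cancel Nat.one_le_two_pow] at h3
    rw [h3]
    apply Nat.mod_eq_of_lt
    rw [h2r1]
    have : 0 < 2 ^ r := by positivity
    omega
  obtain ⟨k, hk⟩ : ∃ k, q + 1 = 2 ^ (r + 1) * k + 2 ^ r := by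
    refine ⟨(q + 1) / 2 ^ (r + 1), ?_⟩
    conv_lhs => rw [← Nat.div_add_mod (q + 1) (2 ^ (r + 1)), hmod']
  refine ⟨2 * k + 1, (q - 1) / 2, ⟨k, rfl⟩, ?_, ?_, ?_⟩
  · have h4 : q + 1 = 4 * (2 ^ (r - 2) * (2 * k + 1)) := by
      rw [hk, h2r1, h2r]
      ring
    have h5 : (q - 1) / 2 = 2 * (2 ^ (r - 2) * (2 * k + 1)) - 1 := by omega
    rw [h5]
    have h6 : 1 ≤ 2 ^ (r - 2) * (2 * k + 1) := Nat.mul_pos (by positivity) (by omega)
    exact ⟨2 ^ (r - 2) * (2 * k + 1) - 1, by omega⟩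
  · rw [hk, h2r1]
    ring
  · have h4 : q + 1 = 4 * (2 ^ (r - 2) * (2 * k + 1)) := by
      rw [hk, h2r1, h2r]
      ring
    omega

variable {p}

theorem nonsq (h3 : p % 4 = 3) : ∀ r : ZMod p, r ^ 2 ≠ -1 + 0 * r := by
  intro r hr
  have h1 : IsSquare (-1 : ZMod p) := ⟨r, by rw [← sq, hr]; ring⟩
  rw [ZMod.exists_sq_eq_neg_one_iff] at h1
  exact h1 h3

/-- The field with `p²` elements as a quadratic extension. -/
abbrev K (p : ℕ) := QuadraticAlgebra (ZMod p) (-1) 0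

instance : Finite (K p) := Finite.of_equiv _ (QuadraticAlgebra.equivProd (-1) 0).symm

theorem card_K : Nat.card (K p) = p ^ 2 := by
  rw [Nat.card_congr (QuadraticAlgebra.equivProd (-1 : ZMod p) 0), Nat.card_prod, Nat.card_zmod, sq]

/-- The regular representation as a ring homomorphism. -/
def Lmat : K p →+* Matrix (Fin 2) (Fin 2) (ZMod p) where
  toFun c := !![c.re, -c.im; c.im, c.re]
  map_one' := by
    ext i j
    fin_cases i <;> fin_cases j <;> simp
  map_zero' := by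
    ext i j
    fin_cases i <;> fin_cases j <;> simp
  map_add' c d := by
    ext i j
    fin_cases i <;> fin_cases j <;> simp
    ring
  map_mul' c d := by
    ext i j
    fin_cases i <;> fin_cases j <;> simp [Matrix.mul_apply, Fin.sum_univ_two] <;> ring

theorem Lmat_apply (c : K p) : Lmat c = !![c.re, -c.im; c.im, c.re] := rfl

theorem Lmat_injective : Function.Injective (Lmat : K p → Matrix (Fin 2) (Fin 2) (ZMod p)) := by
  intro c d h
  rw [Lmat_apply, Lmat_apply] at h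
  have h1 := congrFun (congrFun h 0) 0
  have h2 := congrFun (congrFun h 1) 0
  simp at h1 h2
  exact QuadraticAlgebra.ext h1 h2

/-- The regular representation on units. -/
def L : (K p)ˣ →* GL (Fin 2) (ZMod p) := Units.map (Lmat : K p →+* _)

theorem L_val (c : (K p)ˣ) : ((L c : GL (Fin 2) (ZMod p)) : Matrix (Fin 2) (Fin 2) (ZMod p)) = Lmat (c : K p) := rfl

theorem L_injective : Function.Injective (L : (K p)ˣ →* GL (Fin 2) (ZMod p)) := by
  intro c d h
  apply Units.ext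
  apply Lmat_injective
  have := congrArg (fun u : GL (Fin 2) (ZMod p) => (u : Matrix (Fin 2) (Fin 2) (ZMod p))) h
  exact this

section field

variable [hf : Fact (∀ r : ZMod p, r ^ 2 ≠ -1 + 0 * r)]

/-- `ω`. -/
def om : K p := ⟨0, 1⟩

theorem om_sq : (om : K p) ^ 2 = -1 := by
  rw [sq]
  apply QuadraticAlgebra.ext <;> simp [om]

theorem algebraMap_pow_p (x : ZMod p) : (algebraMap (ZMod p) (K p) x) ^ p = algebraMap (ZMod p) (K p) x := by
  rw [← map_pow, ZMod.pow_card]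

instance : CharP (K p) p := charP_of_injective_algebraMap (algebraMap (ZMod p) (K p)).injective p

/-- Frobenius is the conjugation. -/
theorem pow_p_eq_star (h3 : p % 4 = 3) (c : K p) : c ^ p = star c := by
  have h1 : c = algebraMap (ZMod p) (K p) c.re + algebraMap (ZMod p) (K p) c.im * om := by
    apply QuadraticAlgebra.ext <;> simp [om]
  have h2 : (om : K p) ^ p = -om := by
    obtain ⟨k, hk⟩ : ∃ k, p = 2 * (2 * k + 1) + 1 := ⟨p / 4, by omega⟩
    have h4 : ∀ n : ℕ, n = 2 * (2 * k + 1) + 1 → (om : K p) ^ n = -om := by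
      rintro n rfl
      rw [pow_succ, pow_mul, om_sq, (show Odd (2 * k + 1) from ⟨k, rfl⟩).neg_one_pow]
      ring
    exact h4 p hk
  conv_lhs => rw [h1]
  rw [add_pow_char, mul_pow, algebraMap_pow_p, algebraMap_pow_p, h2]
  apply QuadraticAlgebra.ext <;> simp [om]

theorem card_units_K : Nat.card (K p)ˣ = p ^ 2 - 1 := by
  rw [Nat.card_units, card_K]

/-- The generator of the Sylow `2`-subgroup of `(K p)ˣ`, normalized. -/
theorem exists_gen (h3 : p % 4 = 3) {r o : ℕ} (hr : 1 ≤ r) (ho : Odd o) (hpr : p + 1 = 2 ^ r * o) :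
    ∃ a : (K p)ˣ, orderOf a = 2 ^ (r + 1) ∧ (a : K p) ^ (2 ^ r) = -1 ∧ (a : K p) ^ (2 ^ (r - 1)) = om ∧
      (a : K p).re ^ 2 + (a : K p).im ^ 2 = -1 := by
  have hr2 : 2 ^ r = 2 * 2 ^ (r - 1) := by
    rw [← pow_succ']
    congr 1
    omega
  obtain ⟨g, hg⟩ := IsCyclic.exists_ofOrder_eq_natCard (α := (K p)ˣ)
  rw [card_units_K] at hg
  obtain ⟨e, he⟩ : ∃ e, p = 2 * e + 1 := ⟨p / 2, by omega⟩
  have hcard : p ^ 2 - 1 = 2 ^ (r + 1) * (o * e) := by
    have h1 : p ^ 2 = (p + 1) * (2 * e) + 1 := by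
      rw [he]
      ring
    rw [h1, Nat.add_sub_cancel, hpr]
    ring
  have hpos : 0 < p ^ 2 - 1 := by
    have : 2 ≤ p := (Fact.out : p.Prime).two_le
    have : 4 ≤ p ^ 2 := by nlinarith
    omega
  have hne : o * e ≠ 0 := by
    intro h0
    rw [hcard, h0] at hpos
    simp at hpos
  have hord0 : orderOf (g ^ (o * e)) = 2 ^ (r + 1) := by
    rw [orderOf_pow_of_dvd hne (by rw [hg, hcard]; exact Dvd.intro_left _ rfl), hg, hcard]
    exact Nat.mul_div_cancel _ (Nat.pos_of_ne_zero hne)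
  set a₀ : (K p)ˣ := g ^ (o * e) with ha₀
  have hz : (a₀ : K p) ^ (2 ^ r) = -1 := by
    have h1 : ((a₀ : K p) ^ (2 ^ r)) * ((a₀ : K p) ^ (2 ^ r)) = 1 := by
      rw [← pow_add, ← two_mul, ← pow_succ', ← Units.val_pow_eq_pow_val, ← hord0, pow_orderOf_eq_one]
      rfl
    rcases mul_self_eq_one_iff.1 h1 with h2 | h2
    · exfalso
      have h4 : a₀ ^ (2 ^ r) = 1 := by
        apply Units.ext
        rw [Units.val_pow_eq_pow_val, h2]
        rfl
      have h5 := orderOf_dvd_of_pow_eq_one h4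
      rw [hord0] at h5
      have h6 := Nat.le_of_dvd (by positivity) h5
      rw [pow_le_pow_iff_right₀ (by norm_num)] at h6
      omega
    · exact h2
  obtain ⟨a, hao, haω⟩ : ∃ a : (K p)ˣ, orderOf a = 2 ^ (r + 1) ∧ (a : K p) ^ (2 ^ (r - 1)) = om := by
    have h1 : ((a₀ : K p) ^ (2 ^ (r - 1)) - om) * ((a₀ : K p) ^ (2 ^ (r - 1)) + om) = 0 := by
      have h2 : ((a₀ : K p) ^ (2 ^ (r - 1))) ^ 2 = -1 := by
        rw [← pow_mul, ← hz, hr2]
        congr 1
        ring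
      linear_combination h2 - om_sq (p := p)
    rcases mul_eq_zero.1 h1 with h2 | h2
    · exact ⟨a₀, hord0, sub_eq_zero.1 h2⟩
    · refine ⟨a₀⁻¹, by rw [orderOf_inv, hord0], ?_⟩
      have h3 : (a₀ : K p) ^ (2 ^ (r - 1)) = -om := eq_neg_of_add_eq_zero_left h2
      have h4 : (((a₀⁻¹ : (K p)ˣ) : K p) ^ (2 ^ (r - 1))) * ((a₀ : K p) ^ (2 ^ (r - 1))) = 1 := by
        rw [← mul_pow]
        simp
      rw [h3] at h4
      have h5 : (om : K p) * (om : K p) = -1 := by rw [← sq, om_sq]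
      linear_combination (om : K p) * h4 + (((a₀⁻¹ : (K p)ˣ) : K p) ^ (2 ^ (r - 1))) * h5
  have ha2 : (a : K p) ^ (2 ^ r) = -1 := by
    rw [hr2, mul_comm, pow_mul, haω, om_sq]
  refine ⟨a, hao, ha2, haω, ?_⟩
  have h6 : (a : K p) * star (a : K p) = -1 := by
    rw [← pow_p_eq_star h3, ← pow_succ']
    rw [hpr, pow_mul, ha2, ho.neg_one_pow]
  have h7 := congrArg QuadraticAlgebra.re h6
  simp at h7
  linear_combination h7

end field

/-- The reflection. -/
def Phi : GL (Fin 2) (ZMod p) :=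
  ⟨!![1, 0; 0, -1], !![1, 0; 0, -1], by simp [Matrix.one_fin_two], by simp [Matrix.one_fin_two]⟩

theorem Phi_val : ((Phi : GL (Fin 2) (ZMod p)) : Matrix (Fin 2) (Fin 2) (ZMod p)) = !![1, 0; 0, -1] := rfl

theorem Phi_sq : (Phi : GL (Fin 2) (ZMod p)) ^ 2 = 1 := by
  apply Units.ext
  rw [Units.val_pow_eq_pow_val, Phi_val, sq]
  simp [Matrix.one_fin_two]


section relations

open Subgroup

theorem Phi_not_mem (h3 : p % 4 = 3) (a : (K p)ˣ) : (Phi : GL (Fin 2) (ZMod p)) ∉ zpowers (L a) := by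
  rintro ⟨i, hi⟩
  have h1 : L (a ^ i) = (Phi : GL (Fin 2) (ZMod p)) := by
    rw [map_zpow]
    exact hi
  have h2 : Lmat ((a ^ i : (K p)ˣ) : K p) = !![1, 0; 0, -1] := congrArg Units.val h1
  rw [Lmat_apply] at h2
  have h4 := congrFun (congrFun h2 0) 0
  have h5 := congrFun (congrFun h2 1) 1
  simp at h4 h5
  rw [h4] at h5
  have h6 : ((2 : ℕ) : ZMod p) = 0 := by
    push_cast
    linear_combination h5
  rw [ZMod.natCast_eq_zero_iff] at h6
  have h7 := Nat.le_of_dvd (by norm_num) h6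
  omega

theorem L_pow_val (a : (K p)ˣ) (n : ℕ) :
    (((L a) ^ n : GL (Fin 2) (ZMod p)) : Matrix (Fin 2) (Fin 2) (ZMod p)) = Lmat ((a : K p) ^ n) := by
  rw [← map_pow, L_val, Units.val_pow_eq_pow_val]

theorem Lmat_neg_one : (Lmat (-1 : K p)) = -1 := by
  rw [map_neg, map_one]

theorem PhiA_sq (a : (K p)ˣ) {r : ℕ} (hz : (a : K p) ^ (2 ^ r) = -1)
    (hn : (a : K p).re ^ 2 + (a : K p).im ^ 2 = -1) :
    (Phi * L a) ^ 2 = (L a) ^ (2 ^ r) := by
  apply Units.ext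
  rw [L_pow_val, hz, Lmat_neg_one, Units.val_pow_eq_pow_val, Units.val_mul, Phi_val, L_val, Lmat_apply, sq]
  ext i j
  fin_cases i <;> fin_cases j <;> simp [Matrix.mul_apply, Fin.sum_univ_two] <;>
    first | ring1 | linear_combination hn

theorem central_of (a : (K p)ˣ) {r : ℕ} (hz : (a : K p) ^ (2 ^ r) = -1) (v : GL (Fin 2) (ZMod p)) :
    (L a) ^ (2 ^ r) * v = v * (L a) ^ (2 ^ r) := by
  apply Units.ext
  rw [Units.val_mul, Units.val_mul, L_pow_val, hz, Lmat_neg_one]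
  simp

theorem L_om_val [Fact (∀ r : ZMod p, r ^ 2 ≠ -1 + 0 * r)] : Lmat (om : K p) = !![0, -1; 1, 0] := by
  rw [Lmat_apply]
  simp [om]

/-- The conjugating element. -/
theorem exists_g [Fact (∀ r : ZMod p, r ^ 2 ≠ -1 + 0 * r)] (a : (K p)ˣ) {k : ℕ}
    (hω : (a : K p) ^ k = om) (hn : (a : K p).re ^ 2 + (a : K p).im ^ 2 = -1) :
    ∃ g : GL (Fin 2) (ZMod p), Matrix.GeneralLinearGroup.det g = 1 ∧ g * (L a) ^ k * g⁻¹ = Phi * L a := by
  set x := (a : K p).re with hx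
  set u := (a : K p).im with hu
  obtain ⟨b, c, hbc⟩ := ZMod.sq_add_sq p (-1 / 2)
  have h2 : (2 : ZMod p) ≠ 0 := by
    intro h0
    exact (Fact.out : ∀ r : ZMod p, r ^ 2 ≠ -1 + 0 * r) 1 (by linear_combination h0)
  have hbc' : 2 * (b ^ 2 + c ^ 2) = -1 := by
    rw [hbc]
    field_simp
  let s : ZMod p := b * (1 - u) - x * c
  let t : ZMod p := c * (1 + u) - x * b
  let m : Matrix (Fin 2) (Fin 2) (ZMod p) := !![s, x * s - u * t; t, -u * s - x * t]
  have hdet : m.det = 1 := by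
    rw [Matrix.det_fin_two_of]
    simp only [s, t]
    linear_combination (u * (c ^ 2 - b ^ 2) + 2 * (b ^ 2 + c ^ 2) - 2 * x * b * c) * hn - hbc'
  let g : GL (Fin 2) (ZMod p) := Matrix.SpecialLinearGroup.toGL ⟨m, hdet⟩
  have hgval : (g : Matrix (Fin 2) (Fin 2) (ZMod p)) = m := rfl
  refine ⟨g, Matrix.SpecialLinearGroup.coeToGL_det _, ?_⟩
  rw [mul_inv_eq_iff_eq_mul]
  apply Units.ext
  rw [Units.val_mul, Units.val_mul, Units.val_mul, L_pow_val, hω, L_om_val, hgval, Phi_val, L_val, Lmat_apply]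
  ext i j
  fin_cases i <;> fin_cases j <;> simp [Matrix.mul_apply, Fin.sum_univ_two, m, ← hx, ← hu]
  · ring
  · linear_combination (-s) * hn
  · ring
  · linear_combination (-t) * hn

theorem det_PhiA (a : (K p)ˣ) (hn : (a : K p).re ^ 2 + (a : K p).im ^ 2 = -1) :
    Matrix.GeneralLinearGroup.det (Phi * L a) = 1 := by
  apply Units.ext
  rw [Matrix.GeneralLinearGroup.val_det_apply, Units.val_one, Units.val_mul, Phi_val, L_val, Lmat_apply]
  rw [Matrix.det_mul, Matrix.det_fin_two_of, Matrix.det_fin_two_of]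
  linear_combination (-1 : ZMod p) * hn

theorem det_A_sq (a : (K p)ˣ) (hn : (a : K p).re ^ 2 + (a : K p).im ^ 2 = -1) :
    Matrix.GeneralLinearGroup.det ((L a) ^ 2) = 1 := by
  apply Units.ext
  rw [map_pow, Units.val_pow_eq_pow_val, Matrix.GeneralLinearGroup.val_det_apply, Units.val_one, L_val, Lmat_apply]
  rw [Matrix.det_fin_two_of]
  have : (a : K p).re * (a : K p).re - -(a : K p).im * (a : K p).im = -1 := by
    linear_combination hn
  rw [this]
  ring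

theorem card_GL_two :
    Nat.card (GL (Fin 2) (ZMod p)) = (p ^ 2 - 1) * (p ^ 2 - p) := by
  rw [Matrix.card_GL_field, Fin.prod_univ_two, ZMod.card]
  simp

theorem card_ker_mul :
    Nat.card (Matrix.GeneralLinearGroup.det (n := Fin 2) (R := ZMod p)).ker * (p - 1) =
      Nat.card (GL (Fin 2) (ZMod p)) := by
  rw [← Subgroup.card_mul_index (Matrix.GeneralLinearGroup.det (n := Fin 2) (R := ZMod p)).ker,
    Subgroup.index_ker, MonoidHom.range_eq_top.2 Matrix.GeneralLinearGroup.det_surjective]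
  congr 1
  rw [Nat.card_congr Subgroup.topEquiv.toEquiv, Nat.card_units, Nat.card_zmod]

end relations

/-- **The torus data.** -/
theorem exists_torus (r : ℕ) (hr : 2 ≤ r) :
    ∃ (G : Type) (_ : Group G) (_ : Finite G) (N : Subgroup G) (A Φ g : G) (m m' : ℕ),
      Odd m ∧ Odd m' ∧ Nat.card G = 2 ^ (r + 2) * m ∧ Nat.card N = 2 ^ (r + 1) * m' ∧
      orderOf A = 2 ^ (r + 1) ∧ Φ ^ 2 = 1 ∧ Φ ∉ Subgroup.zpowers A ∧ (Φ * A) ^ 2 = A ^ (2 ^ r) ∧
      (∀ v, A ^ (2 ^ r) * v = v * A ^ (2 ^ r)) ∧ A ^ 2 ∈ N ∧ Φ * A ∈ N ∧ g ∈ N ∧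
      g * A ^ (2 ^ (r - 1)) * g⁻¹ = Φ * A := by
  obtain ⟨q, hq, o, e, ho, he, hqo, hqe⟩ := exists_prime_two_part r hr
  haveI : Fact q.Prime := ⟨hq⟩
  have h3 : q % 4 = 3 := by
    obtain ⟨e', rfl⟩ := he
    omega
  haveI : Fact (∀ r : ZMod q, r ^ 2 ≠ -1 + 0 * r) := ⟨nonsq h3⟩
  obtain ⟨a, hao, hz, hω, hn⟩ := exists_gen h3 (by omega) ho hqo
  obtain ⟨g, hgd, hg⟩ := exists_g a hω hn
  have hqodd : Odd q := ⟨e, hqe⟩
  have hcardG : Nat.card (GL (Fin 2) (ZMod q)) = 2 ^ (r + 2) * (o * e * q * e) := by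
    rw [card_GL_two]
    have h1 : q ^ 2 - 1 = 2 ^ (r + 1) * (o * e) := by
      have h1 : q ^ 2 = (q + 1) * (2 * e) + 1 := by
        rw [hqe]
        ring
      rw [h1, Nat.add_sub_cancel, hqo]
      ring
    have h2 : q ^ 2 - q = q * (2 * e) := by
      have h1 : q ^ 2 = q * (2 * e) + q := by
        conv_lhs => rw [sq]
        conv_lhs => rw [hqe]
        conv_rhs => rw [hqe]
        ring
      rw [h1, Nat.add_sub_cancel]
    rw [h1, h2]
    ring
  have hcardN : Nat.card (Matrix.GeneralLinearGroup.det (n := Fin 2) (R := ZMod q)).ker =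
      2 ^ (r + 1) * (o * q * e) := by
    have h1 := card_ker_mul (p := q)
    rw [hcardG] at h1
    have h2 : q - 1 = 2 * e := by omega
    rw [h2] at h1
    have hepos : 0 < 2 * e := by
      obtain ⟨e', rfl⟩ := he
      omega
    apply Nat.eq_of_mul_eq_mul_right hepos
    rw [h1]
    ring
  refine ⟨GL (Fin 2) (ZMod q), inferInstance, inferInstance,
    (Matrix.GeneralLinearGroup.det (n := Fin 2) (R := ZMod q)).ker, L a, Phi, g, o * e * q * e, o * q * e,
    ((ho.mul he).mul hqodd).mul he, (ho.mul hqodd).mul he, hcardG, hcardN, ?_, Phi_sq, Phi_not_mem h3 a,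
    PhiA_sq a hz hn, central_of a hz, det_A_sq a hn, det_PhiA a hn, hgd, hg⟩
  rw [orderOf_injective L L_injective, hao]

end Cfsg.Agent.Lib.H29.MetaSuperC
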