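import Cfsg.Agent.Lib.H29.MetaSuperB
import Cfsg.Agent.Lib.H29.MetaSuperC
import Cfsg.Prelude.Def_CaseTheorems

/-!
# Dihedral, semidihedral and quaternion `2`-groups carry a saturated fusion system in which `S` is
not normal
-/

set_option autoImplicit false

namespace Cfsg.Agent.Lib.H29.MetaSuperD

open Cfsg Subgroup Cfsg.Agent.Lib.H29.MetaSuperB

section wrapper

variable {Ω : Type*} [Group Ω] {S : Subgroup Ω}

theorem not_normal_via_equiv {T G : Type*} [Group T] [Group G] [Finite G] (e : S ≃* T)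
    (ι : T →* G) (hι : Function.Injective ι) (hS : IsPGroup 2 S) {c m : ℕ} (hm : Odd m)
    (hT : Nat.card T = 2 ^ c) (hG : Nat.card G = 2 ^ c * m) (w₀ y₀ : T) (g : G)
    (hg : ι y₀ = g * ι (w₀ ^ 2) * g⁻¹) (hsq : ∀ w : T, w ^ 2 ≠ y₀) :
    ∃ F : FusionSystem S, F.IsSaturated 2 ∧ ¬ F.IsNormal S := by
  let ι' : S →* G := ι.comp e.toMonoidHom
  have hι' : Function.Injective ι' := hι.comp e.injective
  have hindex : ¬ 2 ∣ ι'.range.index := by
    have h1 : Nat.card ι'.range = 2 ^ c := by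
      rw [← hT]
      exact (Nat.card_congr (MonoidHom.ofInjective hι').symm.toEquiv).trans (Nat.card_congr e.toEquiv)
    have h2 := card_mul_index ι'.range
    rw [h1, hG] at h2
    have h3 : ι'.range.index = m := Nat.eq_of_mul_eq_mul_left (by positivity) h2
    rw [h3]
    exact hm.not_two_dvd_nat
  refine not_normal_of_conj ι' hι' hS hindex (e.symm w₀) (e.symm y₀) g ?_ ?_
  · simpa [ι'] using hg
  · intro w hw
    apply hsq (e w)
    rw [← map_pow, hw]
    simp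

end wrapper

section data

/-- The relations inside `N`. -/
structure Qdata {N : Type*} [Group N] (r : ℕ) (b y' g' : N) : Prop where
  ob : orderOf b = 2 ^ r
  conj : y' * b * y'⁻¹ = b⁻¹
  ysq : y' ^ 2 = b ^ (2 ^ (r - 1))
  ynot : y' ∉ zpowers b
  g : g' * b ^ (2 ^ (r - 2)) * g'⁻¹ = y'
  central : ∀ v : N, b ^ (2 ^ (r - 1)) * v = v * b ^ (2 ^ (r - 1))

variable {G : Type*} [Group G]

theorem conj_of_sq {A Φ : G} {k : ℕ} (hk : 1 ≤ k) (hΦ : Φ ^ 2 = 1) (h : (Φ * A) ^ 2 = A ^ k) :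
    Φ * A * Φ⁻¹ = A ^ (k - 1) := by
  have hinv : Φ⁻¹ = Φ := by
    rw [inv_eq_iff_mul_eq_one, ← sq, hΦ]
  rw [hinv, pow_sub A hk, pow_one, eq_mul_inv_iff_mul_eq, ← h, sq]
  group

theorem exists_Qdata (r : ℕ) (hr : 3 ≤ r) :
    ∃ (N : Type) (_ : Group N) (_ : Finite N) (b y' g' : N) (m' : ℕ), Odd m' ∧
      Nat.card N = 2 ^ (r + 1) * m' ∧ Qdata r b y' g' := by
  obtain ⟨G, _, _, N, A, Φ, g, m, m', -, hm', -, hN, hA, hΦ, hnot, hsq, hcen, hA2, hΦA, hg, hgc⟩ :=
    Cfsg.Agent.Lib.H29.MetaSuperC.exists_torus r (by omega)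
  refine ⟨N, inferInstance, inferInstance, ⟨A ^ 2, hA2⟩, ⟨Φ * A, hΦA⟩, ⟨g, hg⟩, m', hm', hN, ?_⟩
  have h2r : 2 ^ r = 2 * 2 ^ (r - 1) := by
    rw [← pow_succ']
    congr 1
    omega
  have hinv : Φ⁻¹ = Φ := by
    rw [inv_eq_iff_mul_eq_one, ← sq, hΦ]
  have hAr1 : A ^ (2 ^ (r + 1)) = 1 := by rw [← hA, pow_orderOf_eq_one]
  have hconj : Φ * A * Φ⁻¹ = A ^ (2 ^ r - 1) := conj_of_sq Nat.one_le_two_pow hΦ hsq
  have hAA : Φ * A * Φ⁻¹ * A = A ^ (2 ^ r) := by
    rw [hconj, ← pow_succ, Nat.sub_add_cancel Nat.one_le_two_pow]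
  refine ⟨?_, ?_, ?_, ?_, ?_, ?_⟩
  · rw [Subgroup.orderOf_mk, orderOf_pow_of_dvd (by norm_num) (by rw [hA, pow_succ]; exact Dvd.intro_left _ rfl), hA,
      pow_succ]
    simp
  · apply Subtype.ext
    show (Φ * A) * A ^ 2 * (Φ * A)⁻¹ = (A ^ 2)⁻¹
    have h1 : (Φ * A) * A ^ 2 * (Φ * A)⁻¹ = Φ * A ^ 2 * Φ⁻¹ := by
      rw [sq]
      group
    rw [h1, ← conj_pow, hconj, ← pow_mul]
    apply eq_inv_of_mul_eq_one_left
    rw [← pow_add]
    have h3 : (2 ^ r - 1) * 2 + 2 = 2 ^ (r + 1) := by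
      have : 1 ≤ 2 ^ r := Nat.one_le_two_pow
      rw [pow_succ]
      omega
    rw [h3, hAr1]
  · apply Subtype.ext
    show (Φ * A) ^ 2 = (A ^ 2) ^ (2 ^ (r - 1))
    rw [hsq, ← pow_mul, ← h2r]
  · intro h
    apply hnot
    obtain ⟨i, hi⟩ := h
    have h1 : (A ^ 2) ^ i = Φ * A := congrArg Subtype.val hi
    have h2 : Φ = (A ^ 2) ^ i * A⁻¹ := by rw [h1]; group
    rw [h2]
    exact mul_mem (zpow_mem (pow_mem (mem_zpowers A) 2) i) (inv_mem (mem_zpowers A))
  · apply Subtype.ext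
    show g * (A ^ 2) ^ (2 ^ (r - 2)) * g⁻¹ = Φ * A
    rw [← pow_mul, ← hgc]
    congr 3
    rw [← pow_succ']
    congr 1
    omega
  · rintro ⟨v, hv⟩
    apply Subtype.ext
    show (A ^ 2) ^ (2 ^ (r - 1)) * v = v * (A ^ 2) ^ (2 ^ (r - 1))
    rw [← pow_mul, ← h2r]
    exact hcen v

end data

section quaternion

variable {Ω : Type*} [Group Ω] {S : Subgroup Ω}

theorem not_normal_of_quaternion (hS : IsPGroup 2 S) {k : ℕ} (hk : 2 ≤ k)
    (e : S ≃* QuaternionGroup (2 ^ k)) :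
    ∃ F : FusionSystem S, F.IsSaturated 2 ∧ ¬ F.IsNormal S := by
  obtain ⟨N, _, _, b, y', g', m', hm', hN, hd⟩ := exists_Qdata (k + 1) (by omega)
  have hysq : y' ^ 2 = b ^ (2 ^ k) := hd.ysq
  have hgc : g' * b ^ (2 ^ (k - 1)) * g'⁻¹ = y' := by
    have h1 := hd.g
    rwa [show k + 1 - 2 = k - 1 by omega] at h1
  have hfin : Finite (QuaternionGroup (2 ^ k)) := inferInstance
  have hxa : ∀ z : QuaternionGroup (2 ^ k), z ∈ zpowers (QuaternionGroup.a 1 : QuaternionGroup (2 ^ k)) →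
      z ≠ QuaternionGroup.xa 0 := by
    rintro z hz rfl
    rw [← mem_powers_iff_mem_zpowers] at hz
    obtain ⟨n, hn⟩ := hz
    simp only [QuaternionGroup.a_one_pow] at hn
    cases hn
  obtain ⟨ι, hι, hιx, hιy⟩ := exists_hom_of_index_two (S := QuaternionGroup (2 ^ k)) (G := N)
    (x := QuaternionGroup.a 1) (y := QuaternionGroup.xa 0) (X := b) (Y := y') (c := -1) (d := ((2 ^ k : ℕ) : ℤ))
    (by
      rw [zpow_neg_one, mul_inv_eq_iff_eq_mul, eq_inv_mul_iff_mul_eq]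
      simp)
    (by
      rw [zpow_natCast, QuaternionGroup.a_one_pow, QuaternionGroup.xa_sq])
    (by rw [zpow_neg_one, hd.conj])
    (by rw [zpow_natCast, hysq])
    (by
      rw [hd.ob, QuaternionGroup.orderOf_a_one, pow_succ']
      )
    (fun h => hxa _ h rfl)
    hd.ynot
    (by
      rintro (i | i)
      · refine Or.inl ⟨(i.val : ℤ), ?_⟩
        rw [zpow_natCast, QuaternionGroup.a_one_pow]
        simp
      · refine Or.inr ⟨((-i).val : ℤ), ?_⟩
        rw [zpow_natCast, QuaternionGroup.a_one_pow]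
        simp)
  refine not_normal_via_equiv e ι hι hS (c := k + 2) hm' ?_ hN
    ((QuaternionGroup.a 1) ^ (2 ^ (k - 2))) (QuaternionGroup.xa 0) g' ?_ ?_
  · rw [Nat.card_eq_fintype_card, QuaternionGroup.card, pow_add]
    ring
  · rw [hιy, map_pow, map_pow, hιx, ← pow_mul, ← pow_succ, show k - 2 + 1 = k - 1 by omega]
    exact hgc.symm
  · rintro (i | i) h
    · simp [sq] at h
    · rw [QuaternionGroup.xa_sq] at h
      cases h

end quaternion

section dihedral

variable {Ω : Type*} [Group Ω] {S : Subgroup Ω}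

theorem not_normal_of_dihedral (hS : IsPGroup 2 S) {k : ℕ} (hk : 2 ≤ k)
    (e : S ≃* DihedralGroup (2 ^ k)) :
    ∃ F : FusionSystem S, F.IsSaturated 2 ∧ ¬ F.IsNormal S := by
  obtain ⟨N, _, _, b, y', g', m', hm', hN, hd⟩ := exists_Qdata (k + 1) (by omega)
  have hysq : y' ^ 2 = b ^ (2 ^ k) := hd.ysq
  have hgc : g' * b ^ (2 ^ (k - 1)) * g'⁻¹ = y' := by
    have h1 := hd.g
    rwa [show k + 1 - 2 = k - 1 by omega] at h1
  have hcen : ∀ v : N, b ^ (2 ^ k) * v = v * b ^ (2 ^ k) := hd.central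
  have hob : orderOf b = 2 ^ (k + 1) := hd.ob
  let Z : Subgroup N := zpowers (b ^ (2 ^ k))
  haveI hZn : Z.Normal := by
    constructor
    rintro _ ⟨i, rfl⟩ v
    have h1 : v * (b ^ (2 ^ k)) ^ i * v⁻¹ = (b ^ (2 ^ k)) ^ i := by
      rw [← conj_zpow]
      congr 1
      rw [← hcen v]
      group
    show v * (b ^ (2 ^ k)) ^ i * v⁻¹ ∈ Z
    rw [h1]
    exact zpow_mem (mem_zpowers _) i
  have hZb : Z ≤ zpowers b := by
    rw [Subgroup.zpowers_le]
    exact pow_mem (mem_zpowers b) _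
  have hoz : orderOf (b ^ (2 ^ k)) = 2 := by
    rw [orderOf_pow_of_dvd (by positivity) (by rw [hob, pow_succ]; exact Dvd.intro _ rfl), hob, pow_succ]
    exact Nat.mul_div_cancel_left _ (by positivity)
  have hcZ : Nat.card Z = 2 := by
    rw [Nat.card_zpowers, hoz]
  let π : N →* N ⧸ Z := QuotientGroup.mk' Z
  have hπ : ∀ u : N, π u = 1 ↔ u ∈ Z := fun u => QuotientGroup.eq_one_iff u
  have hnotmem : b ^ (2 ^ (k - 1)) ∉ Z := by
    rintro ⟨i, hi⟩
    have h1 : b ^ ((2 ^ k : ℤ) * i - 2 ^ (k - 1)) = 1 := by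
      rw [zpow_sub, zpow_mul]
      have h2 : (b ^ (2 ^ k : ℤ)) ^ i = (b ^ (2 ^ k)) ^ i := by
        congr 1
        exact_mod_cast zpow_natCast b (2 ^ k)
      have h3 : b ^ (2 ^ (k - 1) : ℤ) = b ^ (2 ^ (k - 1)) := by
        exact_mod_cast zpow_natCast b (2 ^ (k - 1))
      rw [h2, h3]
      exact mul_inv_eq_one.2 hi
    rw [← orderOf_dvd_iff_zpow_eq_one, hob] at h1
    obtain ⟨t, ht⟩ : ∃ t, k = t + 1 := ⟨k - 1, by omega⟩
    subst ht
    simp only [Nat.add_sub_cancel] at h1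
    have h4 : ((2 : ℤ) ^ t) * 4 ∣ ((2 : ℤ) ^ t) * (2 * i - 1) := by
      convert h1 using 1
      · push_cast
        ring
      · ring
    have h5 := (mul_dvd_mul_iff_left (by positivity)).1 h4
    omega
  have hX : orderOf (π b) = 2 ^ k := by
    obtain ⟨t, ht⟩ : ∃ t, k = t + 1 := ⟨k - 1, by omega⟩
    subst ht
    apply orderOf_eq_prime_pow (p := 2) (n := t)
    · rw [← map_pow, hπ]
      exact hnotmem
    · rw [← map_pow, hπ]
      exact mem_zpowers _
  have hxnot : ∀ z : DihedralGroup (2 ^ k), z ∈ zpowers (DihedralGroup.r 1 : DihedralGroup (2 ^ k)) →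
      z ≠ DihedralGroup.sr 0 := by
    rintro z hz rfl
    obtain ⟨n, hn⟩ := hz
    simp only [DihedralGroup.r_one_zpow] at hn
    cases hn
  have hYnot : π y' ∉ zpowers (π b) := by
    rintro ⟨i, hi⟩
    apply hd.ynot
    have h1 : π ((b ^ i)⁻¹ * y') = 1 := by
      rw [map_mul, map_inv, map_zpow]
      have : π b ^ i = π y' := hi
      rw [this]
      group
    have h2 := hZb ((hπ _).1 h1)
    have h3 : y' = b ^ i * ((b ^ i)⁻¹ * y') := by group
    rw [h3]
    exact mul_mem (zpow_mem (mem_zpowers b) i) h2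
  obtain ⟨ι, hι, hιx, hιy⟩ := exists_hom_of_index_two (S := DihedralGroup (2 ^ k)) (G := N ⧸ Z)
    (x := DihedralGroup.r 1) (y := DihedralGroup.sr 0) (X := π b) (Y := π y') (c := -1) (d := 0)
    (by
      rw [zpow_neg_one, mul_inv_eq_iff_eq_mul, eq_inv_mul_iff_mul_eq]
      simp)
    (by
      rw [zpow_zero, sq]
      simp)
    (by
      have h := congrArg π hd.conj
      rw [map_mul, map_mul, map_inv, map_inv] at h
      rw [zpow_neg_one]
      exact h)
    (by
      rw [zpow_zero, ← map_pow, hysq, hπ]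
      exact mem_zpowers _)
    (by
      rw [hX, DihedralGroup.orderOf_r_one])
    (fun h => hxnot _ h rfl)
    hYnot
    (by
      rintro (i | i)
      · refine Or.inl ⟨(i.val : ℤ), ?_⟩
        rw [zpow_natCast, DihedralGroup.r_one_pow]
        simp
      · refine Or.inr ⟨((-i).val : ℤ), ?_⟩
        rw [zpow_natCast, DihedralGroup.r_one_pow]
        simp)
  have hQ : Nat.card (N ⧸ Z) = 2 ^ (k + 1) * m' := by
    have h1 := Subgroup.card_eq_card_quotient_mul_card_subgroup Z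
    rw [hcZ, hN] at h1
    apply Nat.eq_of_mul_eq_mul_right (by norm_num : 0 < 2)
    rw [← h1]
    ring
  refine not_normal_via_equiv e ι hι hS (c := k + 1) hm' ?_ hQ
    ((DihedralGroup.r 1) ^ (2 ^ (k - 2))) (DihedralGroup.sr 0) (π g') ?_ ?_
  · rw [DihedralGroup.nat_card, pow_succ]
    ring
  · rw [hιy, map_pow, map_pow, hιx, ← pow_mul, ← pow_succ, show k - 2 + 1 = k - 1 by omega, ← hgc]
    simp only [map_mul, map_inv, map_pow]
  · rintro (i | i) h
    · simp [sq] at h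
    · rw [sq, DihedralGroup.sr_mul_sr] at h
      cases h

end dihedral

section semidihedral

variable {Ω : Type*} [Group Ω] {S : Subgroup Ω}

theorem not_normal_of_semidihedral [Finite S] (hS : IsPGroup 2 S) (h : IsQuasiDihedral S) :
    ∃ F : FusionSystem S, F.IsSaturated 2 ∧ ¬ F.IsNormal S := by
  obtain ⟨n, hn, hcard, x, y, hx, hy, hrel⟩ := h
  obtain ⟨r, rfl⟩ : ∃ r, n = r + 1 := ⟨n - 1, by omega⟩
  have hr : 2 ≤ r := by omega
  obtain ⟨G, _, _, N, A, Φ, g, m, m', hm, -, hG, -, hA, hΦ, hnot, hsq, -, -, -, -, hgc⟩ :=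
    Cfsg.Agent.Lib.H29.MetaSuperC.exists_torus r hr
  have hrel' : y * x * y⁻¹ = x ^ (2 ^ r - 1) := by simpa using hrel
  have hy2 : y ^ 2 = 1 := by rw [← hy, pow_orderOf_eq_one]
  have hy_not : y ∉ zpowers x := by
    intro hyz
    have h1 : y * x = x * y := by
      have := (zpowers_isMulCommutative x).is_comm.comm (⟨y, hyz⟩ : zpowers x) ⟨x, mem_zpowers x⟩
      exact congrArg Subtype.val this
    have h2 : x ^ (2 ^ r - 1) = x := by
      rw [← hrel', h1]
      group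
    have h3 : x ^ (2 ^ r - 2) = 1 := by
      have h4 : 2 ^ r - 1 = (2 ^ r - 2) + 1 := by
        have : 4 ≤ 2 ^ r := by
          calc 4 = 2 ^ 2 := by norm_num
            _ ≤ 2 ^ r := Nat.pow_le_pow_right (by norm_num) hr
        omega
      rw [h4, pow_succ] at h2
      exact mul_eq_right.1 h2
    have h5 := orderOf_dvd_of_pow_eq_one h3
    rw [hx] at h5
    have h6 : 4 ≤ 2 ^ r := by
      calc 4 = 2 ^ 2 := by norm_num
        _ ≤ 2 ^ r := Nat.pow_le_pow_right (by norm_num) hr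
    have h7 := Nat.le_of_dvd (by omega) h5
    rw [pow_succ] at h7
    omega
  have hindex : (zpowers x).index = 2 := by
    have h1 := card_mul_index (zpowers x)
    rw [Nat.card_zpowers, hx, hcard, pow_succ (2) (r + 1)] at h1
    exact Nat.eq_of_mul_eq_mul_left (by positivity) h1
  have hgen : ∀ s : S, (∃ i : ℤ, s = x ^ i) ∨ (∃ i : ℤ, s = x ^ i * y) := by
    intro s
    by_cases hs : s ∈ zpowers x
    · obtain ⟨i, hi⟩ := hs
      exact Or.inl ⟨i, hi.symm⟩
    · right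
      have h1 : s * y⁻¹ ∈ zpowers x := by
        rw [Subgroup.mul_mem_iff_of_index_two hindex]
        constructor
        · intro h
          exact absurd h hs
        · intro h
          exact absurd (by simpa using h) hy_not
      obtain ⟨i, hi⟩ := h1
      refine ⟨i, ?_⟩
      have hi' : x ^ i = s * y⁻¹ := hi
      rw [hi']
      group
  have hconjA : Φ * A * Φ⁻¹ = A ^ (2 ^ r - 1) := conj_of_sq Nat.one_le_two_pow hΦ hsq
  obtain ⟨ι, hι, hιx, hιy⟩ := exists_hom_of_index_two (S := S) (G := G)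
    (x := x) (y := y) (X := A) (Y := Φ) (c := ((2 ^ r - 1 : ℕ) : ℤ)) (d := 0)
    (by rw [zpow_natCast, hrel'])
    (by rw [zpow_zero, hy2])
    (by rw [zpow_natCast, hconjA])
    (by rw [zpow_zero, hΦ])
    (by rw [hA, hx])
    hy_not hnot hgen
  refine not_normal_via_equiv (MulEquiv.refl S) ι hι hS (c := r + 2) hm hcard hG
    (x ^ (2 ^ (r - 2))) (y * x) g ?_ ?_
  · rw [map_mul, hιx, hιy, map_pow, map_pow, hιx, ← pow_mul, ← pow_succ, show r - 2 + 1 = r - 1 by omega, hgc]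
  · intro w hw
    have h1 := Subgroup.sq_mem_of_index_two hindex w
    rw [hw] at h1
    apply hy_not
    have h2 : y = (y * x) * x⁻¹ := by group
    rw [h2]
    exact mul_mem h1 (inv_mem (mem_zpowers x))

end semidihedral

end Cfsg.Agent.Lib.H29.MetaSuperD
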