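import Cfsg.Agent.Lib.FusionSimple.Basic
import Cfsg.Agent.Lib.Fusion.Saturation

/-!
# A criterion for simplicity of `F_S(G)` with `N_G(S)` not acting by inner automorphisms

If `h ∈ N_G(S)` normalizes a normal subgroup `A` of `S` and acts on `A` as a product of conjugates
`w s w⁻¹`, `w ∈ N_G(A)`, `s ∈ S`, then the map induced by `h` on `S` lies in every normal subsystem on `S`.
-/

set_option autoImplicit false

namespace Cfsg.Agent.Lib.H29.ParaFusion

open Cfsg Cfsg.FusionSystem Cfsg.Agent.Lib.Fusion.Basic Cfsg.Agent.Lib.Fusion.Saturation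
open Cfsg.Agent.Lib.FusionSimple.Basic

variable {G : Type*} [Group G]

/-- `g` normalizes `A`. -/
def Nz (A : Subgroup G) (g : G) : Prop := ∀ a ∈ A, g * a * g⁻¹ ∈ A

lemma Nz.one (A : Subgroup G) : Nz A 1 := fun a ha => by simpa using ha

lemma Nz.mul {A : Subgroup G} {g g' : G} (h : Nz A g) (h' : Nz A g') : Nz A (g * g') := by
  intro a ha
  have := h _ (h' a ha)
  simpa [mul_assoc] using this

lemma Nz.pow {A : Subgroup G} {g : G} (h : Nz A g) (n : ℕ) : Nz A (g ^ n) := by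
  induction n with
  | zero => simpa using Nz.one A
  | succ n ih => rw [pow_succ]; exact ih.mul h

lemma Nz.of_mem {A : Subgroup G} {g : G} (h : g ∈ A) : Nz A g := fun a ha =>
  A.mul_mem (A.mul_mem h ha) (A.inv_mem h)

lemma inv_eq_pow' [Finite G] (g : G) : g⁻¹ = g ^ (orderOf g - 1) := by
  apply inv_eq_of_mul_eq_one_left
  rw [← pow_succ, Nat.sub_add_cancel (orderOf_pos g), pow_orderOf_eq_one]

lemma Nz.inv [Finite G] {A : Subgroup G} {g : G} (h : Nz A g) : Nz A g⁻¹ := by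
  rw [inv_eq_pow']
  exact h.pow _

lemma Nz.mem_normalizer [Finite G] {A : Subgroup G} {g : G} (h : Nz A g) :
    g ∈ Subgroup.normalizer (A : Set G) := by
  rw [Subgroup.mem_normalizer_iff]
  intro a
  constructor
  · exact h a
  · intro ha
    have := h.inv _ ha
    simpa [mul_assoc] using this

/-- The generators. -/
def Gen (S A : Subgroup G) : Set G := {x | ∃ w, Nz A w ∧ ∃ s ∈ S, x = w * s * w⁻¹}

/-- The hypothesis on an element of `N_G(S)`. -/
structure ParaGood (S : Subgroup G) (h : G) : Prop where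
  exists_A : ∃ A : Subgroup G, A ≤ S ∧ (∀ s ∈ S, Nz A s) ∧ Nz A h ∧ Nz S h ∧
    (∃ x ∈ Subgroup.closure (Gen S A), ∀ a ∈ A, x * a * x⁻¹ = h * a * h⁻¹) ∧
    ∀ n, Nz S n → (∀ a ∈ A, n * a * n⁻¹ = a) → ∃ t ∈ S, ∀ s ∈ S, n * s * n⁻¹ = t * s * t⁻¹

section transport

variable (φ : G ≃* G)

lemma mem_map_iff {A : Subgroup G} {x : G} : x ∈ A.map φ.toMonoidHom ↔ φ.symm x ∈ A := by
  constructor
  · rintro ⟨a, ha, rfl⟩
    simpa using ha
  · intro h
    exact ⟨_, h, by simp⟩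

lemma Nz.map {A : Subgroup G} {g : G} (h : Nz A g) : Nz (A.map φ.toMonoidHom) (φ g) := by
  intro a ha
  rw [mem_map_iff] at ha ⊢
  have := h _ ha
  simpa using this

lemma Nz.of_map {A : Subgroup G} {g : G} (h : Nz (A.map φ.toMonoidHom) g) : Nz A (φ.symm g) := by
  intro a ha
  have h1 := h (φ a) ((mem_map_iff φ).mpr (by simpa using ha))
  rw [mem_map_iff] at h1
  simpa using h1

lemma ParaGood.map {S : Subgroup G} {h : G} (H : ParaGood S h) :
    ParaGood (S.map φ.toMonoidHom) (φ h) := by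
  obtain ⟨A, hAS, hSA, hAh, hSh, ⟨x, hx, hxa⟩, hC⟩ := H.exists_A
  have hφx : φ x ∈ Subgroup.closure (Gen (S.map φ.toMonoidHom) (A.map φ.toMonoidHom)) := by
    clear hxa
    induction hx using Subgroup.closure_induction with
    | mem y hy =>
      obtain ⟨w, hw, s, hs, rfl⟩ := hy
      apply Subgroup.subset_closure
      exact ⟨φ w, hw.map φ, φ s, ⟨s, hs, rfl⟩, by simp⟩
    | one => simp
    | mul a b _ _ ha hb => rw [map_mul]; exact Subgroup.mul_mem _ ha hb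
    | inv a _ ha => rw [map_inv]; exact Subgroup.inv_mem _ ha
  refine ⟨⟨A.map φ.toMonoidHom, Subgroup.map_mono hAS, ?_, hAh.map φ, hSh.map φ, ⟨φ x, hφx, ?_⟩, ?_⟩⟩
  · intro s hs
    rw [mem_map_iff] at hs
    have := (hSA _ hs).map φ
    simpa using this
  · intro a ha
    rw [mem_map_iff] at ha
    have := congrArg φ (hxa _ ha)
    simpa using this
  · intro n hn hna
    obtain ⟨t, ht, hts⟩ := hC (φ.symm n) (Nz.of_map φ hn) (by
      intro a ha
      have h1 := hna (φ a) ((mem_map_iff φ).mpr (by simpa using ha))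
      have h2 := congrArg φ.symm h1
      simpa using h2)
    refine ⟨φ t, ⟨t, ht, rfl⟩, ?_⟩
    intro s hs
    rw [mem_map_iff] at hs
    have h1 := congrArg φ (hts _ hs)
    simpa using h1

end transport

section core

variable [Finite G] {S : Subgroup G}

/-- `g` normalizes `A` and the conjugation is a map of `E`. -/
def Gd (E : FusionSystem S) (A : Subgroup G) (g : G) : Prop := Nz A g ∧ conjHom A g ∈ E.Hom A

lemma Gd.one (E : FusionSystem S) {A : Subgroup G} (hA : A ≤ S) : Gd E A 1 :=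
  ⟨Nz.one A, E.conj_mem hA S.one_mem⟩

lemma Gd.of_mem (E : FusionSystem S) {A : Subgroup G} (hA : A ≤ S) {s : G} (hs : s ∈ S) (hN : Nz A s) :
    Gd E A s := ⟨hN, E.conj_mem hA hs⟩

lemma Gd.mul {E : FusionSystem S} {A : Subgroup G} {g g' : G} (h : Gd E A g) (h' : Gd E A g') :
    Gd E A (g * g') := by
  refine ⟨h.1.mul h'.1, ?_⟩
  refine comp_mem' E h'.2 h.2 (fun x => h'.1 _ x.2) _ ?_
  intro x
  simp [conjHom, mul_assoc]

lemma Gd.pow {E : FusionSystem S} {A : Subgroup G} (hA : A ≤ S) {g : G} (h : Gd E A g) (n : ℕ) :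
    Gd E A (g ^ n) := by
  induction n with
  | zero => simpa using Gd.one E hA
  | succ n ih => rw [pow_succ]; exact ih.mul h

lemma Gd.inv {E : FusionSystem S} {A : Subgroup G} (hA : A ≤ S) {g : G} (h : Gd E A g) : Gd E A g⁻¹ := by
  rw [inv_eq_pow']
  exact h.pow hA _

lemma Gd.closure {E : FusionSystem S} {A : Subgroup G} (hA : A ≤ S) {X : Set G} (hX : ∀ y ∈ X, Gd E A y)
    {x : G} (hx : x ∈ Subgroup.closure X) : Gd E A x := by
  induction hx using Subgroup.closure_induction with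
  | mem y hy => exact hX y hy
  | one => exact Gd.one E hA
  | mul a b _ _ ha hb => exact ha.mul hb
  | inv a _ ha => exact ha.inv hA

lemma hom_congr {T : Subgroup G} (E : FusionSystem T) {P Q : Subgroup G} (h : P = Q) {χ : P →* G}
    (hχ : χ ∈ E.Hom P) (ξ : Q →* G) (hξ : ∀ x (hx : x ∈ P) (hx' : x ∈ Q), ξ ⟨x, hx'⟩ = χ ⟨x, hx⟩) :
    ξ ∈ E.Hom Q := by
  subst h
  convert hχ using 1
  ext x
  exact hξ _ x.2 x.2

/-- The automorphisms of `S` in `F_S(G)` are conjugations. -/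
theorem exists_conj_of_mem_autGroup'' {α : MulAut S} (hα : α ∈ (groupFusionSystem S).autGroup S) :
    ∃ g, Nz S g ∧ ∀ x : S, ((α x : S) : G) = g * (x : G) * g⁻¹ := by
  induction hα using Subgroup.closure_induction with
  | mem α hα =>
    obtain ⟨-, -, g, hg⟩ := hα
    refine ⟨g, ?_, fun x => hg x⟩
    intro s hs
    have := hg ⟨s, hs⟩
    rw [← show _ = g * s * g⁻¹ from this]
    exact (α ⟨s, hs⟩).2
  | one => exact ⟨1, Nz.one S, fun x => by simp⟩
  | mul α β _ _ hα hβ =>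
    obtain ⟨a, ha, hα⟩ := hα
    obtain ⟨b, hb, hβ⟩ := hβ
    refine ⟨a * b, ha.mul hb, fun x => ?_⟩
    show ((α (β x) : S) : G) = _
    rw [hα, hβ]
    group
  | inv α _ hα =>
    obtain ⟨a, ha, hα⟩ := hα
    refine ⟨a⁻¹, ha.inv, fun x => ?_⟩
    have h := hα (α⁻¹ x)
    rw [MulAut.apply_inv_self] at h
    rw [h]
    group

/-- Conjugates of elements of `S` act on `A` through `E`. -/
theorem gd_gen {E : FusionSystem S} (hE : E.IsInvariantIn (groupFusionSystem S)) {A : Subgroup G}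
    (hAS : A ≤ S) (hSA : ∀ s ∈ S, Nz A s) {w s : G} (hw : Nz A w) (hs : s ∈ S) :
    Gd E A (w * s * w⁻¹) := by
  obtain ⟨hsub, hsc, hinv, hfr⟩ := hE
  have hNz : Nz A (w * s * w⁻¹) := (hw.mul (hSA s hs)).mul hw.inv
  refine ⟨hNz, ?_⟩
  have hw' : conjHom A w ∈ (groupFusionSystem S).Hom A :=
    ⟨hAS, fun x => hAS (hw _ x.2), w, fun x => rfl⟩
  obtain ⟨α, hα, φ₀, hφ₀, hfac⟩ := hfr A hAS _ hw'
  obtain ⟨g, hgN, hαg⟩ := exists_conj_of_mem_autGroup'' hα
  have hφ₀S : ∀ x : A, φ₀ x ∈ S := fun x => val_mem E hφ₀ x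
  have key : ∀ x : A, w * (x : G) * w⁻¹ = g * φ₀ x * g⁻¹ := by
    intro x
    have := hfac x (hφ₀S x)
    rw [hαg] at this
    exact this
  obtain ⟨ψ₀, hψ₀, hψA, hψφ, hφψ, -⟩ := exists_inv E hφ₀ rfl
  have hA'S : φ₀.range ≤ S := range_le E hφ₀
  -- the transported map
  have h1 : (conjHom A s).comp (ψ₀.codRestrict A hψA) ∈ E.Hom φ₀.range :=
    E.comp_mem hψ₀ (E.conj_mem hAS hs) hψA
  have hcs : ∀ y : φ₀.range, ((conjHom A s).comp (ψ₀.codRestrict A hψA)) y ∈ A := by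
    intro y
    exact hSA s hs _ (hψA y)
  have h2 := E.comp_mem h1 hφ₀ hcs
  obtain ⟨χ, hχ, hχv⟩ := hinv φ₀.range hA'S _ h2 α hα
  have hB : (φ₀.range.subgroupOf S).map (S.subtype.comp α.toMonoidHom) = A := by
    apply le_antisymm
    · rintro _ ⟨⟨y, hyS⟩, hy, rfl⟩
      obtain ⟨x, hx⟩ : (y : G) ∈ φ₀.range := hy
      show ((α ⟨y, hyS⟩ : S) : G) ∈ A
      rw [hαg]
      simp only
      rw [← hx, ← key]
      exact hw _ x.2
    · intro a ha
      have hb : w⁻¹ * a * w⁻¹⁻¹ ∈ A := hw.inv _ ha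
      refine ⟨⟨φ₀ ⟨_, hb⟩, hφ₀S _⟩, ?_, ?_⟩
      · show _ ∈ φ₀.range.subgroupOf S
        rw [Subgroup.mem_subgroupOf]
        exact ⟨_, rfl⟩
      · show ((α ⟨φ₀ ⟨_, hb⟩, hφ₀S _⟩ : S) : G) = a
        rw [hαg]
        simp only
        rw [← key]
        simp [mul_assoc]
  refine hom_congr E hB hχ _ ?_
  intro a ha ha'
  -- the value at `a`
  have hb : w⁻¹ * a * w⁻¹⁻¹ ∈ A := hw.inv _ ha'
  set b : A := ⟨_, hb⟩ with hbdef
  have hy : φ₀ b ∈ φ₀.range := ⟨b, rfl⟩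
  have hαa : ((α ⟨φ₀ b, hφ₀S b⟩ : S) : G) = a := by
    rw [hαg]
    simp only
    rw [← key]
    simp [hbdef, mul_assoc]
  have hψb : ψ₀ ⟨φ₀ b, hy⟩ = b := hψφ b hy
  -- evaluate
  have hval : ((φ₀.comp (((conjHom A s).comp (ψ₀.codRestrict A hψA)).codRestrict A hcs)) ⟨φ₀ b, hy⟩) =
      φ₀ ⟨s * b * s⁻¹, hSA s hs _ b.2⟩ := by
    show φ₀ _ = φ₀ _
    congr 1
    apply Subtype.ext
    show s * ψ₀ ⟨φ₀ b, hy⟩ * s⁻¹ = s * b * s⁻¹
    rw [hψb]
  have hmem := hφ₀S ⟨s * b * s⁻¹, hSA s hs _ b.2⟩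
  have hv2 := hχv ⟨φ₀ b, hy⟩ (by rw [hval]; exact hmem)
    (by
      show ((α ⟨φ₀ b, hA'S hy⟩ : S) : G) ∈ _
      rw [hB]
      have : ((α ⟨φ₀ b, hA'S hy⟩ : S) : G) = a := hαa
      rw [this]
      exact ha')
  -- conclude
  have hx1 : χ ⟨a, ha⟩ = g * φ₀ ⟨s * b * s⁻¹, hSA s hs _ b.2⟩ * g⁻¹ := by
    have e1 : (⟨a, ha⟩ : ↥((φ₀.range.subgroupOf S).map (S.subtype.comp α.toMonoidHom))) =
        ⟨((α ⟨φ₀ b, hA'S hy⟩ : S) : G), by
          show _ ∈ _
          rw [show ((α ⟨φ₀ b, hA'S hy⟩ : S) : G) = a from hαa]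
          exact ha⟩ := Subtype.ext hαa.symm
    rw [e1]
    refine hv2.trans ?_
    rw [hαg]
    simp only
    rw [hval]
  rw [hx1, ← key]
  show (w * s * w⁻¹) * a * (w * s * w⁻¹)⁻¹ = w * (s * (w⁻¹ * a * w⁻¹⁻¹) * s⁻¹) * w⁻¹
  group

/-- The extension step. -/
theorem exists_ext {p : ℕ} [Fact p.Prime] (hS : IsPGroup p S) {E : FusionSystem S} (hEs : E.IsSaturated p)
    {A : Subgroup G} (hAS : A ≤ S) (hSA : ∀ s ∈ S, Nz A s) {h : G} (hh : Gd E A h) (hSh : Nz S h) :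
    ∃ Γ ∈ E.Hom S, ∀ (a : G) (ha : a ∈ S), a ∈ A → Γ ⟨a, ha⟩ = h * a * h⁻¹ := by
  have hfn : E.IsFullyNormalized A := by
    refine ⟨hAS, fun Q _ => ?_⟩
    have h1 : normalizerIn S A = S := by
      apply le_antisymm inf_le_left
      intro s hs
      exact ⟨hs, (hSA s hs).mem_normalizer⟩
    rw [h1]
    exact Subgroup.card_le_of_le inf_le_left
  have hR := isReceptive_of_isFullyNormalized E hS hEs hfn
  have hrange : (conjHom A h).range = A := by
    apply le_antisymm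
    · rintro _ ⟨x, rfl⟩
      exact hh.1 _ x.2
    · intro a ha
      refine ⟨⟨h⁻¹ * a * h⁻¹⁻¹, hh.1.inv _ ha⟩, ?_⟩
      show h * (h⁻¹ * a * h⁻¹⁻¹) * h⁻¹ = a
      group
  obtain ⟨ψ, hψ, hψv⟩ := hR.2 A (conjHom A h) hh.2 hrange
  have hle : S ≤ extender S A (conjHom A h) := by
    intro g hg
    apply Subgroup.subset_closure
    refine ⟨hg, (hSA g hg).mem_normalizer, h * g * h⁻¹, hSh g hg, ?_⟩
    intro x hx
    show h * (g * (x : G) * g⁻¹) * h⁻¹ = h * g * h⁻¹ * (h * (x : G) * h⁻¹) * (h * g * h⁻¹)⁻¹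
    group
  refine ⟨ψ.comp (Subgroup.inclusion hle), restrict_mem E hle hψ, ?_⟩
  intro a ha haA
  exact hψv a haA (hle ha)

/-- Good elements induce maps of `E` on `S`. -/
theorem gd_good {p : ℕ} [Fact p.Prime] (hS : IsPGroup p S) {E : FusionSystem S} (hEs : E.IsSaturated p)
    (hE : E.IsInvariantIn (groupFusionSystem S)) {h : G} (hg : ParaGood S h) : Gd E S h := by
  obtain ⟨A, hAS, hSA, hAh, hSh, ⟨x, hx, hxa⟩, hC⟩ := hg.exists_A
  have hGdx : Gd E A x := by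
    refine Gd.closure hAS ?_ hx
    rintro y ⟨w, hw, s, hs, rfl⟩
    exact gd_gen hE hAS hSA hw hs
  have hGdh : Gd E A h := by
    refine ⟨hAh, ?_⟩
    convert hGdx.2 using 1
    ext a
    exact (hxa a a.2).symm
  obtain ⟨Γ, hΓ, hΓv⟩ := exists_ext hS hEs hAS hSA hGdh hSh
  have hΓF := hE.1 S hΓ
  obtain ⟨-, hΓS, n, hn⟩ := hΓF
  have hnN : Nz S n := by
    intro s hs
    have := hΓS ⟨s, hs⟩
    rwa [hn] at this
  have hm : Nz S (n⁻¹ * h) := hnN.inv.mul hSh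
  have hma : ∀ a ∈ A, (n⁻¹ * h) * a * (n⁻¹ * h)⁻¹ = a := by
    intro a ha
    have h1 := hΓv a (hAS ha) ha
    rw [hn] at h1
    simp only at h1
    have e : (n⁻¹ * h) * a * (n⁻¹ * h)⁻¹ = n⁻¹ * (h * a * h⁻¹) * n := by group
    rw [e, ← h1]
    group
  obtain ⟨t, ht, hts⟩ := hC _ hm hma
  refine ⟨hSh, ?_⟩
  refine comp_mem' E (E.conj_mem le_rfl ht) hΓ (fun x => S.mul_mem (S.mul_mem ht x.2) (S.inv_mem ht)) _ ?_
  intro y
  rw [hn]
  show h * (y : G) * h⁻¹ = n * (t * (y : G) * t⁻¹) * n⁻¹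
  rw [← hts _ y.2]
  group

/-- The core of the criterion. -/
theorem simple_of_para_core {p : ℕ} [Fact p.Prime] (P : Sylow p G) (hS1 : (P : Subgroup G) ≠ ⊥)
    (hT : ∀ T : Subgroup G, T ≤ P → T ≠ ⊥ →
      (∀ x ∈ T, ∀ g : G, g * x * g⁻¹ ∈ (P : Subgroup G) → g * x * g⁻¹ ∈ T) → T = P)
    (H₀ : Set G) (hgood : ∀ h ∈ H₀, ParaGood (P : Subgroup G) h)
    (hN : ∀ g, Nz (P : Subgroup G) g → g ∈ Subgroup.closure ((P : Set G) ∪ H₀)) :
    (groupFusionSystem (P : Subgroup G)).IsSimple p := by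
  refine ⟨Cfsg.Agent.Lib.Fusion.GroupSystem.isSaturated P, hS1, ?_⟩
  intro T E hE
  obtain ⟨⟨hEs, -, hinv⟩, -⟩ := hE
  have hinv' := hinv
  obtain ⟨hsub, hsc, -, hfr⟩ := hinv
  by_cases hbot : T = ⊥
  · exact Or.inl hbot
  right
  have hTS : T = P := hT T hsc.1 hbot (Cfsg.Agent.Lib.FusionSimple.Basic.closed_of_stronglyClosed hsc)
  subst hTS
  refine ⟨rfl, fun Q => Set.Subset.antisymm (hsub Q) ?_⟩
  intro φ hφ
  have hQ : Q ≤ (P : Subgroup G) := ((groupFusionSystem (P : Subgroup G)).le_of_mem hφ).1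
  obtain ⟨α, hα, φ₀, hφ₀, hfac⟩ := hfr Q hQ φ hφ
  obtain ⟨g, hg, hαg⟩ := exists_conj_of_mem_autGroup'' hα
  have hφ₀S : ∀ x : Q, φ₀ x ∈ (P : Subgroup G) := (E.le_of_mem hφ₀).2
  -- `g` acts through `E`
  have hGd : Gd E (P : Subgroup G) g := by
    refine Gd.closure le_rfl ?_ (hN g hg)
    rintro y (hy | hy)
    · exact Gd.of_mem E le_rfl hy (Nz.of_mem hy)
    · exact gd_good P.isPGroup' hEs hinv' (hgood y hy)
  refine comp_mem' E hφ₀ hGd.2 hφ₀S _ ?_
  intro x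
  rw [hfac x (hφ₀S x), hαg]
  rfl

/-- The criterion. -/
theorem simple_of_para {p : ℕ} [Fact p.Prime] (P : Sylow p G) (hS1 : (P : Subgroup G) ≠ ⊥)
    (hT : ∀ T : Subgroup G, T ≤ P → T ≠ ⊥ →
      (∀ x ∈ T, ∀ g : G, g * x * g⁻¹ ∈ (P : Subgroup G) → g * x * g⁻¹ ∈ T) → T = P)
    (H₀ : Set G) (hgood : ∀ h ∈ H₀, ParaGood (P : Subgroup G) h)
    (hN : ∀ g, Nz (P : Subgroup G) g → g ∈ Subgroup.closure ((P : Set G) ∪ H₀))
    (R : Sylow p G) : (groupFusionSystem (R : Subgroup G)).IsSimple p := by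
  obtain ⟨c, rfl⟩ := MulAction.exists_smul_eq G P R
  set φ : G ≃* G := MulAut.conj c with hφ
  have hmap : ((c • P : Sylow p G) : Subgroup G) = (P : Subgroup G).map φ.toMonoidHom := by
    ext x
    rw [Sylow.coe_subgroup_smul, Subgroup.mem_pointwise_smul_iff_inv_smul_mem, mem_map_iff]
    show (MulAut.conj c)⁻¹ x ∈ _ ↔ _
    rfl
  apply simple_of_para_core (c • P) _ _ (φ '' H₀)
  · rintro _ ⟨h, hh, rfl⟩
    rw [hmap]
    exact (hgood h hh).map φ
  · intro g hg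
    rw [hmap] at hg
    have h1 := hN _ (Nz.of_map φ hg)
    have h2 : ∀ x ∈ Subgroup.closure ((P : Set G) ∪ H₀),
        φ x ∈ Subgroup.closure ((((c • P : Sylow p G) : Subgroup G) : Set G) ∪ φ '' H₀) := by
      intro x hx
      induction hx using Subgroup.closure_induction with
      | mem y hy =>
        apply Subgroup.subset_closure
        rcases hy with hy | hy
        · left
          rw [hmap]
          exact ⟨y, hy, rfl⟩
        · right
          exact ⟨y, hy, rfl⟩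
      | one => simp
      | mul a b _ _ ha hb => rw [map_mul]; exact Subgroup.mul_mem _ ha hb
      | inv a _ ha => rw [map_inv]; exact Subgroup.inv_mem _ ha
    have h3 := h2 _ h1
    simpa using h3
  · rw [hmap]
    intro h0
    apply hS1
    rw [eq_bot_iff]
    intro x hx
    have : φ x ∈ (P : Subgroup G).map φ.toMonoidHom := ⟨x, hx, rfl⟩
    rw [h0, Subgroup.mem_bot] at this
    rw [Subgroup.mem_bot]
    simpa using this
  · intro T hT1 hT2 hT3
    rw [hmap] at hT1 hT3 ⊢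
    have h1 := hT (T.map φ.symm.toMonoidHom) ?_ ?_ ?_
    · rw [← h1]
      ext x
      rw [mem_map_iff, mem_map_iff]
      simp
    · rintro _ ⟨x, hx, rfl⟩
      have := hT1 hx
      rw [mem_map_iff] at this
      exact this
    · intro h0
      apply hT2
      rw [eq_bot_iff]
      intro x hx
      have : φ.symm x ∈ T.map φ.symm.toMonoidHom := ⟨x, hx, rfl⟩
      rw [h0, Subgroup.mem_bot] at this
      rw [Subgroup.mem_bot]
      simpa using this
    · rintro _ ⟨x, hx, rfl⟩ g hg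
      have h2 := hT3 x hx (φ g) (by
        rw [mem_map_iff]
        simpa using hg)
      refine ⟨_, h2, ?_⟩
      simp

end core

end Cfsg.Agent.Lib.H29.ParaFusion
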