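import Cfsg.Agent.Lib.H29.L3InstC
import Cfsg.Agent.Lib.Witt.SU3Invol
import Cfsg.Agent.Lib.TwoFusion.GU2
import Cfsg.Agent.Lib.Classical.HermOrders

/-!
# The block embedding `GU₂ → SU₃`
-/

set_option autoImplicit false

namespace Cfsg.Agent.Lib.H29.U3Inst

open scoped MatrixGroups
open Matrix Cfsg.Agent.Lib.H29.L3InstA Cfsg.Agent.Lib.H29.L3InstB Cfsg.Agent.Lib.H29.L3InstC
open Cfsg.Agent.Lib.HermCount.Field Cfsg.Agent.Lib.TwoFusion.GU2 Cfsg.Agent.Lib.Witt.SU3Invol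

universe u

variable {F : Type u} [Field F] [Fintype F] {q : ℕ}

/-- Determinants of `GU₂` have norm one. -/
lemma det_norm (hF : Fintype.card F = q ^ 2) (g : GL (Fin 2) F) (hg : g ∈ Cfsg.GU 2 F q) :
    (Matrix.GeneralLinearGroup.det g) ^ (q + 1) = 1 := by
  obtain ⟨h1, h2, h3⟩ := (mem_GU_iff hF g).mp hg
  have hq := two_le hF
  have hq0 : q ≠ 0 := by omega
  rw [pow_succ, pow_succ] at h1 h3
  have E' : (g 0 0) ^ q * g 0 1 + (g 1 0) ^ q * g 1 1 = 0 := by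
    have := congrArg (fun x : F => x ^ q) h2
    simp only [frob_add hF, mul_pow, pow_q_q hF, zero_pow hq0] at this
    exact this
  have AB : ((g 0 0) ^ q * g 0 0) * ((g 0 1) ^ q * g 0 1) = ((g 1 0) ^ q * g 1 0) * ((g 1 1) ^ q * g 1 1) := by
    linear_combination ((g 0 0) ^ q * g 0 1) * h2 - (g 1 0 * (g 1 1) ^ q) * E'
  have hCD : (g 1 0) ^ q * g 1 0 + (g 1 1) ^ q * g 1 1 = 1 := by
    linear_combination -AB + ((g 0 1) ^ q * g 0 1) * h1 + (1 - (g 1 0) ^ q * g 1 0) * h3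
  apply Units.ext
  rw [Units.val_pow_eq_pow_val, Matrix.GeneralLinearGroup.val_det_apply, Matrix.det_fin_two, pow_succ,
    sub_pow_q hF, mul_pow, mul_pow, Units.val_one]
  linear_combination -((g 1 1) ^ q * g 1 0) * E' - ((g 1 0) ^ q * g 1 1) * h2 +
    ((g 1 1) ^ q * g 1 1) * h1 + ((g 1 0) ^ q * g 1 0) * h3 + hCD

/-- The block matrix is unitary. -/
lemma block_mem (hF : Fintype.card F = q ^ 2) (B : GL (Fin 2) F) (hB : B ∈ Cfsg.GU 2 F q) :
    (⟨blockM B, blockM_det B⟩ : SL(3, F)) ∈ Cfsg.SU 3 F q := by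
  intro u v
  have h := hB ![u 0, u 1] ![v 0, v 1]
  have hd := det_norm hF B hB
  have hd' : ((B : Matrix (Fin 2) (Fin 2) F).det)⁻¹ * ((B : Matrix (Fin 2) (Fin 2) F).det)⁻¹ ^ q = 1 := by
    have h1 := congrArg Units.val hd
    rw [Units.val_pow_eq_pow_val, Matrix.GeneralLinearGroup.val_det_apply, pow_succ, Units.val_one] at h1
    rw [inv_pow, ← mul_inv, mul_comm, h1, inv_one]
  simp only [Cfsg.hermForm, Fin.sum_univ_two, Matrix.mulVec, dotProduct, Units.coeHom_apply, Fin.sum_univ_two,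
    Matrix.cons_val_zero, Matrix.cons_val_one] at h
  have eu : ∀ w : Fin 3 → F, blockM B *ᵥ w = ![B 0 0 * w 0 + B 0 1 * w 1, B 1 0 * w 0 + B 1 1 * w 1,
      ((B : Matrix (Fin 2) (Fin 2) F).det)⁻¹ * w 2] := by
    intro w
    ext i
    fin_cases i <;> simp [blockM, Matrix.mulVec, dotProduct, Fin.sum_univ_three]
  show Cfsg.hermForm 3 F q (blockM B *ᵥ u) (blockM B *ᵥ v) = Cfsg.hermForm 3 F q u v
  rw [eu, eu]
  simp only [Cfsg.hermForm, Fin.sum_univ_three]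
  simp only [Matrix.cons_val]
  rw [mul_pow]
  linear_combination h + (u 2 * v 2 ^ q) * hd'

/-- The block embedding. -/
noncomputable def uBlock (hF : Fintype.card F = q ^ 2) : ↥(Cfsg.GU 2 F q) →* ↥(Cfsg.SU 3 F q) where
  toFun B := ⟨⟨blockM B.1, blockM_det B.1⟩, block_mem hF B.1 B.2⟩
  map_one' := Subtype.ext (Subtype.ext blockM_one)
  map_mul' B C := Subtype.ext (Subtype.ext (blockM_mul B.1 C.1))

/-- The inclusion `SU₂ → GU₂`. -/
noncomputable def suIncl : ↥(Cfsg.SU 2 F q) →* ↥(Cfsg.GU 2 F q) where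
  toFun s := ⟨Matrix.SpecialLinearGroup.toGL s.1, fun u v => s.2 u v⟩
  map_one' := Subtype.ext (map_one _)
  map_mul' a b := Subtype.ext (map_mul _ _ _)

lemma suIncl_inj : Function.Injective (suIncl (F := F) (q := q)) := by
  intro a b h
  apply Subtype.ext
  exact Matrix.SpecialLinearGroup.toGL_injective (congrArg Subtype.val h)

lemma det_suIncl (s : ↥(Cfsg.SU 2 F q)) :
    Matrix.GeneralLinearGroup.det ((suIncl s).1) = 1 := by
  apply Units.ext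
  rw [Matrix.GeneralLinearGroup.val_det_apply]
  exact s.1.2

lemma exists_suIncl (h : ↥(Cfsg.GU 2 F q)) (hd : Matrix.GeneralLinearGroup.det h.1 = 1) :
    ∃ s, suIncl s = h := by
  have hd' : (h.1 : Matrix (Fin 2) (Fin 2) F).det = 1 := by
    have := congrArg Units.val hd
    rwa [Matrix.GeneralLinearGroup.val_det_apply] at this
  refine ⟨⟨⟨h.1, hd'⟩, fun u v => h.2 u v⟩, ?_⟩
  apply Subtype.ext
  apply Units.ext
  rfl

/-- Elements commuting with `DD` come from `GU₂`. -/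
lemma cent_mem (hF : Fintype.card F = q ^ 2) (h2 : (2 : F) ≠ 0) (g : ↥(Cfsg.SU 3 F q))
    (hg : (g.1.1 : Matrix (Fin 3) (Fin 3) F) * DD = DD * (g.1.1 : Matrix (Fin 3) (Fin 3) F)) :
    g ∈ (uBlock (F := F) (q := q) hF).range := by
  obtain ⟨B, hB⟩ := eq_blockM_of_comm h2 _ g.1.2 hg
  have hmem : B ∈ Cfsg.GU 2 F q := by
    intro u v
    have h := g.2 ![u 0, u 1, 0] ![v 0, v 1, 0]
    have hq := two_le hF
    have hq0 : q ≠ 0 := by omega
    have hq1 : q + 1 ≠ 0 := by omega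
    have h' : Cfsg.hermForm 3 F q (blockM B *ᵥ ![u 0, u 1, 0]) (blockM B *ᵥ ![v 0, v 1, 0]) =
        Cfsg.hermForm 3 F q ![u 0, u 1, 0] ![v 0, v 1, 0] := by
      rw [hB]
      exact h
    have eu : ∀ w : Fin 2 → F, blockM B *ᵥ ![w 0, w 1, 0] = ![B 0 0 * w 0 + B 0 1 * w 1, B 1 0 * w 0 + B 1 1 * w 1, 0] := by
      intro w
      ext i
      fin_cases i <;> simp [blockM, Matrix.mulVec, dotProduct, Fin.sum_univ_three]
    rw [eu, eu] at h'
    simp only [Cfsg.hermForm, Fin.sum_univ_three, Fin.sum_univ_two, Matrix.mulVec, dotProduct, Units.coeHom_apply] at h' ⊢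
    simp only [Matrix.cons_val, zero_pow hq0, mul_zero, add_zero] at h'
    exact h'
  exact ⟨⟨B, hmem⟩, Subtype.ext (Subtype.ext hB)⟩

/-- The element `g₀`. -/
lemma g0_mem (hF : Fintype.card F = q ^ 2) (hq : q % 2 = 1) :
    ∃ g : ↥(Cfsg.SU 3 F q), (g.1.1 : Matrix (Fin 3) (Fin 3) F) = g₀ F := by
  have hdet : (g₀ F).det = 1 := by
    rw [g₀, Matrix.det_fin_three]
    simp
  have hod : Odd q := Nat.odd_iff.mpr hq
  refine ⟨⟨⟨g₀ F, hdet⟩, ?_⟩, rfl⟩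
  intro u v
  show Cfsg.hermForm 3 F q (g₀ F *ᵥ u) (g₀ F *ᵥ v) = Cfsg.hermForm 3 F q u v
  have eu : ∀ w : Fin 3 → F, g₀ F *ᵥ w = ![w 0, w 2, - w 1] := by
    intro w
    ext i
    fin_cases i <;> simp [g₀, Matrix.mulVec, dotProduct, Fin.sum_univ_three]
  rw [eu, eu]
  simp only [Cfsg.hermForm, Fin.sum_univ_three]
  simp only [Matrix.cons_val, hod.neg_pow]
  ring

/-- The cyclic permutation `(v₀, v₁, v₂) ↦ (v₁, v₂, v₀)`. -/
def cycM (F : Type*) [Field F] : Matrix (Fin 3) (Fin 3) F := !![0, 1, 0; 0, 0, 1; 1, 0, 0]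

lemma cyc_mem : ∃ g : ↥(Cfsg.SU 3 F q), (g.1.1 : Matrix (Fin 3) (Fin 3) F) = cycM F := by
  have hdet : (cycM F).det = 1 := by
    rw [cycM, Matrix.det_fin_three]
    simp
  refine ⟨⟨⟨cycM F, hdet⟩, ?_⟩, rfl⟩
  intro u v
  show Cfsg.hermForm 3 F q (cycM F *ᵥ u) (cycM F *ᵥ v) = Cfsg.hermForm 3 F q u v
  have eu : ∀ w : Fin 3 → F, cycM F *ᵥ w = ![w 1, w 2, w 0] := by
    intro w
    ext i
    fin_cases i <;> simp [cycM, Matrix.mulVec, dotProduct, Fin.sum_univ_three]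
  rw [eu, eu]
  simp only [Cfsg.hermForm, Fin.sum_univ_three]
  simp only [Matrix.cons_val]
  ring

/-- All involutions of `SU₃` are conjugate to `DD`. -/
lemma invol_su (hF : Fintype.card F = q ^ 2) (h2 : (2 : F) ≠ 0) (A : ↥(Cfsg.SU 3 F q)) (hA : A * A = 1)
    (hA1 : A ≠ 1) : ∃ g : ↥(Cfsg.SU 3 F q), (g * A * g⁻¹).1 = DDs := by
  obtain ⟨u, hu, rfl⟩ := exists_refl hF h2 A hA hA1
  obtain ⟨P, hP⟩ := conj_to_t₀ hF u hu
  obtain ⟨M, hM⟩ := cyc_mem (F := F) (q := q)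
  refine ⟨M * P⁻¹, ?_⟩
  have e : (M * P⁻¹) * refl hF u hu * (M * P⁻¹)⁻¹ = M * t₀ hF * M⁻¹ := by
    rw [hP]
    group
  rw [e]
  have hq := two_le hF
  have hq0 : q ≠ 0 := by omega
  have ht : ((t₀ hF).1.1 : Matrix (Fin 3) (Fin 3) F) = !![1, 0, 0; 0, -1, 0; 0, 0, -1] := by
    show reflMat q e₀ = _
    ext i j
    fin_cases i <;> fin_cases j <;> simp [reflMat, e₀, zero_pow hq0]
    norm_num
  -- a matrix computation
  have key : ((M * t₀ hF).1.1 : Matrix (Fin 3) (Fin 3) F) = DD * (M.1.1 : Matrix (Fin 3) (Fin 3) F) := by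
    show (M.1.1 : Matrix (Fin 3) (Fin 3) F) * (t₀ hF).1.1 = _
    rw [ht, hM, cycM, DD]
    ext i j
    fin_cases i <;> fin_cases j <;> simp [Matrix.mul_apply, Fin.sum_univ_three]
  apply Subtype.ext
  have h3 : ((M * t₀ hF * M⁻¹) * M).1.1 = (M * t₀ hF).1.1 := by
    rw [inv_mul_cancel_right]
  have h4 : ((M * t₀ hF * M⁻¹).1.1 : Matrix (Fin 3) (Fin 3) F) * (M.1.1 : Matrix (Fin 3) (Fin 3) F) =
      DD * (M.1.1 : Matrix (Fin 3) (Fin 3) F) := by
    rw [← key]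
    exact h3
  have hMinv : (M.1.1 : Matrix (Fin 3) (Fin 3) F) * (M⁻¹).1.1 = 1 := by
    have := congrArg (fun z : ↥(Cfsg.SU 3 F q) => (z.1.1 : Matrix (Fin 3) (Fin 3) F)) (mul_inv_cancel M)
    exact this
  have h5 := congrArg (fun Z => Z * (M⁻¹).1.1) h4
  simp only [Matrix.mul_assoc, hMinv, Matrix.mul_one] at h5
  exact h5

lemma dg_mem (hF : Fintype.card F = q ^ 2) (α β : Fˣ) (hα : α ^ (q + 1) = 1) (hβ : β ^ (q + 1) = 1) :
    dg α β ∈ Cfsg.GU 2 F q := by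
  have hq := two_le hF
  have hq0 : q ≠ 0 := by omega
  have hα' : (α : F) ^ (q + 1) = 1 := by
    rw [← Units.val_pow_eq_pow_val, hα, Units.val_one]
  have hβ' : (β : F) ^ (q + 1) = 1 := by
    rw [← Units.val_pow_eq_pow_val, hβ, Units.val_one]
  refine (mem_GU_iff hF _).mpr ⟨?_, ?_, ?_⟩
  · simp [zero_pow hq0, hα']
  · simp [zero_pow hq0]
  · simp [zero_pow hq0, hβ']

lemma ag_mem (hF : Fintype.card F = q ^ 2) (α β : Fˣ) (hα : α ^ (q + 1) = 1) (hβ : β ^ (q + 1) = 1) :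
    ag α β ∈ Cfsg.GU 2 F q := by
  have hq := two_le hF
  have hq0 : q ≠ 0 := by omega
  have hα' : (α : F) ^ (q + 1) = 1 := by
    rw [← Units.val_pow_eq_pow_val, hα, Units.val_one]
  have hβ' : (β : F) ^ (q + 1) = 1 := by
    rw [← Units.val_pow_eq_pow_val, hβ, Units.val_one]
  refine (mem_GU_iff hF _).mpr ⟨?_, ?_, ?_⟩
  · simp [zero_pow hq0, hβ']
  · simp [zero_pow hq0]
  · simp [zero_pow hq0, hα']

lemma sc_norm (hF : Fintype.card F = q ^ 2) (γ : Fˣ) (h : dg γ γ ∈ Cfsg.GU 2 F q) : γ ^ (q + 1) = 1 := by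
  have hq := two_le hF
  have hq0 : q ≠ 0 := by omega
  obtain ⟨h1, -, -⟩ := (mem_GU_iff hF _).mp h
  apply Units.ext
  rw [Units.val_pow_eq_pow_val, Units.val_one]
  simpa [zero_pow hq0] using h1

lemma exists_K (hF : Fintype.card F = q ^ 2) :
    ∃ (K : Type) (_ : Field K) (_ : Fintype K), Fintype.card K = q := by
  have hq := two_le hF
  obtain ⟨p, hp⟩ := CharP.exists F
  obtain ⟨n, hpp, hn⟩ := FiniteField.card F p
  have hdvd : q ∣ (p : ℕ) ^ (n : ℕ) := by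
    rw [← hn, hF]
    exact dvd_pow_self q (by norm_num)
  obtain ⟨k, -, hk⟩ := (Nat.dvd_prime_pow hpp).mp hdvd
  have hk0 : k ≠ 0 := by
    rintro rfl
    rw [pow_zero] at hk
    omega
  haveI : Fact p.Prime := ⟨hpp⟩
  haveI : Finite (GaloisField p k) := by
    have hc := GaloisField.card p k hk0
    apply Nat.finite_of_card_ne_zero
    rw [hc]
    exact pow_ne_zero _ hpp.ne_zero
  letI fi : Fintype (GaloisField p k) := Fintype.ofFinite _
  refine ⟨GaloisField p k, inferInstance, fi, ?_⟩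
  have h3 := GaloisField.card p k hk0
  rw [Nat.card_eq_fintype_card] at h3
  rw [h3, hk]

lemma idxU_aux (t c q : ℕ) (ht : 1 ≤ t) (hq : q = 2 * t + 1)
    (h : c * ((q + 1) * (q ^ 2 - q) * (q + 1)) * (q + 1) = q ^ 3 * ((q + 1) * (q ^ 2 - 1) * (q ^ 3 + 1))) :
    c = (2 * t + 1) ^ 2 * ((2 * t + 1) * (2 * t) + 1) := by
  subst hq
  have e1 : (2 * t + 1) ^ 2 - 1 = 2 * t * (2 * t + 2) := by
    apply Nat.sub_eq_of_eq_add
    ring
  have e2 : (2 * t + 1) ^ 2 - (2 * t + 1) = (2 * t + 1) * (2 * t) := by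
    apply Nat.sub_eq_of_eq_add
    ring
  rw [e1, e2] at h
  have hpos : 0 < (2 * t + 1 + 1) * ((2 * t + 1) * (2 * t)) * (2 * t + 1 + 1) * (2 * t + 1 + 1) := by positivity
  apply Nat.eq_of_mul_eq_mul_right hpos
  rw [← mul_assoc, h]
  ring

end Cfsg.Agent.Lib.H29.U3Inst
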