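import Cfsg.Agent.Lib.H29.ParaFusion
import Cfsg.Agent.Lib.SLn.QuatSylow

/-!
# A wreath-product configuration `(L × L) ⋊ C₂ ≤ Ĝ` giving simple `2`-fusion systems

An abstract version of `Sp₂(q) ≀ C₂ ≤ Sp₄(q)`, `q` odd.
-/

set_option autoImplicit false

namespace Cfsg.Agent.Lib.H29.W4

open Cfsg Cfsg.Agent.Lib.SLn.QuatSylow Cfsg.Agent.Lib.H29.ParaFusion

/-- The setup. -/
structure Setup (Ĝ L : Type*) [Group Ĝ] [Group L] (D : Data L) where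
  th : L → L → Ĝ
  th_mul : ∀ a b c d, th a b * th c d = th (a * c) (b * d)
  th_inj : ∀ a b c d, th a b = th c d → a = c ∧ b = d
  σ : Ĝ
  σσ : σ * σ = 1
  σth : ∀ a b, σ * th a b * σ = th b a
  σ_ne : ∀ a b, σ ≠ th a b
  m : L
  hm : D.y * D.y = m
  m_comm : ∀ x : L, x * m = m * x
  uniq : ∀ g : L, g * g = 1 → g = 1 ∨ g = m
  cen : ∀ g, g * th m m = th m m * g
  cent : ∀ g, g * th m 1 = th m 1 * g → ∃ A B, g = th A B
  conj : ∀ r r' : L, r * r = m → r' * r' = m → ∃ g, g * r * g⁻¹ = r'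
  exT : ∀ i : L, i * i = m → ∃ T : Ĝ, T * σ * T⁻¹ = th m 1 ∧ T * th m 1 * T⁻¹ = th (m * i) i * σ ∧
    T * (th (m * i) i * σ) * T⁻¹ = σ ∧
    ∀ j : L, j * i = m * (i * j) → T * (th (m * j) j * σ) * T⁻¹ = th (m * j) j * σ
  card : (Nat.card Ĝ).factorization 2 = 2 * D.v + 3

namespace Setup

variable {Ĝ L : Type*} [Group Ĝ] [Group L] {D : Data L} (W : Setup Ĝ L D)

lemma th_mul_assoc (a b c d : L) (x : Ĝ) : W.th a b * (W.th c d * x) = W.th (a * c) (b * d) * x := by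
  rw [← mul_assoc, W.th_mul]

lemma th_one : W.th 1 1 = 1 := by
  have := W.th_mul 1 1 1 1
  simp only [mul_one] at this
  exact mul_eq_left.mp this

lemma th_inv (a b : L) : (W.th a b)⁻¹ = W.th a⁻¹ b⁻¹ := by
  apply inv_eq_of_mul_eq_one_right
  rw [W.th_mul, mul_inv_cancel, mul_inv_cancel, W.th_one]

lemma σ_inv : W.σ⁻¹ = W.σ := inv_eq_of_mul_eq_one_right W.σσ

lemma σ_th (a b : L) : W.σ * W.th a b = W.th b a * W.σ := by
  rw [← W.σth a b, mul_assoc, W.σσ, mul_one]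

lemma σ_th_assoc (a b : L) (x : Ĝ) : W.σ * (W.th a b * x) = W.th b a * (W.σ * x) := by
  rw [← mul_assoc, W.σ_th, mul_assoc]

lemma σσ_assoc (x : Ĝ) : W.σ * (W.σ * x) = x := by
  rw [← mul_assoc, W.σσ, one_mul]

lemma th_pow (a b : L) (n : ℕ) : W.th a b ^ n = W.th (a ^ n) (b ^ n) := by
  induction n with
  | zero => simp [W.th_one]
  | succ n ih => rw [pow_succ, ih, W.th_mul, pow_succ, pow_succ]

/-- `a ↦ th a 1` as a homomorphism. -/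
def thL : L →* Ĝ where
  toFun a := W.th a 1
  map_one' := W.th_one
  map_mul' a b := by rw [W.th_mul, mul_one]

/-- The diagonal homomorphism. -/
def thD : L →* Ĝ where
  toFun a := W.th a a
  map_one' := W.th_one
  map_mul' a b := by rw [W.th_mul]

lemma m_eq_pow : W.m = D.a ^ (2 ^ (D.v - 1)) := by rw [← W.hm, D.y2]

lemma two_pow_v : 2 ^ D.v = 2 * 2 ^ (D.v - 1) := by
  have hv := D.hv
  rw [← pow_succ']
  congr 1
  omega

lemma mm : W.m * W.m = 1 := by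
  rw [W.m_eq_pow, ← pow_add, ← two_mul, ← two_pow_v, ← D.ord, pow_orderOf_eq_one]

lemma m_inv : W.m⁻¹ = W.m := inv_eq_of_mul_eq_one_right W.mm

lemma m_ne_one : W.m ≠ 1 := by
  rw [W.m_eq_pow]
  intro h
  have h3 := orderOf_dvd_of_pow_eq_one h
  rw [D.ord] at h3
  have h4 := Nat.le_of_dvd (by positivity) h3
  have h5 := two_pow_v (D := D)
  have h6 : 0 < 2 ^ (D.v - 1) := by positivity
  omega

lemma a_ne_one : D.a ≠ 1 := by
  intro h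
  apply D.a_sq_ne
  rw [h, one_mul]

lemma a_ne_m : D.a ≠ W.m := by
  intro h
  apply D.a_sq_ne
  rw [h, W.mm]

lemma m_mem_S : W.m ∈ D.S := by
  rw [← W.hm]
  exact D.S.mul_mem D.y_mem D.y_mem

lemma m_comm_assoc (x z : L) : x * (W.m * z) = W.m * (x * z) := by
  rw [← mul_assoc, W.m_comm, mul_assoc]

lemma m_m_assoc (z : L) : W.m * (W.m * z) = z := by
  rw [← mul_assoc, W.mm, one_mul]

/-- A conjugate of `m` is `m`. -/
lemma conj_m (x : L) : x * W.m * x⁻¹ = W.m := by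
  rw [W.m_comm]; group

/-- Elements centralizing `Q`. -/
lemma cen_Q {w : L} (hw : ∀ x ∈ D.S, w * x = x * w) : w = 1 ∨ w = W.m := by
  apply W.uniq
  apply D.centralizer_S
  rw [Subgroup.mem_centralizer_iff]
  intro x hx
  exact (hw x hx).symm

section fin

variable [Finite L]

/-- A power of a non-trivial element of `Q` is `m`. -/
lemma exists_pow_eq_m {x : L} (hx : x ∈ D.S) (h1 : x ≠ 1) : ∃ n : ℕ, x ^ n = W.m := by
  have hd : orderOf x ∣ 2 ^ (D.v + 1) := by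
    have := Subgroup.orderOf_dvd_natCard D.S hx
    rwa [D.card_S, ← pow_succ'] at this
  obtain ⟨k, -, hk⟩ := (Nat.dvd_prime_pow Nat.prime_two).mp hd
  rcases k with _ | k
  · exfalso
    apply h1
    simpa using hk
  refine ⟨2 ^ k, ?_⟩
  have h2 : x ^ 2 ^ k * x ^ 2 ^ k = 1 := by
    rw [← pow_add, ← two_mul, ← pow_succ', ← hk, pow_orderOf_eq_one]
  rcases W.uniq _ h2 with h3 | h3
  · exfalso
    have := orderOf_dvd_of_pow_eq_one h3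
    rw [hk] at this
    have h4 := Nat.le_of_dvd (by positivity) this
    rw [pow_succ] at h4
    have : 0 < 2 ^ k := by positivity
    omega
  · exact h3

end fin

/-! ### The subgroup `Ŝ` -/

/-- `Ŝ = (Q × Q) ⋊ ⟨σ⟩`. -/
def Shat : Subgroup Ĝ where
  carrier := {g | ∃ a ∈ D.S, ∃ b ∈ D.S, g = W.th a b ∨ g = W.th a b * W.σ}
  mul_mem' := by
    rintro _ _ ⟨a, ha, b, hb, rfl | rfl⟩ ⟨c, hc, d, hd, rfl | rfl⟩
    · exact ⟨_, D.S.mul_mem ha hc, _, D.S.mul_mem hb hd, Or.inl (W.th_mul _ _ _ _)⟩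
    · exact ⟨_, D.S.mul_mem ha hc, _, D.S.mul_mem hb hd, Or.inr (by rw [← mul_assoc, W.th_mul])⟩
    · refine ⟨_, D.S.mul_mem ha hd, _, D.S.mul_mem hb hc, Or.inr ?_⟩
      rw [mul_assoc, W.σ_th, ← mul_assoc, W.th_mul]
    · refine ⟨_, D.S.mul_mem ha hd, _, D.S.mul_mem hb hc, Or.inl ?_⟩
      rw [mul_assoc, ← mul_assoc W.σ, W.σ_th, mul_assoc, W.σσ, mul_one, W.th_mul]
  one_mem' := ⟨1, D.S.one_mem, 1, D.S.one_mem, Or.inl W.th_one.symm⟩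
  inv_mem' := by
    rintro _ ⟨a, ha, b, hb, rfl | rfl⟩
    · exact ⟨_, D.S.inv_mem ha, _, D.S.inv_mem hb, Or.inl (W.th_inv _ _)⟩
    · refine ⟨_, D.S.inv_mem hb, _, D.S.inv_mem ha, Or.inr ?_⟩
      rw [mul_inv_rev, W.σ_inv, W.th_inv, W.σ_th]

lemma mem_Shat_iff (g : Ĝ) :
    g ∈ W.Shat ↔ ∃ a ∈ D.S, ∃ b ∈ D.S, g = W.th a b ∨ g = W.th a b * W.σ := Iff.rfl

lemma th_mem {a b : L} (ha : a ∈ D.S) (hb : b ∈ D.S) : W.th a b ∈ W.Shat := ⟨a, ha, b, hb, Or.inl rfl⟩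

lemma thσ_mem {a b : L} (ha : a ∈ D.S) (hb : b ∈ D.S) : W.th a b * W.σ ∈ W.Shat :=
  ⟨a, ha, b, hb, Or.inr rfl⟩

lemma σ_mem : W.σ ∈ W.Shat := by
  refine ⟨1, D.S.one_mem, 1, D.S.one_mem, Or.inr ?_⟩
  rw [W.th_one, one_mul]

lemma th_ne_thσ (a b c d : L) : W.th a b ≠ W.th c d * W.σ := by
  intro h
  apply W.σ_ne (c⁻¹ * a) (d⁻¹ * b)
  have : W.th (c⁻¹ * a) (d⁻¹ * b) = W.th c⁻¹ d⁻¹ * W.th a b := (W.th_mul _ _ _ _).symm
  rw [this, h, ← mul_assoc, W.th_mul]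
  simp [W.th_one]

lemma th_mem_iff {a b : L} : W.th a b ∈ W.Shat ↔ a ∈ D.S ∧ b ∈ D.S := by
  constructor
  · rintro ⟨c, hc, d, hd, h | h⟩
    · obtain ⟨rfl, rfl⟩ := W.th_inj _ _ _ _ h
      exact ⟨hc, hd⟩
    · exact absurd h (W.th_ne_thσ _ _ _ _)
  · rintro ⟨ha, hb⟩
    exact W.th_mem ha hb

lemma thσ_inj {a b c d : L} (h : W.th a b * W.σ = W.th c d * W.σ) : a = c ∧ b = d :=
  W.th_inj _ _ _ _ (mul_right_cancel h)

lemma thσ_mem_iff {a b : L} : W.th a b * W.σ ∈ W.Shat ↔ a ∈ D.S ∧ b ∈ D.S := by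
  constructor
  · rintro ⟨c, hc, d, hd, h | h⟩
    · exact absurd h.symm (W.th_ne_thσ _ _ _ _)
    · obtain ⟨rfl, rfl⟩ := W.thσ_inj h
      exact ⟨hc, hd⟩
  · rintro ⟨ha, hb⟩
    exact W.thσ_mem ha hb

/-- The central element. -/
def c : Ĝ := W.th W.m W.m

lemma c_mem : W.c ∈ W.Shat := W.th_mem W.m_mem_S W.m_mem_S

/-- `σ` conjugates. -/
lemma σ_conj (a b : L) : W.σ * W.th a b * W.σ⁻¹ = W.th b a := by
  rw [W.σ_inv, W.σth]

lemma th_conj (a b c d : L) : W.th a b * W.th c d * (W.th a b)⁻¹ = W.th (a * c * a⁻¹) (b * d * b⁻¹) := by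
  rw [W.th_inv, W.th_mul, W.th_mul]

lemma th_conj_thσ (a b c d : L) : W.th a b * (W.th c d * W.σ) * (W.th a b)⁻¹ =
    W.th (a * c * b⁻¹) (b * d * a⁻¹) * W.σ := by
  simp only [mul_assoc, W.th_inv, W.th_mul, W.th_mul_assoc, W.σ_th, W.σ_th_assoc, W.σσ, W.σσ_assoc]

lemma thσ_inv (a b : L) : (W.th a b * W.σ)⁻¹ = W.th b⁻¹ a⁻¹ * W.σ := by
  rw [mul_inv_rev, W.σ_inv, W.th_inv, W.σ_th]

lemma thσ_conj_th (a b c d : L) : (W.th a b * W.σ) * W.th c d * (W.th a b * W.σ)⁻¹ =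
    W.th (a * d * a⁻¹) (b * c * b⁻¹) := by
  rw [W.thσ_inv]
  simp only [mul_assoc, W.th_inv, W.th_mul, W.th_mul_assoc, W.σ_th, W.σ_th_assoc, W.σσ, W.σσ_assoc, mul_one]

/-! ### The strongly closed subgroups -/

section closed

variable [Finite L]

/-- Step 1: a non-central coordinate. -/
lemma z_of_th {U : Subgroup Ĝ} (hnorm : ∀ s ∈ W.Shat, ∀ x ∈ U, s * x * s⁻¹ ∈ U) {c₁ c₂ : L}
    (h₁ : c₁ ∈ D.S) (h₂ : c₂ ∈ D.S) (hu : W.th c₁ c₂ ∈ U) (h1 : c₁ ≠ 1) (h2 : c₁ ≠ W.m) :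
    W.th W.m 1 ∈ U := by
  have hex : ∃ x ∈ D.S, c₁ * x ≠ x * c₁ := by
    by_contra hcon
    push Not at hcon
    rcases W.cen_Q hcon with h | h
    · exact h1 h
    · exact h2 h
  obtain ⟨x, hx, hxc⟩ := hex
  have h3 := hnorm (W.th x 1) (W.th_mem hx D.S.one_mem) _ hu
  rw [W.th_conj] at h3
  have h4 := U.mul_mem (U.inv_mem hu) h3
  rw [W.th_inv, W.th_mul] at h4
  have e4 : c₂⁻¹ * (1 * c₂ * 1⁻¹) = 1 := by group
  rw [e4] at h4
  set w := c₁⁻¹ * (x * c₁ * x⁻¹) with hw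
  have hwS : w ∈ D.S := D.S.mul_mem (D.S.inv_mem h₁) (D.S.mul_mem (D.S.mul_mem hx h₁) (D.S.inv_mem hx))
  have hw1 : w ≠ 1 := by
    intro h
    apply hxc
    have h5 : x * c₁ * x⁻¹ = c₁ := by
      rw [hw, inv_mul_eq_one] at h
      exact h.symm
    rw [mul_inv_eq_iff_eq_mul] at h5
    exact h5.symm
  obtain ⟨n, hn⟩ := W.exists_pow_eq_m hwS hw1
  have h5 := U.pow_mem h4 n
  rw [W.th_pow, hn, one_pow] at h5
  exact h5

/-- Step 2: `z ∈ U`. -/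
lemma z_mem {U : Subgroup Ĝ} (hU : U ≤ W.Shat) (hnorm : ∀ s ∈ W.Shat, ∀ x ∈ U, s * x * s⁻¹ ∈ U)
    {u : Ĝ} (hu : u ∈ U) (hu1 : u ≠ 1) (huc : u ≠ W.c) : W.th W.m 1 ∈ U := by
  have hth : ∀ c₁ c₂ : L, c₁ ∈ D.S → c₂ ∈ D.S → W.th c₁ c₂ ∈ U → W.th c₁ c₂ ≠ 1 → W.th c₁ c₂ ≠ W.c →
      W.th W.m 1 ∈ U := by
    intro c₁ c₂ h₁ h₂ hu hu1 huc
    by_cases h1 : c₁ = 1
    · subst h1
      have hs := hnorm W.σ W.σ_mem _ hu
      rw [W.σ_conj] at hs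
      by_cases h2 : c₂ = 1
      · subst h2
        exact absurd W.th_one hu1
      by_cases h3 : c₂ = W.m
      · subst h3
        exact hs
      · exact W.z_of_th hnorm h₂ h₁ hs h2 h3
    by_cases h2 : c₁ = W.m
    · subst h2
      by_cases h3 : c₂ = 1
      · subst h3
        exact hu
      by_cases h4 : c₂ = W.m
      · subst h4
        exact absurd rfl huc
      · have hs := hnorm W.σ W.σ_mem _ hu
        rw [W.σ_conj] at hs
        exact W.z_of_th hnorm h₂ h₁ hs h3 h4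
    · exact W.z_of_th hnorm h₁ h₂ hu h1 h2
  obtain ⟨c₁, h₁, c₂, h₂, rfl | rfl⟩ := hU hu
  · exact hth c₁ c₂ h₁ h₂ hu hu1 huc
  · have h3 := hnorm (W.th D.a 1) (W.th_mem D.a_mem_S D.S.one_mem) _ hu
    have h4 := U.mul_mem h3 (U.inv_mem hu)
    rw [W.th_conj_thσ, W.thσ_inv] at h4
    simp only [mul_assoc, W.th_mul, W.th_mul_assoc, W.σ_th, W.σ_th_assoc, W.σσ, W.σσ_assoc, mul_one,
      inv_one, one_mul, mul_inv_cancel] at h4
    refine W.z_of_th hnorm D.a_mem_S ?_ h4 (a_ne_one (D := D)) W.a_ne_m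
    exact D.S.mul_mem h₂ (D.S.mul_mem (D.S.inv_mem D.a_mem_S) (D.S.inv_mem h₂))

/-- The main theorem on strongly closed subgroups. -/
theorem eq_Shat_of_closed {U : Subgroup Ĝ} (hU : U ≤ W.Shat) {u : Ĝ} (hu : u ∈ U) (hu1 : u ≠ 1)
    (huc : u ≠ W.c) (hcl : ∀ x ∈ U, ∀ g : Ĝ, g * x * g⁻¹ ∈ W.Shat → g * x * g⁻¹ ∈ U) : U = W.Shat := by
  have hnorm : ∀ s ∈ W.Shat, ∀ x ∈ U, s * x * s⁻¹ ∈ U := fun s hs x hx =>
    hcl x hx s (W.Shat.mul_mem (W.Shat.mul_mem hs (hU hx)) (W.Shat.inv_mem hs))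
  have hz := W.z_mem hU hnorm hu hu1 huc
  have hyy : D.y * D.y = W.m := W.hm
  -- `σ ∈ U`
  obtain ⟨T, hT1, -, -, -⟩ := W.exT D.y hyy
  have hσ : W.σ ∈ U := by
    have h1 : T⁻¹ * W.th W.m 1 * T⁻¹⁻¹ = W.σ := by
      rw [← hT1]; group
    have h2 := hcl _ hz T⁻¹ (by rw [h1]; exact W.σ_mem)
    rwa [h1] at h2
  -- `th c c⁻¹ ∈ U`
  have hcc : ∀ c ∈ D.S, W.th c c⁻¹ ∈ U := by
    intro c hc
    have h1 := hnorm (W.th c 1) (W.th_mem hc D.S.one_mem) _ hσ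
    have h2 := U.mul_mem h1 hσ
    have e : W.th c 1 * W.σ * (W.th c 1)⁻¹ * W.σ = W.th c c⁻¹ := by
      rw [W.th_inv, mul_assoc, mul_assoc, W.σ_th_assoc, W.σσ, mul_one, W.th_mul]
      simp
    rwa [e] at h2
  -- square roots of `m`
  have hinvy : D.y⁻¹ * D.y⁻¹ = W.m := by
    rw [← mul_inv_rev, hyy, W.m_inv]
  have hrr : ∀ r ∈ D.S, ∀ r' ∈ D.S, r * r = W.m → r' * r' = W.m → W.th r r' ∈ U := by
    intro r hr r' hr' hrr hrr'
    obtain ⟨g₁, hg₁⟩ := W.conj D.y r hyy hrr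
    obtain ⟨g₂, hg₂⟩ := W.conj D.y⁻¹ r' hinvy hrr'
    have h1 := hcc D.y D.y_mem
    have e : W.th g₁ g₂ * W.th D.y D.y⁻¹ * (W.th g₁ g₂)⁻¹ = W.th r r' := by
      rw [W.th_conj, hg₁, hg₂]
    have h2 := hcl _ h1 (W.th g₁ g₂) (by rw [e]; exact W.th_mem hr hr')
    rwa [e] at h2
  have hsq : ∀ s ∈ D.A, (D.y * s) * (D.y * s) = W.m := by
    intro s hs
    have h1 := D.inv s (D.A_le hs)
    have e : (D.y * s) * (D.y * s) = (D.y * s * D.y⁻¹) * (D.y * D.y) * s := by group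
    rw [e, h1, hyy, mul_assoc, ← W.m_comm s, ← mul_assoc]
    group
  have hyS : D.y ∈ D.S := D.y_mem
  have haS : D.a ∈ D.S := D.a_mem_S
  -- `th a 1`
  have ha1 : W.th D.a 1 ∈ U := by
    have h1 := hrr (D.y * D.a) (D.S.mul_mem hyS haS) D.y hyS (hsq _ D.a_mem) hyy
    have h2 := hrr D.y hyS D.y hyS hyy hyy
    have h3 := U.mul_mem h1 (U.inv_mem h2)
    rw [W.th_inv, W.th_mul, mul_inv_cancel, D.inv _ D.aT] at h3
    have h4 := U.inv_mem h3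
    rwa [W.th_inv, inv_inv, inv_one] at h4
  have hA1 : ∀ s ∈ D.A, W.th s 1 ∈ U := by
    have hle : D.A ≤ U.comap W.thL := by
      rw [Data.A, Subgroup.zpowers_le]
      exact ha1
    intro s hs
    exact hle hs
  -- `i₀`
  have hv := D.hv
  set i₀ : L := D.a ^ (2 ^ (D.v - 2)) with hi₀
  have hi₀A : i₀ ∈ D.A := pow_mem D.a_mem _
  have hi₀i₀ : i₀ * i₀ = W.m := by
    rw [hi₀, ← pow_add, ← two_mul, ← pow_succ', W.m_eq_pow]
    congr 2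
    omega
  have hy1 : W.th D.y 1 ∈ U := by
    have h1 := hrr D.y hyS D.y hyS hyy hyy
    have h2 := hrr i₀ (D.A_le_S hi₀A) D.y hyS hi₀i₀ hyy
    have h3 := U.mul_mem (U.mul_mem h1 (U.inv_mem h2)) (hA1 i₀ hi₀A)
    rw [W.th_inv, W.th_mul, W.th_mul] at h3
    simpa using h3
  have hQ1 : ∀ s ∈ D.S, W.th s 1 ∈ U := by
    intro s hs
    rcases hs with hs | hs
    · exact hA1 s hs
    · have h3 := U.mul_mem hy1 (hA1 _ hs)
      rw [W.th_mul] at h3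
      simpa using h3
  have h1Q : ∀ s ∈ D.S, W.th 1 s ∈ U := by
    intro s hs
    have h3 := hnorm W.σ W.σ_mem _ (hQ1 s hs)
    rwa [W.σ_conj] at h3
  apply le_antisymm hU
  rintro _ ⟨a, ha, b, hb, rfl | rfl⟩
  · have h3 := U.mul_mem (hQ1 a ha) (h1Q b hb)
    rw [W.th_mul] at h3
    simpa using h3
  · have h3 := U.mul_mem (U.mul_mem (hQ1 a ha) (h1Q b hb)) hσ
    rw [W.th_mul] at h3
    simpa using h3

end closed

end Setup

end Cfsg.Agent.Lib.H29.W4
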