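import Cfsg.Agent.Lib.H29.W4A

/-!
# The normalizer of `Ŝ`
-/

set_option autoImplicit false

namespace Cfsg.Agent.Lib.H29.W4

open Cfsg Cfsg.Agent.Lib.SLn.QuatSylow Cfsg.Agent.Lib.H29.ParaFusion

section cover

open Data

/-- The normalizer of `Q₈` in the case `v = 2`. -/
lemma cover_of_two {G : Type*} [Group G] [Finite G] (D : Data G) (h2 : D.v = 2) (ζ : G) (h1 : ζ * D.a * ζ⁻¹ = D.y)
    (h1' : ζ * D.y * ζ⁻¹ = D.a * D.y) (hζ3 : ζ ^ 3 = 1) (hζ1 : ζ ≠ 1) :
    ∀ g ∈ Subgroup.normalizer ((D.S : Subgroup G) : Set G),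
      g ∈ (D.S : Set G) ∪ ((fun s => ζ * s) '' (D.S : Set G) ∪ (fun s => ζ * ζ * s) '' (D.S : Set G)) := by
  classical
  have hcardS : Nat.card D.S = 8 := by
    rw [card_S, h2]
    norm_num
  have hord : orderOf D.a = 4 := by
    rw [D.ord, h2]; norm_num
  have hyy : D.y * D.y = D.a ^ 2 := by
    have := D.y2
    rw [h2] at this
    simpa using this
  -- `ζ` normalises
  have hζN : ζ ∈ Subgroup.normalizer ((D.S : Subgroup G) : Set G) := by
    apply Subgroup.mem_normalizer_fintype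
    have hK : D.S ≤ D.S.comap (MulAut.conj ζ).toMonoidHom := by
      have hA : D.A ≤ D.S.comap (MulAut.conj ζ).toMonoidHom := by
        rw [A, Subgroup.zpowers_le, Subgroup.mem_comap]
        simp only [MulEquiv.coe_toMonoidHom, MulAut.conj_apply]
        rw [h1]
        exact D.y_mem
      intro s hs
      rcases hs with hs | hs
      · exact hA hs
      · have e : s = D.y * (D.y⁻¹ * s) := by group
        rw [e]
        apply Subgroup.mul_mem _ _ (hA hs)
        rw [Subgroup.mem_comap]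
        simp only [MulEquiv.coe_toMonoidHom, MulAut.conj_apply]
        rw [h1']
        exact D.S.mul_mem D.a_mem_S D.y_mem
    intro n hn
    have := hK hn
    rw [Subgroup.mem_comap] at this
    simpa [MulAut.conj_apply] using this
  -- inverse relations
  have haa : D.a ^ 4 = 1 := by
    rw [← hord]
    exact pow_orderOf_eq_one _
  have hA4 : ∀ x ∈ D.A, ∃ k : ℕ, k < 4 ∧ x = D.a ^ k := by
    intro x hx
    have h5 : x ∈ Submonoid.powers D.a := mem_powers_iff_mem_zpowers.mpr hx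
    obtain ⟨n, rfl⟩ := Submonoid.mem_powers_iff _ _ |>.mp h5
    refine ⟨n % 4, Nat.mod_lt _ (by norm_num), ?_⟩
    rw [← hord, pow_mod_orderOf]
  have ha_ne : ∀ g : G, g * D.a * g⁻¹ ≠ 1 := by
    intro g h
    have h5 : D.a = 1 := by
      have e : D.a = g⁻¹ * (g * D.a * g⁻¹) * g := by group
      rw [e, h]
      group
    rw [h5] at hord
    simp at hord
  have ha2_ne : ∀ g : G, g * D.a * g⁻¹ ≠ D.a ^ 2 := by
    intro g h
    have h5 : (g * D.a * g⁻¹) ^ 2 = 1 := by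
      rw [h, ← pow_mul]
      exact haa
    have h6 : D.a ^ 2 = 1 := by
      have : (g * D.a * g⁻¹) ^ 2 = g * D.a ^ 2 * g⁻¹ := by
        rw [conj_pow]
      rw [this] at h5
      have e : D.a ^ 2 = g⁻¹ * (g * D.a ^ 2 * g⁻¹) * g := by group
      rw [e, h5]
      group
    apply D.a_sq_ne
    rw [← pow_two]
    exact h6
  have hinv1 : D.y * D.a * D.y⁻¹ = D.a⁻¹ := D.inv _ D.aT
  -- the covering
  have hcover : ∀ g ∈ Subgroup.normalizer ((D.S : Subgroup G) : Set G),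
      g ∈ (D.S : Set G) ∪ ((fun s => ζ * s) '' (D.S : Set G) ∪ (fun s => ζ * ζ * s) '' (D.S : Set G)) := by
    intro g hg
    have hg' := (Subgroup.mem_normalizer_iff.mp hg)
    have hx : g * D.a * g⁻¹ ∈ D.S := (hg' D.a).mp D.a_mem_S
    have hred : ∀ s : G, s ∈ Subgroup.normalizer ((D.S : Subgroup G) : Set G) → s * D.a * s⁻¹ = g * D.a * g⁻¹ →
        s⁻¹ * g ∈ D.A := by
      intro s hs e
      apply D.mem_A_of_norm
      · rw [← D.cent D.a D.aT D.a_sq_ne, Subgroup.mem_centralizer_iff]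
        rintro _ rfl
        have e2 : g⁻¹ * s * D.a * (g⁻¹ * s)⁻¹ = D.a := by
          calc g⁻¹ * s * D.a * (g⁻¹ * s)⁻¹ = g⁻¹ * (s * D.a * s⁻¹) * g := by group
            _ = D.a := by rw [e]; group
        have e3 : (s⁻¹ * g) * D.a * (s⁻¹ * g)⁻¹ = D.a := by
          calc (s⁻¹ * g) * D.a * (s⁻¹ * g)⁻¹ = s⁻¹ * (g * D.a * g⁻¹) * s := by group
            _ = s⁻¹ * (s * D.a * s⁻¹) * s := by rw [e]
            _ = D.a := by group
        rw [mul_inv_eq_iff_eq_mul] at e3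
        exact e3.symm
      · exact Subgroup.mul_mem _ (Subgroup.inv_mem _ hs) hg
    have hζ1N := hζN
    have hζ2N : ζ * ζ ∈ Subgroup.normalizer ((D.S : Subgroup G) : Set G) := Subgroup.mul_mem _ hζN hζN
    have hyN : D.y ∈ Subgroup.normalizer ((D.S : Subgroup G) : Set G) := D.S_le_norm D.y_mem
    have hcase0 : ∀ s, s ∈ D.S → s⁻¹ * g ∈ D.A → g ∈ (D.S : Set G) ∪ ((fun s => ζ * s) '' (D.S : Set G) ∪ (fun s => ζ * ζ * s) '' (D.S : Set G)) := by
      intro s hs h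
      left
      have e : g = s * (s⁻¹ * g) := by group
      rw [e]
      exact D.S.mul_mem hs (D.A_le_S h)
    have hcase1 : ∀ s, s ∈ D.S → (ζ * s)⁻¹ * g ∈ D.A → g ∈ (D.S : Set G) ∪ ((fun s => ζ * s) '' (D.S : Set G) ∪ (fun s => ζ * ζ * s) '' (D.S : Set G)) := by
      intro s hs h
      right; left
      refine ⟨s * ((ζ * s)⁻¹ * g), D.S.mul_mem hs (D.A_le_S h), by group⟩
    have hcase2 : ∀ s, s ∈ D.S → (ζ * ζ * s)⁻¹ * g ∈ D.A → g ∈ (D.S : Set G) ∪ ((fun s => ζ * s) '' (D.S : Set G) ∪ (fun s => ζ * ζ * s) '' (D.S : Set G)) := by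
      intro s hs h
      right; right
      refine ⟨s * ((ζ * ζ * s)⁻¹ * g), D.S.mul_mem hs (D.A_le_S h), by group⟩
    have hya : D.y * D.a⁻¹ * D.y⁻¹ = D.a := by
      have := D.inv D.a⁻¹ (D.T.inv_mem D.aT)
      rwa [inv_inv] at this
    have hainv : D.a⁻¹ = D.a ^ 3 := by
      rw [inv_eq_iff_mul_eq_one, ← pow_succ']
      exact haa
    have hsq2 : (ζ * ζ) * D.a * (ζ * ζ)⁻¹ = D.a * D.y := by
      have e5 : (ζ * ζ) * D.a * (ζ * ζ)⁻¹ = ζ * (ζ * D.a * ζ⁻¹) * ζ⁻¹ := by group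
      rw [e5, h1, h1']
    have hζinv : ζ * D.a⁻¹ * ζ⁻¹ = D.y⁻¹ := by
      have e6 : ζ * D.a⁻¹ * ζ⁻¹ = (ζ * D.a * ζ⁻¹)⁻¹ := by group
      rw [e6, h1]
    rcases hx with hx | hx
    · obtain ⟨k, hk, e⟩ := hA4 _ hx
      interval_cases k
      · exact absurd (by simpa using e) (ha_ne g)
      · exact hcase0 1 D.S.one_mem (by
          have := hred 1 (Subgroup.one_mem _) (by simpa using e.symm)
          simpa using this)
      · exact absurd e (ha2_ne g)
      · refine hcase0 D.y D.y_mem (hred D.y hyN ?_)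
        rw [hinv1, e, hainv]
    · obtain ⟨k, hk, e⟩ := hA4 _ hx
      have e' : g * D.a * g⁻¹ = D.y * D.a ^ k := by
        rw [← e]
        group
      interval_cases k
      · -- `x = y`
        refine hcase1 1 D.S.one_mem ?_
        rw [mul_one]
        refine hred ζ hζN ?_
        rw [h1, e']
        simp
      · -- `x = y a`
        refine hcase2 D.y D.y_mem ?_
        refine hred _ (Subgroup.mul_mem _ hζ2N hyN) ?_
        have e5 : (ζ * ζ * D.y) * D.a * (ζ * ζ * D.y)⁻¹ = ((ζ * ζ) * (D.y * D.a * D.y⁻¹) * (ζ * ζ)⁻¹) := by group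
        have e6 : (ζ * ζ) * D.a⁻¹ * (ζ * ζ)⁻¹ = ((ζ * ζ) * D.a * (ζ * ζ)⁻¹)⁻¹ := conj_inv.symm
        rw [e5, hinv1, e6, hsq2, e', pow_one]
        -- `(a y)⁻¹ = y a`
        rw [inv_eq_iff_mul_eq_one]
        have e7 : D.a * D.y * (D.y * D.a) = D.a * (D.y * D.y) * D.a := by group
        rw [e7, hyy, ← pow_succ', ← pow_succ]
        exact haa
      · -- `x = y a²`
        refine hcase1 D.y D.y_mem ?_
        refine hred _ (Subgroup.mul_mem _ hζN hyN) ?_
        have e5 : (ζ * D.y) * D.a * (ζ * D.y)⁻¹ = ζ * (D.y * D.a * D.y⁻¹) * ζ⁻¹ := by group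
        rw [e5, hinv1, hζinv, e']
        rw [inv_eq_iff_mul_eq_one]
        have e7 : D.y * (D.y * D.a ^ 2) = (D.y * D.y) * D.a ^ 2 := by group
        rw [e7, hyy, ← pow_add]
        exact haa
      · -- `x = y a³`
        refine hcase2 1 D.S.one_mem ?_
        rw [mul_one]
        refine hred _ hζ2N ?_
        rw [hsq2, e', ← hainv]
        calc D.a * D.y = (D.y * D.a⁻¹ * D.y⁻¹) * D.y := by rw [hya]
          _ = D.y * D.a⁻¹ := by group
  exact hcover

end cover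

namespace Setup

variable {Ĝ L : Type*} [Group Ĝ] [Group L] {D : Data L} (W : Setup Ĝ L D)

lemma m_conj (a : L) : W.m * a * W.m⁻¹ = a := by
  rw [← W.m_comm, W.m_inv, mul_assoc, W.mm, mul_one]

lemma c_eq (a b : L) : W.c * W.th a b = W.th (W.m * a) (W.m * b) := W.th_mul _ _ _ _

/-- `z` is central modulo `c` in `Ŝ`. -/
lemma z_conj (x : Ĝ) (hx : x ∈ W.Shat) :
    W.th W.m 1 * x * (W.th W.m 1)⁻¹ = x ∨ W.th W.m 1 * x * (W.th W.m 1)⁻¹ = W.c * x := by
  obtain ⟨a, -, b, -, rfl | rfl⟩ := hx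
  · left
    rw [W.th_conj, W.m_conj]
    simp
  · right
    rw [W.th_conj_thσ, ← mul_assoc, W.c_eq]
    congr 2
    · group
    · rw [W.m_inv, one_mul, W.m_comm]

lemma z_ne_one : W.th W.m 1 ≠ 1 := by
  intro h
  rw [← W.th_one] at h
  exact W.m_ne_one (W.th_inj _ _ _ _ h).1

lemma z_ne_c : W.th W.m 1 ≠ W.c := by
  intro h
  exact W.m_ne_one (W.th_inj _ _ _ _ h).2.symm

lemma c_central (g : Ĝ) : g * W.c * g⁻¹ = W.c := by
  unfold c
  rw [W.cen]; group

lemma w_cases {w : Ĝ} (hw : w ∈ W.Shat) (hs : ∀ s ∈ W.Shat, w * s * w⁻¹ = s ∨ w * s * w⁻¹ = W.c * s) :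
    w = 1 ∨ w = W.c ∨ w = W.th W.m 1 ∨ w = W.th 1 W.m := by
  obtain ⟨a, -, b, -, rfl | rfl⟩ := hw
  · have ha : a = 1 ∨ a = W.m := by
      apply W.cen_Q
      intro x hx
      rcases hs _ (W.th_mem hx D.S.one_mem) with h | h
      · rw [W.th_conj] at h
        have h1 := (W.th_inj _ _ _ _ h).1
        rw [mul_inv_eq_iff_eq_mul] at h1
        exact h1
      · rw [W.th_conj, W.c_eq] at h
        have h1 := (W.th_inj _ _ _ _ h).2
        exfalso
        apply W.m_ne_one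
        simpa using h1.symm
    have hb : b = 1 ∨ b = W.m := by
      apply W.cen_Q
      intro x hx
      rcases hs _ (W.th_mem D.S.one_mem hx) with h | h
      · rw [W.th_conj] at h
        have h1 := (W.th_inj _ _ _ _ h).2
        rw [mul_inv_eq_iff_eq_mul] at h1
        exact h1
      · rw [W.th_conj, W.c_eq] at h
        have h1 := (W.th_inj _ _ _ _ h).1
        exfalso
        apply W.m_ne_one
        simpa using h1.symm
    rcases ha with rfl | rfl <;> rcases hb with rfl | rfl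
    · exact Or.inl W.th_one
    · exact Or.inr (Or.inr (Or.inr rfl))
    · exact Or.inr (Or.inr (Or.inl rfl))
    · exact Or.inr (Or.inl rfl)
  · exfalso
    rcases hs _ (W.th_mem D.a_mem_S D.S.one_mem) with h | h
    · rw [W.thσ_conj_th] at h
      have h1 := (W.th_inj _ _ _ _ h).1
      exact a_ne_one (D := D) (by simpa using h1.symm)
    · rw [W.thσ_conj_th, W.c_eq] at h
      have h1 := (W.th_inj _ _ _ _ h).1
      apply W.a_ne_m
      have h2 : a * 1 * a⁻¹ = 1 := by group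
      rw [h2] at h1
      have h3 : W.m * (W.m * D.a) = W.m := by rw [← h1, mul_one]
      rw [W.m_m_assoc] at h3
      exact h3

section fin

variable [Finite Ĝ]

/-- The shape of the elements normalizing `Ŝ`. -/
lemma exists_th_of_nz {g : Ĝ} (hg : Nz W.Shat g) : ∃ A B, g = W.th A B ∨ g = W.th A B * W.σ := by
  have hz : W.th W.m 1 ∈ W.Shat := W.th_mem W.m_mem_S D.S.one_mem
  have hw : g * W.th W.m 1 * g⁻¹ ∈ W.Shat := hg _ hz
  have hs : ∀ s ∈ W.Shat, (g * W.th W.m 1 * g⁻¹) * s * (g * W.th W.m 1 * g⁻¹)⁻¹ = s ∨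
      (g * W.th W.m 1 * g⁻¹) * s * (g * W.th W.m 1 * g⁻¹)⁻¹ = W.c * s := by
    intro s hs
    have hs' : g⁻¹ * s * g⁻¹⁻¹ ∈ W.Shat := hg.inv _ hs
    have e : (g * W.th W.m 1 * g⁻¹) * s * (g * W.th W.m 1 * g⁻¹)⁻¹ =
        g * (W.th W.m 1 * (g⁻¹ * s * g⁻¹⁻¹) * (W.th W.m 1)⁻¹) * g⁻¹ := by group
    rcases W.z_conj _ hs' with h | h
    · left
      rw [e, h]
      group
    · right
      rw [e, h]
      have e2 : g * (W.c * (g⁻¹ * s * g⁻¹⁻¹)) * g⁻¹ = (g * W.c * g⁻¹) * s := by group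
      rw [e2, W.c_central]
  rcases W.w_cases hw hs with h | h | h | h
  · exfalso
    apply W.z_ne_one
    have e : W.th W.m 1 = g⁻¹ * (g * W.th W.m 1 * g⁻¹) * g := by group
    rw [e, h]
    group
  · exfalso
    apply W.z_ne_c
    have e : W.th W.m 1 = g⁻¹ * (g * W.th W.m 1 * g⁻¹) * g⁻¹⁻¹ := by group
    rw [e, h, W.c_central]
  · obtain ⟨A, B, h2⟩ := W.cent g (by
      rw [mul_inv_eq_iff_eq_mul] at h
      exact h)
    exact ⟨A, B, Or.inl h2⟩
  · obtain ⟨A, B, h2⟩ := W.cent (W.σ * g) (by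
      have h3 : W.σ * (g * W.th W.m 1 * g⁻¹) * W.σ⁻¹ = W.th W.m 1 := by
        rw [h, W.σ_conj]
      have e : W.σ * (g * W.th W.m 1 * g⁻¹) * W.σ⁻¹ = (W.σ * g) * W.th W.m 1 * (W.σ * g)⁻¹ := by group
      rw [e, mul_inv_eq_iff_eq_mul] at h3
      exact h3)
    refine ⟨B, A, Or.inr ?_⟩
    rw [← W.σ_th, ← h2, W.σσ_assoc]

/-- Coordinates of normalizing elements normalize `Q`. -/
lemma coord_norm {A B : L} (hg : Nz W.Shat (W.th A B)) :
    A ∈ Subgroup.normalizer ((D.S : Subgroup L) : Set L) ∧ B ∈ Subgroup.normalizer ((D.S : Subgroup L) : Set L) := by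
  haveI : Finite L := Finite.of_injective (fun a => W.th a 1) (fun a b h => (W.th_inj _ _ _ _ h).1)
  constructor
  · apply Nz.mem_normalizer
    intro x hx
    have h := hg _ (W.th_mem hx D.S.one_mem)
    rw [W.th_conj, W.th_mem_iff] at h
    exact h.1
  · apply Nz.mem_normalizer
    intro x hx
    have h := hg _ (W.th_mem D.S.one_mem hx)
    rw [W.th_conj, W.th_mem_iff] at h
    exact h.2

/-- For `v ≥ 3`, `Ŝ` is self-normalizing. -/
theorem mem_Shat_of_nz_three (h3 : 3 ≤ D.v) {g : Ĝ} (hg : Nz W.Shat g) : g ∈ W.Shat := by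
  haveI : Finite L := Finite.of_injective (fun a => W.th a 1) (fun a b h => (W.th_inj _ _ _ _ h).1)
  obtain ⟨A, B, rfl | rfl⟩ := W.exists_th_of_nz hg
  · obtain ⟨h1, h2⟩ := W.coord_norm hg
    rw [D.normalizer_S_of_three h3] at h1 h2
    exact W.th_mem h1 h2
  · have hg' : Nz W.Shat (W.th A B) := by
      have := hg.mul (Nz.of_mem W.σ_mem)
      rwa [mul_assoc, W.σσ, mul_one] at this
    obtain ⟨h1, h2⟩ := W.coord_norm hg'
    rw [D.normalizer_S_of_three h3] at h1 h2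
    exact W.thσ_mem h1 h2

/-- The case `v = 2`. -/
theorem mem_of_nz_two (h2 : D.v = 2) (ζ : L) (h1 : ζ * D.a * ζ⁻¹ = D.y)
    (h1' : ζ * D.y * ζ⁻¹ = D.a * D.y) (hζ3 : ζ ^ 3 = 1) (hζ1 : ζ ≠ 1) {g : Ĝ} (hg : Nz W.Shat g) :
    g ∈ W.Shat ∨ (∃ s ∈ W.Shat, g = W.th ζ ζ * s) ∨ ∃ s ∈ W.Shat, g = W.th ζ ζ * W.th ζ ζ * s := by
  haveI : Finite L := Finite.of_injective (fun a => W.th a 1) (fun a b h => (W.th_inj _ _ _ _ h).1)
  -- reduction to `th A B`
  have key : ∀ A B, Nz W.Shat (W.th A B) → W.th A B ∈ W.Shat ∨ (∃ s ∈ W.Shat, W.th A B = W.th ζ ζ * s) ∨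
      ∃ s ∈ W.Shat, W.th A B = W.th ζ ζ * W.th ζ ζ * s := by
    intro A B hAB
    obtain ⟨hA, -⟩ := W.coord_norm hAB
    have hq : A⁻¹ * B ∈ D.S := by
      have h3 := hAB.inv _ W.σ_mem
      rw [W.th_inv, W.th_inv, inv_inv, inv_inv] at h3
      have h4 : W.th A⁻¹ B⁻¹ * W.σ * W.th A B = W.th (A⁻¹ * B) (B⁻¹ * A) * W.σ := by
        rw [mul_assoc, W.σ_th, ← mul_assoc, W.th_mul]
      rw [h4, W.thσ_mem_iff] at h3
      exact h3.1
    have hB : B = A * (A⁻¹ * B) := by group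
    rcases cover_of_two D h2 ζ h1 h1' hζ3 hζ1 A hA with h | ⟨s, hs, rfl⟩ | ⟨s, hs, rfl⟩
    · left
      rw [hB]
      exact W.th_mem h (D.S.mul_mem h hq)
    · right; left
      refine ⟨W.th s (s * (ζ * s)⁻¹ * B), W.th_mem hs ?_, ?_⟩
      · have e : s * (ζ * s)⁻¹ * B = s * ((ζ * s)⁻¹ * B) := by group
        rw [e]
        exact D.S.mul_mem hs hq
      · rw [W.th_mul]
        congr 1
        group
    · right; right
      refine ⟨W.th s (s * (ζ * ζ * s)⁻¹ * B), W.th_mem hs ?_, ?_⟩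
      · have e : s * (ζ * ζ * s)⁻¹ * B = s * ((ζ * ζ * s)⁻¹ * B) := by group
        rw [e]
        exact D.S.mul_mem hs hq
      · rw [W.th_mul, W.th_mul]
        congr 1
        group
  obtain ⟨A, B, rfl | rfl⟩ := W.exists_th_of_nz hg
  · exact key A B hg
  · have hg' : Nz W.Shat (W.th A B) := by
      have := hg.mul (Nz.of_mem W.σ_mem)
      rwa [mul_assoc, W.σσ, mul_one] at this
    rcases key A B hg' with h | ⟨s, hs, h⟩ | ⟨s, hs, h⟩
    · exact Or.inl (W.Shat.mul_mem h W.σ_mem)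
    · right; left
      exact ⟨s * W.σ, W.Shat.mul_mem hs W.σ_mem, by rw [h, mul_assoc]⟩
    · right; right
      exact ⟨s * W.σ, W.Shat.mul_mem hs W.σ_mem, by rw [h, mul_assoc]⟩

end fin

end Setup

end Cfsg.Agent.Lib.H29.W4
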