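import Cfsg.Agent.Lib.H29.W4B
import Cfsg.Agent.Lib.H29.L3Norm

/-!
# The subgroup `A` of order `16` in the case `v = 2`
-/

set_option autoImplicit false

namespace Cfsg.Agent.Lib.H29.W4

open Cfsg Cfsg.Agent.Lib.SLn.QuatSylow Cfsg.Agent.Lib.H29.ParaFusion

/-- A computation in `A₅`. -/
lemma a5_witness {G : Type*} [Group G] {g₁ g₂ g₃ g₄ g₅ t s h : G}
    (t1 : t * g₂ * t⁻¹ = g₁) (t2 : t * g₁ * t⁻¹ = g₃) (t3 : t * g₃ * t⁻¹ = g₂) (t4 : t * g₄ * t⁻¹ = g₄)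
    (t5 : t * g₅ * t⁻¹ = g₅)
    (s1 : s * g₁ * s⁻¹ = g₁) (s2 : s * g₂ * s⁻¹ = g₃) (s3 : s * g₃ * s⁻¹ = g₂) (s4 : s * g₄ * s⁻¹ = g₅)
    (s5 : s * g₅ * s⁻¹ = g₄)
    (h1 : h * g₁ * h⁻¹ = g₁) (h2 : h * g₂ * h⁻¹ = g₂) (h3 : h * g₃ * h⁻¹ = g₄) (h4 : h * g₄ * h⁻¹ = g₅)
    (h5 : h * g₅ * h⁻¹ = g₃) :
    let X := t * s * t⁻¹
    let x := X * (h * X⁻¹ * h⁻¹)
    x * g₁ * x⁻¹ = h * g₁ * h⁻¹ ∧ x * g₂ * x⁻¹ = h * g₂ * h⁻¹ ∧ x * g₃ * x⁻¹ = h * g₃ * h⁻¹ ∧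
      x * g₄ * x⁻¹ = h * g₄ * h⁻¹ := by
  intro X x
  have inv_rel : ∀ {a b c : G}, a * b * a⁻¹ = c → a⁻¹ * c * a = b := by
    intro a b c h
    rw [← h]; group
  have t1' := inv_rel t1
  have t2' := inv_rel t2
  have t3' := inv_rel t3
  have t4' := inv_rel t4
  have t5' := inv_rel t5
  have h1' := inv_rel h1
  have h2' := inv_rel h2
  have h3' := inv_rel h3
  have h4' := inv_rel h4
  have h5' := inv_rel h5
  have Xc : ∀ {u v w : G}, t⁻¹ * u * t = v → s * v * s⁻¹ = w → ∀ {r : G}, t * w * t⁻¹ = r → X * u * X⁻¹ = r := by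
    intro u v w e1 e2 r e3
    rw [← e3, ← e2, ← e1]
    simp only [X]
    group
  have X1 : X * g₁ * X⁻¹ = g₂ := Xc t1' s2 t3
  have X2 : X * g₂ * X⁻¹ = g₁ := Xc t3' s3 t1
  have X3 : X * g₃ * X⁻¹ = g₃ := Xc t2' s1 t2
  have X4 : X * g₄ * X⁻¹ = g₅ := Xc t4' s4 t5
  have X5 : X * g₅ * X⁻¹ = g₄ := Xc t5' s5 t4
  have X1' := inv_rel X1
  have X2' := inv_rel X2
  have X3' := inv_rel X3
  have X4' := inv_rel X4
  have X5' := inv_rel X5
  have key : ∀ {u v w r e : G}, h⁻¹ * u * h = v → X⁻¹ * v * X = w → h * w * h⁻¹ = r → X * r * X⁻¹ = e →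
      x * u * x⁻¹ = e := by
    intro u v w r e e1 e2 e3 e4
    rw [← e4, ← e3, ← e2, ← e1]
    simp only [x, X]
    group
  refine ⟨?_, ?_, ?_, ?_⟩
  · rw [h1]; exact key h1' X2' h2 X2
  · rw [h2]; exact key h2' X1' h1 X1
  · rw [h3]; exact key h5' X4' h4 X5
  · rw [h4]; exact key h3' X3' h3 X4

namespace Setup

variable {Ĝ L : Type*} [Group Ĝ] [Group L] {D : Data L} (W : Setup Ĝ L D)

/-- `u = ± v`. -/
def Pm (u v : L) : Prop := u = v ∨ u = W.m * v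

lemma pm_refl (u : L) : W.Pm u u := Or.inl rfl

lemma pm_symm {u v : L} (h : W.Pm u v) : W.Pm v u := by
  rcases h with rfl | rfl
  · exact Or.inl rfl
  · exact Or.inr (W.m_m_assoc _).symm

lemma pm_trans {u v w : L} (h : W.Pm u v) (h' : W.Pm v w) : W.Pm u w := by
  rcases h with rfl | rfl
  · exact h'
  · rcases h' with rfl | rfl
    · exact Or.inr rfl
    · exact Or.inl (W.m_m_assoc _)

lemma pm_mul {u u' v v' : L} (h : W.Pm u u') (h' : W.Pm v v') : W.Pm (u * v) (u' * v') := by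
  rcases h with rfl | rfl <;> rcases h' with rfl | rfl
  · exact Or.inl rfl
  · exact Or.inr (W.m_comm_assoc _ _)
  · exact Or.inr (mul_assoc _ _ _)
  · left
    rw [W.m_comm_assoc, mul_assoc, W.m_m_assoc]

lemma pm_inv {u v : L} (h : W.Pm u v) : W.Pm u⁻¹ v⁻¹ := by
  rcases h with rfl | rfl
  · exact Or.inl rfl
  · right
    rw [mul_inv_rev, W.m_inv, W.m_comm]

lemma pm_conj {u v : L} (x : L) (h : W.Pm u v) : W.Pm (x * u * x⁻¹) (x * v * x⁻¹) :=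
  W.pm_mul (W.pm_mul (W.pm_refl x) h) (W.pm_refl x⁻¹)

section q8

variable (hv : D.v = 2)

include hv

lemma aa : D.a * D.a = W.m := by
  rw [W.m_eq_pow, hv]
  simp [pow_two]

lemma ainv : D.a⁻¹ = W.m * D.a := by
  apply inv_eq_of_mul_eq_one_left
  rw [mul_assoc, W.aa hv, W.mm]

omit hv in
lemma yinv : D.y⁻¹ = W.m * D.y := by
  apply inv_eq_of_mul_eq_one_left
  rw [mul_assoc, W.hm, W.mm]

lemma ya : D.y * D.a = W.m * (D.a * D.y) := by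
  have h := D.inv _ D.aT
  rw [W.ainv hv] at h
  rw [mul_inv_eq_iff_eq_mul] at h
  rw [h, mul_assoc]

omit hv in
lemma S_le {H : Subgroup L} (ha : D.a ∈ H) (hy : D.y ∈ H) : D.S ≤ H := by
  have hA : D.A ≤ H := by
    rw [Data.A, Subgroup.zpowers_le]
    exact ha
  intro g hg
  rcases hg with hg | hg
  · exact hA hg
  · have e : g = D.y * (D.y⁻¹ * g) := by group
    rw [e]
    exact H.mul_mem hy (hA hg)

omit hv in
/-- The elements commuting with `u` modulo `m`. -/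
def Zm (u : L) : Subgroup L where
  carrier := {x | W.Pm (x * u) (u * x)}
  mul_mem' := by
    intro x x' hx hx'
    have h1 := W.pm_mul (W.pm_refl x) hx'
    have h2 := W.pm_mul hx (W.pm_refl x')
    have h3 := W.pm_trans h1 (by simpa only [mul_assoc] using h2)
    show W.Pm (x * x' * u) (u * (x * x'))
    simpa only [mul_assoc] using h3
  one_mem' := by
    show W.Pm (1 * u) (u * 1)
    rw [one_mul, mul_one]
    exact W.pm_refl u
  inv_mem' := by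
    intro x hx
    have h1 := W.pm_mul (W.pm_mul (W.pm_refl x⁻¹) (W.pm_symm hx)) (W.pm_refl x⁻¹)
    show W.Pm (x⁻¹ * u) (u * x⁻¹)
    have e1 : x⁻¹ * (u * x) * x⁻¹ = x⁻¹ * u := by group
    have e2 : x⁻¹ * (x * u) * x⁻¹ = u * x⁻¹ := by group
    rwa [e1, e2] at h1

lemma pm_comm {x u : L} (hx : x ∈ D.S) (hu : u ∈ D.S) : W.Pm (x * u) (u * x) := by
  have h1 : D.a ∈ W.Zm D.y := W.pm_symm (Or.inr (W.ya hv))
  have h2 : D.y ∈ W.Zm D.a := Or.inr (W.ya hv)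
  have h3 : D.a ∈ W.Zm D.a := W.pm_refl _
  have h4 : D.y ∈ W.Zm D.y := W.pm_refl _
  have h5 : ∀ s ∈ D.S, s ∈ W.Zm D.a := fun s hs => S_le h3 h2 hs
  have h6 : ∀ s ∈ D.S, s ∈ W.Zm D.y := fun s hs => S_le h1 h4 hs
  have h7 : D.S ≤ W.Zm u := S_le (W.pm_symm (h5 u hu)) (W.pm_symm (h6 u hu))
  exact h7 hx

lemma sq_cases {x : L} (hx : x ∈ D.S) : x * x = 1 ∨ x * x = W.m := by
  rcases hx with h | h
  · rcases Cfsg.Agent.Lib.H29.L3Norm.A_cases D hv h with h1 | h1 | h1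
    · left; rw [h1, one_mul]
    · left; rw [h1, W.hm, W.mm]
    · right; rw [h1, W.hm]
  · right
    set s := D.y⁻¹ * x with hs
    have e : x = D.y * s := by rw [hs]; group
    have h1 := D.inv s (D.A_le h)
    have e2 : x * x = (D.y * s * D.y⁻¹) * (D.y * D.y) * s := by rw [e]; group
    rw [e2, h1, W.hm, mul_assoc, ← W.m_comm s, ← mul_assoc]
    group

lemma pm_inv_self {x : L} (hx : x ∈ D.S) : W.Pm x⁻¹ x := by
  rcases W.sq_cases hv hx with h | h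
  · left
    exact inv_eq_of_mul_eq_one_left h
  · right
    apply inv_eq_of_mul_eq_one_left
    rw [mul_assoc, h, W.mm]

/-- Conjugation by an element of `Q` is trivial modulo `m`. -/
lemma pm_conj_self {x u : L} (hx : x ∈ D.S) (hu : u ∈ D.S) : W.Pm (x * u * x⁻¹) u := by
  have h1 := W.pm_mul (W.pm_comm hv hx hu) (W.pm_refl x⁻¹)
  have e : u * x * x⁻¹ = u := by group
  rwa [e] at h1

omit hv

/-- The subgroup `Â`. -/
def Ahat : Subgroup Ĝ where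
  carrier := {g | ∃ u ∈ D.S, ∃ v ∈ D.S, W.Pm u v ∧ (g = W.th u v ∨ g = W.th u v * W.σ)}
  mul_mem' := by
    rintro _ _ ⟨u, hu, v, hv, h, rfl | rfl⟩ ⟨u', hu', v', hv', h', rfl | rfl⟩
    · exact ⟨_, D.S.mul_mem hu hu', _, D.S.mul_mem hv hv', W.pm_mul h h', Or.inl (W.th_mul _ _ _ _)⟩
    · exact ⟨_, D.S.mul_mem hu hu', _, D.S.mul_mem hv hv', W.pm_mul h h', Or.inr (by rw [← mul_assoc, W.th_mul])⟩
    · refine ⟨u * v', D.S.mul_mem hu hv', v * u', D.S.mul_mem hv hu', ?_, Or.inr ?_⟩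
      · exact W.pm_trans (W.pm_mul h (W.pm_refl v')) (W.pm_mul (W.pm_refl v) (W.pm_symm h'))
      · rw [mul_assoc, W.σ_th, ← mul_assoc, W.th_mul]
    · refine ⟨u * v', D.S.mul_mem hu hv', v * u', D.S.mul_mem hv hu', ?_, Or.inl ?_⟩
      · exact W.pm_trans (W.pm_mul h (W.pm_refl v')) (W.pm_mul (W.pm_refl v) (W.pm_symm h'))
      · rw [mul_assoc, ← mul_assoc W.σ, W.σ_th, mul_assoc, W.σσ, mul_one, W.th_mul]
  one_mem' := ⟨1, D.S.one_mem, 1, D.S.one_mem, W.pm_refl 1, Or.inl W.th_one.symm⟩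
  inv_mem' := by
    rintro _ ⟨u, hu, v, hv, h, rfl | rfl⟩
    · exact ⟨_, D.S.inv_mem hu, _, D.S.inv_mem hv, W.pm_inv h, Or.inl (W.th_inv _ _)⟩
    · refine ⟨v⁻¹, D.S.inv_mem hv, u⁻¹, D.S.inv_mem hu, W.pm_inv (W.pm_symm h), Or.inr ?_⟩
      rw [W.thσ_inv]

lemma Ahat_le : W.Ahat ≤ W.Shat := by
  rintro _ ⟨u, hu, v, hv, -, rfl | rfl⟩
  · exact W.th_mem hu hv
  · exact W.thσ_mem hu hv

lemma th_mem_Ahat {u v : L} (hu : u ∈ D.S) (hv : v ∈ D.S) (h : W.Pm u v) : W.th u v ∈ W.Ahat :=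
  ⟨u, hu, v, hv, h, Or.inl rfl⟩

lemma thσ_mem_Ahat {u v : L} (hu : u ∈ D.S) (hv : v ∈ D.S) (h : W.Pm u v) : W.th u v * W.σ ∈ W.Ahat :=
  ⟨u, hu, v, hv, h, Or.inr rfl⟩

lemma σ_mem_Ahat : W.σ ∈ W.Ahat := by
  have := W.thσ_mem_Ahat D.S.one_mem D.S.one_mem (W.pm_refl 1)
  rwa [W.th_one, one_mul] at this

include hv in
lemma nz_Ahat_th {x x' : L} (hx : x ∈ D.S) (hx' : x' ∈ D.S) : Nz W.Ahat (W.th x x') := by
  rintro _ ⟨u, hu, v, hv', h, rfl | rfl⟩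
  · rw [W.th_conj]
    apply W.th_mem_Ahat (D.S.mul_mem (D.S.mul_mem hx hu) (D.S.inv_mem hx))
      (D.S.mul_mem (D.S.mul_mem hx' hv') (D.S.inv_mem hx'))
    exact W.pm_trans (W.pm_conj_self hv hx hu) (W.pm_trans h (W.pm_symm (W.pm_conj_self hv hx' hv')))
  · rw [W.th_conj_thσ]
    apply W.thσ_mem_Ahat (D.S.mul_mem (D.S.mul_mem hx hu) (D.S.inv_mem hx'))
      (D.S.mul_mem (D.S.mul_mem hx' hv') (D.S.inv_mem hx))
    -- `x u x'⁻¹ ≈ x v x' ≈ x' v x ≈ x' v x⁻¹`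
    have h1 : W.Pm (x * u * x'⁻¹) (x * v * x') :=
      W.pm_mul (W.pm_mul (W.pm_refl x) h) (W.pm_inv_self hv hx')
    have h2 : W.Pm (x' * v * x⁻¹) (x' * v * x) :=
      W.pm_mul (W.pm_refl _) (W.pm_inv_self hv hx)
    have h3 : W.Pm (x * v * x') (x' * (x * v)) := W.pm_comm hv (D.S.mul_mem hx hv') hx'
    have h4 : W.Pm (x * v) (v * x) := W.pm_comm hv hx hv'
    have h5 : W.Pm (x' * (x * v)) (x' * v * x) := by
      have := W.pm_mul (W.pm_refl x') h4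
      rwa [← mul_assoc x' v x] at this
    exact W.pm_trans h1 (W.pm_trans h3 (W.pm_trans h5 (W.pm_symm h2)))

lemma nz_Ahat_σ : Nz W.Ahat W.σ := by
  rintro _ ⟨u, hu, v, hv', h, rfl | rfl⟩
  · rw [W.σ_conj]
    exact W.th_mem_Ahat hv' hu (W.pm_symm h)
  · have e : W.σ * (W.th u v * W.σ) * W.σ⁻¹ = W.th v u * W.σ := by
      rw [W.σ_inv]
      simp only [mul_assoc, W.σσ, mul_one, W.σ_th_assoc]
    rw [e]
    exact W.thσ_mem_Ahat hv' hu (W.pm_symm h)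

include hv in
lemma nz_Ahat_S {s : Ĝ} (hs : s ∈ W.Shat) : Nz W.Ahat s := by
  obtain ⟨a, ha, b, hb, rfl | rfl⟩ := hs
  · exact W.nz_Ahat_th hv ha hb
  · exact (W.nz_Ahat_th hv ha hb).mul W.nz_Ahat_σ

/-- A subgroup containing the generators contains `Â`. -/
lemma Ahat_le_of_gens (hv : D.v = 2) {U : Subgroup Ĝ} (hc : W.c ∈ U) (h1 : W.th W.m 1 ∈ U) (h2 : W.σ ∈ U)
    (h3 : W.th (W.m * D.a) D.a * W.σ ∈ U) (h4 : W.th (W.m * D.y) D.y * W.σ ∈ U) : W.Ahat ≤ U := by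
  have hle : D.S ≤ U.comap W.thD := by
    apply S_le
    · show W.th D.a D.a ∈ U
      have h5 := U.mul_mem (U.mul_mem h1 h3) h2
      have e : W.th W.m 1 * (W.th (W.m * D.a) D.a * W.σ) * W.σ = W.th D.a D.a := by
        rw [mul_assoc, mul_assoc, W.σσ, mul_one, W.th_mul, W.m_m_assoc, one_mul]
      rwa [e] at h5
    · show W.th D.y D.y ∈ U
      have h5 := U.mul_mem (U.mul_mem h1 h4) h2
      have e : W.th W.m 1 * (W.th (W.m * D.y) D.y * W.σ) * W.σ = W.th D.y D.y := by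
        rw [mul_assoc, mul_assoc, W.σσ, mul_one, W.th_mul, W.m_m_assoc, one_mul]
      rwa [e] at h5
  have hth : ∀ u ∈ D.S, ∀ v ∈ D.S, W.Pm u v → W.th u v ∈ U := by
    intro u hu v hv h
    rcases h with rfl | rfl
    · exact hle hu
    · have h5 := U.mul_mem h1 (hle hv)
      rw [show W.thD v = W.th v v from rfl, W.th_mul, one_mul] at h5
      exact h5
  rintro _ ⟨u, hu, v, hv, h, rfl | rfl⟩
  · exact hth u hu v hv h
  · exact U.mul_mem (hth u hu v hv h) h2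

end q8

end Setup

end Cfsg.Agent.Lib.H29.W4
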