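import Cfsg.Agent.Lib.H29.W4C

/-!
# The simplicity of the `2`-fusion system in the wreath-product configuration
-/

set_option autoImplicit false

namespace Cfsg.Agent.Lib.H29.W4

open Cfsg Cfsg.Agent.Lib.SLn.QuatSylow Cfsg.Agent.Lib.H29.ParaFusion

lemma nz_of_gens {G : Type*} [Group G] {X : Set G} {H : Subgroup G} {t : G} (hX : H ≤ Subgroup.closure X)
    (hg : ∀ x ∈ X, t * x * t⁻¹ ∈ H) : Nz H t := by
  intro a ha
  have h1 := hX ha
  clear ha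
  induction h1 using Subgroup.closure_induction with
  | mem y hy => exact hg y hy
  | one => simp [H.one_mem]
  | mul a b _ _ ha hb =>
    have e : t * (a * b) * t⁻¹ = (t * a * t⁻¹) * (t * b * t⁻¹) := by group
    rw [e]
    exact H.mul_mem ha hb
  | inv a _ ha =>
    have e : t * a⁻¹ * t⁻¹ = (t * a * t⁻¹)⁻¹ := by group
    rw [e]
    exact H.inv_mem ha

lemma conj_eq_of_gens {G : Type*} [Group G] {X : Set G} {H : Subgroup G} {x h : G} (hX : H ≤ Subgroup.closure X)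
    (hg : ∀ y ∈ X, x * y * x⁻¹ = h * y * h⁻¹) : ∀ a ∈ H, x * a * x⁻¹ = h * a * h⁻¹ := by
  intro a ha
  have h1 := hX ha
  clear ha
  induction h1 using Subgroup.closure_induction with
  | mem y hy => exact hg y hy
  | one => simp
  | mul a b _ _ ha hb =>
    have e : x * (a * b) * x⁻¹ = (x * a * x⁻¹) * (x * b * x⁻¹) := by group
    have e' : h * (a * b) * h⁻¹ = (h * a * h⁻¹) * (h * b * h⁻¹) := by group
    rw [e, e', ha, hb]
  | inv a _ ha =>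
    have e : x * a⁻¹ * x⁻¹ = (x * a * x⁻¹)⁻¹ := by group
    have e' : h * a⁻¹ * h⁻¹ = (h * a * h⁻¹)⁻¹ := by group
    rw [e, e', ha]

lemma nz_map {Ĝ G : Type*} [Group Ĝ] [Group G] (π : Ĝ →* G) {B : Subgroup Ĝ} {g : Ĝ} (h : Nz B g) :
    Nz (B.map π) (π g) := by
  rintro _ ⟨b, hb, rfl⟩
  refine ⟨_, h b hb, ?_⟩
  simp only [map_mul, map_inv]

namespace Setup

variable {Ĝ L G : Type*} [Group Ĝ] [Group L] [Group G] {D : Data L} (W : Setup Ĝ L D)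

lemma σ_th' (a b : L) : W.th a b * W.σ * (W.th a b)⁻¹ = W.th (a * b⁻¹) (b * a⁻¹) * W.σ := by
  have := W.th_conj_thσ a b 1 1
  rw [W.th_one, one_mul] at this
  rw [this]
  simp

lemma diag_conj (A u : L) : W.th A A * (W.th (W.m * u) u * W.σ) * (W.th A A)⁻¹ =
    W.th (W.m * (A * u * A⁻¹)) (A * u * A⁻¹) * W.σ := by
  rw [W.th_conj_thσ, W.m_comm_assoc]
  simp only [mul_assoc]

lemma ker_mem_Shat {x : Ĝ} (h : x = 1 ∨ x = W.c) : x ∈ W.Shat := by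
  rcases h with rfl | rfl
  · exact W.Shat.one_mem
  · exact W.c_mem

variable (π : Ĝ →* G) (hker : ∀ x, π x = 1 ↔ x = 1 ∨ x = W.c)

include hker

lemma π_c : π W.c = 1 := (hker _).2 (Or.inr rfl)

lemma mem_map_Shat {x : Ĝ} : π x ∈ W.Shat.map π ↔ x ∈ W.Shat := by
  constructor
  · rintro ⟨w, hw, h⟩
    have h1 : π (w⁻¹ * x) = 1 := by
      rw [map_mul, map_inv, ← h, inv_mul_cancel]
    have h2 := W.ker_mem_Shat ((hker _).1 h1)
    have e : x = w * (w⁻¹ * x) := by group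
    rw [e]
    exact W.Shat.mul_mem hw h2
  · intro h
    exact ⟨x, h, rfl⟩

lemma nz_of_map {g : Ĝ} (h : Nz (W.Shat.map π) (π g)) : Nz W.Shat g := by
  intro s hs
  have h1 := h _ ⟨s, hs, rfl⟩
  rw [← map_inv, ← map_mul, ← map_mul] at h1
  exact (W.mem_map_Shat π hker).1 h1

section two

variable (hv : D.v = 2) (ζ : L) (h1 : ζ * D.a * ζ⁻¹ = D.y)
  (h1' : ζ * D.y * ζ⁻¹ = D.a * D.y)

include h1 h1' in
omit hker in
lemma ζ_nz [Finite L] : Nz D.S ζ := by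
  have hle : D.S ≤ D.S.comap (MulAut.conj ζ).toMonoidHom := by
    apply S_le
    · rw [Subgroup.mem_comap]
      simp only [MulEquiv.coe_toMonoidHom, MulAut.conj_apply]
      rw [h1]
      exact D.y_mem
    · rw [Subgroup.mem_comap]
      simp only [MulEquiv.coe_toMonoidHom, MulAut.conj_apply]
      rw [h1']
      exact D.S.mul_mem D.a_mem_S D.y_mem
  intro x hx
  have := hle hx
  rw [Subgroup.mem_comap] at this
  simpa using this

include h1 h1' in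
omit hker in
lemma nz_S_ζ [Finite L] : Nz W.Shat (W.th ζ ζ) := by
  have hz := ζ_nz ζ h1 h1'
  rintro _ ⟨u, hu, v, hv', rfl | rfl⟩
  · rw [W.th_conj]
    exact W.th_mem (hz u hu) (hz v hv')
  · rw [W.th_conj_thσ]
    exact W.thσ_mem (hz u hu) (hz v hv')

include h1 h1' in
omit hker in
lemma nz_Ahat_ζ [Finite L] : Nz W.Ahat (W.th ζ ζ) := by
  have hz := ζ_nz ζ h1 h1'
  rintro _ ⟨u, hu, v, hv', h, rfl | rfl⟩
  · rw [W.th_conj]
    exact W.th_mem_Ahat (hz u hu) (hz v hv') (W.pm_conj ζ h)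
  · rw [W.th_conj_thσ]
    exact W.thσ_mem_Ahat (hz u hu) (hz v hv') (W.pm_conj ζ h)

include hv h1 h1' in
/-- The witness. -/
lemma exists_witness [Finite Ĝ] [Finite L] :
    ∃ x ∈ Subgroup.closure (Gen (W.Shat.map π) (W.Ahat.map π)),
      ∀ a ∈ W.Ahat.map π, x * a * x⁻¹ = π (W.th ζ ζ) * a * (π (W.th ζ ζ))⁻¹ := by
  have haa := W.aa hv
  have hyy := W.hm
  have hya := W.ya hv
  have hainv := W.ainv hv
  have hπc := W.π_c π hker
  have hmm : W.m * W.m = 1 := W.mm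
  have hmm' : ∀ z : L, W.m * (W.m * z) = z := W.m_m_assoc
  have hmc : ∀ x z : L, x * (W.m * z) = W.m * (x * z) := W.m_comm_assoc
  obtain ⟨k, hk_def⟩ : ∃ k, k = D.a * D.y := ⟨_, rfl⟩
  obtain ⟨T, hT1, hT2, hT3, hT4⟩ := W.exT D.a haa
  have hT5 := hT4 D.y hya
  have hT6 := hT4 k (by
    rw [hk_def, mul_assoc, hya, hmc, ← mul_assoc D.a D.a D.y])
  have pc : ∀ {g x z : Ĝ}, g * x * g⁻¹ = z → π g * π x * (π g)⁻¹ = π z := by
    intro g x z h
    rw [← h]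
    simp only [map_mul, map_inv]
  have pc' : ∀ {g x z : Ĝ}, g * x * g⁻¹ = W.c * z → π g * π x * (π g)⁻¹ = π z := by
    intro g x z h
    have := pc h
    rw [map_mul, hπc, one_mul] at this
    exact this
  -- the relations for `s`
  have s1 : W.th D.a 1 * W.th W.m 1 * (W.th D.a 1)⁻¹ = W.th W.m 1 := by
    rw [W.th_conj, W.conj_m]
    simp
  have s2 : W.th D.a 1 * W.σ * (W.th D.a 1)⁻¹ = W.c * (W.th (W.m * D.a) D.a * W.σ) := by
    rw [W.σ_th', ← mul_assoc]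
    congr 1
    rw [W.c_eq, hmm', hainv]
    simp
  have s3 : W.th D.a 1 * (W.th (W.m * D.a) D.a * W.σ) * (W.th D.a 1)⁻¹ = W.σ := by
    rw [W.th_conj_thσ]
    have e1 : D.a * (W.m * D.a) * 1⁻¹ = 1 := by
      rw [hmc, haa]
      simp [hmm]
    have e2 : 1 * D.a * D.a⁻¹ = 1 := by group
    rw [e1, e2, W.th_one, one_mul]
  have s4 : W.th D.a 1 * (W.th (W.m * D.y) D.y * W.σ) * (W.th D.a 1)⁻¹ = W.th (W.m * k) k * W.σ := by
    rw [W.th_conj_thσ]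
    have e1 : D.a * (W.m * D.y) * 1⁻¹ = W.m * k := by
      rw [hmc]; simp [hk_def]
    have e2 : 1 * D.y * D.a⁻¹ = k := by
      rw [hainv, one_mul, hmc, hya, hmm', hk_def]
    rw [e1, e2]
  have s5 : W.th D.a 1 * (W.th (W.m * k) k * W.σ) * (W.th D.a 1)⁻¹ = W.c * (W.th (W.m * D.y) D.y * W.σ) := by
    rw [W.th_conj_thσ, ← mul_assoc W.c, W.c_eq]
    have e1 : D.a * (W.m * k) * 1⁻¹ = W.m * (W.m * D.y) := by
      rw [hmc, hk_def, ← mul_assoc D.a D.a D.y, haa]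
      simp
    have e2 : 1 * k * D.a⁻¹ = W.m * D.y := by
      rw [hainv, one_mul, hmc, hk_def, mul_assoc, hya, hmc, hmm', ← mul_assoc, haa]
    rw [e1, e2]
  -- the relations for `ζ̂`
  have ek : ζ * k * ζ⁻¹ = D.a := by
    have e : ζ * (D.a * D.y) * ζ⁻¹ = (ζ * D.a * ζ⁻¹) * (ζ * D.y * ζ⁻¹) := by group
    rw [hk_def, e, h1, h1', ← mul_assoc, hya, mul_assoc, mul_assoc, hyy, W.m_comm, hmm']
  have h₁ : W.th ζ ζ * W.th W.m 1 * (W.th ζ ζ)⁻¹ = W.th W.m 1 := by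
    rw [W.th_conj, W.conj_m]
    simp
  have h₂ : W.th ζ ζ * W.σ * (W.th ζ ζ)⁻¹ = W.σ := by
    rw [W.σ_th']
    simp [W.th_one]
  have h₃ : W.th ζ ζ * (W.th (W.m * D.a) D.a * W.σ) * (W.th ζ ζ)⁻¹ = W.th (W.m * D.y) D.y * W.σ := by
    rw [W.diag_conj, h1]
  have h₄ : W.th ζ ζ * (W.th (W.m * D.y) D.y * W.σ) * (W.th ζ ζ)⁻¹ = W.th (W.m * k) k * W.σ := by
    rw [W.diag_conj, h1', hk_def]
  have h₅ : W.th ζ ζ * (W.th (W.m * k) k * W.σ) * (W.th ζ ζ)⁻¹ = W.th (W.m * D.a) D.a * W.σ := by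
    rw [W.diag_conj, ek]
  -- the elements of `G`
  have wit := a5_witness (pc hT1) (pc hT2) (pc hT3) (pc hT5) (pc hT6)
    (pc s1) (pc' s2) (pc s3) (pc s4) (pc' s5) (pc h₁) (pc h₂) (pc h₃) (pc h₄) (pc h₅)
  simp only at wit
  obtain ⟨w1, w2, w3, w4⟩ := wit
  obtain ⟨X₀, hX₀⟩ : ∃ X₀ : Set G, X₀ = {π (W.th W.m 1), π W.σ, π (W.th (W.m * D.a) D.a * W.σ),
    π (W.th (W.m * D.y) D.y * W.σ)} := ⟨_, rfl⟩
  have hle : W.Ahat.map π ≤ Subgroup.closure X₀ := by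
    rw [Subgroup.map_le_iff_le_comap]
    apply W.Ahat_le_of_gens hv
    · rw [Subgroup.mem_comap, hπc]
      exact Subgroup.one_mem _
    · exact Subgroup.subset_closure (by rw [hX₀]; exact Set.mem_insert _ _)
    · exact Subgroup.subset_closure (by rw [hX₀]; exact Set.mem_insert_of_mem _ (Set.mem_insert _ _))
    · exact Subgroup.subset_closure (by
        rw [hX₀]; exact Set.mem_insert_of_mem _ (Set.mem_insert_of_mem _ (Set.mem_insert _ _)))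
    · exact Subgroup.subset_closure (by
        rw [hX₀]; exact Set.mem_insert_of_mem _ (Set.mem_insert_of_mem _ (Set.mem_insert_of_mem _ rfl)))
  have hg₁ : π (W.th W.m 1) ∈ W.Ahat.map π :=
    ⟨_, W.th_mem_Ahat W.m_mem_S D.S.one_mem (Or.inr (by simp)), rfl⟩
  have hg₂ : π W.σ ∈ W.Ahat.map π := ⟨_, W.σ_mem_Ahat, rfl⟩
  have haS : D.a ∈ D.S := D.a_mem_S
  have hyS : D.y ∈ D.S := D.y_mem
  have hg₃ : π (W.th (W.m * D.a) D.a * W.σ) ∈ W.Ahat.map π :=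
    ⟨_, W.thσ_mem_Ahat (D.S.mul_mem W.m_mem_S haS) haS (Or.inr rfl), rfl⟩
  have hg₄ : π (W.th (W.m * D.y) D.y * W.σ) ∈ W.Ahat.map π :=
    ⟨_, W.thσ_mem_Ahat (D.S.mul_mem W.m_mem_S hyS) hyS (Or.inr rfl), rfl⟩
  have hnzT : Nz (W.Ahat.map π) (π T) := by
    apply nz_of_gens hle
    rw [hX₀]
    rintro _ (rfl | rfl | rfl | rfl)
    · rw [pc hT2]; exact hg₃
    · rw [pc hT1]; exact hg₁
    · rw [pc hT3]; exact hg₂
    · rw [pc hT5]; exact hg₄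
  have hnzh : Nz (W.Ahat.map π) (π (W.th ζ ζ)) := nz_map π (W.nz_Ahat_ζ ζ h1 h1')
  have hsP : π (W.th D.a 1) ∈ W.Shat.map π := ⟨_, W.th_mem haS D.S.one_mem, rfl⟩
  refine ⟨π T * π (W.th D.a 1) * (π T)⁻¹ * (π (W.th ζ ζ) * (π T * π (W.th D.a 1) * (π T)⁻¹)⁻¹ * (π (W.th ζ ζ))⁻¹),
    ?_, conj_eq_of_gens hle ?_⟩
  · apply Subgroup.mul_mem
    · exact Subgroup.subset_closure ⟨π T, hnzT, _, hsP, rfl⟩
    · refine Subgroup.subset_closure ⟨π (W.th ζ ζ) * π T, hnzh.mul hnzT, (π (W.th D.a 1))⁻¹, Subgroup.inv_mem _ hsP, ?_⟩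
      group
  · rw [hX₀]
    rintro _ (rfl | rfl | rfl | rfl)
    · exact w1
    · exact w2
    · exact w3
    · exact w4

include hv h1 h1' in
/-- Conjugation tests. -/
lemma pm_of_test {A' : L} {s : Ĝ} (hs : s ∈ W.Shat)
    (htest : π ((W.th A' A' * s) * W.th D.a D.a * (W.th A' A' * s)⁻¹) = π (W.th D.a D.a)) :
    W.Pm (A' * D.a * A'⁻¹) D.a := by
  have hS : ∃ x ∈ D.S, ∃ x', s * W.th D.a D.a * s⁻¹ = W.th (x * D.a * x⁻¹) x' := by
    obtain ⟨x, hx, x', -, rfl | rfl⟩ := hs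
    · exact ⟨x, hx, _, W.th_conj _ _ _ _⟩
    · exact ⟨x, hx, _, W.thσ_conj_th _ _ _ _⟩
  obtain ⟨x, hx, x', hxx⟩ := hS
  have e : (W.th A' A' * s) * W.th D.a D.a * (W.th A' A' * s)⁻¹ =
      W.th (A' * (x * D.a * x⁻¹) * A'⁻¹) (A' * x' * A'⁻¹) := by
    have e1 : (W.th A' A' * s) * W.th D.a D.a * (W.th A' A' * s)⁻¹ =
        W.th A' A' * (s * W.th D.a D.a * s⁻¹) * (W.th A' A')⁻¹ := by group
    rw [e1, hxx, W.th_conj]
  rw [e] at htest
  have h3 : π ((W.th D.a D.a)⁻¹ * W.th (A' * (x * D.a * x⁻¹) * A'⁻¹) (A' * x' * A'⁻¹)) = 1 := by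
    rw [map_mul, map_inv, htest, inv_mul_cancel]
  have h4 : W.Pm (A' * (x * D.a * x⁻¹) * A'⁻¹) D.a := by
    rcases (hker _).1 h3 with h5 | h5
    · left
      rw [inv_mul_eq_one] at h5
      exact (W.th_inj _ _ _ _ h5).1.symm
    · right
      rw [inv_mul_eq_iff_eq_mul, show W.c = W.th W.m W.m from rfl, W.th_mul] at h5
      rw [(W.th_inj _ _ _ _ h5).1, W.m_comm]
  exact W.pm_trans (W.pm_symm (W.pm_conj A' (W.pm_conj_self hv hx D.a_mem_S))) h4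

include hv h1 h1' in
/-- The centralizer hypothesis. -/
lemma central_hyp [Finite Ĝ] [Finite L] (hζ3 : ζ ^ 3 = 1) (hζ1 : ζ ≠ 1) (hπ : Function.Surjective π) {n : G}
    (hn : Nz (W.Shat.map π) n) (hna : ∀ a ∈ W.Ahat.map π, n * a * n⁻¹ = a) :
    n ∈ W.Shat.map π := by
  obtain ⟨g, rfl⟩ := hπ n
  have hg := W.nz_of_map π hker hn
  have hA : π (W.th D.a D.a) ∈ W.Ahat.map π :=
    ⟨_, W.th_mem_Ahat D.a_mem_S D.a_mem_S (W.pm_refl _), rfl⟩
  have htest := hna _ hA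
  rw [← map_inv, ← map_mul, ← map_mul] at htest
  have hmT : W.m ∈ D.T := by
    rw [W.m_eq_pow]
    exact pow_mem D.aT _
  rcases W.mem_of_nz_two hv ζ h1 h1' hζ3 hζ1 hg with h | ⟨s, hs, rfl⟩ | ⟨s, hs, rfl⟩
  · exact ⟨g, h, rfl⟩
  · exfalso
    have h3 := W.pm_of_test π hker hv ζ h1 h1' hs htest
    rw [h1] at h3
    apply D.yT
    rcases h3 with h4 | h4
    · rw [h4]
      exact D.aT
    · rw [h4]
      exact D.T.mul_mem hmT D.aT
  · exfalso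
    rw [W.th_mul] at htest
    have h3 := W.pm_of_test π hker hv ζ h1 h1' hs htest
    have e : (ζ * ζ) * D.a * (ζ * ζ)⁻¹ = D.a * D.y := by
      have e2 : (ζ * ζ) * D.a * (ζ * ζ)⁻¹ = ζ * (ζ * D.a * ζ⁻¹) * ζ⁻¹ := by group
      rw [e2, h1, h1']
    rw [e] at h3
    apply D.yT
    rcases h3 with h4 | h4
    · have h5 : D.y = 1 := by simpa using h4
      rw [h5]
      exact D.T.one_mem
    · have h5 : D.y = D.a⁻¹ * (W.m * D.a) := by
        rw [← h4]; group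
      rw [h5]
      exact D.T.mul_mem (D.T.inv_mem D.aT) (D.T.mul_mem hmT D.aT)

include hv h1 h1' in
/-- `ζ̂` is good. -/
theorem good_two [Finite Ĝ] [Finite L] (hζ3 : ζ ^ 3 = 1) (hζ1 : ζ ≠ 1) (hπ : Function.Surjective π) :
    ParaGood (W.Shat.map π) (π (W.th ζ ζ)) := by
  refine ⟨W.Ahat.map π, Subgroup.map_mono W.Ahat_le, ?_, nz_map π (W.nz_Ahat_ζ ζ h1 h1'),
    nz_map π (W.nz_S_ζ ζ h1 h1'), W.exists_witness π hker hv ζ h1 h1', ?_⟩
  · rintro _ ⟨s, hs, rfl⟩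
    exact nz_map π (W.nz_Ahat_S hv hs)
  · intro n hn hna
    refine ⟨n, W.central_hyp π hker hv ζ h1 h1' hζ3 hζ1 hπ hn hna, fun s _ => rfl⟩

end two

end Setup

end Cfsg.Agent.Lib.H29.W4
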