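import Cfsg.Agent.Lib.H29.W4D

/-!
# The main theorem in the wreath-product configuration
-/

set_option autoImplicit false

namespace Cfsg.Agent.Lib.H29.W4

open Cfsg Cfsg.Agent.Lib.SLn.QuatSylow Cfsg.Agent.Lib.H29.ParaFusion

namespace Setup

variable {Ĝ L G : Type*} [Group Ĝ] [Group L] [Group G] {D : Data L} (W : Setup Ĝ L D)

/-- The order of `Ŝ`. -/
lemma card_Shat [Finite Ĝ] [Finite L] : Nat.card W.Shat = 2 ^ (2 * D.v + 3) := by
  classical
  let f : D.S × D.S → Ĝ := fun p => W.th p.1 p.2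
  let f' : D.S × D.S → Ĝ := fun p => W.th p.1 p.2 * W.σ
  have hf : Function.Injective f := by
    intro p q h
    have := W.th_inj _ _ _ _ h
    exact Prod.ext (Subtype.ext this.1) (Subtype.ext this.2)
  have hf' : Function.Injective f' := by
    intro p q h
    have := W.thσ_inj h
    exact Prod.ext (Subtype.ext this.1) (Subtype.ext this.2)
  have hset : (W.Shat : Set Ĝ) = Set.range f ∪ Set.range f' := by
    ext g
    constructor
    · rintro ⟨a, ha, b, hb, rfl | rfl⟩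
      · exact Or.inl ⟨(⟨a, ha⟩, ⟨b, hb⟩), rfl⟩
      · exact Or.inr ⟨(⟨a, ha⟩, ⟨b, hb⟩), rfl⟩
    · rintro (⟨p, rfl⟩ | ⟨p, rfl⟩)
      · exact W.th_mem p.1.2 p.2.2
      · exact W.thσ_mem p.1.2 p.2.2
  have hdisj : Disjoint (Set.range f) (Set.range f') := by
    rw [Set.disjoint_left]
    rintro _ ⟨p, rfl⟩ ⟨q, hq⟩
    exact W.th_ne_thσ _ _ _ _ hq.symm
  have e1 : Nat.card W.Shat = (W.Shat : Set Ĝ).ncard := Nat.card_coe_set_eq _
  have e2 : (Set.range f).ncard = Nat.card (D.S × D.S) := by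
    rw [← Set.image_univ, Set.ncard_image_of_injective _ hf, Set.ncard_univ]
  have e3 : (Set.range f').ncard = Nat.card (D.S × D.S) := by
    rw [← Set.image_univ, Set.ncard_image_of_injective _ hf', Set.ncard_univ]
  rw [e1, hset, Set.ncard_union_eq hdisj (Set.toFinite _) (Set.toFinite _), e2, e3, Nat.card_prod, D.card_S]
  ring

variable [Finite Ĝ] [Finite L]

/-- The main theorem. -/
theorem simple (π : Ĝ →* G) (hπ : Function.Surjective π) (hker : ∀ x, π x = 1 ↔ x = 1 ∨ x = W.c)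
    (hz : D.v = 2 → ∃ ζ : L, ζ * D.a * ζ⁻¹ = D.y ∧ ζ * D.y * ζ⁻¹ = D.a * D.y ∧ ζ ^ 3 = 1 ∧ ζ ≠ 1)
    (R : Sylow 2 G) : (groupFusionSystem (R : Subgroup G)).IsSimple 2 := by
  haveI : Fact (Nat.Prime 2) := ⟨Nat.prime_two⟩
  haveI : Finite G := Finite.of_surjective π hπ
  let S₀ : Sylow 2 Ĝ := Sylow.ofCard W.Shat (by rw [W.card_Shat, W.card])
  let P : Sylow 2 G := S₀.mapSurjective hπ
  have hP : (P : Subgroup G) = W.Shat.map π := Sylow.coe_mapSurjective hπ S₀
  have hmem : ∀ x, π x ∈ (P : Subgroup G) ↔ x ∈ W.Shat := by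
    intro x
    rw [hP]
    exact W.mem_map_Shat π hker
  have hS1 : (P : Subgroup G) ≠ ⊥ := by
    intro h
    have h1 := (hmem (W.th W.m 1)).2 (W.th_mem W.m_mem_S D.S.one_mem)
    rw [h, Subgroup.mem_bot, hker] at h1
    rcases h1 with h1 | h1
    · exact W.z_ne_one h1
    · exact W.z_ne_c h1
  have hT : ∀ T : Subgroup G, T ≤ P → T ≠ ⊥ →
      (∀ x ∈ T, ∀ g : G, g * x * g⁻¹ ∈ (P : Subgroup G) → g * x * g⁻¹ ∈ T) → T = P := by
    intro T hTP hT1 hTc
    have hU : T.comap π ≤ W.Shat := fun x hx => (hmem x).1 (hTP hx)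
    obtain ⟨t, ht, ht1⟩ := (Subgroup.ne_bot_iff_exists_ne_one.mp hT1 |>.imp fun t h => h) |> fun ⟨⟨t, ht⟩, h⟩ =>
      (⟨t, ht, fun e => h (Subtype.ext e)⟩ : ∃ t ∈ T, t ≠ 1)
    obtain ⟨u, rfl⟩ := hπ t
    have hu1 : u ≠ 1 := by
      rintro rfl
      exact ht1 (map_one π)
    have huc : u ≠ W.c := by
      rintro rfl
      exact ht1 (W.π_c π hker)
    have hcl : ∀ x ∈ T.comap π, ∀ g : Ĝ, g * x * g⁻¹ ∈ W.Shat → g * x * g⁻¹ ∈ T.comap π := by
      intro x hx g hg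
      have h1 := (hmem _).2 hg
      rw [map_mul, map_mul, map_inv] at h1
      have h2 := hTc _ hx _ h1
      rw [Subgroup.mem_comap, map_mul, map_mul, map_inv]
      exact h2
    have hE := W.eq_Shat_of_closed hU (show u ∈ T.comap π from ht) hu1 huc hcl
    rw [hP, ← hE]
    exact (Subgroup.map_comap_eq_self_of_surjective hπ T).symm
  -- the two cases
  have hv2 := D.hv
  by_cases h3 : 3 ≤ D.v
  · refine simple_of_para P hS1 hT ∅ (by simp) ?_ R
    intro g hg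
    obtain ⟨ĝ, rfl⟩ := hπ g
    rw [hP] at hg
    have h4 := W.mem_Shat_of_nz_three h3 (W.nz_of_map π hker hg)
    exact Subgroup.subset_closure (Or.inl ((hmem _).2 h4))
  · have hv : D.v = 2 := by omega
    obtain ⟨ζ, h1, h1', hζ3, hζ1⟩ := hz hv
    refine simple_of_para P hS1 hT {π (W.th ζ ζ)} ?_ ?_ R
    · rintro _ rfl
      rw [hP]
      exact W.good_two π hker hv ζ h1 h1' hζ3 hζ1 hπ
    · intro g hg
      obtain ⟨ĝ, rfl⟩ := hπ g
      rw [hP] at hg
      have hPc : ∀ x ∈ W.Shat, π x ∈ Subgroup.closure ((P : Set G) ∪ {π (W.th ζ ζ)}) := fun x hx =>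
        Subgroup.subset_closure (Or.inl ((hmem _).2 hx))
      have hζc : π (W.th ζ ζ) ∈ Subgroup.closure ((P : Set G) ∪ {π (W.th ζ ζ)}) :=
        Subgroup.subset_closure (Or.inr rfl)
      rcases W.mem_of_nz_two hv ζ h1 h1' hζ3 hζ1 (W.nz_of_map π hker hg) with h | ⟨s, hs, rfl⟩ | ⟨s, hs, rfl⟩
      · exact hPc _ h
      · rw [map_mul]
        exact Subgroup.mul_mem _ hζc (hPc s hs)
      · rw [map_mul, map_mul]
        exact Subgroup.mul_mem _ (Subgroup.mul_mem _ hζc hζc) (hPc s hs)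

omit [Finite Ĝ] [Finite L] in
/-- The centre of `Ĝ`. -/
lemma mem_center_iff (x : Ĝ) : x ∈ Subgroup.center Ĝ ↔ x = 1 ∨ x = W.c := by
  rw [Subgroup.mem_center_iff]
  constructor
  · intro h
    obtain ⟨A, B, rfl⟩ := W.cent _ (h _).symm
    have hAB : A = B := by
      have h1 := W.σth A B
      have h2 := h W.σ
      rw [h2, mul_assoc, W.σσ, mul_one] at h1
      exact (W.th_inj _ _ _ _ h1).1
    subst hAB
    have hc : A = 1 ∨ A = W.m := by
      apply W.cen_Q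
      intro u _
      have h1 := h (W.th u 1)
      rw [W.th_mul, W.th_mul] at h1
      exact (W.th_inj _ _ _ _ h1).1.symm
    rcases hc with rfl | rfl
    · exact Or.inl W.th_one
    · exact Or.inr rfl
  · rintro (rfl | rfl) g
    · simp
    · exact W.cen g

include W in
/-- The main theorem for the quotient by the centre. -/
theorem simple_center
    (hz : D.v = 2 → ∃ ζ : L, ζ * D.a * ζ⁻¹ = D.y ∧ ζ * D.y * ζ⁻¹ = D.a * D.y ∧ ζ ^ 3 = 1 ∧ ζ ≠ 1)
    (R : Sylow 2 (Ĝ ⧸ Subgroup.center Ĝ)) :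
    (groupFusionSystem (R : Subgroup (Ĝ ⧸ Subgroup.center Ĝ))).IsSimple 2 := by
  refine W.simple (QuotientGroup.mk' (Subgroup.center Ĝ)) (QuotientGroup.mk'_surjective _) ?_ hz R
  intro x
  rw [QuotientGroup.mk'_apply, QuotientGroup.eq_one_iff, W.mem_center_iff]

end Setup

end Cfsg.Agent.Lib.H29.W4
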